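import Mathlib
import Cfsg.Agent.Lib.Basic
import Cfsg.Agent.Lib.Cores
import Cfsg.Agent.Lib.PGrpF

/-! Groups in which abelian (or `p`-) subgroups of equal order are conjugate. -/

set_option autoImplicit false
set_option linter.unusedSectionVars false
set_option linter.style.haveILetI false
set_option linter.unusedVariables false

namespace Cfsg.Agent.H2.AbConj

open Subgroup Cfsg Cfsg.Agent.Lib
open scoped commutatorElement

universe u

/-- an elementary abelian subgroup of order `p²` -/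
theorem exists_ea {Q : Type u} [Group Q] [Finite Q] {p : ℕ} [hp : Fact p.Prime] (hQ : IsPGroup p Q)
    (h : ¬ ∀ x y : Q, orderOf x = p → orderOf y = p → x ∈ zpowers y) :
    ∃ E : Subgroup Q, Nat.card E = p ^ 2 ∧ (∀ a ∈ E, ∀ b ∈ E, a * b = b * a) ∧ ∀ a ∈ E, a ^ p = 1 := by
  push Not at h
  obtain ⟨x, y, hx, hy, hxy⟩ := h
  haveI : Nontrivial Q := ⟨x, 1, fun h => by rw [h, orderOf_one] at hx; exact hp.out.one_lt.ne hx⟩
  haveI := hQ.center_nontrivial
  obtain ⟨z, hzo⟩ : ∃ z : center Q, orderOf z = p := by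
    apply exists_prime_orderOf_dvd_card'
    obtain ⟨n, hn⟩ := IsPGroup.iff_card.1 (hQ.to_subgroup (center Q))
    rcases n with _ | n
    · rw [pow_zero] at hn
      exact absurd (Subgroup.card_eq_one.1 hn) ((Subgroup.nontrivial_iff_ne_bot _).1 inferInstance)
    · rw [hn]; exact dvd_pow_self p (Nat.succ_ne_zero n)
  have hz : orderOf (z : Q) = p := by rw [Subgroup.orderOf_coe]; exact hzo
  have hzc : ∀ g : Q, (z : Q) * g = g * z := fun g => (mem_center_iff.1 z.2 g).symm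
  have hsub : ∀ u v : Q, orderOf u = p → orderOf v = p → u ∈ zpowers v → v ∈ zpowers u := by
    intro u v hu hv huv
    have h1 : zpowers u = zpowers v := by
      apply Subgroup.eq_of_le_of_card_ge (zpowers_le.2 huv)
      rw [Nat.card_zpowers, Nat.card_zpowers, hu, hv]
    rw [h1]; exact mem_zpowers v
  obtain ⟨w, hw, hwz⟩ : ∃ w : Q, orderOf w = p ∧ w ∉ zpowers (z : Q) := by
    by_contra hcon
    push Not at hcon
    apply hxy
    have h1 := hcon x hx
    have h2 := hsub y z hy hz (hcon y hy)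
    exact (zpowers_le.2 h2) h1
  have hinf : zpowers (z : Q) ⊓ zpowers w = ⊥ := by
    rw [← Subgroup.card_eq_one]
    have h1 : Nat.card (zpowers (z : Q) ⊓ zpowers w : Subgroup Q) ∣ p := by
      rw [← hw, ← Nat.card_zpowers]; exact Subgroup.card_dvd_of_le inf_le_right
    rcases (Nat.dvd_prime hp.out).1 h1 with h2 | h2
    · exact h2
    · exfalso
      apply hwz
      have h3 : zpowers (z : Q) ⊓ zpowers w = zpowers w := by
        apply Subgroup.eq_of_le_of_card_ge inf_le_right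
        rw [h2, Nat.card_zpowers, hw]
      have h4 : w ∈ zpowers (z : Q) ⊓ zpowers w := by rw [h3]; exact mem_zpowers w
      exact h4.1
  have hnorm : zpowers w ≤ normalizer (zpowers (z : Q) : Set Q) := by
    rw [zpowers_le, mem_normalizer_iff]
    intro g
    have h1 : ∀ n : ℤ, w * (z : Q) ^ n * w⁻¹ = (z : Q) ^ n := by
      intro n
      have h2 : Commute (z : Q) w := hzc w
      rw [← (h2.zpow_left n).eq, mul_assoc, mul_inv_cancel, mul_one]
    constructor
    · rintro ⟨n, rfl⟩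
      show w * (z : Q) ^ n * w⁻¹ ∈ _
      rw [h1]; exact ⟨n, rfl⟩
    · rintro ⟨n, hn⟩
      have h2 : w * g * w⁻¹ = (z : Q) ^ n := hn.symm
      have h3 : g = (z : Q) ^ n := by
        have h4 : w * g * w⁻¹ = w * (z : Q) ^ n * w⁻¹ := by rw [h1, h2]
        exact mul_left_cancel (mul_right_cancel h4)
      rw [h3]; exact ⟨n, rfl⟩
  have hmem : ∀ a ∈ zpowers (z : Q) ⊔ zpowers w, ∃ i j : ℤ, a = (z : Q) ^ i * w ^ j := by
    intro a ha
    haveI : (zpowers (z : Q)).Normal := by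
      refine ⟨?_⟩
      rintro _ ⟨n, rfl⟩ g
      have h2 : Commute (z : Q) g := hzc g
      show g * (z : Q) ^ n * g⁻¹ ∈ _
      rw [← (h2.zpow_left n).eq, mul_assoc, mul_inv_cancel, mul_one]
      exact ⟨n, rfl⟩
    obtain ⟨b, ⟨i, rfl⟩, c, ⟨j, rfl⟩, rfl⟩ := Subgroup.mem_sup_of_normal_left.1 ha
    exact ⟨i, j, rfl⟩
  have hzw : Commute (z : Q) w := hzc w
  refine ⟨zpowers (z : Q) ⊔ zpowers w, ?_, ?_, ?_⟩
  · have h1 := Basic.card_sup_mul_card_inf hnorm
    rw [hinf, Subgroup.card_bot, mul_one, Nat.card_zpowers, Nat.card_zpowers, hz, hw] at h1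
    rw [h1, sq]
  · intro a ha b hb
    obtain ⟨i, j, rfl⟩ := hmem a ha
    obtain ⟨k, l, rfl⟩ := hmem b hb
    have h1 : Commute ((z : Q) ^ i * w ^ j) ((z : Q) ^ k * w ^ l) := by
      refine Commute.mul_left (Commute.mul_right (Commute.zpow_zpow_self _ _ _) (hzw.zpow_zpow i l)) ?_
      exact Commute.mul_right (hzw.symm.zpow_zpow j k) (Commute.zpow_zpow_self _ _ _)
    exact h1.eq
  · intro a ha
    obtain ⟨i, j, rfl⟩ := hmem a ha
    rw [(hzw.zpow_zpow i j).mul_pow, ← zpow_natCast, ← zpow_natCast, ← zpow_mul, ← zpow_mul, mul_comm i, mul_comm j, zpow_mul,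
      zpow_mul, zpow_natCast, zpow_natCast, ← hz, pow_orderOf_eq_one, hz, ← hw, pow_orderOf_eq_one, one_zpow, one_zpow, one_mul]

variable {G : Type u} [Group G] [Finite G]

/-- exponent `p` for noncyclic Sylow subgroups -/
theorem exp_of (hB : ∀ A B : Subgroup G, IsMulCommutative ↥A → IsMulCommutative ↥B → Nat.card ↥A = Nat.card ↥B → ∃ g : G, B = A.map (MulAut.conj g).toMonoidHom)
    {p : ℕ} [hp : Fact p.Prime] (P : Sylow p G)
    (h : ¬ ∀ x y : P, orderOf x = p → orderOf y = p → x ∈ zpowers y) : ∀ x ∈ (P : Subgroup G), x ^ p = 1 := by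
  obtain ⟨E, hE, hEc, hEp⟩ := exists_ea (Q := P) P.2 h
  set E' := E.map (P : Subgroup G).subtype with hE'
  have hE'c : Nat.card E' = p ^ 2 := by
    rw [hE', Subgroup.card_map_of_injective (Subgroup.subtype_injective _)]; exact hE
  have hE'p : ∀ x ∈ E', x ^ p = 1 := by
    rintro _ ⟨x, hx, rfl⟩
    rw [← map_pow, hEp x hx, map_one]
  have hE'm : IsMulCommutative E' := by
    refine ⟨⟨?_⟩⟩
    rintro ⟨_, x, hx, rfl⟩ ⟨_, y, hy, rfl⟩
    apply Subtype.ext
    exact congrArg (fun t : P => (t : G)) (hEc x hx y hy)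
  intro x hx
  by_contra hxp
  obtain ⟨k, hk⟩ := P.2 ⟨x, hx⟩
  have hk' : x ^ p ^ k = 1 := congrArg Subtype.val hk
  obtain ⟨n, -, hn⟩ := (Nat.dvd_prime_pow hp.out).1 (orderOf_dvd_of_pow_eq_one hk')
  have hn2 : 2 ≤ n := by
    by_contra hlt
    apply hxp
    have h1 : orderOf x ∣ p := by
      rw [hn]
      calc p ^ n ∣ p ^ 1 := pow_dvd_pow p (by omega)
        _ = p := pow_one p
    exact orderOf_dvd_iff_pow_eq_one.1 h1
  set y := x ^ p ^ (n - 2) with hy
  have hyo : orderOf y = p ^ 2 := by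
    rw [hy, orderOf_pow_of_dvd (pow_ne_zero _ hp.out.ne_zero) (by rw [hn]; exact pow_dvd_pow p (by omega)), hn,
      Nat.pow_div (by omega) hp.out.pos]
    congr 1; omega
  obtain ⟨g, hg⟩ := hB (zpowers y) E' (by
    refine ⟨⟨?_⟩⟩
    rintro ⟨_, i, rfl⟩ ⟨_, j, rfl⟩
    apply Subtype.ext
    exact (Commute.zpow_zpow_self y i j).eq) hE'm (by rw [Nat.card_zpowers, hyo, hE'c])
  have h1 : g * y * g⁻¹ ∈ E' := by
    rw [hg]; exact ⟨y, mem_zpowers y, rfl⟩
  have h2 := hE'p _ h1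
  rw [conj_pow] at h2
  have h3 : y ^ p = 1 := by
    have h4 : g * y ^ p * g⁻¹ = g * 1 * g⁻¹ := by rw [h2]; group
    exact mul_left_cancel (mul_right_cancel h4)
  have h4 := Nat.le_of_dvd hp.out.pos (orderOf_dvd_of_pow_eq_one h3)
  rw [hyo, sq] at h4
  have h5 := hp.out.one_lt
  nlinarith

end Cfsg.Agent.H2.AbConj
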