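import Mathlib
import Cfsg.Agent.Lib.CharCo
import Cfsg.Agent.Lib.CharCod
import Cfsg.Agent.Lib.CharLin
import Cfsg.Agent.Lib.PGrpA
import Cfsg.Agent.Lib.ClassSizes

set_option autoImplicit false

/-! Automorphism orbits on a nonabelian group. -/

namespace Cfsg.Agent.H2.AutOrb

open Subgroup Cfsg.Agent.Lib Cfsg.Agent.Lib.PGrpA
open scoped commutatorElement Pointwise

variable {G : Type*} [Group G]

/-- an automorphism fixing a normal subgroup `C` of prime index pointwise -/
theorem exists_aut [Finite G] (C : Subgroup G) [C.Normal] {p : ℕ} (hp : p.Prime) (hC : C.index = p) {g w : G} (hg : g ∉ C)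
    (hwC : w ∈ C) (hw : ∀ c ∈ C, w * c = c * w) (hpow : (g * w) ^ p = g ^ p) : ∃ φ : MulAut G, φ g = g * w := by
  classical
  -- elements
  have hpC : ∀ n : ℤ, g ^ n ∈ C ↔ (p : ℤ) ∣ n := by
    intro n
    have h1 : orderOf (QuotientGroup.mk' C g) = p := by
      have h2 : orderOf (QuotientGroup.mk' C g) ∣ p := by
        rw [← hC, index_eq_card]; exact orderOf_dvd_natCard _
      rcases (Nat.dvd_prime hp).mp h2 with h3 | h3
      · exfalso
        apply hg
        exact (QuotientGroup.eq_one_iff g).mp (orderOf_eq_one_iff.mp h3)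
      · exact h3
    rw [← h1, orderOf_dvd_iff_zpow_eq_one, ← map_zpow]
    exact (QuotientGroup.eq_one_iff _).symm
  have hcov : ∀ x : G, ∃ n : ℤ, x * g ^ n ∈ C := by
    intro x
    have h1 : orderOf (QuotientGroup.mk' C g) = Nat.card (G ⧸ C) := by
      have h2 : orderOf (QuotientGroup.mk' C g) ∣ p := by
        rw [← hC, index_eq_card]; exact orderOf_dvd_natCard _
      rw [← index_eq_card, hC]
      rcases (Nat.dvd_prime hp).mp h2 with h3 | h3
      · exfalso
        apply hg
        exact (QuotientGroup.eq_one_iff g).mp (orderOf_eq_one_iff.mp h3)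
      · exact h3
    have h2 : zpowers (QuotientGroup.mk' C g) = ⊤ := by
      apply eq_top_of_card_eq
      rw [Nat.card_zpowers, h1]
    have h3 : (QuotientGroup.mk' C x)⁻¹ ∈ zpowers (QuotientGroup.mk' C g) := by rw [h2]; exact mem_top _
    obtain ⟨n, hn⟩ := mem_zpowers_iff.mp h3
    refine ⟨n, ?_⟩
    rw [← QuotientGroup.eq_one_iff]
    change QuotientGroup.mk' C (x * g ^ n) = 1
    rw [map_mul, map_zpow, hn, mul_inv_cancel]
  let act : Multiplicative ℤ →* MulAut C := zpowersHom _ (MulAut.conjNormal g)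
  have hact : ∀ (n : Multiplicative ℤ) (c : C), ((act n c : C) : G) = g ^ (Multiplicative.toAdd n) * c * (g ^ (Multiplicative.toAdd n))⁻¹ := by
    intro n c
    change (((MulAut.conjNormal g : MulAut C) ^ (Multiplicative.toAdd n)) c : G) = _
    rw [← map_zpow]
    rfl
  have hgc : ∀ (n : ℤ) (c : G), c ∈ C → (g * w) ^ n * c * ((g * w) ^ n)⁻¹ = g ^ n * c * (g ^ n)⁻¹ := by
    have h0 : ∀ c ∈ C, (g * w) * c * (g * w)⁻¹ = g * c * g⁻¹ := by
      intro c hc
      calc (g * w) * c * (g * w)⁻¹ = g * (w * c) * w⁻¹ * g⁻¹ := by group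
        _ = g * (c * w) * w⁻¹ * g⁻¹ := by rw [hw c hc]
        _ = g * c * g⁻¹ := by group
    have h1 : (MulAut.conjNormal (g * w) : MulAut C) = MulAut.conjNormal g := by
      ext c
      exact h0 c c.2
    intro n c hc
    have h2 := congrArg (fun a : MulAut C => ((a ⟨c, hc⟩ : C) : G)) (congrArg (· ^ n) h1)
    simp only [← map_zpow] at h2
    exact h2
  let F : C ⋊[act] Multiplicative ℤ →* G := SemidirectProduct.lift C.subtype (zpowersHom _ g) (by
    intro n
    ext c
    exact hact n c)
  let F' : C ⋊[act] Multiplicative ℤ →* G := SemidirectProduct.lift C.subtype (zpowersHom _ (g * w)) (by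
    intro n
    ext c
    change ((act n c : C) : G) = (g * w) ^ (Multiplicative.toAdd n) * c * ((g * w) ^ (Multiplicative.toAdd n))⁻¹
    rw [hgc _ _ c.2]
    exact hact n c)
  have hF : ∀ x, F x = (x.left : G) * g ^ (Multiplicative.toAdd x.right) := fun x => rfl
  have hF' : ∀ x, F' x = (x.left : G) * (g * w) ^ (Multiplicative.toAdd x.right) := fun x => rfl
  have hker : F.ker ≤ F'.ker := by
    intro x hx
    rw [MonoidHom.mem_ker, hF] at hx
    rw [MonoidHom.mem_ker, hF']
    have h1 : g ^ (Multiplicative.toAdd x.right) ∈ C := by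
      have : g ^ (Multiplicative.toAdd x.right) = (x.left : G)⁻¹ := eq_inv_of_mul_eq_one_right hx
      rw [this]; exact inv_mem x.left.2
    obtain ⟨k, hk⟩ := (hpC _).mp h1
    rw [hk, zpow_mul, zpow_natCast] at hx ⊢
    rw [hpow]; exact hx
  have hsurj : Function.Surjective F := by
    intro x
    obtain ⟨n, hn⟩ := hcov x
    refine ⟨⟨⟨_, hn⟩, Multiplicative.ofAdd (-n)⟩, ?_⟩
    rw [hF]
    change x * g ^ n * g ^ (-n) = x
    rw [zpow_neg, mul_inv_cancel_right]
  have hsurj' : Function.Surjective F' := by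
    intro x
    obtain ⟨n, hn⟩ := hcov x
    have h1 : x * (g * w) ^ n ∈ C := by
      have h2 : g ^ (-n) * (g * w) ^ n ∈ C := by
        rw [← QuotientGroup.eq_one_iff]
        change QuotientGroup.mk' C (g ^ (-n) * (g * w) ^ n) = 1
        have h3 : QuotientGroup.mk' C w = 1 := (QuotientGroup.eq_one_iff w).mpr hwC
        rw [map_mul, map_zpow, map_zpow, map_mul, h3, mul_one, zpow_neg, inv_mul_cancel]
      have h4 : x * (g * w) ^ n = (x * g ^ n) * (g ^ (-n) * (g * w) ^ n) := by group
      rw [h4]; exact mul_mem hn h2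
    refine ⟨⟨⟨_, h1⟩, Multiplicative.ofAdd (-n)⟩, ?_⟩
    rw [hF']
    change x * (g * w) ^ n * (g * w) ^ (-n) = x
    rw [zpow_neg, mul_inv_cancel_right]
  let φ : G →* G := F.liftOfSurjective hsurj ⟨F', hker⟩
  have hφ : ∀ x, φ (F x) = F' x := fun x => F.liftOfRightInverse_comp_apply _ _ ⟨F', hker⟩ x
  have hφs : Function.Surjective φ := by
    intro y
    obtain ⟨x, rfl⟩ := hsurj' y
    exact ⟨F x, hφ x⟩
  refine ⟨MulEquiv.ofBijective φ ⟨Finite.injective_iff_surjective.mpr hφs, hφs⟩, ?_⟩
  change φ g = g * w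
  have h1 := hφ ⟨1, Multiplicative.ofAdd 1⟩
  rw [hF, hF'] at h1
  change φ (((1 : C) : G) * g ^ (1 : ℤ)) = ((1 : C) : G) * (g * w) ^ (1 : ℤ) at h1
  rw [zpow_one, zpow_one, coe_one, one_mul, one_mul] at h1
  exact h1

/-- counting orbits by weights -/
theorem weight_bound {X : Type*} [Finite X] {A : Type*} [Group A] [MulAction A X] (m : ℕ) (wt : X → ℕ)
    (h : ∀ x : X, ∃ T : Finset X, (∀ t ∈ T, t ∈ MulAction.orbit A x) ∧ m ≤ ∑ t ∈ T, wt t) :
    m * Nat.card (MulAction.orbitRel.Quotient A X) ≤ ∑ᶠ x, wt x := by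
  classical
  cases nonempty_fintype X
  haveI : Fintype (MulAction.orbitRel.Quotient A X) := Fintype.ofFinite _
  rw [finsum_eq_sum_of_fintype, ← Finset.sum_fiberwise Finset.univ (fun x : X => (Quotient.mk'' x : MulAction.orbitRel.Quotient A X)) wt,
    Nat.card_eq_fintype_card, mul_comm, ← smul_eq_mul, ← Finset.card_univ, ← Finset.sum_const]
  apply Finset.sum_le_sum
  intro ω _
  induction ω using Quotient.inductionOn' with
  | _ x =>
  obtain ⟨T, hT, hm⟩ := h x
  refine hm.trans (Finset.sum_le_sum_of_subset ?_)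
  intro t ht
  rw [Finset.mem_filter]
  exact ⟨Finset.mem_univ _, Quotient.sound' (hT t ht)⟩


open CharBasic in
theorem card_classes_bound [Finite G] {p : ℕ} (hp : 2 ≤ p) (hmin : ∀ d, d ∣ Nat.card G → d ≠ 1 → p ≤ d)
    (hG' : p + 1 ≤ Nat.card (commutator G)) : p * Nat.card (ConjClasses G) ≤ Nat.card G := by
  classical
  cases nonempty_fintype G
  have h0 : ∑ χ : Cfsg.IrrCharacter G, (Cfsg.charDegree χ.1) ^ 2 = Nat.card G := by
    have h := CharBasic.column_orth_one (1 : G)
    rw [if_pos rfl] at h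
    have h2 : ((∑ χ : Cfsg.IrrCharacter G, (Cfsg.charDegree χ.1) ^ 2 : ℕ) : ℂ) = (Nat.card G : ℂ) := by
      rw [← h]
      push_cast
      exact Finset.sum_congr rfl fun χ _ => by rw [CharCod.deg_cast, sq]
    exact_mod_cast h2
  have hdeg : ∀ χ : Cfsg.IrrCharacter G, χ.1 1 ≠ 1 → p ≤ Cfsg.charDegree χ.1 := by
    intro χ hχ
    apply hmin _ (CharCo.deg_dvd_card χ.2 (CharCod.deg_cast χ).symm)
    intro h
    apply hχ
    rw [← CharCod.deg_cast, h, Nat.cast_one]
  have hdeg1 : ∀ χ : Cfsg.IrrCharacter G, 1 ≤ Cfsg.charDegree χ.1 := fun χ => CharCod.deg_pos χ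
  have h1 : (Finset.univ.filter fun χ : Cfsg.IrrCharacter G => χ.1 1 = 1).card = (commutator G).index := by
    rw [← CharLin.card_lin, Nat.card_eq_fintype_card, Fintype.card_subtype]
  have h2 : (Finset.univ.filter fun χ : Cfsg.IrrCharacter G => χ.1 1 = 1).card +
      (Finset.univ.filter fun χ : Cfsg.IrrCharacter G => ¬ χ.1 1 = 1).card = Nat.card (ConjClasses G) := by
    rw [← CharBasic.card_irr, Finset.card_filter_add_card_filter_not, Nat.card_eq_fintype_card, Finset.card_univ]
  have h3 : (commutator G).index + p ^ 2 * (Finset.univ.filter fun χ : Cfsg.IrrCharacter G => ¬ χ.1 1 = 1).card ≤ Nat.card G := by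
    rw [← h0, ← Finset.sum_filter_add_sum_filter_not Finset.univ (fun χ : Cfsg.IrrCharacter G => χ.1 1 = 1), ← h1]
    apply add_le_add
    · rw [Finset.card_eq_sum_ones]
      apply Finset.sum_le_sum
      intro χ _
      exact Nat.one_le_pow _ _ (hdeg1 χ)
    · rw [mul_comm, ← smul_eq_mul, ← Finset.sum_const]
      apply Finset.sum_le_sum
      intro χ hχ
      exact Nat.pow_le_pow_left (hdeg χ (Finset.mem_filter.mp hχ).2) 2
  have h4 : (commutator G).index * (p + 1) ≤ Nat.card G := by
    rw [← card_mul_index (commutator G), mul_comm (Nat.card (commutator G))]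
    exact Nat.mul_le_mul_left _ hG'
  rw [h1] at h2
  obtain ⟨m, hm⟩ : ∃ m, m = (Finset.univ.filter fun χ : Cfsg.IrrCharacter G => ¬ χ.1 1 = 1).card := ⟨_, rfl⟩
  rw [← hm] at h2 h3
  obtain ⟨L, hL⟩ : ∃ L, L = (commutator G).index := ⟨_, rfl⟩
  rw [← hL] at h2 h3 h4
  rw [← h2]
  obtain ⟨N, hN⟩ : ∃ N, N = Nat.card G := ⟨_, rfl⟩
  rw [← hN] at h3 h4 ⊢
  -- p * (L + m) ≤ N
  obtain ⟨q, rfl⟩ : ∃ q, p = q + 2 := ⟨p - 2, by omega⟩
  have h5 : (q + 2) * ((q + 2) * (L + m)) ≤ (q + 2) * N := by
    have e1 : (q + 2) * ((q + 2) * (L + m)) = ((q + 2) ^ 2 * m + L) + (q + 1) * (L * (q + 2 + 1)) := by ring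
    rw [e1]
    have e2 : (q + 1) * (L * (q + 2 + 1)) ≤ (q + 1) * N := Nat.mul_le_mul_left _ h4
    have e3 : (q + 2) * N = N + (q + 1) * N := by ring
    rw [e3]
    omega
  exact Nat.le_of_mul_le_mul_left h5 (by omega)

/-- the commutator subgroup has order the smallest prime -/
theorem central_of_card [Finite G] {p : ℕ} (hmin : ∀ d, d ∣ Nat.card G → d ≠ 1 → p ≤ d) (N : Subgroup G) [N.Normal]
    (hN : Nat.card N = p) : N ≤ center G := by
  classical
  intro x hx
  by_cases hx1 : x = 1
  · rw [hx1]; exact one_mem _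
  rw [← ClassSizes.index_centralizer_eq_one_iff]
  by_contra hne
  have h1 := hmin _ (index_dvd_card (centralizer ({x} : Set G))) hne
  rw [ClassSizes.index_centralizer_eq_card_carrier] at h1
  have h2 : Nat.card (ConjClasses.mk x).carrier ≤ Nat.card {y : N // y ≠ 1} := by
    apply Nat.card_le_card_of_injective (fun y : (ConjClasses.mk x).carrier => (⟨⟨y.1, by
      obtain ⟨c, hc⟩ := isConj_iff.mp (ConjClasses.mk_eq_mk_iff_isConj.mp (ConjClasses.mem_carrier_iff_mk_eq.mp y.2).symm)
      rw [← hc]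
      exact (inferInstance : N.Normal).conj_mem x hx c⟩, fun h => hx1 (by
      obtain ⟨c, hc⟩ := isConj_iff.mp (ConjClasses.mk_eq_mk_iff_isConj.mp (ConjClasses.mem_carrier_iff_mk_eq.mp y.2).symm)
      have h3 : (y : G) = 1 := congrArg Subtype.val h
      rw [← hc] at h3
      have := congrArg (fun u => c⁻¹ * u * c) h3
      simpa [mul_assoc] using this)⟩ : {y : N // y ≠ 1}))
    intro a b hab
    exact Subtype.ext (congrArg (fun u : {y : N // y ≠ 1} => ((u : N) : G)) hab)
  have h3 : Nat.card {y : N // y = 1} + Nat.card {y : N // y ≠ 1} = Nat.card N := by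
    rw [← Nat.card_sum]
    exact Nat.card_congr (Equiv.sumCompl _)
  have h4 : Nat.card {y : N // y = 1} = 1 := by
    have : Unique {y : N // y = 1} := ⟨⟨⟨1, rfl⟩⟩, fun y => Subtype.ext y.2⟩
    exact Nat.card_unique
  omega

section count

variable [Finite G] {p : ℕ} (hp : p.Prime) (hmin : ∀ d, d ∣ Nat.card G → d ≠ 1 → p ≤ d)
  (hG' : Nat.card (commutator G) = p)
include hmin hG'

theorem conj_of_mem {g : G} (hg : g ∉ center G) {c : G} (hc : c ∈ commutator G) : ∃ y : G, y * g * y⁻¹ = g * c := by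
  have h0 : ∀ y : (ConjClasses.mk g).carrier, g⁻¹ * (y : G) ∈ commutator G := by
    intro y
    obtain ⟨c, hc⟩ := isConj_iff.mp (ConjClasses.mk_eq_mk_iff_isConj.mp (ConjClasses.mem_carrier_iff_mk_eq.mp y.2).symm)
    rw [← hc, show g⁻¹ * (c * g * c⁻¹) = g⁻¹ * c * g⁻¹⁻¹ * c⁻¹ by group]
    exact commutator_mem_commutator (mem_top _) (mem_top _)
  let f : (ConjClasses.mk g).carrier → commutator G := fun y => ⟨g⁻¹ * (y : G), h0 y⟩
  have hf : Function.Injective f := by
    intro a b hab
    exact Subtype.ext (mul_left_cancel (congrArg Subtype.val hab))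
  have h1 : p ≤ Nat.card (ConjClasses.mk g).carrier := by
    rw [← ClassSizes.index_centralizer_eq_card_carrier]
    exact hmin _ (index_dvd_card _) (fun h => hg (ClassSizes.index_centralizer_eq_one_iff.mp h))
  have h2 : Function.Surjective f := by
    have h3 : Nat.card (ConjClasses.mk g).carrier = Nat.card (commutator G) :=
      le_antisymm (Nat.card_le_card_of_injective f hf) (by rw [hG']; exact h1)
    exact ((Nat.bijective_iff_injective_and_card f).mpr ⟨hf, h3⟩).2
  obtain ⟨y, hy⟩ := h2 ⟨c, hc⟩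
  obtain ⟨a, ha⟩ := isConj_iff.mp (ConjClasses.mk_eq_mk_iff_isConj.mp (ConjClasses.mem_carrier_iff_mk_eq.mp y.2).symm)
  refine ⟨a, ?_⟩
  have h3 : g⁻¹ * (y : G) = c := congrArg Subtype.val hy
  rw [ha, ← h3]; group

theorem index_cent {g : G} (hg : g ∉ center G) : (centralizer ({g} : Set G)).index = p := by
  have h1 : p ≤ (centralizer ({g} : Set G)).index :=
    hmin _ (index_dvd_card _) (fun h => hg (ClassSizes.index_centralizer_eq_one_iff.mp h))
  refine le_antisymm ?_ h1
  rw [ClassSizes.index_centralizer_eq_card_carrier, ← hG']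
  have h0 : ∀ y : (ConjClasses.mk g).carrier, g⁻¹ * (y : G) ∈ commutator G := by
    intro y
    obtain ⟨c, hc⟩ := isConj_iff.mp (ConjClasses.mk_eq_mk_iff_isConj.mp (ConjClasses.mem_carrier_iff_mk_eq.mp y.2).symm)
    rw [← hc, show g⁻¹ * (c * g * c⁻¹) = g⁻¹ * c * g⁻¹⁻¹ * c⁻¹ by group]
    exact commutator_mem_commutator (mem_top _) (mem_top _)
  apply Nat.card_le_card_of_injective (fun y : (ConjClasses.mk g).carrier => (⟨g⁻¹ * (y : G), h0 y⟩ : commutator G))
  intro a b hab
  exact Subtype.ext (mul_left_cancel (congrArg Subtype.val hab))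

include hp in
theorem count (C : Subgroup G) [C.Normal] (hC : C.index = p) (hZC : center G ≤ C) (hZC' : center G ≠ C) {w : G} (hwC : w ∈ C)
    (hw : ∀ c ∈ C, w * c = c * w) (hwG : w ∉ commutator G) (hpow : ∀ g, g ∉ C → (g * w) ^ p = g ^ p) :
    p * Nat.card (MulAction.orbitRel.Quotient (MulAut G) G) ≤ Nat.card G := by
  classical
  cases nonempty_fintype G
  have hGZ : commutator G ≤ center G := central_of_card hmin _ hG'
  let wt : G → ℕ := fun g => if g ∈ center G then p ^ 2 else if g ∈ C then p else 1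
  have horb : ∀ g (φ : MulAut G), φ g ∈ MulAction.orbit (MulAut G) g := fun g φ => ⟨φ, rfl⟩
  have hcj : ∀ g, g ∉ center G → ∀ c ∈ commutator G, g * c ∈ MulAction.orbit (MulAut G) g := by
    intro g hg c hc
    obtain ⟨y, hy⟩ := conj_of_mem hmin hG' hg hc
    rw [← hy]
    exact horb g (MulAut.conj y)
  have hwk : ∀ k, 0 < k → k < p → w ^ k ∉ commutator G := by
    intro k hk hkp h
    have h1 : orderOf (QuotientGroup.mk' (commutator G) w) ∣ k := orderOf_dvd_of_pow_eq_one (by
      rw [← map_pow]; exact (QuotientGroup.eq_one_iff _).mpr h)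
    have h2 : orderOf (QuotientGroup.mk' (commutator G) w) ∣ Nat.card G :=
      (_root_.orderOf_dvd_natCard _).trans (card_quotient_dvd_card _)
    have h3 := hmin _ h2 (fun h => hwG ((QuotientGroup.eq_one_iff w).mp (orderOf_eq_one_iff.mp h)))
    have h4 := Nat.le_of_dvd hk h1
    omega
  have hcardG' : (Finset.univ : Finset (commutator G)).card = p := by
    rw [Finset.card_univ, ← Nat.card_eq_fintype_card, hG']
  have key := weight_bound (X := G) (A := MulAut G) (p ^ 2) wt (by
    intro g
    by_cases hgZ : g ∈ center G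
    · refine ⟨{g}, ?_, ?_⟩
      · intro t ht
        rw [Finset.mem_singleton] at ht
        rw [ht]; exact MulAction.mem_orbit_self g
      · rw [Finset.sum_singleton]
        simp only [wt, hgZ, if_true, le_refl]
    by_cases hgC : g ∈ C
    · refine ⟨(Finset.univ : Finset (commutator G)).image (fun c : commutator G => g * (c : G)), ?_, ?_⟩
      · intro t ht
        obtain ⟨c, -, rfl⟩ := Finset.mem_image.mp ht
        exact hcj g hgZ c c.2
      · rw [Finset.sum_image (by intro a _ b _ hab; exact Subtype.ext (mul_left_cancel hab))]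
        have h1 : ∀ c : commutator G, wt (g * c) = p := by
          intro c
          have h2 : g * (c : G) ∉ center G := fun h => hgZ ((mul_mem_cancel_right (hGZ c.2)).mp h)
          have h3 : g * (c : G) ∈ C := mul_mem hgC (hZC (hGZ c.2))
          simp only [wt, h2, h3, if_false, if_true]
        rw [Finset.sum_congr rfl (fun c _ => h1 c), Finset.sum_const, hcardG', smul_eq_mul, sq]
    · have h1 : ∀ j, g * w ^ j ∉ C ∧ g * w ^ j ∈ MulAction.orbit (MulAut G) g := by
        intro j
        induction j with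
        | zero => rw [pow_zero, mul_one]; exact ⟨hgC, MulAction.mem_orbit_self g⟩
        | succ j ih =>
          obtain ⟨h1, h2⟩ := ih
          obtain ⟨φ, hφ⟩ := exists_aut C hp hC h1 hwC hw (hpow _ h1)
          rw [pow_succ, ← mul_assoc]
          refine ⟨fun h => h1 ((mul_mem_cancel_right hwC).mp h), ?_⟩
          rw [← hφ]
          obtain ⟨ψ, hψ⟩ := h2
          refine ⟨φ * ψ, ?_⟩
          rw [← hψ]; rfl
      refine ⟨(Finset.range p ×ˢ (Finset.univ : Finset (commutator G))).image (fun q => g * w ^ q.1 * (q.2 : G)), ?_, ?_⟩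
      · intro t ht
        obtain ⟨⟨j, c⟩, -, rfl⟩ := Finset.mem_image.mp ht
        have h2 : g * w ^ j ∉ center G := fun h => (h1 j).1 (hZC h)
        have h3 := hcj _ h2 c c.2
        obtain ⟨φ, hφ⟩ := h3
        obtain ⟨ψ, hψ⟩ := (h1 j).2
        refine ⟨φ * ψ, ?_⟩
        change φ (ψ g) = _
        change ψ g = _ at hψ
        change φ _ = _ at hφ
        rw [hψ, hφ]
      · have hinj : Set.InjOn (fun q : ℕ × commutator G => g * w ^ q.1 * (q.2 : G)) (Finset.range p ×ˢ (Finset.univ : Finset (commutator G)) : Finset (ℕ × commutator G)) := by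
          rintro ⟨j, c⟩ hj ⟨j', c'⟩ hj' h
          simp only [Finset.coe_product, Finset.coe_range, Finset.coe_univ, Set.mem_prod, Set.mem_Iio, Set.mem_univ, and_true] at hj hj'
          have h2 : w ^ j * (c : G) = w ^ j' * (c' : G) := by
            apply mul_left_cancel (a := g)
            rw [← mul_assoc, ← mul_assoc]; exact h
          have h3 : j = j' := by
            by_contra hne
            rcases Nat.lt_or_gt_of_ne hne with hlt | hlt
            · apply hwk (j' - j) (by omega) (by omega)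
              have : w ^ (j' - j) = (c : G) * (c' : G)⁻¹ := by
                have h4 : w ^ j' = w ^ j * w ^ (j' - j) := by rw [← pow_add]; congr 1; omega
                rw [h4, mul_assoc] at h2
                have h5 := mul_left_cancel h2
                rw [h5, mul_inv_cancel_right]
              rw [this]
              exact mul_mem c.2 (inv_mem c'.2)
            · apply hwk (j - j') (by omega) (by omega)
              have : w ^ (j - j') = (c' : G) * (c : G)⁻¹ := by
                have h4 : w ^ j = w ^ j' * w ^ (j - j') := by rw [← pow_add]; congr 1; omega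
                rw [h4, mul_assoc] at h2
                have h5 := mul_left_cancel h2
                rw [← h5, mul_inv_cancel_right]
              rw [this]
              exact mul_mem c'.2 (inv_mem c.2)
          subst h3
          exact Prod.ext rfl (Subtype.ext (mul_left_cancel h2))
        have h2 : ((Finset.range p ×ˢ (Finset.univ : Finset (commutator G))).image (fun q => g * w ^ q.1 * (q.2 : G))).card = p ^ 2 := by
          rw [Finset.card_image_of_injOn hinj, Finset.card_product, Finset.card_range, hcardG', sq]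
        rw [← h2, Finset.card_eq_sum_ones]
        apply Finset.sum_le_sum
        intro t _
        simp only [wt]
        split_ifs
        · exact Nat.one_le_pow _ _ hp.pos
        · exact hp.one_lt.le
        · exact le_refl 1)
  rw [finsum_eq_sum_of_fintype] at key
  -- the total weight
  have hcZ : (Finset.univ.filter fun g : G => g ∈ center G).card = Nat.card (center G) := by
    rw [Nat.card_eq_fintype_card, Fintype.card_subtype]
  have hcC : (Finset.univ.filter fun g : G => g ∈ C).card = Nat.card C := by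
    rw [Nat.card_eq_fintype_card, Fintype.card_subtype]
  have htot : ∑ g, wt g + p * Nat.card (center G) + Nat.card C = p ^ 2 * Nat.card (center G) + p * Nat.card C + Nat.card G := by
    have e1 : ∀ g : G, wt g + p * (if g ∈ center G then 1 else 0) + (if g ∈ C then 1 else 0) =
        p ^ 2 * (if g ∈ center G then 1 else 0) + p * (if g ∈ C then 1 else 0) + 1 := by
      intro g
      by_cases h1 : g ∈ center G
      · have h2 : g ∈ C := hZC h1
        simp only [wt, h1, h2, if_true]
        ring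
      · by_cases h2 : g ∈ C
        · simp only [wt, h1, h2, if_true, if_false]; ring
        · simp only [wt, h1, h2, if_false]; ring
    have e2 := Finset.sum_congr rfl (fun (g : G) (_ : g ∈ Finset.univ) => e1 g)
    rw [Finset.sum_add_distrib, Finset.sum_add_distrib, Finset.sum_add_distrib, Finset.sum_add_distrib,
      ← Finset.mul_sum, ← Finset.mul_sum, ← Finset.mul_sum, Finset.sum_boole, Finset.sum_boole, ← Finset.card_eq_sum_ones,
      Finset.card_univ, hcZ, hcC, ← Nat.card_eq_fintype_card] at e2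
    simpa using e2
  have hcG : Nat.card C * p = Nat.card G := by rw [← hC, card_mul_index]
  have hcZC : p * Nat.card (center G) ≤ Nat.card C := by
    obtain ⟨r, hr⟩ := card_dvd_of_le hZC
    have h1 : r ∣ Nat.card G := (hr ▸ dvd_mul_left r _ : r ∣ Nat.card C).trans (card_subgroup_dvd_card C)
    have h2 : r ≠ 1 := by
      rintro rfl
      exact hZC' (Subgroup.eq_of_le_of_card_ge hZC (by rw [hr, mul_one]))
    rw [hr, mul_comm]
    exact Nat.mul_le_mul_left _ (hmin r h1 h2)
  obtain ⟨S, hS⟩ : ∃ S, S = ∑ g, wt g := ⟨_, rfl⟩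
  rw [← hS] at key htot
  obtain ⟨z, hz⟩ : ∃ z, z = Nat.card (center G) := ⟨_, rfl⟩
  obtain ⟨c, hc⟩ : ∃ c, c = Nat.card C := ⟨_, rfl⟩
  rw [← hz] at htot hcZC
  rw [← hc] at htot hcG hcZC
  rw [← hcG] at htot ⊢
  obtain ⟨N, hN⟩ : ∃ N, N = Nat.card (MulAction.orbitRel.Quotient (MulAut G) G) := ⟨_, rfl⟩
  rw [← hN] at key ⊢
  obtain ⟨q, rfl⟩ : ∃ q, p = q + 2 := ⟨p - 2, by have := hp.two_le; omega⟩
  have h1 : (q + 2) ^ 2 * N ≤ (q + 2) ^ 2 * c := by
    have e0 : (q + 2) * z ≤ c := hcZC
    have e1 : (q + 1) * ((q + 2) * z) ≤ (q + 1) * c := Nat.mul_le_mul_left _ e0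
    have e2 : (q + 1) * c ≤ (q + 1) ^ 2 * c := by
      have : q + 1 ≤ (q + 1) ^ 2 := by nlinarith
      exact Nat.mul_le_mul_right _ this
    nlinarith
  have h2 := Nat.le_of_mul_le_mul_left h1 (by positivity)
  rw [mul_comm]
  exact Nat.mul_le_mul_right _ h2

end count

end Cfsg.Agent.H2.AutOrb
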