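import Mathlib
import Cfsg.Agent.Lib.BaerSuzuki
import Cfsg.Agent.Lib.NilpB
set_option autoImplicit false

universe u
open Subgroup
open scoped Pointwise

namespace Cfsg.Agent.H2.Engel

section basic
variable {G : Type*} [Group G]

def eng (g x : G) (n : ℕ) : G := (List.replicate n g).foldl (fun a b => a * b * a⁻¹ * b⁻¹) x

theorem eng_zero (g x : G) : eng g x 0 = x := rfl

theorem eng_succ (g x : G) (n : ℕ) : eng g x (n + 1) = eng g (x * g * x⁻¹ * g⁻¹) n := rfl

theorem eng_succ' (g x : G) (n : ℕ) :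
    eng g x (n + 1) = eng g x n * g * (eng g x n)⁻¹ * g⁻¹ := by
  induction n generalizing x with
  | zero => rfl
  | succ n ih => rw [eng_succ, ih, ← eng_succ]

theorem map_eng {H : Type*} [Group H] (f : G →* H) (g x : G) (n : ℕ) :
    f (eng g x n) = eng (f g) (f x) n := by
  induction n with
  | zero => rfl
  | succ n ih => rw [eng_succ', eng_succ', ← ih]; simp

/-- left Engel elements -/
def Eng (G : Type*) [Group G] : Set G := {g | ∀ x, ∃ n, eng g x n = 1}

theorem eng_one (g : G) (n : ℕ) : eng g 1 n = 1 := by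
  induction n with
  | zero => rfl
  | succ n ih => rw [eng_succ', ih]; simp

theorem Eng.conj {g : G} (h : g ∈ Eng G) (c : G) : c * g * c⁻¹ ∈ Eng G := by
  intro x
  obtain ⟨n, hn⟩ := h (c⁻¹ * x * c)
  refine ⟨n, ?_⟩
  have := map_eng (MulAut.conj c).toMonoidHom g (c⁻¹ * x * c) n
  rw [hn, map_one] at this
  have e1 : (MulAut.conj c).toMonoidHom g = c * g * c⁻¹ := rfl
  have e2 : (MulAut.conj c).toMonoidHom (c⁻¹ * x * c) = x := by
    change c * (c⁻¹ * x * c) * c⁻¹ = x
    group
  rw [e1, e2] at this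
  exact this.symm

theorem Eng.sub {H : Subgroup G} {g : H} (h : (g : G) ∈ Eng G) : g ∈ Eng H := by
  intro x
  obtain ⟨n, hn⟩ := h x
  refine ⟨n, ?_⟩
  have := map_eng H.subtype g x n
  change ((eng g x n : H) : G) = _ at this
  change _ = eng (g : G) (x : G) n at this
  rw [hn] at this
  exact Subtype.ext this

theorem Eng.map {H : Type*} [Group H] {f : G →* H} (hf : Function.Surjective f) {g : G}
    (h : g ∈ Eng G) : f g ∈ Eng H := by
  intro x
  obtain ⟨y, rfl⟩ := hf x
  obtain ⟨n, hn⟩ := h y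
  exact ⟨n, by rw [← map_eng, hn, map_one]⟩

/-- `a ↦ [a, g]` stays in a normal subgroup -/
theorem eng_mem {A : Subgroup G} [A.Normal] {g a : G} (ha : a ∈ A) (n : ℕ) : eng g a n ∈ A := by
  induction n with
  | zero => exact ha
  | succ n ih =>
    rw [eng_succ']
    have h1 : g * (eng g a n)⁻¹ * g⁻¹ ∈ A := Normal.conj_mem inferInstance _ (inv_mem ih) g
    have := mul_mem ih h1
    have e : eng g a n * (g * (eng g a n)⁻¹ * g⁻¹) = eng g a n * g * (eng g a n)⁻¹ * g⁻¹ := by group
    rwa [e] at this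

theorem exists_commuting {A : Subgroup G} [A.Normal] (hA : A ≠ ⊥) {g : G} (hg : g ∈ Eng G) :
    ∃ b ∈ A, b ≠ 1 ∧ b * g = g * b := by
  classical
  obtain ⟨⟨a, haA⟩, ha'⟩ := Subgroup.ne_bot_iff_exists_ne_one.mp hA
  have ha : a ≠ 1 := fun h => ha' (Subtype.ext h)
  have hex := hg a
  let n := Nat.find hex
  have hn : eng g a n = 1 := Nat.find_spec hex
  have hn0 : n ≠ 0 := by
    intro h0
    rw [h0, eng_zero] at hn
    exact ha hn
  obtain ⟨k, hk⟩ := Nat.exists_eq_succ_of_ne_zero hn0
  refine ⟨eng g a k, eng_mem haA k, Nat.find_min hex (show k < n by omega), ?_⟩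
  rw [hk, Nat.succ_eq_add_one, eng_succ'] at hn
  have h1 := mul_inv_eq_one.mp hn
  have h2 : eng g a k * g = g * eng g a k := by
    have := mul_inv_eq_iff_eq_mul.mp h1
    exact this
  exact h2

end basic

theorem nilpotent_of_quotient_center {G : Type*} [Group G]
    (h : Group.IsNilpotent (G ⧸ center G)) : Group.IsNilpotent G :=
  Group.of_quotient_center_nilpotent h

theorem engel_aux (n : ℕ) : ∀ (G : Type u) [Group G] [Finite G], Nat.card G = n →
    ∀ x ∈ Eng G, x ∈ fittingSubgroup G := by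
  induction n using Nat.strong_induction_on with
  | _ n ih =>
  intro G _ _ hcard x hx
  by_contra hxF
  have hFn := Cfsg.Agent.Lib.Cores.fitting_normal (G := G)
  have hsub : ∀ H : Subgroup G, H ≠ ⊤ → ∀ y ∈ Eng G, ∀ hy : y ∈ H,
      (⟨y, hy⟩ : H) ∈ fittingSubgroup H := by
    intro H hH y hyE hy
    exact ih (Nat.card H) (hcard ▸ Cfsg.Agent.Lib.Basic.card_lt_of_ne_top hH) H rfl _
      (Eng.sub (g := ⟨y, hy⟩) hyE)
  have h1 : ∀ N : Subgroup G, N.Normal → x ∈ N → N = ⊤ := by
    intro N hN hxN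
    by_contra hne
    apply hxF
    exact Cfsg.Agent.Lib.Cores.map_fitting_le N ⟨_, hsub N hne x hx hxN, rfl⟩
  have hnotnil : ¬ Group.IsNilpotent G := by
    intro hnil
    apply hxF
    have : (⊤ : Subgroup G) ≤ fittingSubgroup G :=
      Cfsg.Agent.Lib.Cores.le_fitting inferInstance (Group.nilpotent_of_mulEquiv topEquiv.symm)
    exact this (mem_top x)
  have hquot : ∀ N : Subgroup G, ∀ _ : N.Normal, N ≠ ⊥ → Group.IsNilpotent (G ⧸ N) := by
    intro N hN hne
    have h2 := ih (Nat.card (G ⧸ N)) (hcard ▸ Cfsg.Agent.Lib.Basic.card_quotient_lt hne) (G ⧸ N) rfl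
      _ (Eng.map (f := QuotientGroup.mk' N) (QuotientGroup.mk'_surjective N) hx)
    have hFn' := Cfsg.Agent.Lib.Cores.fitting_normal (G := G ⧸ N)
    have h3 := h1 ((fittingSubgroup (G ⧸ N)).comap (QuotientGroup.mk' N)) inferInstance h2
    have h4 : fittingSubgroup (G ⧸ N) = ⊤ := by
      rw [eq_top_iff]
      intro y _
      obtain ⟨z, rfl⟩ := QuotientGroup.mk'_surjective N y
      have : z ∈ (fittingSubgroup (G ⧸ N)).comap (QuotientGroup.mk' N) := by rw [h3]; trivial
      exact this
    have h5 := Cfsg.Agent.Lib.Cores.fitting_nilpotent (G := G ⧸ N)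
    rw [h4] at h5
    exact Group.nilpotent_of_mulEquiv topEquiv
  have hZ : center G = ⊥ := by
    by_contra hne
    exact hnotnil (Group.of_quotient_center_nilpotent (hquot _ inferInstance hne))
  have hF : fittingSubgroup G = ⊥ := by
    by_contra hne
    have hqn := hquot _ hFn hne
    have htop : fittingSubgroup G ⊔ zpowers x = ⊤ := by
      by_contra hnt
      obtain ⟨M, hM, hle⟩ := Cfsg.Agent.Lib.Basic.exists_le_coatom hnt
      have hFM : fittingSubgroup G ≤ M := le_sup_left.trans hle
      have hcoat : IsCoatom (M.map (QuotientGroup.mk' (fittingSubgroup G))) :=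
        Cfsg.Agent.Lib.NilpB.isCoatom_map_mk hM hFM
      have hnM := Cfsg.Agent.Lib.Nilp.coatom_normal_of_nilpotent hcoat
      have hMn : M.Normal := by
        have h5 : (M.map (QuotientGroup.mk' (fittingSubgroup G))).comap
            (QuotientGroup.mk' (fittingSubgroup G)) = M := by
          rw [comap_map_eq, QuotientGroup.ker_mk', sup_eq_left]
          exact hFM
        rw [← h5]
        infer_instance
      exact hM.1 (h1 M hMn (hle (mem_sup_right (mem_zpowers x))))
    -- the centre of `F`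
    have hAn : ((center (fittingSubgroup G)).map (fittingSubgroup G).subtype).Normal := inferInstance
    have hA : (center (fittingSubgroup G)).map (fittingSubgroup G).subtype ≠ ⊥ := by
      have hnt : Nontrivial (fittingSubgroup G) := (nontrivial_iff_ne_bot _).mpr hne
      have hnilF := Cfsg.Agent.Lib.Cores.fitting_nilpotent (G := G)
      have h6 : center (fittingSubgroup G) ≠ ⊥ := Group.IsNilpotent.center_ne_bot _
      rw [Ne, map_eq_bot_iff_of_injective _ (subtype_injective _)]
      exact h6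
    obtain ⟨b, hb, hb1, hbx⟩ := exists_commuting hA hx
    obtain ⟨b', hb', rfl⟩ := hb
    have hcen : ((b' : fittingSubgroup G) : G) ∈ center G := by
      have h7 : fittingSubgroup G ⊔ zpowers x ≤ centralizer {(b' : G)} := by
        apply sup_le
        · intro f hf
          rw [mem_centralizer_singleton_iff]
          exact congrArg Subtype.val (mem_center_iff.mp hb' ⟨f, hf⟩)
        · rw [zpowers_le, mem_centralizer_singleton_iff]
          exact hbx.symm
      rw [htop] at h7
      rw [mem_center_iff]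
      intro g
      exact mem_centralizer_singleton_iff.mp (h7 (mem_top g))
    rw [hZ, mem_bot] at hcen
    exact hb1 hcen
  have hC : ∀ y ∈ Eng G, ∀ g : G, g * y * g⁻¹ ∈ Eng G := fun y hy g => Eng.conj hy g
  -- distinct maximal subgroups
  have hmain : ∀ M₁ M₂ : Subgroup G, IsCoatom M₁ → IsCoatom M₂ → M₁ ≠ M₂ →
      ∀ y ∈ Eng G, y ∈ M₁ → y ∈ M₂ → y = 1 := by
    by_contra hno
    push Not at hno
    obtain ⟨A₀, B₀, hA₀, hB₀, hAB₀, y₀, hy₀⟩ := hno
    obtain ⟨⟨A, B⟩, hAB, hmax⟩ := Set.Finite.exists_maximalFor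
      (fun AB : Subgroup G × Subgroup G => (Eng G ∩ ((AB.1 : Set G) ∩ (AB.2 : Set G))).ncard)
      {AB : Subgroup G × Subgroup G | IsCoatom AB.1 ∧ IsCoatom AB.2 ∧ AB.1 ≠ AB.2 ∧
        ∃ y ∈ Eng G, y ∈ AB.1 ∧ y ∈ AB.2 ∧ y ≠ 1} (Set.toFinite _)
      ⟨(A₀, B₀), hA₀, hB₀, hAB₀, y₀, hy₀⟩
    have key : ∀ A B : Subgroup G, IsCoatom A → IsCoatom B → A ≠ B →
        (∃ y ∈ Eng G, y ∈ A ∧ y ∈ B ∧ y ≠ 1) →
        (∀ K L : Subgroup G, IsCoatom K → IsCoatom L → K ≠ L →
          (∃ y ∈ Eng G, y ∈ K ∧ y ∈ L ∧ y ≠ 1) →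
          (Eng G ∩ ((A : Set G) ∩ (B : Set G))).ncard ≤ (Eng G ∩ ((K : Set G) ∩ (L : Set G))).ncard →
          (Eng G ∩ ((K : Set G) ∩ (L : Set G))).ncard ≤ (Eng G ∩ ((A : Set G) ∩ (B : Set G))).ncard) →
        ∀ M : Subgroup G, IsCoatom M →
        normalizer ((closure (Eng G ∩ ((A : Set G) ∩ (B : Set G))) : Subgroup G) : Set G) ≤ M →
        M = A := by
      intro A B hA hB hAB ⟨y, hyE, hyA, hyB, hy1⟩ hmax M hM hNM
      by_contra hMA
      set D : Subgroup G := closure (Eng G ∩ ((A : Set G) ∩ (B : Set G))) with hDdef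
      have hDA : D ≤ A := (closure_le _).mpr fun z hz => hz.2.1
      have hD : D = closure (Eng G ∩ D) := by
        apply le_antisymm
        · exact closure_mono fun z hz => ⟨hz.1, Subgroup.subset_closure hz⟩
        · exact (closure_le _).mpr fun z hz => hz.2
      have hDM : D ≤ M := le_normalizer.trans hNM
      let P : Subgroup G := (fittingSubgroup A).map A.subtype
      have hPnil : Group.IsNilpotent P :=
        Cfsg.Agent.Lib.Cores.isNilpotent_map _ Cfsg.Agent.Lib.Cores.fitting_nilpotent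
      have hCP : ∀ z ∈ Eng G, z ∈ A → z ∈ P := fun z hz hzA =>
        ⟨⟨z, hzA⟩, hsub A hA.1 z hz hzA, rfl⟩
      have hDP : D ≤ P := (closure_le _).mpr fun z hz => hCP z hz.1 hz.2.1
      by_cases hc : ∃ c ∈ Eng G, c ∈ A ∧ c ∉ D
      · obtain ⟨c, hcE, hcA, hcD⟩ := hc
        obtain ⟨a, haE, haP, haD, haN⟩ := Cfsg.Agent.Lib.BaerSuzuki.exists_normalizing hC hPnil hDP hD
          hcE (hCP c hcE hcA) hcD
        have haA : a ∈ A := by
          obtain ⟨a', _, rfl⟩ := haP
          exact a'.2
        have h3 := hmax A M hA hM (Ne.symm hMA) ⟨y, hyE, hyA, hDM (Subgroup.subset_closure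
          ⟨hyE, hyA, hyB⟩), hy1⟩
        have h4 : Eng G ∩ ((A : Set G) ∩ (B : Set G)) ⊂ Eng G ∩ ((A : Set G) ∩ (M : Set G)) := by
          refine ⟨fun w hw => ⟨hw.1, hw.2.1, hDM (Subgroup.subset_closure hw)⟩, ?_⟩
          intro hsub'
          have := hsub' ⟨haE, haA, hNM haN⟩
          exact haD (Subgroup.subset_closure this)
        have h5 := Set.ncard_lt_ncard h4 (Set.toFinite _)
        exact absurd (h3 h5.le) (not_le.mpr h5)
      · push Not at hc
        have hAN : A ≤ normalizer (D : Set G) := by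
          have key2 : ∀ m ∈ A, ∀ d ∈ D, m * d * m⁻¹ ∈ D := by
            intro m hm d hd
            rw [hD] at hd ⊢
            refine closure_induction (p := fun d _ => m * d * m⁻¹ ∈ closure (Eng G ∩ D)) ?_ ?_ ?_ ?_ hd
            · rintro z ⟨hz1, hz2⟩
              apply Subgroup.subset_closure
              refine ⟨hC z hz1 m, ?_⟩
              exact hc _ (hC z hz1 m) (mul_mem (mul_mem hm (hDA hz2)) (inv_mem hm))
            · rw [mul_one, mul_inv_cancel]; exact one_mem _
            · intro a b _ _ ha hb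
              have : m * (a * b) * m⁻¹ = (m * a * m⁻¹) * (m * b * m⁻¹) := by group
              rw [this]; exact mul_mem ha hb
            · intro a _ ha
              have : m * a⁻¹ * m⁻¹ = (m * a * m⁻¹)⁻¹ := by group
              rw [this]; exact inv_mem ha
          intro m hm
          rw [mem_normalizer_iff]
          intro d
          constructor
          · exact key2 m hm d
          · intro hd
            have := key2 m⁻¹ (inv_mem hm) _ hd
            have e : m⁻¹ * (m * d * m⁻¹) * m⁻¹⁻¹ = d := by group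
            rwa [e] at this
        have hAM : A ≤ M := hAN.trans hNM
        exact hMA ((hA.le_iff.mp hAM).resolve_left hM.1)
    have hmax' : ∀ K L : Subgroup G, IsCoatom K → IsCoatom L → K ≠ L →
          (∃ y ∈ Eng G, y ∈ K ∧ y ∈ L ∧ y ≠ 1) →
          (Eng G ∩ ((A : Set G) ∩ (B : Set G))).ncard ≤ (Eng G ∩ ((K : Set G) ∩ (L : Set G))).ncard →
          (Eng G ∩ ((K : Set G) ∩ (L : Set G))).ncard ≤ (Eng G ∩ ((A : Set G) ∩ (B : Set G))).ncard := by
      intro K L hK hL hKL hy
      exact hmax (j := (K, L)) ⟨hK, hL, hKL, hy⟩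
    obtain ⟨hA, hB, hne, y, hyE, hyA, hyB, hy1⟩ := hAB
    simp only at hA hB hne hyA hyB
    -- `D` is not normal
    have hDn : ¬ (closure (Eng G ∩ ((A : Set G) ∩ (B : Set G))) : Subgroup G).Normal := by
      intro hn
      have hyD : y ∈ closure (Eng G ∩ ((A : Set G) ∩ (B : Set G))) :=
        Subgroup.subset_closure ⟨hyE, hyA, hyB⟩
      have hnil : Group.IsNilpotent (closure (Eng G ∩ ((A : Set G) ∩ (B : Set G))) : Subgroup G) := by
        refine Cfsg.Agent.Lib.Cores.isNilpotent_of_le (B := (fittingSubgroup A).map A.subtype) ?_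
          (Cfsg.Agent.Lib.Cores.isNilpotent_map _ Cfsg.Agent.Lib.Cores.fitting_nilpotent)
        rw [closure_le]
        intro z hz
        exact ⟨⟨z, hz.2.1⟩, hsub A hA.1 z hz.1 hz.2.1, rfl⟩
      have := Cfsg.Agent.Lib.Cores.le_fitting hn hnil hyD
      rw [hF, mem_bot] at this
      exact hy1 this
    have hNt : normalizer ((closure (Eng G ∩ ((A : Set G) ∩ (B : Set G))) : Subgroup G) : Set G) ≠ ⊤ := by
      rw [Ne, normalizer_eq_top_iff]
      exact hDn
    obtain ⟨M, hM, hNM⟩ := Cfsg.Agent.Lib.Basic.exists_le_coatom hNt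
    have e1 := key A B hA hB hne ⟨y, hyE, hyA, hyB, hy1⟩ hmax' M hM hNM
    have e2 := key B A hB hA hne.symm ⟨y, hyE, hyB, hyA, hy1⟩ (by
      rw [Set.inter_comm (B : Set G) (A : Set G)]
      exact hmax') M hM (by rw [Set.inter_comm (B : Set G) (A : Set G)]; exact hNM)
    exact hne (e1.symm.trans e2)
  -- the final contradiction
  have hx1 : x ≠ 1 := by
    rintro rfl
    exact hxF (one_mem _)
  have hzx : zpowers x ≠ ⊤ := by
    intro htop
    apply hx1
    have : x ∈ center G := by
      rw [mem_center_iff]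
      intro g
      have hg : g ∈ zpowers x := by rw [htop]; trivial
      obtain ⟨k, rfl⟩ := hg
      exact (Commute.zpow_self x k).eq
    rwa [hZ, mem_bot] at this
  obtain ⟨M, hM, hle⟩ := Cfsg.Agent.Lib.Basic.exists_le_coatom hzx
  have hxM : x ∈ M := hle (mem_zpowers x)
  have hMn : ¬ M.Normal := fun hn => hM.1 (h1 M hn hxM)
  have hNM : normalizer (M : Set G) = M := by
    rcases hM.le_iff.mp (le_normalizer (H := M)) with h2 | h2
    · exact absurd (normalizer_eq_top_iff.mp h2) hMn
    · exact h2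
  apply hM.1
  rw [eq_top_iff]
  intro g _
  obtain ⟨n, hn⟩ := hx g
  have hdown : ∀ k, eng x g k ∈ M → g ∈ M := by
    intro k
    induction k with
    | zero => exact id
    | succ k ihk =>
      intro hk
      apply ihk
      rw [eng_succ'] at hk
      set h := eng x g k
      have h3 : h * x * h⁻¹ ∈ M := by
        have := mul_mem hk hxM
        rwa [inv_mul_cancel_right] at this
      have h4 : IsCoatom (MulAut.conj h • M) := by
        have := (OrderIso.isCoatom_iff (MulAut.conj h).mapSubgroup M).mpr hM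
        exact this
      have h5 : M = MulAut.conj h • M := by
        by_contra hne
        have := hmain M (MulAut.conj h • M) hM h4 hne (h * x * h⁻¹) (Eng.conj hx h) h3 ⟨x, hxM, rfl⟩
        apply hx1
        have e : x = h⁻¹ * (h * x * h⁻¹) * h := by group
        rw [e, this]
        group
      rw [← hNM]
      exact Cfsg.Agent.Lib.Coprime.mem_normalizer_of_conj_smul_eq h5.symm
  exact hdown n (by rw [hn]; exact one_mem _)

theorem engel {G : Type u} [Group G] [Finite G] {x : G} (hx : x ∈ Eng G) :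
    x ∈ fittingSubgroup G :=
  engel_aux _ G rfl x hx

end Cfsg.Agent.H2.Engel

namespace Cfsg.Agent.H2.Engel

theorem fitting_engel {G : Type*} [Group G] [Finite G] {g : G} (hg : g ∈ fittingSubgroup G) :
    g ∈ Eng G := by
  have hFn := Cfsg.Agent.Lib.Cores.fitting_normal (G := G)
  have hnil := Cfsg.Agent.Lib.Cores.fitting_nilpotent (G := G)
  obtain ⟨n, hn⟩ := (isNilpotent_iff_lowerCentralSeries _).mp hnil
  intro x
  have hstep : ∀ k : ℕ, eng g x (k + 1) ∈ (fittingSubgroup G).lowerCentralSeries k := by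
    intro k
    induction k with
    | zero =>
      rw [Subgroup.lowerCentralSeries_zero, eng_succ', eng_zero]
      exact mul_mem (hFn.conj_mem _ hg x) (inv_mem hg)
    | succ k ih =>
      rw [eng_succ', Subgroup.lowerCentralSeries_succ]
      exact commutator_mem_commutator ih hg
  refine ⟨n + 1, ?_⟩
  have := hstep n
  rw [hn, mem_bot] at this
  exact this

end Cfsg.Agent.H2.Engel
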