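import Mathlib
import Cfsg.Prelude.Def_SolvableStructure
import Cfsg.Agent.Lib.Cyc
import Cfsg.Agent.Lib.Cores
import Cfsg.Agent.Lib.Basic
import Cfsg.Agent.Lib.PNilp
import Cfsg.Agent.Lib.Wiel

/-! Supersolvable groups: Sylow tower, counted. -/

namespace Cfsg.Agent.H2.SuperS

open Subgroup Cfsg.Agent.Lib

universe u

theorem quot {G : Type u} [Group G] (h : Cfsg.IsSupersolvable G) (N : Subgroup G) [N.Normal] :
    Cfsg.IsSupersolvable (G ⧸ N) := by
  obtain ⟨n, H, h0, h1, h2, h3⟩ := h
  refine ⟨n, fun i => (H i).map (QuotientGroup.mk' N), ?_, ?_, ?_, fun i => ?_⟩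
  · show (H 0).map _ = _
    rw [h0, Subgroup.map_bot]
  · show (H (Fin.last n)).map _ = _
    rw [h1]; exact map_top_of_surjective _ (QuotientGroup.mk'_surjective N)
  · intro i
    exact (h2 i).map _ (QuotientGroup.mk'_surjective N)
  · obtain ⟨g, hg⟩ := h3 i
    refine ⟨QuotientGroup.mk' N g, ?_⟩
    show (H i.succ).map _ = (H i.castSucc).map _ ⊔ _
    rw [hg, Subgroup.map_sup, MonoidHom.map_zpowers]

theorem exists_cyclic_normal {G : Type u} [Group G] [Nontrivial G] (h : Cfsg.IsSupersolvable G) :
    ∃ N : Subgroup G, N.Normal ∧ N ≠ ⊥ ∧ IsCyclic N := by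
  obtain ⟨n, H, h0, h1, h2, h3⟩ := h
  have key : ∀ i : Fin (n + 1), H i ≠ ⊥ → ∃ N : Subgroup G, N.Normal ∧ N ≠ ⊥ ∧ IsCyclic N := by
    intro i
    induction i using Fin.induction with
    | zero => intro h; exact absurd h0 h
    | succ i ih =>
      intro hi
      by_cases hb : H i.castSucc = ⊥
      · obtain ⟨g, hg⟩ := h3 i
        rw [hb, bot_sup_eq] at hg
        refine ⟨H i.succ, h2 _, hi, ?_⟩
        rw [hg]
        exact inferInstance
      · exact ih hb
  exact key (Fin.last n) (by rw [h1]; exact top_ne_bot)

theorem exists_prime_normal {G : Type u} [Group G] [Finite G] [Nontrivial G] (h : Cfsg.IsSupersolvable G) :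
    ∃ N : Subgroup G, N.Normal ∧ (Nat.card N).Prime := by
  obtain ⟨N, hN, hb, hc⟩ := exists_cyclic_normal h
  have hne : Nat.card N ≠ 1 := by
    intro h1
    exact hb ((Subgroup.card_eq_one).1 h1)
  obtain ⟨q, hq, hqd⟩ := Nat.exists_prime_and_dvd hne
  obtain ⟨A, hA⟩ := Cyc.exists_subgroup_card (C := N) hqd
  refine ⟨A.map N.subtype, Cyc.normal_of_le_isCyclic hc (map_subtype_le A), ?_⟩
  rw [card_map_of_injective N.subtype_injective, hA]
  exact hq

theorem central_of_coprime {G : Type u} [Group G] [Finite G] {N K : Subgroup G} [N.Normal]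
    (hN : (Nat.card N).Prime) (hK : (Nat.card K).Coprime (Nat.card N - 1)) :
    K ≤ centralizer (N : Set G) := by
  haveI : Fact (Nat.card N).Prime := ⟨hN⟩
  haveI hc : IsCyclic N := isCyclic_of_prime_card (p := Nat.card N) rfl
  let f : K →* MulAut N := (MulAut.conjNormal (H := N)).comp K.subtype
  have h1 : Nat.card f.range ∣ Nat.card K := card_range_dvd f
  have h2 : Nat.card f.range ∣ Nat.card (MulAut N) := card_subgroup_dvd_card _
  have h3 : Nat.card (MulAut N) = Nat.card N - 1 := by
    rw [Nat.card_congr (IsCyclic.mulAutMulEquiv N).toEquiv, Nat.card_eq_fintype_card,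
      ZMod.card_units_eq_totient, Nat.totient_prime hN]
  rw [h3] at h2
  have h4 : Nat.card f.range = 1 := Nat.dvd_one.1 (hK ▸ Nat.dvd_gcd h1 h2)
  rw [Subgroup.card_eq_one] at h4
  intro x hx
  rw [mem_centralizer_iff]
  intro y hy
  have h5 : f ⟨x, hx⟩ = 1 := by
    have : f ⟨x, hx⟩ ∈ f.range := ⟨_, rfl⟩
    rwa [h4, mem_bot] at this
  have h6 : f ⟨x, hx⟩ ⟨y, hy⟩ = ⟨y, hy⟩ := by rw [h5]; rfl
  have h7 : x * y * x⁻¹ = y := congrArg Subtype.val h6
  calc y * x = (x * y * x⁻¹) * x := by rw [h7]
    _ = x * y := by group

theorem tower (n : ℕ) : ∀ (G : Type u) [Group G] [Finite G], Nat.card G ≤ n → Cfsg.IsSupersolvable G →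
    ∀ p : ℕ, ∃ K : Subgroup G, K.Normal ∧ (∀ q : ℕ, q.Prime → q ∣ Nat.card K → p ≤ q) ∧
      (∀ q : ℕ, q.Prime → q ∣ K.index → q < p) := by
  induction n with
  | zero =>
    intro G _ _ h
    have : 0 < Nat.card G := Nat.card_pos
    omega
  | succ n ih =>
    intro G _ _ hn hG p
    by_cases hnt : Nontrivial G
    · obtain ⟨N, hN, hNp⟩ := exists_prime_normal hG
      have hNb : N ≠ ⊥ := by
        rintro rfl
        rw [Subgroup.card_bot] at hNp
        exact Nat.not_prime_one hNp
      obtain ⟨K₁, hK1n, hK1a, hK1b⟩ := ih (G ⧸ N) (by
        have := Basic.card_quotient_lt hNb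
        omega) (quot hG N) p
      set K := K₁.comap (QuotientGroup.mk' N) with hK
      have hKn : K.Normal := hK1n.comap _
      have hKc : Nat.card K = Nat.card N * Nat.card K₁ := by
        rw [hK, Cores.card_comap_eq _ (QuotientGroup.mk'_surjective N), QuotientGroup.ker_mk']
        try ring
      have hKi : K.index = K₁.index := index_comap_of_surjective _ (QuotientGroup.mk'_surjective N)
      have hNK : N ≤ K := by
        intro x hx
        show (QuotientGroup.mk' N) x ∈ K₁
        rw [show (QuotientGroup.mk' N) x = 1 from (QuotientGroup.eq_one_iff x).2 hx]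
        exact K₁.one_mem
      by_cases hpq : p ≤ Nat.card N
      · refine ⟨K, hKn, ?_, ?_⟩
        · intro q hq hd
          rw [hKc] at hd
          rcases hq.dvd_mul.1 hd with h | h
          · rw [(Nat.prime_dvd_prime_iff_eq hq hNp).1 h]; exact hpq
          · exact hK1a q hq h
        · intro q hq hd
          rw [hKi] at hd
          exact hK1b q hq hd
      · push Not at hpq
        haveI hNf : Fact (Nat.card N).Prime := ⟨hNp⟩
        have hcen : K ≤ centralizer (N : Set G) := by
          apply central_of_coprime hNp
          rw [Nat.coprime_iff_gcd_eq_one]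
          by_contra hne
          obtain ⟨r, hr, hd⟩ := Nat.exists_prime_and_dvd hne
          have h1 : r ∣ Nat.card K := hd.trans (Nat.gcd_dvd_left _ _)
          have h2 : r ∣ Nat.card N - 1 := hd.trans (Nat.gcd_dvd_right _ _)
          have h3 : r ≤ Nat.card N - 1 := Nat.le_of_dvd (by have := hNp.two_le; omega) h2
          have h4 := hNp.two_le
          rw [hKc] at h1
          rcases hr.dvd_mul.1 h1 with h | h
          · have := (Nat.prime_dvd_prime_iff_eq hr hNp).1 h
            omega
          · have := hK1a r hr h
            omega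
        -- N is a Sylow subgroup of K
        have hNc' : Nat.card (N.subgroupOf K) = Nat.card N := Nat.card_congr (subgroupOfEquivOfLe hNK).toEquiv
        have hNi : (N.subgroupOf K).index = Nat.card K₁ := by
          have e1 := (N.subgroupOf K).card_mul_index
          rw [hNc', hKc] at e1
          exact Nat.eq_of_mul_eq_mul_left Nat.card_pos e1
        have hnd : ¬ (Nat.card N) ∣ Nat.card K₁ := by
          intro h
          have := hK1a _ hNp h
          omega
        have hpg : IsPGroup (Nat.card N) (N.subgroupOf K) := IsPGroup.of_card (n := 1) (by rw [hNc', pow_one])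
        let S : Sylow (Nat.card N) K := hpg.toSylow (by rw [hNi]; exact hnd)
        have hS : (S : Subgroup K) = N.subgroupOf K := rfl
        have hnil : PNilp.PNil (Nat.card N) K := by
          apply Wiel.pNil_of_normalizer_le_centralizer S
          intro x _
          rw [mem_centralizer_iff]
          intro y hy
          have hy' : (y : G) ∈ N := hy
          exact Subtype.ext (mem_centralizer_iff.1 (hcen x.2) _ hy')
        have hcore := (PNilp.pNil_iff_core).1 hnil
        haveI hch := Cores.pPrimeCore_characteristic (G := K) (Nat.card N)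
        have hcop := Cores.pPrimeCore_coprime (G := K) (Nat.card N)
        obtain ⟨L, hLn, hLc, k, hLk⟩ := hnil
        have hLle : L ≤ pPrimeCore (Nat.card N) K := Cores.le_pPrimeCore hLn hLc
        have hcd : Nat.card (pPrimeCore (Nat.card N) K) ∣ Nat.card K₁ := by
          have h1 : Nat.card (pPrimeCore (Nat.card N) K) ∣ Nat.card N * Nat.card K₁ := by
            rw [← hKc]; exact card_subgroup_dvd_card _
          exact hcop.dvd_of_dvd_mul_left h1
        have hLK : Nat.card K₁ ∣ Nat.card L := by
          have h1 : Nat.card K₁ ∣ Nat.card L * L.index := by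
            rw [L.card_mul_index, hKc]; exact Dvd.intro_left _ rfl
          rw [hLk] at h1
          exact (((Nat.Prime.coprime_iff_not_dvd hNp).2 hnd).symm.pow_right k).dvd_of_dvd_mul_right h1
        have hcc : Nat.card (pPrimeCore (Nat.card N) K) = Nat.card K₁ :=
          Nat.dvd_antisymm hcd (hLK.trans (card_dvd_of_le hLle))
        have hnorm : ((pPrimeCore (Nat.card N) K).map K.subtype).Normal := inferInstance
        have hcard : Nat.card ((pPrimeCore (Nat.card N) K).map K.subtype) = Nat.card K₁ := by
          rw [card_map_of_injective K.subtype_injective, hcc]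
        refine ⟨(pPrimeCore (Nat.card N) K).map K.subtype, hnorm, ?_, ?_⟩
        · intro q hq hd
          rw [hcard] at hd
          exact hK1a q hq hd
        · intro q hq hd
          have h1 : ((pPrimeCore (Nat.card N) K).map K.subtype).index = Nat.card N * K₁.index := by
            have e1 := ((pPrimeCore (Nat.card N) K).map K.subtype).card_mul_index
            rw [hcard, ← K.card_mul_index, hKc, hKi] at e1
            have hpos : 0 < Nat.card K₁ := Nat.card_pos
            apply Nat.eq_of_mul_eq_mul_left hpos
            rw [e1]; ring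
          rw [h1] at hd
          rcases hq.dvd_mul.1 hd with h | h
          · rw [(Nat.prime_dvd_prime_iff_eq hq hNp).1 h]; exact hpq
          · exact hK1b q hq h
    · rw [not_nontrivial_iff_subsingleton] at hnt
      refine ⟨⊤, inferInstance, ?_, ?_⟩
      · intro q hq hd
        rw [Subgroup.card_top, Nat.card_of_subsingleton (1 : G)] at hd
        exact absurd (Nat.dvd_one.1 hd) hq.ne_one
      · intro q hq hd
        rw [Subgroup.index_top] at hd
        exact absurd (Nat.dvd_one.1 hd) hq.ne_one

/-- elements all of whose order's prime divisors are `≥ p` -/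
def big (p : ℕ) (G : Type u) [Group G] : Set G := {x | ∀ q : ℕ, q.Prime → q ∣ orderOf x → p ≤ q}

def U (G : Type u) [Group G] : Prop :=
  ∀ p : ℕ, ∃ a b : ℕ, a * b = Nat.card G ∧ (∀ q : ℕ, q.Prime → q ∣ a → p ≤ q) ∧
    (∀ q : ℕ, q.Prime → q ∣ b → q < p) ∧ Nat.card (big p G) = a

theorem big_eq {G : Type u} [Group G] [Finite G] {p : ℕ} {K : Subgroup G} (hK : K.Normal)
    (h1 : ∀ q : ℕ, q.Prime → q ∣ Nat.card K → p ≤ q) (h2 : ∀ q : ℕ, q.Prime → q ∣ K.index → q < p) :
    big p G = K := by
  ext x
  constructor
  · intro hx
    have h3 : orderOf (x : G ⧸ K) = 1 := by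
      by_contra hne
      obtain ⟨q, hq, hd⟩ := Nat.exists_prime_and_dvd hne
      have h4 := hx q hq (hd.trans (orderOf_map_dvd (QuotientGroup.mk' K) x))
      have h5 := h2 q hq (hd.trans (by
        have := orderOf_dvd_natCard (x : G ⧸ K)
        exact this))
      omega
    rw [orderOf_eq_one_iff] at h3
    exact (QuotientGroup.eq_one_iff x).1 h3
  · intro hx q hq hd
    exact h1 q hq (hd.trans (by
      have := orderOf_dvd_natCard (⟨x, hx⟩ : K)
      rwa [← Subgroup.orderOf_coe] at this))

theorem U_of_supersolvable {G : Type u} [Group G] [Finite G] (h : Cfsg.IsSupersolvable G) : U G := by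
  intro p
  obtain ⟨K, hK, h1, h2⟩ := tower (Nat.card G) G le_rfl h p
  exact ⟨Nat.card K, K.index, K.card_mul_index, h1, h2, by rw [big_eq hK h1 h2]; rfl⟩

theorem solvable_of_U (n : ℕ) : ∀ (G : Type u) [Group G] [Finite G], Nat.card G ≤ n → U G →
    Group.IsSolvable G := by
  induction n with
  | zero =>
    intro G _ _ h
    have : 0 < Nat.card G := Nat.card_pos
    omega
  | succ n ih =>
    intro G _ _ hn hG
    by_cases hnt : Nontrivial G
    · have hcG : Nat.card G ≠ 1 := by
        have := Finite.one_lt_card (α := G)
        omega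
      -- largest prime divisor
      have hne : (Nat.card G).primeFactors.Nonempty := by
        rw [Nat.nonempty_primeFactors]
        exact Finite.one_lt_card (α := G)
      set p := (Nat.card G).primeFactors.max' hne with hp
      have hpm : p ∈ (Nat.card G).primeFactors := Finset.max'_mem _ _
      have hpp : p.Prime := Nat.prime_of_mem_primeFactors hpm
      have hpd : p ∣ Nat.card G := Nat.dvd_of_mem_primeFactors hpm
      haveI : Fact p.Prime := ⟨hpp⟩
      have hmax : ∀ q : ℕ, q.Prime → q ∣ Nat.card G → q ≤ p := fun q hq hd =>
        Finset.le_max' _ _ (Nat.mem_primeFactors.2 ⟨hq, hd, Nat.card_pos.ne'⟩)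
      obtain ⟨P⟩ : Nonempty (Sylow p G) := inferInstance
      obtain ⟨a, b, hab, ha, hb, hc⟩ := hG p
      -- a = card P
      have hPb : ¬ p ∣ b := fun h => by
        have := hb p hpp h
        omega
      have haP : a = Nat.card P := by
        obtain ⟨k, hk⟩ := P.isPGroup'.exists_card_eq
        have h1 : Nat.card P ∣ a := by
          have h2 : Nat.card P ∣ a * b := by rw [hab]; exact card_subgroup_dvd_card _
          rw [hk] at h2 ⊢
          exact (((Nat.Prime.coprime_iff_not_dvd hpp).2 hPb).pow_left k).dvd_of_dvd_mul_right h2
        obtain ⟨c, hcc⟩ := h1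
        have hc1 : c = 1 := by
          by_contra hne1
          obtain ⟨q, hq, hqc⟩ := Nat.exists_prime_and_dvd hne1
          have h3 : q ∣ a := by rw [hcc]; exact Dvd.dvd.mul_left hqc _
          have h4 := ha q hq h3
          have h5 := hmax q hq (by rw [← hab]; exact Dvd.dvd.mul_right h3 _)
          have h6 : q = p := le_antisymm h5 h4
          rw [h6] at hqc
          have h7 : ¬ p ∣ (P : Subgroup G).index := P.not_dvd_index
          apply h7
          have h8 := (P : Subgroup G).card_mul_index
          rw [← hab, hcc, mul_assoc] at h8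
          have h9 := Nat.eq_of_mul_eq_mul_left Nat.card_pos h8
          rw [h9]
          exact Dvd.dvd.mul_right hqc _
        rw [hcc, hc1, mul_one]
      have hsub : ((P : Subgroup G) : Set G) ⊆ big p G := by
        intro x hx q hq hd
        obtain ⟨k, hk⟩ := IsPGroup.iff_orderOf.1 P.isPGroup' ⟨x, hx⟩
        rw [← Subgroup.orderOf_coe] at hk
        rw [hk] at hd
        rw [(Nat.prime_dvd_prime_iff_eq hq hpp).1 (hq.dvd_of_dvd_pow hd)]
      have hbigP : big p G = ((P : Subgroup G) : Set G) := by
        symm
        apply Set.eq_of_subset_of_ncard_le hsub _ (Set.toFinite _)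
        rw [← Nat.card_coe_set_eq, ← Nat.card_coe_set_eq, hc, haP]
        exact le_rfl
      have hPn : (P : Subgroup G).Normal := by
        constructor
        intro x hx g
        have h1 : x ∈ big p G := by rw [hbigP]; exact hx
        have h2 : g * x * g⁻¹ ∈ big p G := by
          intro q hq hd
          apply h1 q hq
          have := orderOf_injective (MulAut.conj g).toMonoidHom (MulAut.conj g).injective x
          simp [MulAut.conj_apply] at this
          rwa [this] at hd
        rw [hbigP] at h2
        exact h2
      have hPne : (P : Subgroup G) ≠ ⊥ := P.ne_bot_of_dvd_card hpd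
      have hPpos : 0 < Nat.card (P : Subgroup G) := Nat.card_pos
      have hPi := (P : Subgroup G).card_mul_index
      have hquotU : U (G ⧸ (P : Subgroup G)) := by
        intro r
        by_cases hrp : r ≤ p
        · obtain ⟨a', b', hab', ha', hb', hc'⟩ := hG r
          have hpb' : ¬ p ∣ b' := fun h => by
            have := hb' p hpp h
            omega
          have h1 : Nat.card (P : Subgroup G) ∣ a' := by
            obtain ⟨k, hk⟩ := P.isPGroup'.exists_card_eq
            have h2 : Nat.card P ∣ a' * b' := by rw [hab']; exact card_subgroup_dvd_card _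
            rw [hk] at h2 ⊢
            exact (((Nat.Prime.coprime_iff_not_dvd hpp).2 hpb').pow_left k).dvd_of_dvd_mul_right h2
          obtain ⟨c, hcc⟩ := h1
          refine ⟨c, b', ?_, ?_, hb', ?_⟩
          · have h3 : Nat.card (G ⧸ (P : Subgroup G)) = (P : Subgroup G).index := rfl
            rw [h3]
            apply Nat.eq_of_mul_eq_mul_left hPpos
            rw [hPi, ← hab', hcc]; ring
          · intro q hq hd
            exact ha' q hq (by rw [hcc]; exact Dvd.dvd.mul_left hd _)
          · -- counting
            have h4 : big r G = (QuotientGroup.mk : G → G ⧸ (P : Subgroup G)) ⁻¹' (big r (G ⧸ (P : Subgroup G))) := by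
              ext x
              constructor
              · intro hx q hq hd
                exact hx q hq (hd.trans (orderOf_map_dvd (QuotientGroup.mk' (P : Subgroup G)) x))
              · intro hx q hq hd
                by_cases hqp : q = p
                · omega
                · apply hx q hq
                  have h5 : x ^ orderOf (x : G ⧸ (P : Subgroup G)) ∈ (P : Subgroup G) := by
                    rw [← QuotientGroup.eq_one_iff, QuotientGroup.mk_pow, pow_orderOf_eq_one]
                  obtain ⟨k, hk⟩ := IsPGroup.iff_orderOf.1 P.isPGroup' ⟨_, h5⟩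
                  rw [← Subgroup.orderOf_coe] at hk
                  have h6 : x ^ (orderOf (x : G ⧸ (P : Subgroup G)) * p ^ k) = 1 := by
                    rw [pow_mul, ← hk]; exact pow_orderOf_eq_one _
                  have h7 := hd.trans (orderOf_dvd_of_pow_eq_one h6)
                  rcases hq.dvd_mul.1 h7 with h | h
                  · exact h
                  · exact absurd ((Nat.prime_dvd_prime_iff_eq hq hpp).1 (hq.dvd_of_dvd_pow h)) hqp
            have h5 : Nat.card ((QuotientGroup.mk : G → G ⧸ (P : Subgroup G)) ⁻¹' (big r (G ⧸ (P : Subgroup G)))) =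
                Nat.card (P : Subgroup G) * Nat.card (big r (G ⧸ (P : Subgroup G))) := by
              rw [Nat.card_congr (QuotientGroup.preimageMkEquivSubgroupProdSet (P : Subgroup G) _), Nat.card_prod]
            rw [← h4, hc', hcc] at h5
            exact (Nat.eq_of_mul_eq_mul_left hPpos h5).symm
        · push Not at hrp
          refine ⟨1, Nat.card (G ⧸ (P : Subgroup G)), one_mul _, ?_, ?_, ?_⟩
          · intro q hq hd
            exact absurd (Nat.dvd_one.1 hd) hq.ne_one
          · intro q hq hd
            have := hmax q hq (hd.trans (by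
              have h3 : Nat.card (G ⧸ (P : Subgroup G)) = (P : Subgroup G).index := rfl
              rw [h3]; exact (P : Subgroup G).index_dvd_card))
            omega
          · have h5 : big r (G ⧸ (P : Subgroup G)) = {1} := by
              ext x
              constructor
              · intro hx
                by_contra hne1
                have h6 : orderOf x ≠ 1 := fun h => hne1 (orderOf_eq_one_iff.1 h)
                obtain ⟨q, hq, hd⟩ := Nat.exists_prime_and_dvd h6
                have h7 := hx q hq hd
                have h8 := hmax q hq ((hd.trans (orderOf_dvd_natCard x)).trans (by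
                  have h3 : Nat.card (G ⧸ (P : Subgroup G)) = (P : Subgroup G).index := rfl
                  rw [h3]; exact (P : Subgroup G).index_dvd_card))
                omega
              · intro hx q hq hd
                rw [Set.mem_singleton_iff] at hx
                rw [hx, orderOf_one] at hd
                exact absurd (Nat.dvd_one.1 hd) hq.ne_one
            rw [h5]; simp
      have hsol : Group.IsSolvable (G ⧸ (P : Subgroup G)) := ih _ (by
        have := Basic.card_quotient_lt hPne
        omega) hquotU
      haveI : Group.IsSolvable (P : Subgroup G) := by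
        haveI := P.isPGroup'.isNilpotent
        exact inferInstance
      exact Group.isSolvable_of_ker_le_range (P : Subgroup G).subtype (QuotientGroup.mk' (P : Subgroup G))
            (by rw [QuotientGroup.ker_mk', Subgroup.range_subtype])
    · rw [not_nontrivial_iff_subsingleton] at hnt
      exact Group.isSolvable_of_comm (fun a b => Subsingleton.elim _ _)

/-- groups of the same order type have an order preserving bijection -/
theorem exists_equiv {G H : Type*} [Group G] [Finite G] [Group H] [Finite H]
    (hT : (∀ m : ℕ, Nat.card {g : G // orderOf g = m} = Nat.card {h : H // orderOf h = m})) :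
    ∃ e : G ≃ H, ∀ g, orderOf (e g) = orderOf g := by
  have h1 : ∀ m : ℕ, Nonempty ({g : G // orderOf g = m} ≃ {h : H // orderOf h = m}) := fun m =>
    (Finite.card_eq).1 (hT m)
  let e := fun m => (h1 m).some
  refine ⟨(Equiv.sigmaFiberEquiv (fun g : G => orderOf g)).symm.trans
    ((Equiv.sigmaCongrRight e).trans (Equiv.sigmaFiberEquiv (fun g : H => orderOf g))), ?_⟩
  intro g
  exact (e (orderOf g) ⟨g, rfl⟩).2

end Cfsg.Agent.H2.SuperS
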