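import Mathlib
import Cfsg.Agent.H2.SuperS
import Cfsg.Agent.H2.UniqSub
import Cfsg.Agent.Lib.PGrpD
import Cfsg.Agent.Lib.FrobC
import Cfsg.Agent.Lib.Nilp
import Cfsg.Agent.Lib.CharBurnside
import Cfsg.Agent.Lib.CharFrobThm
import Cfsg.Agent.Lib.FpfNilp
import Cfsg.Agent.Lib.PiCore
import Cfsg.Prelude.Def_Solvable

/-! Frobenius groups and order types. -/

namespace Cfsg.Agent.H2.FrobType

open Subgroup Cfsg.Agent.Lib

universe u v

/-- Sylow type property of Frobenius complements -/
def R (X : Type u) [Group X] : Prop :=
  ∀ q : ℕ, q.Prime → ∀ Q : Subgroup X, IsPGroup q Q → ∃ C : Subgroup X, C ≤ Q ∧ IsCyclic C ∧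
    Nat.card Q ∣ (if q = 2 then 2 else 1) * Nat.card C

/-- a `q`-subgroup of the image of a finite group is the image of a `q`-subgroup -/
theorem exists_map_eq {X Y : Type*} [Group X] [Finite X] [Group Y] (f : X →* Y) (hf : Function.Surjective f)
    {q : ℕ} [Fact q.Prime] {Q : Subgroup Y} (hQ : IsPGroup q Q) : ∃ P : Subgroup X, IsPGroup q P ∧ P.map f = Q := by
  haveI : Finite Y := Finite.of_surjective f hf
  have hfs := f.subgroupComap_surjective_of_surjective Q hf
  obtain ⟨S⟩ : Nonempty (Sylow q (Q.comap f)) := inferInstance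
  have h1 : ((S.mapSurjective hfs : Sylow q Q) : Subgroup Q) = ⊤ := by
    have h2 : IsPGroup q (⊤ : Subgroup Q) := hQ.to_subgroup ⊤
    exact ((S.mapSurjective hfs).is_maximal' h2 le_top).symm
  have h1' : (S : Subgroup (Q.comap f)).map (f.subgroupComap Q) = ⊤ := h1
  refine ⟨(S : Subgroup (Q.comap f)).map (Q.comap f).subtype, S.isPGroup'.map _, ?_⟩
  have h3 : ((S : Subgroup (Q.comap f)).map (Q.comap f).subtype).map f =
      ((S : Subgroup (Q.comap f)).map (f.subgroupComap Q)).map Q.subtype := by
    rw [Subgroup.map_map, Subgroup.map_map]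
    rfl
  rw [h3, h1', ← MonoidHom.range_eq_map, range_subtype]

theorem R_map {X Y : Type*} [Group X] [Finite X] [Group Y] (f : X →* Y) (hf : Function.Surjective f)
    (h : R X) : R Y := by
  intro q hq Q hQ
  haveI : Fact q.Prime := ⟨hq⟩
  haveI : Finite Y := Finite.of_surjective f hf
  obtain ⟨P, hP, hPQ⟩ := exists_map_eq f hf hQ
  obtain ⟨C, hCP, hC, hd⟩ := h q hq P hP
  refine ⟨C.map f, by rw [← hPQ]; exact map_mono hCP, ?_, ?_⟩
  · exact isCyclic_of_surjective (f.subgroupMap C) (f.subgroupMap_surjective C)
  · have key : ∀ A : Subgroup X, Nat.card (f.ker ⊓ A : Subgroup X) * Nat.card (A.map f) = Nat.card A := by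
      intro A
      have h1 := (f.ker.subgroupOf A).card_mul_index
      have h2 : f.ker.relIndex A = Nat.card (A.map f) := relIndex_ker A f
      have h3 : Nat.card (f.ker ⊓ A : Subgroup X) = Nat.card (f.ker.subgroupOf A) := by
        rw [← subgroupOf_map_subtype, card_map_of_injective A.subtype_injective]
      rw [h3, ← h2]
      exact h1
    have h1 : Nat.card (f.ker ⊓ C : Subgroup X) ∣ Nat.card (f.ker ⊓ P : Subgroup X) :=
      card_dvd_of_le (inf_le_inf_left _ hCP)
    rw [← key P, ← key C, hPQ] at hd
    have hpos : 0 < Nat.card (f.ker ⊓ P : Subgroup X) := Nat.card_pos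
    apply Nat.dvd_of_mul_dvd_mul_left hpos
    refine hd.trans ?_
    rw [show Nat.card (f.ker ⊓ P : Subgroup X) * ((if q = 2 then 2 else 1) * Nat.card (C.map f)) =
      (if q = 2 then 2 else 1) * (Nat.card (f.ker ⊓ P : Subgroup X) * Nat.card (C.map f)) by ring]
    exact mul_dvd_mul_left _ (mul_dvd_mul_right h1 _)

/-- groups of fixed point free operators have property `R` -/
theorem R_of_frob {G : Type u} [Group G] [Finite G] {K H : Subgroup G} (hHK : H ≤ normalizer (K : Set G))
    (hK : K ≠ ⊥) (hcop : (Nat.card H).Coprime (Nat.card K))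
    (hfpf : ∀ h ∈ H, h ≠ 1 → K ⊓ centralizer {h} = ⊥) : R H := by
  intro q hq Q hQ
  haveI : Fact q.Prime := ⟨hq⟩
  have hPH : Q.map H.subtype ≤ H := map_subtype_le Q
  have hP : IsPGroup q (Q.map H.subtype) := hQ.map _
  have huniq : ∀ x y : Q, orderOf x = q → orderOf y = q → x ∈ zpowers y := by
    intro x y hx hy
    have h1 : (((x : H) : G)) ∈ zpowers (((y : H) : G)) := by
      apply FrobC.unique_of_fpf (hPH.trans hHK) hK (Nat.Coprime.coprime_dvd_left (card_dvd_of_le hPH) hcop)
        (fun h hh => hfpf h (hPH hh)) hP (mem_map_of_mem _ x.2) (mem_map_of_mem _ y.2)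
      · rw [coe_subtype, orderOf_coe, orderOf_coe]; exact hx
      · rw [coe_subtype, orderOf_coe, orderOf_coe]; exact hy
    obtain ⟨k, hk⟩ := h1
    exact ⟨k, Subtype.ext (Subtype.ext hk)⟩
  by_cases hq2 : q = 2
  · subst hq2
    have hu : ∀ x y : Q, orderOf x = 2 → orderOf y = 2 → x = y := by
      intro x y hx hy
      have h1 := huniq x y hx hy
      have h2 : x ∈ ({1, y} : Set Q) := by
        obtain ⟨k, hk⟩ := h1
        have h3 : y ^ (2 : ℤ) = 1 := by
          have := pow_orderOf_eq_one y
          rw [hy] at this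
          exact_mod_cast this
        rcases Int.emod_two_eq_zero_or_one k with he | ho
        · left
          rw [← hk]
          obtain ⟨c, rfl⟩ := Int.dvd_of_emod_eq_zero he
          show y ^ (2 * c) = 1
          rw [zpow_mul, h3, one_zpow]
        · right
          rw [Set.mem_singleton_iff, ← hk]
          obtain ⟨d, hd⟩ : ∃ d, k = 2 * d + 1 := ⟨k / 2, by omega⟩
          show y ^ k = y
          rw [hd, zpow_add, zpow_mul, h3, one_zpow, one_mul, zpow_one]
      rcases h2 with h2 | h2
      · rw [h2, orderOf_one] at hx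
        omega
      · exact h2
    rcases PGrpD.cyclic_or_quaternion (G := Q) hQ hu with h | ⟨m, a, b, hm, ha, -, -, -, hc⟩
    · exact ⟨Q, le_rfl, h, Dvd.intro_left _ rfl⟩
    · refine ⟨(zpowers a).map Q.subtype, map_subtype_le _, ?_, ?_⟩
      · rw [MonoidHom.map_zpowers]; exact inferInstance
      · rw [card_map_of_injective Q.subtype_injective, Nat.card_zpowers, ha, hc, if_pos rfl, ← pow_succ']
  · have hcyc : IsCyclic Q := by
      obtain ⟨k, hk⟩ := IsPGroup.iff_card.1 hQ
      by_cases hk1 : 1 < k
      · apply UniqSub.cyclic_of_unique_aux hq 1 le_rfl (Or.inl hq2) k Q hk hk1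
        intro A B hA hB
        rw [pow_one] at hA hB
        obtain ⟨a, ha⟩ := exists_prime_orderOf_dvd_card' (G := A) q (by rw [hA])
        obtain ⟨b, hb⟩ := exists_prime_orderOf_dvd_card' (G := B) q (by rw [hB])
        have ha' : orderOf (a : Q) = q := by rw [orderOf_coe]; exact ha
        have hb' : orderOf (b : Q) = q := by rw [orderOf_coe]; exact hb
        have hAz : zpowers (a : Q) = A := by
          apply eq_of_le_of_card_ge (zpowers_le.2 a.2)
          rw [Nat.card_zpowers, ha', hA]
        have hBz : zpowers (b : Q) = B := by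
          apply eq_of_le_of_card_ge (zpowers_le.2 b.2)
          rw [Nat.card_zpowers, hb', hB]
        rw [← hAz, ← hBz]
        exact le_antisymm (zpowers_le.2 (huniq _ _ ha' hb')) (zpowers_le.2 (huniq _ _ hb' ha'))
      · have hk' : k = 0 ∨ k = 1 := by omega
        rcases hk' with h | h
        · rw [h, pow_zero] at hk
          haveI := (Nat.card_eq_one_iff_unique.1 hk).1
          exact isCyclic_of_subsingleton
        · rw [h, pow_one] at hk
          exact isCyclic_of_prime_card hk
    exact ⟨Q, le_rfl, hcyc, Dvd.intro_left _ rfl⟩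

theorem trivial_of_big {G : Type u} [Group G] [Finite G] {N K : Subgroup G} [N.Normal] (hNK : N ≤ K)
    (hNab : IsMulCommutative N) (h : ∀ q : ℕ, q.Prime → q ∣ N.relIndex K → Nat.card N < q) :
    K ≤ centralizer (N : Set G) := by
  let f : K →* MulAut N := (MulAut.conjNormal (H := N)).comp K.subtype
  have hker : N.subgroupOf K ≤ f.ker := by
    intro x hx
    rw [MonoidHom.mem_ker]
    ext y
    have h1 : ((f x y : N) : G) = x * y * (x : G)⁻¹ := MulAut.conjNormal_apply _ _
    rw [h1, MulAut.one_apply]
    have h2 : (x : G) * y = y * x := congrArg Subtype.val (hNab.is_comm.comm ⟨x, hx⟩ y)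
    rw [h2]; group
  have h1 : Nat.card f.range ∣ N.relIndex K := by
    rw [← index_ker]
    exact index_dvd_of_le hker
  have h2 : Nat.card f.range ∣ (Nat.card N).factorial := by
    refine (card_subgroup_dvd_card _).trans ?_
    let g : MulAut N →* Equiv.Perm N := MulAut.toPerm N
    have hg : Function.Injective g := by
      intro a b hab
      ext x
      exact congrArg Subtype.val (congrArg (fun e : Equiv.Perm N => e x) hab)
    have h3 := card_dvd_of_injective g hg
    rwa [Nat.card_perm] at h3
  have h4 : Nat.card f.range = 1 := by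
    by_contra hne
    obtain ⟨q, hq, hd⟩ := Nat.exists_prime_and_dvd hne
    have h5 := h q hq (hd.trans h1)
    have h6 := (hq.dvd_factorial).1 (hd.trans h2)
    omega
  rw [Subgroup.card_eq_one] at h4
  intro x hx
  rw [mem_centralizer_iff]
  intro y hy
  have h5 : f ⟨x, hx⟩ = 1 := by
    have : f ⟨x, hx⟩ ∈ f.range := ⟨_, rfl⟩
    rwa [h4, mem_bot] at this
  have h6 : f ⟨x, hx⟩ ⟨y, hy⟩ = ⟨y, hy⟩ := by rw [h5]; rfl
  have h7 : x * y * x⁻¹ = y := congrArg Subtype.val h6
  calc y * x = (x * y * x⁻¹) * x := by rw [h7]
    _ = x * y := by group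

theorem tower (n : ℕ) : ∀ (G : Type u) [Group G] [Finite G], Nat.card G ≤ n → Group.IsSolvable G → R G →
    ∀ p : ℕ, 5 ≤ p → ∃ K : Subgroup G, K.Normal ∧ (∀ q : ℕ, q.Prime → q ∣ Nat.card K → p ≤ q) ∧
      (∀ q : ℕ, q.Prime → q ∣ K.index → q < p) := by
  induction n with
  | zero =>
    intro G _ _ h
    have : 0 < Nat.card G := Nat.card_pos
    omega
  | succ n ih =>
    intro G _ _ hn hG hR p hp5
    by_cases hnt : Nontrivial G
    · obtain ⟨N, hN, hNb, hNmin⟩ := Basic.exists_minimal_normal' (G := G)
      obtain ⟨hNab, r, hr, hNr⟩ := Nilp.minimal_normal_solvable_elementary (N := N) inferInstance hNb hNmin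
      haveI hrf : Fact r.Prime := ⟨hr⟩
      have hNp : IsPGroup r N := fun x => ⟨1, by rw [pow_one]; exact Subtype.ext (hNr x x.2)⟩
      obtain ⟨K₁, hK1n, hK1a, hK1b⟩ := ih (G ⧸ N) (by
        have := Basic.card_quotient_lt hNb
        omega) inferInstance (R_map (QuotientGroup.mk' N) (QuotientGroup.mk'_surjective N) hR) p hp5
      set K := K₁.comap (QuotientGroup.mk' N) with hK
      have hKn : K.Normal := hK1n.comap _
      have hKc : Nat.card K = Nat.card N * Nat.card K₁ := by
        rw [hK, Cores.card_comap_eq _ (QuotientGroup.mk'_surjective N), QuotientGroup.ker_mk']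
        try ring
      have hKi : K.index = K₁.index := index_comap_of_surjective _ (QuotientGroup.mk'_surjective N)
      have hNK : N ≤ K := by
        intro x hx
        show (QuotientGroup.mk' N) x ∈ K₁
        rw [show (QuotientGroup.mk' N) x = 1 from (QuotientGroup.eq_one_iff x).2 hx]
        exact K₁.one_mem
      obtain ⟨j, hj⟩ := IsPGroup.iff_card.1 hNp
      have hpN : ∀ q : ℕ, q.Prime → q ∣ Nat.card N → q = r := by
        intro q hq hd
        rw [hj] at hd
        exact (Nat.prime_dvd_prime_iff_eq hq hr).1 (hq.dvd_of_dvd_pow hd)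
      by_cases hpq : p ≤ r
      · refine ⟨K, hKn, ?_, ?_⟩
        · intro q hq hd
          rw [hKc] at hd
          rcases hq.dvd_mul.1 hd with h | h
          · rw [hpN q hq h]; exact hpq
          · exact hK1a q hq h
        · intro q hq hd
          rw [hKi] at hd
          exact hK1b q hq hd
      · push Not at hpq
        -- the order of N
        have hNlt : Nat.card N < p := by
          obtain ⟨C, hCN, hC, hd⟩ := hR r hr N hNp
          have hCr : Nat.card C ∣ r := by
            obtain ⟨c, hc⟩ := hC.exists_generator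
            rw [← orderOf_eq_card_of_forall_mem_zpowers hc]
            exact orderOf_dvd_of_pow_eq_one (Subtype.ext (hNr c (hCN c.2)))
          have h1 : Nat.card N ∣ (if r = 2 then 2 else 1) * r := hd.trans (mul_dvd_mul_left _ hCr)
          by_cases h2 : r = 2
          · rw [if_pos h2, h2] at h1
            have := Nat.le_of_dvd (by norm_num) h1
            omega
          · rw [if_neg h2, one_mul] at h1
            have := Nat.le_of_dvd hr.pos h1
            omega
        have hNc' : Nat.card (N.subgroupOf K) = Nat.card N := Nat.card_congr (subgroupOfEquivOfLe hNK).toEquiv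
        have hNi : (N.subgroupOf K).index = Nat.card K₁ := by
          have e1 := (N.subgroupOf K).card_mul_index
          rw [hNc', hKc] at e1
          exact Nat.eq_of_mul_eq_mul_left Nat.card_pos e1
        have hcen : K ≤ centralizer (N : Set G) := by
          apply trivial_of_big hNK hNab
          intro q hq hd
          have h1 : N.relIndex K = Nat.card K₁ := hNi
          rw [h1] at hd
          have := hK1a q hq hd
          omega
        have hnd : ¬ r ∣ Nat.card K₁ := by
          intro h
          have := hK1a _ hr h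
          omega
        have hpg : IsPGroup r (N.subgroupOf K) := IsPGroup.of_card (n := j) (by rw [hNc', hj])
        let S : Sylow r K := hpg.toSylow (by rw [hNi]; exact hnd)
        have hS : (S : Subgroup K) = N.subgroupOf K := rfl
        have hnil : PNilp.PNil r K := by
          apply Wiel.pNil_of_normalizer_le_centralizer S
          intro x _
          rw [mem_centralizer_iff]
          intro y hy
          have hy' : (y : G) ∈ N := hy
          exact Subtype.ext (mem_centralizer_iff.1 (hcen x.2) _ hy')
        haveI hch := Cores.pPrimeCore_characteristic (G := K) r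
        have hcop := Cores.pPrimeCore_coprime (G := K) r
        obtain ⟨L, hLn, hLc, k, hLk⟩ := hnil
        have hLle : L ≤ Cfsg.pPrimeCore r K := Cores.le_pPrimeCore hLn hLc
        have hcd : Nat.card (Cfsg.pPrimeCore r K) ∣ Nat.card K₁ := by
          have h1 : Nat.card (Cfsg.pPrimeCore r K) ∣ Nat.card N * Nat.card K₁ := by
            rw [← hKc]; exact card_subgroup_dvd_card _
          rw [hj] at h1
          exact (Nat.Coprime.pow_right j hcop).dvd_of_dvd_mul_left h1
        have hLK : Nat.card K₁ ∣ Nat.card L := by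
          have h1 : Nat.card K₁ ∣ Nat.card L * L.index := by
            rw [L.card_mul_index, hKc]; exact Dvd.intro_left _ rfl
          rw [hLk] at h1
          exact (((Nat.Prime.coprime_iff_not_dvd hr).2 hnd).symm.pow_right k).dvd_of_dvd_mul_right h1
        have hcc : Nat.card (Cfsg.pPrimeCore r K) = Nat.card K₁ :=
          Nat.dvd_antisymm hcd (hLK.trans (card_dvd_of_le hLle))
        have hnorm : ((Cfsg.pPrimeCore r K).map K.subtype).Normal := inferInstance
        have hcard : Nat.card ((Cfsg.pPrimeCore r K).map K.subtype) = Nat.card K₁ := by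
          rw [card_map_of_injective K.subtype_injective, hcc]
        refine ⟨(Cfsg.pPrimeCore r K).map K.subtype, hnorm, ?_, ?_⟩
        · intro q hq hd
          rw [hcard] at hd
          exact hK1a q hq hd
        · intro q hq hd
          have h1 : ((Cfsg.pPrimeCore r K).map K.subtype).index = Nat.card N * K₁.index := by
            have e1 := ((Cfsg.pPrimeCore r K).map K.subtype).card_mul_index
            rw [hcard, ← K.card_mul_index, hKc, hKi] at e1
            have hpos : 0 < Nat.card K₁ := Nat.card_pos
            apply Nat.eq_of_mul_eq_mul_left hpos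
            rw [e1]; ring
          rw [h1] at hd
          rcases hq.dvd_mul.1 hd with h | h
          · rw [hpN q hq h]; exact hpq
          · exact hK1b q hq h
    · rw [not_nontrivial_iff_subsingleton] at hnt
      refine ⟨⊤, inferInstance, ?_, ?_⟩
      · intro q hq hd
        rw [Subgroup.card_top, Nat.card_of_subsingleton (1 : G)] at hd
        exact absurd (Nat.dvd_one.1 hd) hq.ne_one
      · intro q hq hd
        rw [Subgroup.index_top] at hd
        exact absurd (Nat.dvd_one.1 hd) hq.ne_one

def U (G : Type u) [Group G] : Prop :=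
  ∀ p : ℕ, 5 ≤ p → ∃ a b : ℕ, a * b = Nat.card G ∧ (∀ q : ℕ, q.Prime → q ∣ a → p ≤ q) ∧
    (∀ q : ℕ, q.Prime → q ∣ b → q < p) ∧ Nat.card (SuperS.big p G) = a

theorem U_of_R {G : Type u} [Group G] [Finite G] (hs : Group.IsSolvable G) (h : R G) : U G := by
  intro p hp
  obtain ⟨K, hK, h1, h2⟩ := tower (Nat.card G) G le_rfl hs h p hp
  exact ⟨Nat.card K, K.index, K.card_mul_index, h1, h2, by rw [SuperS.big_eq hK h1 h2]; rfl⟩

/-- numbers all of whose prime divisors are `2` or `3` -/
theorem eq_two_pow_three_pow {n : ℕ} (hn : n ≠ 0) (h : ∀ q : ℕ, q.Prime → q ∣ n → q < 5) :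
    ∃ a b, n = 2 ^ a * 3 ^ b := by
  have h1 := Nat.factorization_prod_pow_eq_self hn
  refine ⟨n.factorization 2, n.factorization 3, ?_⟩
  conv_lhs => rw [← h1]
  rw [Finsupp.prod_of_support_subset (s := {2, 3}) _ _ _ (by simp)]
  · rw [Finset.prod_pair (by norm_num)]
  · intro q hq
    rw [Nat.support_factorization] at hq
    have hqp := Nat.prime_of_mem_primeFactors hq
    have h2 := h q hqp (Nat.dvd_of_mem_primeFactors hq)
    have h3 := hqp.two_le
    rw [Finset.mem_insert, Finset.mem_singleton]
    interval_cases q
    · left; rfl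
    · right; rfl
    · exact absurd hqp (by norm_num)

theorem solvable_of_U (n : ℕ) : ∀ (G : Type u) [Group G] [Finite G], Nat.card G ≤ n → U G →
    Group.IsSolvable G := by
  induction n with
  | zero =>
    intro G _ _ h
    have : 0 < Nat.card G := Nat.card_pos
    omega
  | succ n ih =>
    intro G _ _ hn hG
    by_cases hnt : Nontrivial G
    · have hcG : Nat.card G ≠ 1 := by
        have := Finite.one_lt_card (α := G)
        omega
      -- largest prime divisor
      have hne : (Nat.card G).primeFactors.Nonempty := by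
        rw [Nat.nonempty_primeFactors]
        exact Finite.one_lt_card (α := G)
      set p := (Nat.card G).primeFactors.max' hne with hp
      have hpm : p ∈ (Nat.card G).primeFactors := Finset.max'_mem _ _
      have hpp : p.Prime := Nat.prime_of_mem_primeFactors hpm
      have hpd : p ∣ Nat.card G := Nat.dvd_of_mem_primeFactors hpm
      haveI : Fact p.Prime := ⟨hpp⟩
      have hmax : ∀ q : ℕ, q.Prime → q ∣ Nat.card G → q ≤ p := fun q hq hd =>
        Finset.le_max' _ _ (Nat.mem_primeFactors.2 ⟨hq, hd, Nat.card_pos.ne'⟩)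
      by_cases hp5 : 5 ≤ p
      swap
      · obtain ⟨a, b, hab⟩ := eq_two_pow_three_pow (n := Nat.card G) Nat.card_pos.ne' (fun q hq hd => by
          have := hmax q hq hd
          omega)
        exact CharBurnside.burnside_paqb _ G 2 3 a b Nat.prime_two Nat.prime_three hab rfl
      obtain ⟨P⟩ : Nonempty (Sylow p G) := inferInstance
      obtain ⟨a, b, hab, ha, hb, hc⟩ := hG p hp5
      -- a = card P
      have hPb : ¬ p ∣ b := fun h => by
        have := hb p hpp h
        omega
      have haP : a = Nat.card P := by
        obtain ⟨k, hk⟩ := P.isPGroup'.exists_card_eq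
        have h1 : Nat.card P ∣ a := by
          have h2 : Nat.card P ∣ a * b := by rw [hab]; exact card_subgroup_dvd_card _
          rw [hk] at h2 ⊢
          exact (((Nat.Prime.coprime_iff_not_dvd hpp).2 hPb).pow_left k).dvd_of_dvd_mul_right h2
        obtain ⟨c, hcc⟩ := h1
        have hc1 : c = 1 := by
          by_contra hne1
          obtain ⟨q, hq, hqc⟩ := Nat.exists_prime_and_dvd hne1
          have h3 : q ∣ a := by rw [hcc]; exact Dvd.dvd.mul_left hqc _
          have h4 := ha q hq h3
          have h5 := hmax q hq (by rw [← hab]; exact Dvd.dvd.mul_right h3 _)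
          have h6 : q = p := le_antisymm h5 h4
          rw [h6] at hqc
          have h7 : ¬ p ∣ (P : Subgroup G).index := P.not_dvd_index
          apply h7
          have h8 := (P : Subgroup G).card_mul_index
          rw [← hab, hcc, mul_assoc] at h8
          have h9 := Nat.eq_of_mul_eq_mul_left Nat.card_pos h8
          rw [h9]
          exact Dvd.dvd.mul_right hqc _
        rw [hcc, hc1, mul_one]
      have hsub : ((P : Subgroup G) : Set G) ⊆ SuperS.big p G := by
        intro x hx q hq hd
        obtain ⟨k, hk⟩ := IsPGroup.iff_orderOf.1 P.isPGroup' ⟨x, hx⟩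
        rw [← Subgroup.orderOf_coe] at hk
        rw [hk] at hd
        rw [(Nat.prime_dvd_prime_iff_eq hq hpp).1 (hq.dvd_of_dvd_pow hd)]
      have hbigP : SuperS.big p G = ((P : Subgroup G) : Set G) := by
        symm
        apply Set.eq_of_subset_of_ncard_le hsub _ (Set.toFinite _)
        rw [← Nat.card_coe_set_eq, ← Nat.card_coe_set_eq, hc, haP]
        exact le_rfl
      have hPn : (P : Subgroup G).Normal := by
        constructor
        intro x hx g
        have h1 : x ∈ SuperS.big p G := by rw [hbigP]; exact hx
        have h2 : g * x * g⁻¹ ∈ SuperS.big p G := by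
          intro q hq hd
          apply h1 q hq
          have := orderOf_injective (MulAut.conj g).toMonoidHom (MulAut.conj g).injective x
          simp [MulAut.conj_apply] at this
          rwa [this] at hd
        rw [hbigP] at h2
        exact h2
      have hPne : (P : Subgroup G) ≠ ⊥ := P.ne_bot_of_dvd_card hpd
      have hPpos : 0 < Nat.card (P : Subgroup G) := Nat.card_pos
      have hPi := (P : Subgroup G).card_mul_index
      have hquotU : U (G ⧸ (P : Subgroup G)) := by
        intro r hr5
        by_cases hrp : r ≤ p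
        · obtain ⟨a', b', hab', ha', hb', hc'⟩ := hG r hr5
          have hpb' : ¬ p ∣ b' := fun h => by
            have := hb' p hpp h
            omega
          have h1 : Nat.card (P : Subgroup G) ∣ a' := by
            obtain ⟨k, hk⟩ := P.isPGroup'.exists_card_eq
            have h2 : Nat.card P ∣ a' * b' := by rw [hab']; exact card_subgroup_dvd_card _
            rw [hk] at h2 ⊢
            exact (((Nat.Prime.coprime_iff_not_dvd hpp).2 hpb').pow_left k).dvd_of_dvd_mul_right h2
          obtain ⟨c, hcc⟩ := h1
          refine ⟨c, b', ?_, ?_, hb', ?_⟩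
          · have h3 : Nat.card (G ⧸ (P : Subgroup G)) = (P : Subgroup G).index := rfl
            rw [h3]
            apply Nat.eq_of_mul_eq_mul_left hPpos
            rw [hPi, ← hab', hcc]; ring
          · intro q hq hd
            exact ha' q hq (by rw [hcc]; exact Dvd.dvd.mul_left hd _)
          · -- counting
            have h4 : SuperS.big r G = (QuotientGroup.mk : G → G ⧸ (P : Subgroup G)) ⁻¹' (SuperS.big r (G ⧸ (P : Subgroup G))) := by
              ext x
              constructor
              · intro hx q hq hd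
                exact hx q hq (hd.trans (orderOf_map_dvd (QuotientGroup.mk' (P : Subgroup G)) x))
              · intro hx q hq hd
                by_cases hqp : q = p
                · omega
                · apply hx q hq
                  have h5 : x ^ orderOf (x : G ⧸ (P : Subgroup G)) ∈ (P : Subgroup G) := by
                    rw [← QuotientGroup.eq_one_iff, QuotientGroup.mk_pow, pow_orderOf_eq_one]
                  obtain ⟨k, hk⟩ := IsPGroup.iff_orderOf.1 P.isPGroup' ⟨_, h5⟩
                  rw [← Subgroup.orderOf_coe] at hk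
                  have h6 : x ^ (orderOf (x : G ⧸ (P : Subgroup G)) * p ^ k) = 1 := by
                    rw [pow_mul, ← hk]; exact pow_orderOf_eq_one _
                  have h7 := hd.trans (orderOf_dvd_of_pow_eq_one h6)
                  rcases hq.dvd_mul.1 h7 with h | h
                  · exact h
                  · exact absurd ((Nat.prime_dvd_prime_iff_eq hq hpp).1 (hq.dvd_of_dvd_pow h)) hqp
            have h5 : Nat.card ((QuotientGroup.mk : G → G ⧸ (P : Subgroup G)) ⁻¹' (SuperS.big r (G ⧸ (P : Subgroup G)))) =
                Nat.card (P : Subgroup G) * Nat.card (SuperS.big r (G ⧸ (P : Subgroup G))) := by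
              rw [Nat.card_congr (QuotientGroup.preimageMkEquivSubgroupProdSet (P : Subgroup G) _), Nat.card_prod]
            rw [← h4, hc', hcc] at h5
            exact (Nat.eq_of_mul_eq_mul_left hPpos h5).symm
        · push Not at hrp
          refine ⟨1, Nat.card (G ⧸ (P : Subgroup G)), one_mul _, ?_, ?_, ?_⟩
          · intro q hq hd
            exact absurd (Nat.dvd_one.1 hd) hq.ne_one
          · intro q hq hd
            have := hmax q hq (hd.trans (by
              have h3 : Nat.card (G ⧸ (P : Subgroup G)) = (P : Subgroup G).index := rfl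
              rw [h3]; exact (P : Subgroup G).index_dvd_card))
            omega
          · have h5 : SuperS.big r (G ⧸ (P : Subgroup G)) = {1} := by
              ext x
              constructor
              · intro hx
                by_contra hne1
                have h6 : orderOf x ≠ 1 := fun h => hne1 (orderOf_eq_one_iff.1 h)
                obtain ⟨q, hq, hd⟩ := Nat.exists_prime_and_dvd h6
                have h7 := hx q hq hd
                have h8 := hmax q hq ((hd.trans (orderOf_dvd_natCard x)).trans (by
                  have h3 : Nat.card (G ⧸ (P : Subgroup G)) = (P : Subgroup G).index := rfl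
                  rw [h3]; exact (P : Subgroup G).index_dvd_card))
                omega
              · intro hx q hq hd
                rw [Set.mem_singleton_iff] at hx
                rw [hx, orderOf_one] at hd
                exact absurd (Nat.dvd_one.1 hd) hq.ne_one
            rw [h5]; simp
      have hsol : Group.IsSolvable (G ⧸ (P : Subgroup G)) := ih _ (by
        have := Basic.card_quotient_lt hPne
        omega) hquotU
      haveI : Group.IsSolvable (P : Subgroup G) := by
        haveI := P.isPGroup'.isNilpotent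
        exact inferInstance
      exact Group.isSolvable_of_ker_le_range (P : Subgroup G).subtype (QuotientGroup.mk' (P : Subgroup G))
            (by rw [QuotientGroup.ker_mk', Subgroup.range_subtype])
    · rw [not_nontrivial_iff_subsingleton] at hnt
      exact Group.isSolvable_of_comm (fun a b => Subsingleton.elim _ _)

/-- a normal subgroup acting like a Frobenius kernel -/
structure Ker {F : Type u} [Group F] (K : Subgroup F) : Prop where
  normal : K.Normal
  ne_bot : K ≠ ⊥
  nil : Group.IsNilpotent K
  cop : (Nat.card K).Coprime K.index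
  ord : ∀ x : F, x ∉ K → ∀ n : ℕ, x ^ n ∈ K → x ^ n = 1

theorem mem_iff {F : Type u} [Group F] [Finite F] {K : Subgroup F} (hK : Ker K) (x : F) :
    x ∈ K ↔ ∀ q : ℕ, q.Prime → q ∣ orderOf x → q ∣ Nat.card K := by
  have hn := hK.normal
  constructor
  · intro hx q _ hd
    refine hd.trans ?_
    have := orderOf_dvd_natCard (⟨x, hx⟩ : K)
    rwa [← Subgroup.orderOf_coe] at this
  · intro h
    rw [← QuotientGroup.eq_one_iff, ← orderOf_eq_one_iff]
    by_contra hne
    obtain ⟨q, hq, hd⟩ := Nat.exists_prime_and_dvd hne
    have h1 := h q hq (hd.trans (orderOf_map_dvd (QuotientGroup.mk' K) x))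
    have h2 : q ∣ K.index := hd.trans (by
      have := orderOf_dvd_natCard (x : F ⧸ K)
      exact this)
    exact hq.ne_one (Nat.eq_one_of_dvd_coprimes hK.cop h1 h2)

theorem order_eq {F : Type u} [Group F] [Finite F] {K : Subgroup F} [K.Normal] (hK : Ker K) {x : F} (hx : x ∉ K) :
    orderOf (x : F ⧸ K) = orderOf x := by
  apply Nat.dvd_antisymm (orderOf_map_dvd (QuotientGroup.mk' K) x)
  apply orderOf_dvd_of_pow_eq_one
  apply hK.ord x hx
  rw [← QuotientGroup.eq_one_iff, QuotientGroup.mk_pow]
  exact pow_orderOf_eq_one _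

theorem exists_ker {F : Type u} [Group F] [Finite F] {C : Subgroup F} (hC : Cfsg.IsFrobeniusComplement C) :
    ∃ K : Subgroup F, Ker K ∧ Subgroup.IsComplement' K C ∧ (∀ h ∈ C, h ≠ 1 → K ⊓ centralizer {h} = ⊥) := by
  obtain ⟨K, hK, hKn, hKC⟩ := CharFrobThm.frobenius (show Frob.TI C from hC.2.2)
  have hfree : ∀ h ∈ C, h ≠ 1 → ∀ k ∈ K, k * h = h * k → k = 1 := fun h hh h1 k hk hc =>
    FrobGrp.kernel_not_commute hC hK.symm hh h1 hk hc
  have hKb : K ≠ ⊥ := FrobGrp.kernel_ne_bot hC hK.symm
  have hcop := FrobGrp.kernel_coprime hC hK.symm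
  have hidx : K.index = Nat.card C := hKC.symm.index_eq_card
  refine ⟨K, ⟨hKn, hKb, ?_, by rw [hidx]; exact hcop, ?_⟩, hKC, ?_⟩
  · -- nilpotent
    have hne : Nat.card C ≠ 1 := fun h => hC.1 (Subgroup.card_eq_one.1 h)
    obtain ⟨p, hp, hpd⟩ := Nat.exists_prime_and_dvd hne
    haveI : Fact p.Prime := ⟨hp⟩
    obtain ⟨c, hc⟩ := exists_prime_orderOf_dvd_card' (G := C) p hpd
    have hc' : orderOf (c : F) = p := by rw [orderOf_coe]; exact hc
    have hc1 : (c : F) ≠ 1 := by
      intro h
      rw [h, orderOf_one] at hc'
      exact hp.one_lt.ne hc'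
    let φ : MulAut K := MulAut.conjNormal (c : F)
    have hφ : ∀ g : K, φ g = g → g = 1 := by
      intro g hg
      have h1 : (c : F) * g * (c : F)⁻¹ = g := by
        have := congrArg Subtype.val hg
        rwa [MulAut.conjNormal_apply] at this
      apply Subtype.ext
      apply hfree c c.2 hc1 g g.2
      calc (g : F) * c = ((c : F) * g * (c : F)⁻¹) * c := by rw [h1]
        _ = c * g := by group
    apply FpfNilp.isNilpotent_of_fpf (p := p) φ _ hφ
    apply orderOf_eq_prime
    · have : (MulAut.conjNormal (c : F) : MulAut K) ^ p = MulAut.conjNormal ((c : F) ^ p) := (map_pow _ _ _).symm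
      show (MulAut.conjNormal (c : F) : MulAut K) ^ p = 1
      rw [this, ← hc', pow_orderOf_eq_one, map_one]
    · intro h
      apply hKb
      rw [eq_bot_iff]
      intro x hx
      have := hφ ⟨x, hx⟩ (by rw [h, MulAut.one_apply])
      rw [mem_bot]
      exact congrArg Subtype.val this
  · intro x hx n hn
    have h1 : x ∉ Cfsg.frobeniusKernel C := by rw [← hK]; exact hx
    rw [FrobGrp.mem_frobeniusKernel] at h1
    push Not at h1
    obtain ⟨-, g, hg⟩ := h1
    have h2 : g⁻¹ * x ^ n * g ∈ K ⊓ C := by
      refine ⟨?_, ?_⟩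
      · have := hKn.conj_mem _ hn g⁻¹
        rwa [inv_inv] at this
      · have : g⁻¹ * x ^ n * g = (g⁻¹ * x * g) ^ n := by
          have h3 := conj_pow (i := n) (a := g⁻¹) (b := x)
          rw [inv_inv] at h3
          exact h3.symm
        show g⁻¹ * x ^ n * g ∈ C
        rw [this]
        exact C.pow_mem hg n
    rw [FrobGrp.kernel_inf hK.symm, mem_bot] at h2
    calc x ^ n = g * (g⁻¹ * x ^ n * g) * g⁻¹ := by group
      _ = 1 := by rw [h2]; group
  · intro h hh h1
    rw [eq_bot_iff]
    rintro k ⟨hk, hkc⟩
    rw [mem_bot]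
    exact hfree h hh h1 k hk (mem_centralizer_singleton_iff.1 hkc)

/-- elements of `p`-power order -/
def pel (p : ℕ) (X : Type u) [Group X] : Set X := {x | ∃ j, orderOf x = p ^ j}

theorem sylow_normal_iff {X : Type u} [Group X] [Finite X] {p : ℕ} [hp : Fact p.Prime] (S : Sylow p X) :
    (S : Subgroup X).Normal ↔ Nat.card (pel p X) = Nat.card S := by
  have hsub : ((S : Subgroup X) : Set X) ⊆ pel p X := by
    intro x hx
    obtain ⟨k, hk⟩ := IsPGroup.iff_orderOf.1 S.isPGroup' ⟨x, hx⟩
    rw [← Subgroup.orderOf_coe] at hk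
    exact ⟨k, hk⟩
  constructor
  · intro hn
    have h1 : pel p X = ((S : Subgroup X) : Set X) := by
      apply Set.Subset.antisymm _ hsub
      rintro x ⟨j, hj⟩
      have h2 : IsPGroup p (zpowers x) := IsPGroup.of_card (n := j) (by rw [Nat.card_zpowers, hj])
      obtain ⟨Q, hQ⟩ := h2.exists_le_sylow
      haveI := Sylow.unique_of_normal S hn
      rw [← Subsingleton.elim Q S]
      exact hQ (mem_zpowers x)
    rw [h1]; rfl
  · intro hc
    have h1 : pel p X = ((S : Subgroup X) : Set X) := by
      symm
      apply Set.eq_of_subset_of_ncard_le hsub _ (Set.toFinite _)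
      rw [← Nat.card_coe_set_eq, ← Nat.card_coe_set_eq, hc]
      exact le_rfl
    constructor
    intro x hx g
    have h2 : x ∈ pel p X := by rw [h1]; exact hx
    have h3 : g * x * g⁻¹ ∈ pel p X := by
      obtain ⟨j, hj⟩ := h2
      refine ⟨j, ?_⟩
      rw [← hj]
      exact orderOf_injective (MulAut.conj g).toMonoidHom (MulAut.conj g).injective x
    rw [h1] at h3
    exact h3

theorem card_pel_eq {F G : Type*} [Group F] [Finite F] [Group G] [Finite G] (e : F ≃ G)
    (he : ∀ g, orderOf (e g) = orderOf g) (D : ℕ → Prop) :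
    Nat.card {x : F | D (orderOf x)} = Nat.card {x : G | D (orderOf x)} :=
  Nat.card_congr (e.subtypeEquiv fun x => by
    show D (orderOf x) ↔ D (orderOf (e x))
    rw [he])

theorem exists_complement {F : Type u} {G : Type v} [Group F] [Finite F] [Group G] [Finite G] (e : F ≃ G)
    (he : ∀ g, orderOf (e g) = orderOf g) {K : Subgroup F} (hK : Ker K) (hKi : K.index ≠ 1) :
    ∃ (K' C' : Subgroup G), Cfsg.IsFrobeniusComplement C' ∧ (K' : Set G) = Cfsg.frobeniusKernel C' ∧
      Nat.card K' = Nat.card K := by
  have hKn := hK.normal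
  have hcard : Nat.card F = Nat.card G := Nat.card_congr e
  have hFcard := K.card_mul_index
  -- the Sylow subgroups for p ∣ k are normal in G
  have hsyl : ∀ p : ℕ, p.Prime → p ∣ Nat.card K → ∀ S : Sylow p G, (S : Subgroup G).Normal := by
    intro p hp hpk S
    haveI : Fact p.Prime := ⟨hp⟩
    obtain ⟨T⟩ : Nonempty (Sylow p F) := inferInstance
    have hTK : (T : Subgroup F) ≤ K := by
      intro x hx
      rw [mem_iff hK]
      intro q hq hd
      obtain ⟨j, hj⟩ := IsPGroup.iff_orderOf.1 T.isPGroup' ⟨x, hx⟩
      rw [← Subgroup.orderOf_coe] at hj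
      rw [hj] at hd
      rw [(Nat.prime_dvd_prime_iff_eq hq hp).1 (hq.dvd_of_dvd_pow hd)]
      exact hpk
    have hTn : (T : Subgroup F).Normal := by
      have hnil := hK.nil
      have h1 : ((T.subtype hTK : Sylow p K) : Subgroup K).Normal := inferInstance
      have h2 : ((T.subtype hTK : Sylow p K) : Subgroup K).Characteristic := Sylow.characteristic_of_normal _ h1
      have h3 : (((T.subtype hTK : Sylow p K) : Subgroup K).map K.subtype).Normal := inferInstance
      have h4 : ((T.subtype hTK : Sylow p K) : Subgroup K).map K.subtype = (T : Subgroup F) := by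
        rw [Sylow.coe_subtype, subgroupOf_map_subtype]
        exact inf_eq_left.2 hTK
      rwa [h4] at h3
    rw [sylow_normal_iff]
    rw [sylow_normal_iff] at hTn
    have h5 : Nat.card (pel p F) = Nat.card (pel p G) := card_pel_eq e he (fun n => ∃ j, n = p ^ j)
    rw [← h5, hTn]
    rw [Sylow.card_eq_multiplicity, Sylow.card_eq_multiplicity, hcard]
  -- the Hall subgroup
  set π : Set ℕ := {p | p ∣ Nat.card K} with hπ
  set K' := Cfsg.piCore π G with hK'
  have hK'n : K'.Normal := by rw [hK']; infer_instance
  have hK'π : PiCore.Pi π (Nat.card K') := PiCore.piCore_pi π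
  have hcopπ : ∀ n : ℕ, PiCore.Pi π n → n.Coprime K.index := by
    intro n hn
    by_contra hne
    obtain ⟨q, hq, hd⟩ := Nat.exists_prime_and_dvd (n := n.gcd K.index) hne
    have h1 := hn q hq (hd.trans (Nat.gcd_dvd_left _ _))
    exact hq.ne_one (Nat.eq_one_of_dvd_coprimes hK.cop h1 (hd.trans (Nat.gcd_dvd_right _ _)))
  have hK'c : Nat.card K' = Nat.card K := by
    apply Nat.dvd_antisymm
    · have h1 : Nat.card K' ∣ Nat.card K * K.index := by
        rw [hFcard, hcard]; exact card_subgroup_dvd_card _
      exact (hcopπ _ hK'π).dvd_of_dvd_mul_right h1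
    · rw [← Nat.factorization_le_iff_dvd Nat.card_pos.ne' Nat.card_pos.ne', Finsupp.le_def]
      intro p
      by_cases hp : p.Prime ∧ p ∣ Nat.card K
      · obtain ⟨hp, hpk⟩ := hp
        haveI : Fact p.Prime := ⟨hp⟩
        obtain ⟨S⟩ : Nonempty (Sylow p G) := inferInstance
        have hSK : (S : Subgroup G) ≤ K' := by
          apply PiCore.le_piCore (hsyl p hp hpk S)
          intro q hq hd
          obtain ⟨j, hj⟩ := S.isPGroup'.exists_card_eq
          rw [hj] at hd
          rw [(Nat.prime_dvd_prime_iff_eq hq hp).1 (hq.dvd_of_dvd_pow hd)]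
          exact hpk
        have h1 : p ^ (Nat.card G).factorization p ∣ Nat.card K' := by
          rw [← Sylow.card_eq_multiplicity S]
          exact card_dvd_of_le hSK
        have h2 := (hp.pow_dvd_iff_le_factorization Nat.card_pos.ne').1 h1
        refine le_trans ?_ h2
        rw [← hcard]
        exact (Nat.factorization_le_iff_dvd Nat.card_pos.ne' Nat.card_pos.ne').2 (card_subgroup_dvd_card K) p
      · rw [(Nat.factorization_eq_zero_iff _ _).2]
        · exact Nat.zero_le _
        · by_cases hp1 : p.Prime
          · right; left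
            exact fun h => hp ⟨hp1, h⟩
          · left; exact hp1
  have hK'i : K'.index = K.index := by
    have h1 := K'.card_mul_index
    rw [hK'c, ← hcard, ← hFcard] at h1
    exact Nat.eq_of_mul_eq_mul_left Nat.card_pos h1
  obtain ⟨C', hC'⟩ := exists_right_complement'_of_coprime (N := K') (by rw [hK'c, hK'i]; exact hK.cop)
  have hC'c : Nat.card C' = K.index := by rw [← hC'.symm.index_eq_card, hK'i]
  have hfr := FrobGrp.frobenius_of_complement (N := K') (H := C') hC'.disjoint.eq_bot hC'.sup_eq_top
    (by
      intro h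
      apply hK.ne_bot
      rw [h, card_bot] at hK'c
      exact Subgroup.card_eq_one.1 hK'c.symm)
    (by
      intro h
      rw [h, card_bot] at hC'c
      exact hKi hC'c.symm)
    (by
      intro h hh h1 n hn hc
      by_contra hn1
      -- elements of orders p and q
      obtain ⟨p, hp, hpd⟩ := Nat.exists_prime_and_dvd (fun h => hn1 (orderOf_eq_one_iff.1 h) : orderOf n ≠ 1)
      obtain ⟨q, hq, hqd⟩ := Nat.exists_prime_and_dvd (fun h' => h1 (orderOf_eq_one_iff.1 h') : orderOf h ≠ 1)
      have hpk : p ∣ Nat.card K := by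
        rw [← hK'c]
        refine hpd.trans ?_
        have := orderOf_dvd_natCard (⟨n, hn⟩ : K')
        rwa [← Subgroup.orderOf_coe] at this
      have hqi : q ∣ K.index := by
        rw [← hC'c]
        refine hqd.trans ?_
        have := orderOf_dvd_natCard (⟨h, hh⟩ : C')
        rwa [← Subgroup.orderOf_coe] at this
      obtain ⟨c, hc'⟩ := hpd
      obtain ⟨d, hd'⟩ := hqd
      have ho1 : orderOf (n ^ c) = p := by
        rw [orderOf_pow_of_dvd (by
          rintro rfl
          rw [mul_zero] at hc'
          exact (orderOf_pos n).ne' hc') ⟨p, by rw [hc', mul_comm]⟩, hc']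
        exact Nat.mul_div_cancel _ (Nat.pos_of_ne_zero (by
          rintro rfl
          rw [mul_zero] at hc'
          exact (orderOf_pos n).ne' hc'))
      have ho2 : orderOf (h ^ d) = q := by
        rw [orderOf_pow_of_dvd (by
          rintro rfl
          rw [mul_zero] at hd'
          exact (orderOf_pos h).ne' hd') ⟨q, by rw [hd', mul_comm]⟩, hd']
        exact Nat.mul_div_cancel _ (Nat.pos_of_ne_zero (by
          rintro rfl
          rw [mul_zero] at hd'
          exact (orderOf_pos h).ne' hd'))
      have hpq : p ≠ q := by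
        rintro rfl
        exact hp.ne_one (Nat.eq_one_of_dvd_coprimes hK.cop hpk hqi)
      have hcop : (orderOf (n ^ c)).Coprime (orderOf (h ^ d)) := by
        rw [ho1, ho2]; exact (Nat.coprime_primes hp hq).2 hpq
      have hcomm : Commute (n ^ c) (h ^ d) := (show Commute n h from hc).pow_pow c d
      have ho3 := hcomm.orderOf_mul_eq_mul_orderOf_of_coprime hcop
      rw [ho1, ho2] at ho3
      -- the element of F
      set y := e.symm (n ^ c * h ^ d) with hy
      have hyo : orderOf y = p * q := by
        have := he y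
        rw [hy, Equiv.apply_symm_apply] at this
        rw [hy, ← this, ho3]
      have hyK : y ∉ K := by
        intro hyK
        have h2 := (mem_iff hK y).1 hyK q hq (by rw [hyo]; exact Dvd.intro_left _ rfl)
        exact hq.ne_one (Nat.eq_one_of_dvd_coprimes hK.cop h2 hqi)
      have h3 := order_eq hK hyK
      have h4 : p ∣ K.index := by
        have h5 : orderOf (y : F ⧸ K) ∣ K.index := orderOf_dvd_natCard (y : F ⧸ K)
        rw [h3, hyo] at h5
        exact (Dvd.intro _ rfl).trans h5
      exact hp.ne_one (Nat.eq_one_of_dvd_coprimes hK.cop hpk h4))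
  exact ⟨K', C', hfr.1, hfr.2.symm, hK'c⟩

theorem card_big {F : Type u} [Group F] [Finite F] {K : Subgroup F} [K.Normal] (hK : Ker K) (p : ℕ) :
    Nat.card {x : F | (∀ q : ℕ, q.Prime → q ∣ orderOf x → q ∣ Nat.card K) ∨
      (∀ q : ℕ, q.Prime → q ∣ orderOf x → p ≤ q)} = Nat.card K * Nat.card (SuperS.big p (F ⧸ K)) := by
  rw [← Nat.card_prod, ← Nat.card_congr (QuotientGroup.preimageMkEquivSubgroupProdSet K _)]
  congr 1
  apply congrArg
  ext x
  constructor
  · rintro (h | h)
    · have h1 := (mem_iff hK x).2 h
      intro q hq hd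
      rw [(QuotientGroup.eq_one_iff x).2 h1, orderOf_one] at hd
      exact absurd (Nat.dvd_one.1 hd) hq.ne_one
    · intro q hq hd
      exact h q hq (hd.trans (orderOf_map_dvd (QuotientGroup.mk' K) x))
  · intro h
    by_cases hx : x ∈ K
    · left
      exact (mem_iff hK x).1 hx
    · right
      have h1 := order_eq hK hx
      intro q hq hd
      rw [← h1] at hd
      exact h q hq hd

theorem solvable_transfer {F : Type u} {G : Type v} [Group F] [Finite F] [Group G] [Finite G] (e : F ≃ G)
    (he : ∀ g, orderOf (e g) = orderOf g) {K : Subgroup F} (hK : Ker K) {K' : Subgroup G} (hK' : Ker K')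
    (hc : Nat.card K' = Nat.card K) (hF : Group.IsSolvable F) (hR : ∃ C : Subgroup F, IsComplement' K C ∧ R C) :
    Group.IsSolvable G := by
  have hn := hK.normal
  have hn' := hK'.normal
  obtain ⟨C, hKC, hRC⟩ := hR
  have hRF : R (F ⧸ K) := by
    apply R_map ((QuotientGroup.mk' K).comp C.subtype) _ hRC
    intro y
    obtain ⟨x, rfl⟩ := QuotientGroup.mk'_surjective K y
    have hx : x ∈ K ⊔ C := by rw [hKC.sup_eq_top]; trivial
    obtain ⟨k, hk, c, hc, rfl⟩ := (mem_sup_of_normal_left).1 hx
    refine ⟨⟨c, hc⟩, ?_⟩
    show QuotientGroup.mk' K c = QuotientGroup.mk' K (k * c)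
    rw [map_mul, show QuotientGroup.mk' K k = 1 from (QuotientGroup.eq_one_iff k).2 hk, one_mul]
  have hU := U_of_R (G := F ⧸ K) inferInstance hRF
  have hcard : Nat.card F = Nat.card G := Nat.card_congr e
  have hidx : Nat.card (F ⧸ K) = Nat.card (G ⧸ K') := by
    have h1 := K.card_mul_index
    have h2 := K'.card_mul_index
    rw [hc, ← hcard, ← h1] at h2
    exact (Nat.eq_of_mul_eq_mul_left Nat.card_pos h2).symm
  have hU' : U (G ⧸ K') := by
    intro p hp
    obtain ⟨a, b, h1, h2, h3, h4⟩ := hU p hp
    refine ⟨a, b, by rw [h1, hidx], h2, h3, ?_⟩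
    rw [← h4]
    have h5 := card_big hK p
    have h6 := card_big hK' p
    have h7 := card_pel_eq e he (fun n => (∀ q : ℕ, q.Prime → q ∣ n → q ∣ Nat.card K) ∨
      (∀ q : ℕ, q.Prime → q ∣ n → p ≤ q))
    rw [hc] at h6
    rw [← h7, h5] at h6
    exact (Nat.eq_of_mul_eq_mul_left Nat.card_pos h6).symm
  have hsol := solvable_of_U _ (G ⧸ K') le_rfl hU'
  have hnil := hK'.nil
  exact Group.isSolvable_of_ker_le_range K'.subtype (QuotientGroup.mk' K')
            (by rw [QuotientGroup.ker_mk', Subgroup.range_subtype])

theorem forward {F : Type u} {G : Type v} [Group F] [Finite F] [Group G] [Finite G]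
    (hF : ∃ C : Subgroup F, Cfsg.IsFrobeniusComplement C) (e : F ≃ G)
    (he : ∀ g, orderOf (e g) = orderOf g) :
    (∃ C : Subgroup G, Cfsg.IsFrobeniusComplement C) ∧ (Group.IsSolvable F → Group.IsSolvable G) := by
  obtain ⟨C, hC⟩ := hF
  obtain ⟨K, hK, hKC, hfpf⟩ := exists_ker hC
  have hn := hK.normal
  have hi : K.index = Nat.card C := hKC.symm.index_eq_card
  have hi1 : K.index ≠ 1 := by
    rw [hi]
    exact fun h => hC.1 (Subgroup.card_eq_one.1 h)
  obtain ⟨K', C', hC', hKC', hc⟩ := exists_complement e he hK hi1
  refine ⟨⟨C', hC'⟩, fun hs => ?_⟩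
  obtain ⟨K₁, hK₁, hK₁C, -⟩ := exists_ker hC'
  have hc1 : Nat.card K₁ = Nat.card K := by
    have h1 := hK₁C.card_mul
    have h2 := FrobGrp.kernel_card hC' hKC'.symm
    have h3 := C'.card_mul_index
    rw [← h2, hc] at h3
    have hpos : 0 < Nat.card C' := Nat.card_pos
    apply Nat.eq_of_mul_eq_mul_right hpos
    rw [h1, ← h3, mul_comm]
  refine solvable_transfer e he hK hK₁ hc1 hs ⟨C, hKC, ?_⟩
  refine R_of_frob (K := K) (by rw [normalizer_eq_top]; exact le_top) hK.ne_bot ?_ hfpf
  rw [← hi]; exact hK.cop.symm

end Cfsg.Agent.H2.FrobType
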