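import Mathlib
import Cfsg.Agent.H2.FpfFour
import Cfsg.Agent.H2.FrobType
import Cfsg.Agent.H3.Sylow
import Cfsg.Agent.Lib.FrobC
import Cfsg.Agent.Lib.Nilp
import Cfsg.Agent.Lib.Cores
import Cfsg.Agent.Lib.MinAct
import Cfsg.Agent.Lib.CharFrobThm

/-! Finite groups in which every element has prime order. -/

namespace Cfsg.Agent.H2.PrimeOrd

open Subgroup Cfsg.Agent.Lib Cfsg.Agent.Lib.Coprime Cfsg.Agent.Lib.CoprimeB
open scoped commutatorElement

universe u

section frob

variable {V : Type*} [CommGroup V] [Finite V]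

/-- `K⟨t⟩` Frobenius group of automorphisms, all norms of `t` trivial: `K = 1`. -/
theorem frob_trivial {K : Subgroup (MulAut V)} {t : MulAut V} (htK : t ∈ normalizer (K : Set (MulAut V)))
    (hfree : ∀ s ∈ zpowers t, s ≠ 1 → K ⊓ centralizer ({s} : Set (MulAut V)) = ⊥)
    (hT' : ∀ (_ : Fintype (zpowers t)) (w : V), ∏ s : zpowers t, (s : MulAut V) w = 1)
    (hcop : (Nat.card K).Coprime (Nat.card V)) : K = ⊥ := by
  classical
  haveI : Fintype K := Fintype.ofFinite _
  haveI : Fintype (zpowers t) := Fintype.ofFinite _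
  have hT := hT' inferInstance
  have hK : ∀ s ∈ zpowers t, ∀ k ∈ K, s * k * s⁻¹ ∈ K := by
    intro s hs k hk
    exact (mem_normalizer_iff.1 ((zpowers_le.2 htK) hs) k).1 hk
  have hK' : ∀ s ∈ zpowers t, ∀ k ∈ K, s⁻¹ * k * s ∈ K := by
    intro s hs k hk
    have := hK s⁻¹ (inv_mem hs) k hk
    rwa [inv_inv] at this
  let N : V → V := fun v => ∏ k : K, (k : MulAut V) v
  have hNfix : ∀ v, ∀ k ∈ K, k (N v) = N v := by
    intro v k hk
    show k (∏ k : K, (k : MulAut V) v) = ∏ k : K, (k : MulAut V) v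
    rw [map_prod]
    exact Equiv.prod_comp (Equiv.mulLeft (⟨k, hk⟩ : K)) (fun k : K => (k : MulAut V) v)
  have h1 : ∀ v : V, ∏ x : K, ∏ s : zpowers t, ((x : MulAut V) * s * (x : MulAut V)⁻¹) v = 1 := by
    intro v
    apply Finset.prod_eq_one
    intro x _
    have : ∀ s : zpowers t, ((x : MulAut V) * s * (x : MulAut V)⁻¹) v = (x : MulAut V) ((s : MulAut V) ((x : MulAut V)⁻¹ v)) :=
      fun s => rfl
    simp only [this]
    rw [← map_prod, hT, map_one]
  have h2 : ∀ v : V, ∀ s : zpowers t, (s : MulAut V) ≠ 1 →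
      ∏ x : K, ((x : MulAut V) * s * (x : MulAut V)⁻¹) v = (s : MulAut V) (N v) := by
    intro v s hs
    let β : K → K := fun x => ⟨(s : MulAut V)⁻¹ * x * s * (x : MulAut V)⁻¹,
      K.mul_mem (hK' s s.2 x x.2) (K.inv_mem x.2)⟩
    have hβ : Function.Injective β := by
      intro x y hxy
      have h3 : (s : MulAut V)⁻¹ * x * s * (x : MulAut V)⁻¹ = (s : MulAut V)⁻¹ * y * s * (y : MulAut V)⁻¹ :=
        congrArg Subtype.val hxy
      have h4 : (y : MulAut V)⁻¹ * x ∈ K ⊓ centralizer ({(s : MulAut V)} : Set (MulAut V)) := by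
        refine ⟨K.mul_mem (K.inv_mem y.2) x.2, mem_centralizer_singleton_iff.2 ?_⟩
        have h5 : (x : MulAut V) * s * (x : MulAut V)⁻¹ = y * s * (y : MulAut V)⁻¹ := by
          have : (s : MulAut V) * ((s : MulAut V)⁻¹ * x * s * (x : MulAut V)⁻¹) = s * ((s : MulAut V)⁻¹ * y * s * (y : MulAut V)⁻¹) :=
            congrArg (fun z => (s : MulAut V) * z) h3
          calc (x : MulAut V) * s * (x : MulAut V)⁻¹ = s * ((s : MulAut V)⁻¹ * x * s * (x : MulAut V)⁻¹) := by group
            _ = s * ((s : MulAut V)⁻¹ * y * s * (y : MulAut V)⁻¹) := this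
            _ = y * s * (y : MulAut V)⁻¹ := by group
        calc (y : MulAut V)⁻¹ * x * s = (y : MulAut V)⁻¹ * (x * s * (x : MulAut V)⁻¹) * x := by group
          _ = (y : MulAut V)⁻¹ * (y * s * (y : MulAut V)⁻¹) * x := by rw [h5]
          _ = s * ((y : MulAut V)⁻¹ * x) := by group
      rw [hfree s s.2 hs, mem_bot, inv_mul_eq_one] at h4
      exact Subtype.ext h4.symm
    have hβ' : Function.Bijective β := Finite.injective_iff_bijective.1 hβ
    have h3 : ∀ x : K, ((x : MulAut V) * s * (x : MulAut V)⁻¹) v = (s : MulAut V) ((β x : MulAut V) v) := by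
      intro x
      have : (x : MulAut V) * s * (x : MulAut V)⁻¹ = (s : MulAut V) * ((s : MulAut V)⁻¹ * x * s * (x : MulAut V)⁻¹) := by
        group
      rw [this]; rfl
    simp only [h3]
    rw [← map_prod]
    congr 1
    exact Equiv.prod_comp (Equiv.ofBijective β hβ') (fun k : K => (k : MulAut V) v)
  -- conclusion
  have h3 : ∀ v : V, ∀ k ∈ K, k (v ^ Nat.card K) = v ^ Nat.card K := by
    intro v k hk
    have h4 := h1 v
    rw [Finset.prod_comm, ← Finset.mul_prod_erase _ _ (Finset.mem_univ (1 : zpowers t))] at h4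
    have h5 : ∏ x : K, ((x : MulAut V) * ((1 : zpowers t) : MulAut V) * (x : MulAut V)⁻¹) v = v ^ Nat.card K := by
      have : ∀ x : K, ((x : MulAut V) * ((1 : zpowers t) : MulAut V) * (x : MulAut V)⁻¹) v = v := by
        intro x
        rw [OneMemClass.coe_one, mul_one, mul_inv_cancel, MulAut.one_apply]
      simp only [this]
      rw [Finset.prod_const, Finset.card_univ, Nat.card_eq_fintype_card]
    rw [h5] at h4
    have h6 : v ^ Nat.card K = (∏ s ∈ Finset.univ.erase (1 : zpowers t),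
        ∏ x : K, ((x : MulAut V) * (s : MulAut V) * (x : MulAut V)⁻¹) v)⁻¹ := eq_inv_of_mul_eq_one_left h4
    rw [h6, map_inv, map_prod]
    congr 1
    apply Finset.prod_congr rfl
    intro s hs
    have hs1 : (s : MulAut V) ≠ 1 := fun h => (Finset.mem_erase.1 hs).1 (Subtype.ext h)
    rw [h2 v s hs1]
    have h7 := hNfix v _ (hK' s s.2 k hk)
    have h8 : k ((s : MulAut V) (N v)) = (s : MulAut V) (((s : MulAut V)⁻¹ * k * s) (N v)) := by
      have : k * (s : MulAut V) = s * ((s : MulAut V)⁻¹ * k * s) := by group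
      exact congrArg (fun z : MulAut V => z (N v)) this
    rw [h8, h7]
  rw [eq_bot_iff]
  intro k hk
  rw [mem_bot]
  ext v
  rw [MulAut.one_apply]
  obtain ⟨m, hm⟩ := exists_pow_eq_self_of_coprime (x := v) (n := Nat.card K)
    (hcop.coprime_dvd_right (orderOf_dvd_natCard v))
  rw [← hm, map_pow, h3 v k hk]

end frob

/-- every nontrivial element has prime order -/
def PO (G : Type u) [Group G] : Prop := ∀ g : G, g ≠ 1 → (orderOf g).Prime

theorem PO.subgroup {G : Type u} [Group G] (h : PO G) (H : Subgroup G) : PO H := by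
  intro g hg
  rw [← orderOf_coe]
  exact h g (fun e => hg (Subtype.ext e))

theorem PO.quotient {G : Type u} [Group G] (h : PO G) (N : Subgroup G) [N.Normal] : PO (G ⧸ N) := by
  intro y hy
  obtain ⟨g, rfl⟩ := QuotientGroup.mk'_surjective N y
  have hg : g ≠ 1 := by
    rintro rfl
    exact hy (map_one _)
  have h1 : orderOf (QuotientGroup.mk' N g) ∣ orderOf g := orderOf_map_dvd _ g
  rcases (Nat.dvd_prime (h g hg)).1 h1 with h2 | h2
  · exact absurd (orderOf_eq_one_iff.1 h2) hy
  · rw [h2]; exact h g hg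

theorem PO.not_comm {G : Type u} [Group G] (h : PO G) {x y : G} (hx : x ≠ 1) (hy : y ≠ 1)
    (hne : orderOf x ≠ orderOf y) (hc : x * y = y * x) : False := by
  have hp := h x hx
  have hq := h y hy
  have h1 : (orderOf x).Coprime (orderOf y) := (Nat.coprime_primes hp hq).2 hne
  have h2 := (show Commute x y from hc).orderOf_mul_eq_mul_orderOf_of_coprime h1
  have h3 : x * y ≠ 1 := by
    intro h3
    rw [h3, orderOf_one] at h2
    have := Nat.eq_one_of_mul_eq_one_right h2.symm
    exact hp.ne_one this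
  have h4 := h _ h3
  rw [h2] at h4
  exact (Nat.not_prime_mul hp.ne_one hq.ne_one) h4

theorem PO.orderOf_eq {G : Type u} [Group G] (h : PO G) {p : ℕ} (hp : p.Prime) {P : Subgroup G} (hP : IsPGroup p P)
    {x : G} (hx : x ∈ P) (hx1 : x ≠ 1) : orderOf x = p := by
  haveI : Fact p.Prime := ⟨hp⟩
  obtain ⟨k, hk⟩ := IsPGroup.iff_orderOf.1 hP ⟨x, hx⟩
  rw [← Subgroup.orderOf_coe] at hk
  have h1 := h x hx1
  have h2 : (orderOf x) ∣ p ^ k := by rw [← hk]
  exact (Nat.prime_dvd_prime_iff_eq h1 hp).1 (h1.dvd_of_dvd_pow h2)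

/-- fixed point free action of `q`-groups on `p`-groups -/
theorem PO.fpf {G : Type u} [Group G] (h : PO G) {p : ℕ} (hp : p.Prime) {R : Subgroup G} (hR : IsPGroup p R)
    {x : G} (hx : x ≠ 1) (hxp : orderOf x ≠ p) : R ⊓ centralizer ({x} : Set G) = ⊥ := by
  rw [eq_bot_iff]
  rintro y ⟨hy, hyc⟩
  rw [mem_bot]
  by_contra hy1
  refine h.not_comm hy1 hx ?_ (mem_centralizer_singleton_iff.1 hyc)
  rw [h.orderOf_eq hp hR hy hy1]
  exact Ne.symm hxp

theorem PO.card_le {G : Type u} [Group G] [Finite G] (h : PO G) {p q : ℕ} (hp : p.Prime) (hq : q.Prime) (hpq : q ≠ p)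
    {R Q : Subgroup G} (hR : IsPGroup p R) (hRb : R ≠ ⊥) (hQ : IsPGroup q Q) (hQR : Q ≤ normalizer (R : Set G)) :
    Nat.card Q ∣ q := by
  haveI : Fact p.Prime := ⟨hp⟩
  haveI : Fact q.Prime := ⟨hq⟩
  have hcop : (Nat.card Q).Coprime (Nat.card R) := by
    obtain ⟨a, ha⟩ := IsPGroup.iff_card.1 hQ
    obtain ⟨b, hb⟩ := IsPGroup.iff_card.1 hR
    rw [ha, hb]
    exact Nat.Coprime.pow a b ((Nat.coprime_primes hq hp).2 hpq)
  by_cases hQb : Q = ⊥
  · rw [hQb, card_bot]; exact one_dvd _
  obtain ⟨⟨y, hy⟩, hy1⟩ := (Subgroup.ne_bot_iff_exists_ne_one (H := Q)).1 hQb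
  have hy1' : y ≠ 1 := fun e => hy1 (Subtype.ext e)
  have hyo := h.orderOf_eq hq hQ hy hy1'
  have hfpf : ∀ z ∈ Q, z ≠ 1 → R ⊓ centralizer ({z} : Set G) = ⊥ := by
    intro z hz hz1
    exact h.fpf hp hR hz1 (by rw [h.orderOf_eq hq hQ hz hz1]; exact hpq)
  have h1 : Q ≤ zpowers y := by
    intro x hx
    by_cases hx1 : x = 1
    · rw [hx1]; exact one_mem _
    exact FrobC.unique_of_fpf hQR hRb hcop hfpf hQ hx hy (h.orderOf_eq hq hQ hx hx1) hyo
  refine (card_dvd_of_le h1).trans ?_
  rw [Nat.card_zpowers, hyo]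

/-- the `p`-core is self-centralizing up to `p`-elements; main technical lemma: no elements of order `p`
acting on the top. -/
theorem no_frob {G : Type u} [Group G] [Finite G] (h : PO G) {p q : ℕ} (hp : p.Prime) (hq : q.Prime) (hpq : q ≠ p)
    {R Q : Subgroup G} (hRn : R.Normal) (hR : IsPGroup p R) (hRb : R ≠ ⊥) (hQ : Nat.card Q = q) {m : G}
    (hm : orderOf m = p) (hmR : m ∉ R) (hmQ : m ∈ normalizer (Q : Set G)) : False := by
  classical
  haveI : Fact p.Prime := ⟨hp⟩
  haveI : Fact q.Prime := ⟨hq⟩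
  have hQp : IsPGroup q Q := IsPGroup.of_card (n := 1) (by rw [hQ, pow_one])
  have hRnil : Group.IsNilpotent R := hR.isNilpotent
  have hcent : R ⊓ centralizer (R : Set G) ≠ ⊥ := by
    have hnt : Nontrivial R := (nontrivial_iff_ne_bot R).2 hRb
    have h1 : (center R) ≠ ⊥ := (nontrivial_iff_ne_bot _).1 hR.center_nontrivial
    intro h2
    apply h1
    rw [eq_bot_iff]
    intro x hx
    have h3 : (x : G) ∈ R ⊓ centralizer (R : Set G) := by
      refine ⟨x.2, mem_centralizer_iff.2 ?_⟩
      intro y hy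
      exact congrArg Subtype.val (mem_center_iff.1 hx ⟨y, hy⟩)
    rw [h2, mem_bot] at h3
    rw [mem_bot]
    exact Subtype.ext h3
  set V := R ⊓ centralizer (R : Set G) with hV
  have hVn : V.Normal := by rw [hV]; infer_instance
  have hVR : V ≤ R := inf_le_left
  have hVp : IsPGroup p V := hR.to_le hVR
  have hVcomm : ∀ a ∈ V, ∀ b ∈ V, a * b = b * a := by
    intro a ha b hb
    exact mem_centralizer_iff.1 hb.2 a (hVR ha)
  letI : CommGroup V := { (inferInstance : Group V) with mul_comm := fun a b => Subtype.ext (hVcomm a a.2 b b.2) }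
  let φ : G →* MulAut V := MulAut.conjNormal
  have hφ : ∀ g (v : V), ((φ g v : V) : G) = g * v * g⁻¹ := fun g v => MulAut.conjNormal_apply g v
  obtain ⟨⟨v₀, hv₀⟩, hv₀1⟩ := (Subgroup.ne_bot_iff_exists_ne_one (H := V)).1 hcent
  have hv₀1' : v₀ ≠ 1 := fun e => hv₀1 (Subtype.ext e)
  have hv₀p : orderOf v₀ = p := h.orderOf_eq hp hVp hv₀ hv₀1'
  have hQo : ∀ x ∈ Q, x ≠ 1 → orderOf x = q := fun x hx hx1 => h.orderOf_eq hq hQp hx hx1
  have hker : ∀ x ∈ Q, φ x = 1 → x = 1 := by
    intro x hx hx1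
    by_contra hne
    have h1 : x * v₀ * x⁻¹ = v₀ := by
      have := hφ x ⟨v₀, hv₀⟩
      rw [hx1, MulAut.one_apply] at this
      exact this.symm
    refine h.not_comm hne hv₀1' ?_ ?_
    · rw [hQo x hx hne, hv₀p]; exact hpq
    · calc x * v₀ = (x * v₀ * x⁻¹) * x := by group
        _ = v₀ * x := by rw [h1]
  have hmi : ∀ i : ℤ, m ^ i ∈ normalizer (Q : Set G) := fun i => zpow_mem hmQ i
  have hcomm : ∀ x ∈ Q, ∀ i : ℤ, φ x * φ (m ^ i) = φ (m ^ i) * φ x → x * m ^ i = m ^ i * x := by
    intro x hx i hc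
    have h1 : x * (m ^ i * x⁻¹ * (m ^ i)⁻¹) ∈ Q :=
      mul_mem hx ((mem_normalizer_iff.1 (hmi i) _).1 (inv_mem hx))
    have h2 : φ (x * (m ^ i * x⁻¹ * (m ^ i)⁻¹)) = 1 := by
      rw [map_mul, map_mul, map_mul, map_inv, map_inv]
      calc φ x * (φ (m ^ i) * (φ x)⁻¹ * (φ (m ^ i))⁻¹) = (φ x * φ (m ^ i)) * (φ x)⁻¹ * (φ (m ^ i))⁻¹ := by group
        _ = 1 := by rw [hc]; group
    have h3 := hker _ h1 h2
    calc x * m ^ i = (x * (m ^ i * x⁻¹ * (m ^ i)⁻¹)) * (m ^ i * x) := by group
      _ = m ^ i * x := by rw [h3, one_mul]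
  have hQb : Q ≠ ⊥ := by
    intro e
    rw [e, card_bot] at hQ
    exact hq.one_lt.ne hQ
  obtain ⟨⟨x₀, hx₀⟩, hx₀1⟩ := (Subgroup.ne_bot_iff_exists_ne_one (H := Q)).1 hQb
  have hx₀1' : x₀ ≠ 1 := fun e => hx₀1 (Subtype.ext e)
  have hm1 : m ≠ 1 := by
    rintro rfl
    exact hmR (one_mem _)
  have hφm : φ m ≠ 1 := by
    intro e
    have h1 := hcomm x₀ hx₀ 1 (by rw [zpow_one, e, one_mul, mul_one])
    rw [zpow_one] at h1
    refine h.not_comm hx₀1' hm1 ?_ h1
    rw [hQo x₀ hx₀ hx₀1', hm]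
    exact hpq
  have hφmp : orderOf (φ m) = p := by
    apply orderOf_eq_prime _ hφm
    rw [← map_pow, ← hm, pow_orderOf_eq_one, map_one]
  have hbot : Q.map φ = ⊥ := by
    apply frob_trivial (t := φ m)
    · -- normalizer
      apply FpfFour.mem_normalizer_of
      rintro _ ⟨x, hx, rfl⟩
      refine ⟨m * x * m⁻¹, (mem_normalizer_iff.1 hmQ x).1 hx, ?_⟩
      rw [map_mul, map_mul, map_inv]
    · rintro _ ⟨i, rfl⟩ hs
      rw [eq_bot_iff]
      rintro _ ⟨⟨x, hx, rfl⟩, hxc⟩
      rw [mem_bot]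
      by_contra hx1
      have hs' : φ (m ^ i) ≠ 1 := by rw [map_zpow]; exact hs
      have h1 : x * m ^ i = m ^ i * x := by
        apply hcomm x hx i
        have := mem_centralizer_singleton_iff.1 hxc
        rw [map_zpow]
        exact this
      have hx1' : x ≠ 1 := by
        rintro rfl
        exact hx1 (map_one _)
      have hmi1 : m ^ i ≠ 1 := by
        intro e
        rw [e, map_one] at hs'
        exact hs' rfl
      refine h.not_comm hx1' hmi1 ?_ h1
      rw [hQo x hx hx1']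
      have h2 : orderOf (m ^ i) ∣ p := by rw [← hm]; exact orderOf_dvd_of_mem_zpowers (zpow_mem (mem_zpowers m) i)
      rcases (Nat.dvd_prime hp).1 h2 with h3 | h3
      · exact absurd (orderOf_eq_one_iff.1 h3) hmi1
      · rw [h3]; exact hpq
    · intro _ w
      -- the norm
      have key : ∀ n : ℕ, (((∏ i ∈ Finset.range n, ((φ m) ^ i : MulAut V) w : V)) : G) * m ^ n = ((w : G) * m) ^ n := by
        intro n
        induction n with
        | zero => simp
        | succ n ih =>
          rw [Finset.prod_range_succ, Subgroup.coe_mul, pow_succ ((w : G) * m), ← ih, ← map_pow, hφ, pow_succ]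
          group
      have h1 : ((w : G) * m) ^ p = 1 := by
        have hwm : (w : G) * m ∉ R := by
          intro e
          exact hmR ((R.mul_mem_cancel_left (hVR w.2)).1 e)
        have hwm1 : (w : G) * m ≠ 1 := fun e => hwm (by rw [e]; exact one_mem _)
        have h2 := h _ hwm1
        have h3 : orderOf (QuotientGroup.mk' R ((w : G) * m)) ∣ orderOf ((w : G) * m) := orderOf_map_dvd _ _
        have h4 : QuotientGroup.mk' R ((w : G) * m) = QuotientGroup.mk' R m := by
          rw [map_mul, show QuotientGroup.mk' R (w : G) = 1 from (QuotientGroup.eq_one_iff _).2 (hVR w.2), one_mul]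
        have h5 : orderOf (QuotientGroup.mk' R m) = p := by
          apply orderOf_eq_prime
          · rw [← map_pow, ← hm, pow_orderOf_eq_one, map_one]
          · intro e
            exact hmR ((QuotientGroup.eq_one_iff m).1 e)
        rw [h4, h5] at h3
        rw [(Nat.prime_dvd_prime_iff_eq hp h2).1 h3]
        exact pow_orderOf_eq_one _
      have h2 := key p
      rw [h1] at h2
      have hmp : m ^ p = 1 := by rw [← hm]; exact pow_orderOf_eq_one m
      rw [hmp, mul_one] at h2
      have h3 : ∏ i ∈ Finset.range p, ((φ m) ^ i : MulAut V) w = 1 := Subtype.ext h2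
      rw [← h3]
      symm
      -- reindex
      rw [← Fin.prod_univ_eq_prod_range (fun i => ((φ m) ^ i : MulAut V) w) p]
      have e : Fin p ≃ zpowers (φ m) := (finCongr hφmp.symm).trans (finEquivZPowers (isOfFinOrder_of_finite (φ m)))
      refine Fintype.prod_equiv ((finCongr hφmp.symm).trans (finEquivZPowers (isOfFinOrder_of_finite (φ m)))) _ _ ?_
      intro i
      rfl
    · have h1 : Nat.card (Q.map φ) ∣ q := by rw [← hQ]; exact card_map_dvd _ _
      obtain ⟨b, hb⟩ := IsPGroup.iff_card.1 hVp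
      rw [hb]
      exact Nat.Coprime.coprime_dvd_left h1 (((Nat.coprime_primes hq hp).2 hpq).pow_right b)
  apply hx₀1'
  apply hker x₀ hx₀
  have : φ x₀ ∈ Q.map φ := mem_map_of_mem _ hx₀
  rwa [hbot, mem_bot] at this

theorem struct {G : Type u} [Group G] [Finite G] [Nontrivial G] (h : PO G) (hs : Group.IsSolvable G) :
    ∃ (p : ℕ) (R : Subgroup G), p.Prime ∧ R.Normal ∧ R ≠ ⊥ ∧ IsPGroup p R ∧
      (R.index = 1 ∨ (R.index.Prime ∧ R.index ≠ p)) := by
  obtain ⟨N₀, hN₀, hN₀b, hN₀m⟩ := Basic.exists_minimal_normal' (G := G)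
  obtain ⟨-, p, hp, hN₀p⟩ := Nilp.minimal_normal_solvable_elementary (N := N₀) inferInstance hN₀b hN₀m
  haveI : Fact p.Prime := ⟨hp⟩
  set R := Cfsg.pCore p G with hR
  have hRn : R.Normal := Cores.pCore_normal p
  have hRp : IsPGroup p R := Cores.pCore_isPGroup p
  have hN₀R : N₀ ≤ R := Cores.le_pCore hN₀ (fun x => ⟨1, by rw [pow_one]; exact Subtype.ext (hN₀p x x.2)⟩)
  have hRb : R ≠ ⊥ := fun e => hN₀b (by rw [eq_bot_iff, ← e]; exact hN₀R)
  refine ⟨p, R, hp, hRn, hRb, hRp, ?_⟩
  by_cases htop : R = ⊤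
  · left; rw [htop, index_top]
  right
  have hnt : Nontrivial (G ⧸ R) := QuotientGroup.nontrivial_iff.2 htop
  obtain ⟨K₁, hK₁n, hK₁b, hK₁m⟩ := Basic.exists_minimal_normal' (G := G ⧸ R)
  obtain ⟨-, q, hq, hK₁q⟩ := Nilp.minimal_normal_solvable_elementary (N := K₁) inferInstance hK₁b hK₁m
  haveI : Fact q.Prime := ⟨hq⟩
  have hK₁q' : IsPGroup q K₁ := fun x => ⟨1, by rw [pow_one]; exact Subtype.ext (hK₁q x x.2)⟩
  set K := K₁.comap (QuotientGroup.mk' R) with hK
  have hKn : K.Normal := hK₁n.comap _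
  have hKc : Nat.card K = Nat.card R * Nat.card K₁ := by
    rw [hK, Cores.card_comap_eq _ (QuotientGroup.mk'_surjective R), QuotientGroup.ker_mk']
  have hRK : R ≤ K := by
    intro x hx
    show (QuotientGroup.mk' R) x ∈ K₁
    rw [show (QuotientGroup.mk' R) x = 1 from (QuotientGroup.eq_one_iff x).2 hx]
    exact K₁.one_mem
  have hqp : q ≠ p := by
    rintro rfl
    have h1 : IsPGroup q K := by
      obtain ⟨a, ha⟩ := IsPGroup.iff_card.1 hRp
      obtain ⟨b, hb⟩ := IsPGroup.iff_card.1 hK₁q'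
      exact IsPGroup.of_card (n := a + b) (by rw [hKc, ha, hb, pow_add])
    have h2 : K ≤ R := Cores.le_pCore hKn h1
    apply hK₁b
    rw [eq_bot_iff]
    intro y hy
    obtain ⟨x, rfl⟩ := QuotientGroup.mk'_surjective R y
    rw [mem_bot]
    exact (QuotientGroup.eq_one_iff x).2 (h2 hy)
  have hNR : ∀ A : Subgroup G, A ≤ normalizer (R : Set G) := fun A => by rw [normalizer_eq_top]; exact le_top
  have hK₁c : Nat.card K₁ = q := by
    obtain ⟨P, hP, hPK⟩ := FrobType.exists_map_eq (QuotientGroup.mk' R) (QuotientGroup.mk'_surjective R) hK₁q'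
    have h1 := h.card_le hp hq hqp hRp hRb hP (hNR P)
    have h2 : Nat.card K₁ ∣ q := by rw [← hPK]; exact (card_map_dvd _ _).trans h1
    rcases (Nat.dvd_prime hq).1 h2 with h3 | h3
    · exact absurd (Subgroup.card_eq_one.1 h3) hK₁b
    · exact h3
  obtain ⟨S⟩ : Nonempty (Sylow q K) := inferInstance
  set Q : Subgroup G := (S : Subgroup K).map K.subtype with hQ
  have hQq : IsPGroup q Q := S.isPGroup'.map _
  have hQK : Q ≤ K := map_subtype_le _
  have hQc : Nat.card Q = q := by
    have h1 := h.card_le hp hq hqp hRp hRb hQq (hNR Q)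
    rcases (Nat.dvd_prime hq).1 h1 with h3 | h3
    · exfalso
      have h4 : (S : Subgroup K) ≠ ⊥ := S.ne_bot_of_dvd_card (by rw [hKc, hK₁c]; exact Dvd.intro_left _ rfl)
      apply h4
      rw [← Subgroup.card_eq_one, ← card_map_of_injective K.subtype_injective, ← hQ, h3]
    · exact h3
  have hfrat : normalizer (Q : Set G) ⊔ K = ⊤ := Sylow.normalizer_sup_eq_top S
  have hidx : R.index = q * K.index := by
    have h1 : R.index = Nat.card (G ⧸ R) := rfl
    have h2 := K₁.card_mul_index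
    rw [h1, ← h2, hK₁c, hK, index_comap_of_surjective _ (QuotientGroup.mk'_surjective R)]
  by_cases hKtop : K = ⊤
  · rw [hKtop, index_top, mul_one] at hidx
    rw [hidx]
    exact ⟨hq, hqp⟩
  exfalso
  obtain ⟨s, hs', hsd⟩ := Nat.exists_prime_and_dvd (n := K.index) (fun e => hKtop (index_eq_one.1 e))
  haveI : Fact s.Prime := ⟨hs'⟩
  obtain ⟨y, hy⟩ := exists_prime_orderOf_dvd_card' (G := G ⧸ K) s hsd
  obtain ⟨g, rfl⟩ := QuotientGroup.mk'_surjective K y
  have hg : g ∈ normalizer (Q : Set G) ⊔ K := by rw [hfrat]; trivial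
  obtain ⟨m, hm, k, hk, rfl⟩ := (mem_sup_of_normal_right).1 hg
  have hmk : QuotientGroup.mk' K (m * k) = QuotientGroup.mk' K m := by
    rw [map_mul, show QuotientGroup.mk' K k = 1 from (QuotientGroup.eq_one_iff k).2 hk, mul_one]
  rw [hmk] at hy
  have hmK : m ∉ K := by
    intro e
    rw [show QuotientGroup.mk' K m = 1 from (QuotientGroup.eq_one_iff m).2 e, orderOf_one] at hy
    exact hs'.one_lt.ne hy
  have hm1 : m ≠ 1 := by
    rintro rfl
    exact hmK (one_mem _)
  have hmo : orderOf m = s := by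
    have h1 : orderOf (QuotientGroup.mk' K m) ∣ orderOf m := orderOf_map_dvd _ m
    rw [hy] at h1
    exact ((Nat.prime_dvd_prime_iff_eq hs' (h m hm1)).1 h1).symm
  have hmR : m ∉ R := fun e => hmK (hRK e)
  by_cases hsp : s = p
  · rw [hsp] at hmo
    exact no_frob h hp hq hqp hRn hRp hRb hQc hmo hmR hm
  have hzQ : zpowers m ≤ normalizer (Q : Set G) := by rwa [zpowers_le]
  have hcard := Basic.card_sup_mul_card_inf (N := Q) (H := zpowers m) hzQ
  rw [hQc, Nat.card_zpowers, hmo] at hcard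
  have hinf : Q ⊓ zpowers m = ⊥ := by
    rw [eq_bot_iff]
    rintro x ⟨hx1, hx2⟩
    rw [mem_bot]
    by_contra hx
    have h1 := h.orderOf_eq hq hQq hx1 hx
    have h2 : orderOf x ∣ s := by rw [← hmo]; exact orderOf_dvd_of_mem_zpowers hx2
    rw [h1] at h2
    have h3 := (Nat.prime_dvd_prime_iff_eq hq hs').1 h2
    -- then zpowers x = zpowers m
    have h4 : zpowers x = zpowers m := by
      apply eq_of_le_of_card_ge (zpowers_le.2 hx2)
      rw [Nat.card_zpowers, Nat.card_zpowers, hmo, h1, h3]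
    have h5 : m ∈ Q := by
      have : m ∈ zpowers x := by rw [h4]; exact mem_zpowers m
      exact (zpowers_le.2 hx1) this
    exact hmK (hQK h5)
  rw [hinf, card_bot, mul_one] at hcard
  by_cases hsq : s = q
  · have h1 : IsPGroup q (Q ⊔ zpowers m : Subgroup G) := IsPGroup.of_card (n := 2) (by
      rw [hcard, hsq, pow_two])
    have h2 := h.card_le hp hq hqp hRp hRb h1 (hNR _)
    rw [hcard, hsq] at h2
    have h3 := Nat.le_of_dvd hq.pos h2
    have h4 := hq.one_lt
    nlinarith
  · have hAfpf : ∀ z ∈ (Q ⊔ zpowers m : Subgroup G), z ≠ 1 → R ⊓ centralizer ({z} : Set G) = ⊥ := by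
      intro z hz hz1
      apply h.fpf hp hRp hz1
      intro e
      have h1 : orderOf z ∣ q * s := by
        rw [← hcard]
        have := orderOf_dvd_natCard (⟨z, hz⟩ : (Q ⊔ zpowers m : Subgroup G))
        rwa [orderOf_mk] at this
      rw [e] at h1
      rcases hp.dvd_mul.1 h1 with h2 | h2
      · exact hqp ((Nat.prime_dvd_prime_iff_eq hp hq).1 h2).symm
      · exact hsp ((Nat.prime_dvd_prime_iff_eq hp hs').1 h2).symm
    have hcyc : IsCyclic (Q ⊔ zpowers m : Subgroup G) := by
      apply FrobC.isCyclic_of_pq (hNR _) hRb _ inferInstance hAfpf hq hs' hcard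
      rw [hcard]
      obtain ⟨b, hb⟩ := IsPGroup.iff_card.1 hRp
      rw [hb]
      apply Nat.Coprime.pow_right
      exact Nat.Coprime.mul_left ((Nat.coprime_primes hq hp).2 hqp) ((Nat.coprime_primes hs' hp).2 hsp)
    obtain ⟨c, hc⟩ := hcyc.exists_generator
    have h1 := orderOf_eq_card_of_forall_mem_zpowers hc
    rw [hcard] at h1
    have hc1 : c ≠ 1 := by
      rintro rfl
      rw [orderOf_one] at h1
      exact hq.ne_one (Nat.eq_one_of_mul_eq_one_right h1.symm)
    have h2 := (h.subgroup _) c hc1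
    rw [h1] at h2
    exact (Nat.not_prime_mul hq.ne_one hs'.ne_one) h2

/-- normal `p`- and `r`-subgroups of a `PO` group -/
theorem PO.eq_of_normal {G : Type u} [Group G] (h : PO G) {p r : ℕ} (hp : p.Prime) (hr : r.Prime)
    {D R : Subgroup G} (hD : D.Normal) (hR : R.Normal) (hDb : D ≠ ⊥) (hRb : R ≠ ⊥) (hDp : IsPGroup p D)
    (hRp : IsPGroup r R) : r = p := by
  by_contra hne
  obtain ⟨⟨x, hx⟩, hx1⟩ := (Subgroup.ne_bot_iff_exists_ne_one (H := D)).1 hDb
  obtain ⟨⟨y, hy⟩, hy1⟩ := (Subgroup.ne_bot_iff_exists_ne_one (H := R)).1 hRb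
  have hx1' : x ≠ 1 := fun e => hx1 (Subtype.ext e)
  have hy1' : y ≠ 1 := fun e => hy1 (Subtype.ext e)
  have hxo := h.orderOf_eq hp hDp hx hx1'
  have hyo := h.orderOf_eq hr hRp hy hy1'
  have h1 : ⁅x, y⁆ ∈ D ⊓ R := by
    refine ⟨?_, ?_⟩
    · have : ⁅x, y⁆ = x * (y * x⁻¹ * y⁻¹) := by rw [commutatorElement_def]; group
      rw [this]
      exact D.mul_mem hx (hD.conj_mem _ (D.inv_mem hx) y)
    · rw [commutatorElement_def]
      exact R.mul_mem (hR.conj_mem _ hy x) (R.inv_mem hy)
  have h2 : ⁅x, y⁆ = 1 := by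
    by_contra hc
    have h3 := h.orderOf_eq hp hDp h1.1 hc
    have h4 := h.orderOf_eq hr hRp h1.2 hc
    exact hne (h4.symm.trans h3)
  rw [commutatorElement_eq_one_iff_mul_comm] at h2
  exact h.not_comm hx1' hy1' (by rw [hxo, hyo]; exact Ne.symm hne) h2

/-- `p`-elements lie in a normal `p`-subgroup of `p'`-index -/
theorem mem_of_index {G : Type u} [Group G] [Finite G] {p : ℕ} (hp : p.Prime) {R : Subgroup G} [R.Normal]
    (hR : R.index = 1 ∨ (R.index.Prime ∧ R.index ≠ p)) {x : G} (hx : ∃ k, orderOf x = p ^ k) : x ∈ R := by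
  obtain ⟨k, hk⟩ := hx
  rw [← QuotientGroup.eq_one_iff, ← orderOf_eq_one_iff]
  have h1 : orderOf (x : G ⧸ R) ∣ p ^ k := by rw [← hk]; exact orderOf_map_dvd (QuotientGroup.mk' R) x
  have h2 : orderOf (x : G ⧸ R) ∣ R.index := orderOf_dvd_natCard (x : G ⧸ R)
  rcases hR with h | ⟨h, h'⟩
  · rw [h] at h2; exact Nat.dvd_one.1 h2
  · rcases (Nat.dvd_prime h).1 h2 with h3 | h3
    · exact h3
    · rw [h3] at h1
      exact absurd ((Nat.prime_dvd_prime_iff_eq h hp).1 (h.dvd_of_dvd_pow h1)) h'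

theorem odd_solvable (n : ℕ) : ∀ (G : Type u) [Group G] [Finite G], Nat.card G = n → PO G → Odd (Nat.card G) →
    (Nat.card G).primeFactors.card ≤ 3 → Group.IsSolvable G := by
  induction n using Nat.strong_induction_on with
  | _ n ih =>
  intro G _ _ hn hPO hodd h3
  classical
  by_contra hns
  have hnt : Nontrivial G := by
    by_contra hnt
    rw [not_nontrivial_iff_subsingleton] at hnt
    exact hns (Group.isSolvable_of_comm (fun a b => Subsingleton.elim _ _))
  have hsub : ∀ M : Subgroup G, M ≠ ⊤ → Group.IsSolvable M := by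
    intro M hM
    have hlt := Basic.card_lt_card_of_lt (lt_top_iff_ne_top.2 hM)
    rw [card_top, hn] at hlt
    refine ih _ hlt M rfl (hPO.subgroup M) (hodd.of_dvd_nat (card_subgroup_dvd_card M)) ?_
    exact (Finset.card_le_card (Nat.primeFactors_mono (card_subgroup_dvd_card M) Nat.card_pos.ne')).trans h3
  have hsimple : ∀ N : Subgroup G, N.Normal → N = ⊥ ∨ N = ⊤ := by
    intro N hN
    by_contra hcon
    push Not at hcon
    apply hns
    have h1 := hsub N hcon.2
    have h2 : Group.IsSolvable (G ⧸ N) := by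
      have hlt := Basic.card_quotient_lt hcon.1
      rw [hn] at hlt
      have hd : Nat.card (G ⧸ N) ∣ Nat.card G := card_quotient_dvd_card N
      refine ih _ hlt (G ⧸ N) rfl (hPO.quotient N) (hodd.of_dvd_nat hd) ?_
      exact (Finset.card_le_card (Nat.primeFactors_mono hd Nat.card_pos.ne')).trans h3
    exact Group.isSolvable_of_ker_le_range N.subtype (QuotientGroup.mk' N)
            (by rw [QuotientGroup.ker_mk', Subgroup.range_subtype])
  -- structure of normalizers of p-subgroups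
  have hloc : ∀ p : ℕ, p.Prime → ∀ D : Subgroup G, D ≠ ⊥ → D ≠ ⊤ → IsPGroup p D →
      ∃ R : Subgroup G, R ≤ normalizer (D : Set G) ∧ IsPGroup p R ∧
        (∀ Q : Subgroup G, IsPGroup p Q → Q ≤ normalizer (D : Set G) → Q ≤ R) ∧
        ∃ j : ℕ, (j = 1 ∨ (j.Prime ∧ j ≠ p)) ∧ Nat.card (normalizer (D : Set G)) = Nat.card R * j := by
    intro p hp D hDb hDt hD
    set N := normalizer (D : Set G) with hN
    have hNt : N ≠ ⊤ := by
      intro e
      rcases hsimple D (normalizer_eq_top_iff.1 e) with h | h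
      · exact hDb h
      · exact hDt h
    have hNs := hsub N hNt
    have hDN : D ≤ N := le_normalizer
    have hNnt : Nontrivial N := by
      rw [nontrivial_iff_ne_bot]
      intro e
      apply hDb
      rw [eq_bot_iff, ← e]
      exact hDN
    obtain ⟨r, R, hr, hRn, hRb, hRp, hRi⟩ := struct (hPO.subgroup N) hNs
    have hDn : (D.subgroupOf N).Normal := normal_subgroupOf_of_le_normalizer le_rfl
    have hDb' : D.subgroupOf N ≠ ⊥ := by
      rw [Ne, subgroupOf_eq_bot]
      intro h
      exact hDb (disjoint_self.1 (h.mono_right hDN))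
    have hDp' : IsPGroup p (D.subgroupOf N) := hD.of_equiv (subgroupOfEquivOfLe hDN).symm
    have hrp := (hPO.subgroup N).eq_of_normal hp hr hDn hRn hDb' hRb hDp' hRp
    subst hrp
    refine ⟨R.map N.subtype, map_subtype_le _, hRp.map _, ?_, R.index, hRi, ?_⟩
    · intro Q hQ hQN x hx
      haveI : Fact r.Prime := ⟨hp⟩
      obtain ⟨k, hk⟩ := IsPGroup.iff_orderOf.1 hQ ⟨x, hx⟩
      have h1 : (⟨x, hQN hx⟩ : N) ∈ R := mem_of_index hp hRi ⟨k, by rw [← hk, orderOf_mk, orderOf_mk]⟩
      exact ⟨_, h1, rfl⟩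
    · rw [card_map_of_injective N.subtype_injective, R.card_mul_index]
  have hSt : ∀ p : ℕ, p.Prime → ∀ P : Sylow p G, (P : Subgroup G) ≠ ⊤ := by
    intro p hp P e
    haveI : Fact p.Prime := ⟨hp⟩
    apply hns
    have h1 : IsPGroup p (⊤ : Subgroup G) := by rw [← e]; exact P.isPGroup'
    have := h1.isNilpotent
    exact Group.isSolvable_of_surjective (f := (topEquiv : (⊤ : Subgroup G) ≃* G).toMonoidHom) topEquiv.surjective
  -- TI
  have hTI : ∀ p : ℕ, p.Prime → ∀ P P' : Sylow p G, ((P : Subgroup G) ⊓ (P' : Subgroup G)) ≠ ⊥ → P = P' := by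
    intro p hp P P' hPP'
    haveI : Fact p.Prime := ⟨hp⟩
    by_contra hne
    obtain ⟨⟨S, S'⟩, ⟨hSne, hSb⟩, hmax⟩ := Set.exists_max_image
      {x : Sylow p G × Sylow p G | x.1 ≠ x.2 ∧ ((x.1 : Subgroup G) ⊓ (x.2 : Subgroup G)) ≠ ⊥}
      (fun x => Nat.card ((x.1 : Subgroup G) ⊓ (x.2 : Subgroup G) : Subgroup G)) (Set.toFinite _)
      ⟨(P, P'), hne, hPP'⟩
    simp only at hSne hSb hmax
    set D : Subgroup G := (S : Subgroup G) ⊓ (S' : Subgroup G) with hD
    have hDp : IsPGroup p D := S.isPGroup'.to_le inf_le_left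
    have hDt : D ≠ ⊤ := fun e => hSt p hp S (by rw [eq_top_iff, ← e]; exact inf_le_left)
    obtain ⟨R, hRN, hRp, hR, -⟩ := hloc p hp D hSb hDt hDp
    have hDS : D < S := lt_of_le_of_ne inf_le_left (fun e => hSne (by
      have h1 : (S : Subgroup G) ≤ S' := by rw [← e]; exact inf_le_right
      exact Sylow.ext (S.is_maximal' S'.isPGroup' h1).symm))
    have hDS' : D < S' := lt_of_le_of_ne inf_le_right (fun e => hSne (by
      have h1 : (S' : Subgroup G) ≤ S := by rw [← e]; exact inf_le_left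
      exact Sylow.ext (S'.is_maximal' S.isPGroup' h1)))
    obtain ⟨S₂, hS₂⟩ := hRp.exists_le_sylow
    have key : ∀ T : Sylow p G, D < T → S₂ = T := by
      intro T hT
      by_contra hne2
      have h1 := H3.Sylow.lt_inf_normalizer T.isPGroup' hT
      have h2 : (T : Subgroup G) ⊓ normalizer (D : Set G) ≤ R := hR _ (T.isPGroup'.to_le inf_le_left) inf_le_right
      have h3 : D < (S₂ : Subgroup G) ⊓ (T : Subgroup G) := lt_of_lt_of_le h1 (le_inf (h2.trans hS₂) inf_le_left)
      have h4 := hmax (S₂, T) ⟨hne2, by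
        intro e
        simp only at e
        rw [e] at h3
        exact not_lt_bot h3⟩
      have h5 := Basic.card_lt_card_of_lt h3
      simp only at h4
      omega
    exact hSne ((key S hDS).symm.trans (key S' hDS'))
  -- the number of elements of order `p`
  have hcnt : ∀ p ∈ (Nat.card G).primeFactors, ∃ q ∈ (Nat.card G).primeFactors, q ≠ p ∧
      Nat.card {g : G // orderOf g = p} * q < Nat.card G := by
    intro p hpm
    have hp := Nat.prime_of_mem_primeFactors hpm
    have hpd := Nat.dvd_of_mem_primeFactors hpm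
    haveI : Fact p.Prime := ⟨hp⟩
    obtain ⟨P⟩ : Nonempty (Sylow p G) := inferInstance
    have hPb : (P : Subgroup G) ≠ ⊥ := P.ne_bot_of_dvd_card hpd
    obtain ⟨R, hRN, hRp, hR, j, hj, hcard⟩ := hloc p hp P hPb (hSt p hp P) P.isPGroup'
    have hRP : R = (P : Subgroup G) := P.is_maximal' hRp (hR P P.isPGroup' le_normalizer)
    rw [hRP] at hcard
    have hj1 : j ≠ 1 := by
      rintro rfl
      rw [mul_one] at hcard
      have hN : normalizer ((P : Subgroup G) : Set G) = P := (eq_of_le_of_card_ge le_normalizer hcard.le).symm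
      have hTIP : Frob.TI (P : Subgroup G) := by
        intro g hg
        by_contra hb
        have h1 := hTI p hp P (g • P) hb
        apply hg
        rw [← hN]
        exact mem_normalizer_of_conj_smul_eq (congrArg (fun T : Sylow p G => (T : Subgroup G)) h1).symm
      obtain ⟨K, -, hKn, hKP⟩ := CharFrobThm.frobenius hTIP
      rcases hsimple K hKn with h | h
      · rw [h, isComplement'_bot_left] at hKP
        exact hSt p hp P hKP
      · rw [h, isComplement'_top_left] at hKP
        exact hPb hKP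
    obtain ⟨hjp, hjne⟩ := hj.resolve_left hj1
    have hjd : j ∣ Nat.card G := (Dvd.intro_left _ hcard.symm).trans (card_subgroup_dvd_card _)
    refine ⟨j, Nat.mem_primeFactors.2 ⟨hjp, hjd, Nat.card_pos.ne'⟩, hjne, ?_⟩
    -- counting
    have h1 : Nat.card {g : G // orderOf g = p} ≤ Nat.card (Σ S : Sylow p G, {x : (S : Subgroup G) // x ≠ 1}) := by
      have hex : ∀ g : {g : G // orderOf g = p}, ∃ S : Sylow p G, (g : G) ∈ S := by
        intro g
        have h2 : IsPGroup p (zpowers (g : G)) := IsPGroup.of_card (n := 1) (by rw [Nat.card_zpowers, g.2, pow_one])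
        obtain ⟨S, hS⟩ := h2.exists_le_sylow
        exact ⟨S, hS (mem_zpowers _)⟩
      choose S hS using hex
      apply Nat.card_le_card_of_injective (fun g => (⟨S g, ⟨⟨g, hS g⟩, fun e => by
        have h2 : (g : G) = 1 := congrArg Subtype.val e
        have h3 := g.2
        rw [h2, orderOf_one] at h3
        exact hp.one_lt.ne h3⟩⟩ : Σ S : Sylow p G, {x : (S : Subgroup G) // x ≠ 1}))
      intro a b hab
      have h2 := congrArg (fun z : (Σ S : Sylow p G, {x : (S : Subgroup G) // x ≠ 1}) => ((z.2 : (z.1 : Subgroup G)) : G)) hab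
      exact Subtype.ext h2
    have hSc : ∀ S : Sylow p G, Nat.card (S : Subgroup G) = Nat.card (P : Subgroup G) := fun S => by
      rw [Sylow.card_eq_multiplicity, Sylow.card_eq_multiplicity]
    have h2 : Nat.card (Σ S : Sylow p G, {x : (S : Subgroup G) // x ≠ 1}) =
        Nat.card (Sylow p G) * (Nat.card (P : Subgroup G) - 1) := by
      haveI : Fintype (Sylow p G) := Fintype.ofFinite _
      rw [Nat.card_sigma]
      have h3 : ∀ S : Sylow p G, Nat.card {x : (S : Subgroup G) // x ≠ 1} = Nat.card (P : Subgroup G) - 1 := by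
        intro S
        have e : Nat.card (S : Subgroup G) = Nat.card {h : (S : Subgroup G) // h = 1} + Nat.card {h : (S : Subgroup G) // ¬ h = 1} := by
          rw [← Nat.card_sum]
          exact Nat.card_congr (Equiv.sumCompl (fun h : (S : Subgroup G) => h = 1)).symm
        have e1 : Nat.card {h : (S : Subgroup G) // h = 1} = 1 := Nat.card_unique
        rw [← hSc S, e, e1, Nat.add_sub_cancel_left]
      rw [Finset.sum_congr rfl (fun S _ => h3 S), Finset.sum_const, Finset.card_univ, smul_eq_mul, ← Nat.card_eq_fintype_card]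
    have h4 : Nat.card (Sylow p G) * (Nat.card (P : Subgroup G) * j) = Nat.card G := by
      rw [P.card_eq_index_normalizer, ← hcard, mul_comm]
      exact (normalizer ((P : Subgroup G) : Set G)).card_mul_index
    rw [h2] at h1
    have hPpos : 1 ≤ Nat.card (P : Subgroup G) := Nat.card_pos
    have hSpos : 1 ≤ Nat.card (Sylow p G) := Nat.card_pos
    have hjpos := hjp.pos
    calc Nat.card {g : G // orderOf g = p} * j ≤ Nat.card (Sylow p G) * (Nat.card (P : Subgroup G) - 1) * j :=
          Nat.mul_le_mul_right _ h1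
      _ < Nat.card (Sylow p G) * (Nat.card (P : Subgroup G)) * j := by
          apply Nat.mul_lt_mul_of_pos_right _ hjpos
          apply Nat.mul_lt_mul_of_pos_left _ hSpos
          omega
      _ = Nat.card G := by rw [mul_assoc, h4]
  -- sum over the primes
  cases nonempty_fintype G
  have hsum : Nat.card G - 1 = ∑ p ∈ (Nat.card G).primeFactors, Nat.card {g : G // orderOf g = p} := by
    have h1 : (Finset.univ.erase (1 : G)).card = ∑ p ∈ (Nat.card G).primeFactors,
        ((Finset.univ.erase (1 : G)).filter (fun g => orderOf g = p)).card := by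
      apply Finset.card_eq_sum_card_fiberwise
      intro g hg
      rw [Finset.mem_coe, Finset.mem_erase] at hg
      exact Nat.mem_primeFactors.2 ⟨hPO g hg.1, orderOf_dvd_natCard g, Nat.card_pos.ne'⟩
    rw [Finset.card_erase_of_mem (Finset.mem_univ _), Finset.card_univ, ← Nat.card_eq_fintype_card] at h1
    rw [h1]
    apply Finset.sum_congr rfl
    intro p hp
    have hpp := Nat.prime_of_mem_primeFactors hp
    rw [Nat.card_eq_fintype_card, Fintype.card_subtype]
    congr 1
    ext g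
    simp only [Finset.mem_filter, Finset.mem_erase, Finset.mem_univ, and_true, true_and]
    exact ⟨fun h => h.2, fun h => ⟨fun e => by
      rw [e, orderOf_one] at h
      exact hpp.one_lt.ne h, h⟩⟩
  have hG1 : 1 < Nat.card G := Finite.one_lt_card
  set T := (Nat.card G).primeFactors with hT
  have hT2 : ∀ q ∈ T, 3 ≤ q := by
    intro q hq
    have h1 := Nat.prime_of_mem_primeFactors hq
    have h2 := Nat.dvd_of_mem_primeFactors hq
    have h4 : q ≠ 2 := by
      rintro rfl
      have := hodd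
      rw [Nat.odd_iff] at this
      omega
    have := h1.two_le
    omega
  have hT4 : ∀ q ∈ T, q ≠ 3 → 5 ≤ q := by
    intro q hq hq3
    have h1 := hT2 q hq
    have h2 := Nat.prime_of_mem_primeFactors hq
    have h4 : q ≠ 4 := by
      rintro rfl
      exact absurd h2 (by norm_num)
    omega
  set g := Nat.card G with hg
  by_cases h3T : 3 ∈ T
  · have hN3 : 5 * Nat.card {x : G // orderOf x = 3} ≤ g - 1 := by
      obtain ⟨q, hqT, hq3, hlt⟩ := hcnt 3 h3T
      have h5 := hT4 q hqT hq3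
      have h6 : Nat.card {x : G // orderOf x = 3} * 5 ≤ Nat.card {x : G // orderOf x = 3} * q := Nat.mul_le_mul_left _ h5
      omega
    have hNp : ∀ p ∈ T.erase 3, 3 * Nat.card {x : G // orderOf x = p} ≤ g - 1 := by
      intro p hp
      obtain ⟨q, hqT, -, hlt⟩ := hcnt p (Finset.mem_of_mem_erase hp)
      have h5 := hT2 q hqT
      have h6 : Nat.card {x : G // orderOf x = p} * 3 ≤ Nat.card {x : G // orderOf x = p} * q := Nat.mul_le_mul_left _ h5
      omega
    rw [← Finset.add_sum_erase _ _ h3T] at hsum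
    have h7 : 3 * ∑ p ∈ T.erase 3, Nat.card {x : G // orderOf x = p} ≤ (T.erase 3).card * (g - 1) := by
      rw [Finset.mul_sum, ← smul_eq_mul (a := (T.erase 3).card)]
      exact Finset.sum_le_card_nsmul _ _ _ hNp
    have h8 : (T.erase 3).card ≤ 2 := by
      rw [Finset.card_erase_of_mem h3T]; omega
    have h9 : (T.erase 3).card * (g - 1) ≤ 2 * (g - 1) := Nat.mul_le_mul_right _ h8
    omega
  · have hNp : ∀ p ∈ T, 5 * Nat.card {x : G // orderOf x = p} ≤ g - 1 := by
      intro p hp
      obtain ⟨q, hqT, -, hlt⟩ := hcnt p hp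
      have h5 := hT4 q hqT (fun e => h3T (e ▸ hqT))
      have h6 : Nat.card {x : G // orderOf x = p} * 5 ≤ Nat.card {x : G // orderOf x = p} * q := Nat.mul_le_mul_left _ h5
      omega
    have h7 : 5 * ∑ p ∈ T, Nat.card {x : G // orderOf x = p} ≤ T.card * (g - 1) := by
      rw [Finset.mul_sum, ← smul_eq_mul (a := T.card)]
      exact Finset.sum_le_card_nsmul _ _ _ hNp
    have h9 : T.card * (g - 1) ≤ 3 * (g - 1) := Nat.mul_le_mul_right _ h3
    omega

end Cfsg.Agent.H2.PrimeOrd
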