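import Mathlib
import Cfsg.Agent.H2.PrimeOrd
import Cfsg.Agent.Lib.SEmbElem
import Cfsg.Agent.Lib.Wiel
import Cfsg.Agent.Lib.CharBurnside
import Cfsg.Agent.Lib.FrobC

/-! Groups with four automorphism orbits. -/

namespace Cfsg.Agent.H2.FourOrb

open Subgroup Cfsg Cfsg.Agent.Lib Cfsg.Agent.H2.PrimeOrd
open scoped commutatorElement Pointwise

universe u

theorem three_primes {G : Type u} [Group G] [Finite G] (hns : ¬ Group.IsSolvable G) :
    3 ≤ (Nat.card G).primeFactors.card := by
  by_contra hlt
  apply hns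
  have h1 := Nat.factorization_prod_pow_eq_self (n := Nat.card G) Nat.card_pos.ne'
  rw [Finsupp.prod, Nat.support_factorization] at h1
  have h2 : (Nat.card G).primeFactors.card = 0 ∨ (Nat.card G).primeFactors.card = 1 ∨
      (Nat.card G).primeFactors.card = 2 := by omega
  rcases h2 with h2 | h2 | h2
  · rw [Finset.card_eq_zero] at h2
    rw [h2, Finset.prod_empty] at h1
    haveI := (Nat.card_eq_one_iff_unique.1 h1.symm).1
    exact Group.isSolvable_of_comm (fun a b => Subsingleton.elim _ _)
  · obtain ⟨p, hp⟩ := Finset.card_eq_one.1 h2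
    rw [hp, Finset.prod_singleton] at h1
    have hpp : p.Prime := Nat.prime_of_mem_primeFactors (by rw [hp]; exact Finset.mem_singleton_self p)
    exact CharBurnside.burnside_paqb _ G p 2 ((Nat.card G).factorization p) 0 hpp Nat.prime_two
      (by rw [pow_zero, mul_one]; exact h1.symm) rfl
  · obtain ⟨p, q, hpq, hp⟩ := Finset.card_eq_two.1 h2
    rw [hp, Finset.prod_pair hpq] at h1
    have hpp : p.Prime := Nat.prime_of_mem_primeFactors (by rw [hp]; exact Finset.mem_insert_self p _)
    have hqq : q.Prime := Nat.prime_of_mem_primeFactors (by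
      rw [hp]; exact Finset.mem_insert_of_mem (Finset.mem_singleton_self q))
    exact CharBurnside.burnside_paqb _ G p q _ _ hpp hqq h1.symm rfl

/-- the conclusions from the orbit condition -/
theorem orbits {G : Type u} [Group G] [Finite G] (hns : ¬ Group.IsSolvable G)
    (h4 : Nat.card (MulAction.orbitRel.Quotient (MulAut G) G) = 4) :
    PO G ∧ (Nat.card G).primeFactors.card = 3 ∧ (∀ x y : G, orderOf x = orderOf y → ∃ φ : MulAut G, φ x = y) := by
  classical
  have h3 := three_primes hns
  haveI : Finite (MulAction.orbitRel.Quotient (MulAut G) G) := Nat.finite_of_card_ne_zero (by rw [h4]; norm_num)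
  haveI : Fintype (MulAction.orbitRel.Quotient (MulAut G) G) := Fintype.ofFinite _
  let o : MulAction.orbitRel.Quotient (MulAut G) G → ℕ := Quotient.lift (fun g : G => orderOf g) (by
    rintro a b ⟨φ, hφ⟩
    show orderOf a = orderOf b
    rw [← hφ]
    exact orderOf_injective (φ : G ≃* G).toMonoidHom (φ : G ≃* G).injective b)
  have ho : ∀ g : G, o (Quotient.mk _ g) = orderOf g := fun g => rfl
  have himg : insert 1 (Nat.card G).primeFactors ⊆ Finset.univ.image o := by
    intro n hn
    rw [Finset.mem_insert] at hn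
    rw [Finset.mem_image]
    rcases hn with rfl | hn
    · exact ⟨Quotient.mk _ 1, Finset.mem_univ _, by rw [ho, orderOf_one]⟩
    · haveI : Fact n.Prime := ⟨Nat.prime_of_mem_primeFactors hn⟩
      obtain ⟨x, hx⟩ := exists_prime_orderOf_dvd_card' (G := G) n (Nat.dvd_of_mem_primeFactors hn)
      exact ⟨Quotient.mk _ x, Finset.mem_univ _, by rw [ho, hx]⟩
  have hcard : (insert 1 (Nat.card G).primeFactors).card = (Nat.card G).primeFactors.card + 1 := by
    rw [Finset.card_insert_of_notMem]
    intro h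
    exact Nat.not_prime_one (Nat.prime_of_mem_primeFactors h)
  have hle1 := Finset.card_le_card himg
  have hle2 : (Finset.univ.image o).card ≤ Fintype.card (MulAction.orbitRel.Quotient (MulAut G) G) := by
    rw [← Finset.card_univ]; exact Finset.card_image_le
  rw [← Nat.card_eq_fintype_card, h4] at hle2
  have h3' : (Nat.card G).primeFactors.card = 3 := by omega
  have himg' : insert 1 (Nat.card G).primeFactors = Finset.univ.image o :=
    Finset.eq_of_subset_of_card_le himg (by omega)
  have hinj : Function.Injective o := by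
    have h5 : (Finset.univ.image o).card = (Finset.univ : Finset (MulAction.orbitRel.Quotient (MulAut G) G)).card := by
      rw [Finset.card_univ, ← Nat.card_eq_fintype_card, h4, ← himg']
      omega
    have := Finset.card_image_iff.1 h5
    rw [Finset.coe_univ, Set.injOn_univ] at this
    exact this
  refine ⟨?_, h3', ?_⟩
  · intro g hg
    have h5 : o (Quotient.mk _ g) ∈ insert 1 (Nat.card G).primeFactors := by
      rw [himg']; exact Finset.mem_image_of_mem _ (Finset.mem_univ _)
    rw [ho, Finset.mem_insert] at h5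
    rcases h5 with h5 | h5
    · exact absurd (orderOf_eq_one_iff.1 h5) hg
    · exact Nat.prime_of_mem_primeFactors h5
  · intro x y hxy
    have h5 : (Quotient.mk _ y : MulAction.orbitRel.Quotient (MulAut G) G) = Quotient.mk _ x :=
      hinj (by rw [ho, ho, hxy])
    have h6 := Quotient.exact h5
    obtain ⟨φ, hφ⟩ := h6
    exact ⟨φ, hφ⟩

theorem simple {G : Type u} [Group G] [Finite G] (hns : ¬ Group.IsSolvable G) (hPO : PO G)
    (h3 : (Nat.card G).primeFactors.card = 3) (htr : ∀ x y : G, orderOf x = orderOf y → ∃ φ : MulAut G, φ x = y) :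
    ∀ N : Subgroup G, N.Normal → N = ⊥ ∨ N = ⊤ := by
  classical
  -- characteristic subgroups
  have hchar : ∀ N : Subgroup G, N.Characteristic → N = ⊥ ∨ N = ⊤ := by
    intro N hN
    by_contra hcon
    push Not at hcon
    obtain ⟨hNb, hNt⟩ := hcon
    have hNn : N.Normal := inferInstance
    have hdisj : Disjoint (Nat.card N).primeFactors (Nat.card (G ⧸ N)).primeFactors := by
      rw [Finset.disjoint_left]
      intro p hp hp'
      haveI : Fact p.Prime := ⟨Nat.prime_of_mem_primeFactors hp⟩
      obtain ⟨x, hx⟩ := exists_prime_orderOf_dvd_card' (G := N) p (Nat.dvd_of_mem_primeFactors hp)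
      obtain ⟨y, hy⟩ := exists_prime_orderOf_dvd_card' (G := G ⧸ N) p (Nat.dvd_of_mem_primeFactors hp')
      obtain ⟨g, rfl⟩ := QuotientGroup.mk'_surjective N y
      have hg1 : g ≠ 1 := by
        rintro rfl
        rw [map_one, orderOf_one] at hy
        exact (Fact.out : p.Prime).one_lt.ne hy
      have h1 : orderOf (QuotientGroup.mk' N g) ∣ orderOf g := orderOf_map_dvd _ g
      rw [hy] at h1
      have h2 := (Nat.prime_dvd_prime_iff_eq Fact.out (hPO g hg1)).1 h1
      obtain ⟨φ, hφ⟩ := htr (x : G) g (by rw [orderOf_coe, hx, h2])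
      have h5 : g ∈ N := by
        rw [← hφ]
        have h6 : (x : G) ∈ N.comap (φ : G ≃* G).toMonoidHom := by
          rw [hN.fixed φ]; exact x.2
        exact h6
      rw [show QuotientGroup.mk' N g = 1 from (QuotientGroup.eq_one_iff g).2 h5, orderOf_one] at hy
      exact (Fact.out : p.Prime).one_lt.ne hy
    have hun : (Nat.card G).primeFactors = (Nat.card N).primeFactors ∪ (Nat.card (G ⧸ N)).primeFactors := by
      rw [← N.card_mul_index, Nat.primeFactors_mul Nat.card_pos.ne' N.index_ne_zero_of_finite]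
      rfl
    rw [hun, Finset.card_union_of_disjoint hdisj] at h3
    have h5 : 1 ≤ (Nat.card N).primeFactors.card := by
      rw [Nat.one_le_iff_ne_zero, Finset.card_ne_zero, Nat.nonempty_primeFactors]
      have hnt : Nontrivial N := (nontrivial_iff_ne_bot N).2 hNb
      exact Finite.one_lt_card
    have h6 : 1 ≤ (Nat.card (G ⧸ N)).primeFactors.card := by
      rw [Nat.one_le_iff_ne_zero, Finset.card_ne_zero, Nat.nonempty_primeFactors]
      have hnt : Nontrivial (G ⧸ N) := QuotientGroup.nontrivial_iff.2 hNt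
      exact Finite.one_lt_card
    apply hns
    have h7 : Group.IsSolvable N := by
      by_contra h
      have := three_primes h
      omega
    have h8 : Group.IsSolvable (G ⧸ N) := by
      by_contra h
      have := three_primes h
      omega
    exact Group.isSolvable_of_ker_le_range N.subtype (QuotientGroup.mk' N)
            (by rw [QuotientGroup.ker_mk', Subgroup.range_subtype])
  intro N hN
  by_contra hcon
  push Not at hcon
  obtain ⟨hNb, hNt⟩ := hcon
  obtain ⟨M, hMn, hMb, hMN, hMm⟩ := Basic.exists_minimal_normal N hNb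
  have hMt : M ≠ ⊤ := fun e => hNt (by rw [eq_top_iff, ← e]; exact hMN)
  -- M is not a p-group
  have hMp : ∀ p : ℕ, p.Prime → ¬ IsPGroup p M := by
    intro p hp hM
    haveI : Fact p.Prime := ⟨hp⟩
    rcases hchar (pCore p G) (Cores.pCore_characteristic p) with h | h
    · apply hMb
      rw [eq_bot_iff, ← h]
      exact Cores.le_pCore hMn hM
    · apply hns
      have h1 : IsPGroup p (⊤ : Subgroup G) := by rw [← h]; exact Cores.pCore_isPGroup p
      have := h1.isNilpotent
      exact Group.isSolvable_of_surjective (f := (topEquiv : (⊤ : Subgroup G) ≃* G).toMonoidHom) topEquiv.surjective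
  obtain ⟨⟨x, hx⟩, hx1⟩ := (Subgroup.ne_bot_iff_exists_ne_one (H := M)).1 hMb
  have hx1' : x ≠ 1 := fun e => hx1 (Subtype.ext e)
  obtain ⟨y, hy, hy1, hyx⟩ : ∃ y ∈ M, y ≠ 1 ∧ orderOf y ≠ orderOf x := by
    by_contra hcon
    push Not at hcon
    apply hMp _ (hPO x hx1')
    haveI : Fact (orderOf x).Prime := ⟨hPO x hx1'⟩
    rw [IsPGroup.iff_orderOf]
    rintro ⟨y, hy⟩
    by_cases hy1 : y = 1
    · exact ⟨0, by rw [orderOf_mk, hy1, orderOf_one, pow_zero]⟩
    · exact ⟨1, by rw [orderOf_mk, hcon y hy hy1, pow_one]⟩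
  -- an automorphism moving M
  obtain ⟨φ, hφ⟩ : ∃ φ : MulAut G, M.map (φ : G ≃* G).toMonoidHom ≠ M := by
    by_contra hcon
    push Not at hcon
    rcases hchar M (characteristic_iff_map_eq.2 hcon) with h | h
    · exact hMb h
    · exact hMt h
  have hφn : (M.map (φ : G ≃* G).toMonoidHom).Normal := Normal.map hMn _ (φ : G ≃* G).surjective
  have hinf : M ⊓ M.map (φ : G ≃* G).toMonoidHom = ⊥ := by
    rcases hMm (M ⊓ M.map (φ : G ≃* G).toMonoidHom) inferInstance inf_le_left with h | h
    · exact h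
    · exfalso
      apply hφ
      symm
      apply eq_of_le_of_card_ge (inf_eq_left.1 h)
      rw [card_map_of_injective (φ : G ≃* G).injective]
  have hc : x * φ y = φ y * x := by
    have h1 : ⁅x, φ y⁆ ∈ M ⊓ M.map (φ : G ≃* G).toMonoidHom := by
      have hy' : φ y ∈ M.map (φ : G ≃* G).toMonoidHom := mem_map_of_mem _ hy
      refine ⟨?_, ?_⟩
      · have : ⁅x, φ y⁆ = x * (φ y * x⁻¹ * (φ y)⁻¹) := by rw [commutatorElement_def]; group
        rw [this]
        exact M.mul_mem hx (hMn.conj_mem _ (M.inv_mem hx) _)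
      · rw [commutatorElement_def]
        exact (M.map (φ : G ≃* G).toMonoidHom).mul_mem (hφn.conj_mem _ hy' x) ((M.map (φ : G ≃* G).toMonoidHom).inv_mem hy')
    rw [hinf, mem_bot, commutatorElement_eq_one_iff_mul_comm] at h1
    exact h1
  refine hPO.not_comm hx1' ?_ ?_ hc
  · intro e
    exact hy1 ((map_eq_one_iff φ (φ : G ≃* G).injective).1 e)
  · have : orderOf (φ y) = orderOf y := orderOf_injective (φ : G ≃* G).toMonoidHom (φ : G ≃* G).injective y
    rw [this]
    exact Ne.symm hyx

open Cfsg.Agent.Lib.SEmbElem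

theorem hyp {G : Type u} [Group G] [Finite G] (hns : ¬ Group.IsSolvable G) (hPO : PO G)
    (hsimple : ∀ N : Subgroup G, N.Normal → N = ⊥ ∨ N = ⊤) (h2 : 2 ∣ Nat.card G) (T : Sylow 2 G) :
    SEmbElem.Hyp T := by
  haveI : Fact (Nat.Prime 2) := ⟨Nat.prime_two⟩
  have hTb : (T : Subgroup G) ≠ ⊥ := T.ne_bot_of_dvd_card h2
  have hTt : (T : Subgroup G) ≠ ⊤ := by
    intro e
    apply hns
    have h1 : IsPGroup 2 (⊤ : Subgroup G) := by rw [← e]; exact T.isPGroup'
    have := h1.isNilpotent
    exact Group.isSolvable_of_surjective (f := (topEquiv : (⊤ : Subgroup G) ≃* G).toMonoidHom) topEquiv.surjective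
  refine ⟨?_, ?_, ?_⟩
  · intro hcyc
    obtain ⟨c, hc⟩ := hcyc.exists_generator
    have h3 := orderOf_eq_card_of_forall_mem_zpowers hc
    have hc1 : c ≠ 1 := by
      rintro rfl
      rw [orderOf_one] at h3
      exact hTb (Subgroup.card_eq_one.1 h3.symm)
    have h4 : orderOf (c : G) = 2 := hPO.orderOf_eq Nat.prime_two T.isPGroup' c.2 (fun e => hc1 (Subtype.ext e))
    have hcard : Nat.card (T : Subgroup G) = 2 := by rw [← h3, ← orderOf_coe, h4]
    -- T is central in its normalizer
    have helt : ∀ y ∈ (T : Subgroup G), y ≠ 1 → y = c := by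
      intro y hy hy1
      obtain ⟨k, hk⟩ := hc ⟨y, hy⟩
      have h5 : (c : G) ^ k = y := congrArg Subtype.val hk
      have h6 : (c : G) ^ (2 : ℤ) = 1 := by
        have := pow_orderOf_eq_one (c : G)
        rw [h4] at this
        exact_mod_cast this
      rcases Int.emod_two_eq_zero_or_one k with he | ho
      · obtain ⟨d, rfl⟩ := Int.dvd_of_emod_eq_zero he
        rw [zpow_mul, h6, one_zpow] at h5
        exact absurd h5.symm hy1
      · obtain ⟨d, hd⟩ : ∃ d, k = 2 * d + 1 := ⟨k / 2, by omega⟩
        rw [hd, zpow_add, zpow_mul, h6, one_zpow, one_mul, zpow_one] at h5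
        exact h5.symm
    have hnc : normalizer ((T : Subgroup G) : Set G) ≤ centralizer ((T : Subgroup G) : Set G) := by
      intro g hg
      rw [mem_centralizer_iff]
      intro y hy
      by_cases hy1 : y = 1
      · rw [hy1]; simp
      have h5 := (mem_normalizer_iff.1 hg y).1 hy
      have h6 : g * y * g⁻¹ ≠ 1 := by
        intro e
        apply hy1
        have : y = g⁻¹ * (g * y * g⁻¹) * g := by group
        rw [this, e]; group
      have h7 : g * y * g⁻¹ = y := by rw [helt _ h5 h6, helt y hy hy1]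
      calc y * g = (g * y * g⁻¹) * g := by rw [h7]
        _ = g * y := by group
    obtain ⟨L, hLn, hLc, k, hk⟩ := Wiel.pNil_of_normalizer_le_centralizer T hnc
    rcases hsimple L hLn with h | h
    · rw [h, index_bot] at hk
      apply hTt
      apply eq_of_le_of_card_ge le_top
      rw [card_top, Sylow.card_eq_multiplicity, hk, Nat.Prime.factorization_pow Nat.prime_two, Finsupp.single_eq_same]
    · rw [h, card_top] at hLc
      exact absurd h2 ((Nat.Prime.coprime_iff_not_dvd Nat.prime_two).1 hLc.symm)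
  · intro hn
    rcases hsimple _ hn with h | h
    · exact hTb h
    · exact hTt h
  · intro t ht
    have ht1 : t ≠ 1 := by
      rintro rfl
      rw [orderOf_one] at ht
      norm_num at ht
    have hsq : ∀ c ∈ centralizer ({t} : Set G), c ^ 2 = 1 := by
      intro c hc
      by_cases hc1 : c = 1
      · rw [hc1, one_pow]
      have h3 : orderOf c = 2 := by
        by_contra hne
        exact hPO.not_comm hc1 ht1 (by rw [ht]; exact hne) (mem_centralizer_singleton_iff.1 hc)
      rw [← h3]; exact pow_orderOf_eq_one c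
    refine ⟨⟨⟨?_⟩⟩, hsq⟩
    rintro ⟨a, ha⟩ ⟨b, hb⟩
    apply Subtype.ext
    show a * b = b * a
    have h3 := hsq _ (mul_mem ha hb)
    have h4 := hsq a ha
    have h5 := hsq b hb
    rw [pow_two] at h3 h4 h5
    have ha' : a⁻¹ = a := inv_eq_of_mul_eq_one_left h4
    have hb' : b⁻¹ = b := inv_eq_of_mul_eq_one_left h5
    have hab : (a * b)⁻¹ = a * b := inv_eq_of_mul_eq_one_left h3
    rw [← hab, mul_inv_rev, ha', hb']

section main

variable {G : Type u} [Group G] [Finite G] {T : Sylow 2 G}

theorem card_G (h : SEmbElem.Hyp T) : Nat.card G = Nat.card T * (Nat.card T - 1) * (Nat.card T + 1) := by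
  rw [← h.card_H, ← h.card_omega]
  exact (Nz T).card_mul_index.symm

theorem card_prime (h : SEmbElem.Hyp T) (hPO : PO G) : (Nat.card T - 1).Prime := by
  haveI : Fact (Nat.Prime 2) := ⟨Nat.prime_two⟩
  obtain ⟨v, hv, hvH⟩ := SEmb.exists_out h.se
  have hz : v • o T ≠ o T := fun h1 => hvH (mem_Nz_iff.2 h1)
  set z := v • o T with hzdef
  have h1 := h.card_Dz hz
  have h4 := h.four_le
  have hDT : Dz T z ≤ normalizer ((T : Subgroup G) : Set G) := inf_le_left
  have hcop : (Nat.card (Dz T z)).Coprime (Nat.card (T : Subgroup G)) := by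
    rw [← h1]; simp
  have hcyc : IsCyclic (Dz T z) := by
    apply FrobC.isCyclic_of_comm hDT h.ne_bot hcop
    · intro d hd hd1
      apply hPO.fpf Nat.prime_two T.isPGroup' hd1
      intro e
      have := h.odd_Dz hz hd
      rw [e] at this
      exact absurd this (by decide)
    · exact ⟨⟨fun a b => Subtype.ext (h.Dz_comm hz a.2 b.2).eq⟩⟩
  obtain ⟨c, hc⟩ := hcyc.exists_generator
  have h3 := orderOf_eq_card_of_forall_mem_zpowers hc
  have h5 : Nat.card T - 1 = orderOf (c : G) := by rw [orderOf_coe, h3]; omega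
  rw [h5]
  apply hPO
  intro e
  rw [e, orderOf_one] at h5
  omega

/-- at most one `s ∈ T` with `(v s)³ = 1` -/
theorem unique_three (h : SEmbElem.Hyp T) {v : G} (hv : orderOf v = 2) (hvH : v ∉ Nz T) {s s' : G}
    (hs : s ∈ (T : Subgroup G)) (hs' : s' ∈ (T : Subgroup G)) (hs1 : s ≠ 1) (hs1' : s' ≠ 1)
    (h3 : (v * s) ^ 3 = 1) (h3' : (v * s') ^ 3 = 1) : s = s' := by
  have hvv : v * v = 1 := by rw [← pow_two, ← hv]; exact pow_orderOf_eq_one v
  have hvi : v⁻¹ = v := inv_eq_of_mul_eq_one_left hvv
  have hsi : s⁻¹ = s := inv_eq_of_mul_eq_one_left (h.sq hs)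
  have hsi' : s'⁻¹ = s' := inv_eq_of_mul_eq_one_left (h.sq hs')
  have e1 : v * s * v = s * v * s := by
    have h4 : (v * s * v) * (s * v * s) = 1 := by
      have : (v * s) ^ 3 = (v * s * v) * (s * v * s) := by rw [pow_succ, pow_two]; group
      rw [← this, h3]
    have h5 : (s * v * s)⁻¹ = s * v * s := by
      rw [mul_inv_rev, mul_inv_rev, hvi, hsi, mul_assoc]
    rw [← h5]
    exact eq_inv_of_mul_eq_one_left h4
  have e2 : v * s' * v = s' * v * s' := by
    have h4 : (v * s' * v) * (s' * v * s') = 1 := by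
      have : (v * s') ^ 3 = (v * s' * v) * (s' * v * s') := by rw [pow_succ, pow_two]; group
      rw [← this, h3']
    have h5 : (s' * v * s')⁻¹ = s' * v * s' := by
      rw [mul_inv_rev, mul_inv_rev, hvi, hsi', mul_assoc]
    rw [← h5]
    exact eq_inv_of_mul_eq_one_left h4
  set y := v * (s * s') * v with hy
  have hy2 : y = s * y * s' := by
    calc y = (v * s * v) * (v⁻¹ * v⁻¹) * (v * s' * v) := by rw [hy]; group
      _ = (s * v * s) * (v * v) * (s' * v * s') := by rw [e1, e2, hvi]
      _ = s * (v * (s * s') * v) * s' := by rw [hvv]; group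
  have hy3 : y * s' * y⁻¹ = s := by
    have h4 : s * y = y * s' := by
      calc s * y = s * (s * y * s') := by rw [← hy2]
        _ = (s * s) * (y * s') := by group
        _ = y * s' := by rw [h.sq hs, one_mul]
    rw [← h4, mul_inv_cancel_right]
  have hyN : y ∈ Nz T := by
    apply FpfFour.mem_normalizer_of
    intro τ hτ
    apply h.mem_of_commute hs hs1
    show y * τ * y⁻¹ * s = s * (y * τ * y⁻¹)
    have h4 := (h.comm hτ hs').eq
    rw [← hy3]
    calc y * τ * y⁻¹ * (y * s' * y⁻¹) = y * (τ * s') * y⁻¹ := by group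
      _ = y * (s' * τ) * y⁻¹ := by rw [h4]
      _ = y * s' * y⁻¹ * (y * τ * y⁻¹) := by group
  by_contra hne
  have hu1 : s * s' ≠ 1 := by
    intro e
    apply hne
    rw [← hsi']
    exact eq_inv_of_mul_eq_one_left e
  have huT : s * s' ∈ (T : Subgroup G) := mul_mem hs hs'
  have hyc : y = v * (s * s') * v⁻¹ := by rw [hvi]
  have hyo : orderOf y = 2 := by
    rw [hyc, ← h.order huT hu1]
    exact orderOf_injective (MulAut.conj v).toMonoidHom (MulAut.conj v).injective (s * s')
  have hyT : y ∈ (T : Subgroup G) := mem_of_normalizer hyN ⟨1, by rw [hyo, pow_one]⟩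
  have hy1 : y ≠ 1 := by
    intro e
    rw [e, orderOf_one] at hyo
    norm_num at hyo
  apply hvH
  apply FpfFour.mem_normalizer_of
  intro τ hτ
  apply h.mem_of_commute hyT hy1
  show v * τ * v⁻¹ * y = y * (v * τ * v⁻¹)
  have h4 := (h.comm hτ huT).eq
  rw [hyc]
  calc v * τ * v⁻¹ * (v * (s * s') * v⁻¹) = v * (τ * (s * s')) * v⁻¹ := by group
    _ = v * ((s * s') * τ) * v⁻¹ := by rw [h4]
    _ = v * (s * s') * v⁻¹ * (v * τ * v⁻¹) := by group

/-- elements of order `q - 1` fix two points -/
theorem two_fixed (h : SEmbElem.Hyp T) (hPO : PO G) {w : G} (hw : orderOf w = Nat.card T - 1) :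
    ∃ α β : G ⧸ Nz T, α ≠ β ∧ w • α = α ∧ w • β = β := by
  have hp := card_prime h hPO
  set p := Nat.card T - 1 with hpdef
  haveI : Fact p.Prime := ⟨hp⟩
  have h4 := h.four_le
  have hcard := card_G h
  obtain ⟨v, hv, hvH⟩ := SEmb.exists_out h.se
  have hz : v • o T ≠ o T := fun h1 => hvH (mem_Nz_iff.2 h1)
  set z := v • o T with hzdef
  have h1 := h.card_Dz hz
  have hDc : Nat.card (Dz T z) = p := by omega
  have hDp : IsPGroup p (Dz T z) := IsPGroup.of_card (n := 1) (by rw [hDc, pow_one])
  have hnd : ¬ p ∣ (Dz T z).index := by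
    have h2 := (Dz T z).card_mul_index
    rw [hDc, hcard] at h2
    have h3 : (Dz T z).index = Nat.card T * (Nat.card T + 1) := by
      apply Nat.eq_of_mul_eq_mul_left hp.pos
      rw [h2]; ring
    rw [h3]
    intro hd
    have hT : Nat.card T = p + 1 := by omega
    rw [hT] at hd
    rcases hp.dvd_mul.1 hd with h5 | h5
    · have := (Nat.dvd_add_right (dvd_refl p)).1 h5
      exact hp.one_lt.ne' (Nat.dvd_one.1 this)
    · have h6 : p ∣ 2 := (Nat.dvd_add_right (dvd_refl p)).1 (by rw [add_assoc] at h5; exact h5)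
      have := Nat.le_of_dvd (by norm_num) h6
      omega
  let S : Sylow p G := hDp.toSylow hnd
  have hwp : IsPGroup p (zpowers w) := IsPGroup.of_card (n := 1) (by rw [Nat.card_zpowers, hw, pow_one])
  obtain ⟨S', hS'⟩ := hwp.exists_le_sylow
  obtain ⟨g, hg⟩ := MulAction.exists_smul_eq G S S'
  have hwS : w ∈ (g • S : Sylow p G) := by rw [hg]; exact hS' (mem_zpowers w)
  have hwS' : w ∈ MulAut.conj g • (S : Subgroup G) := hwS
  rw [mem_pointwise_smul_iff_inv_smul_mem] at hwS'
  have h5 : g⁻¹ * w * g ∈ Dz T z := by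
    have : (MulAut.conj g)⁻¹ • w = g⁻¹ * w * g := by
      rw [← map_inv, MulAut.smul_def, MulAut.conj_apply, inv_inv]
    rw [this] at hwS'
    exact hwS'
  rw [mem_Dz] at h5
  refine ⟨g • o T, g • z, ?_, ?_, ?_⟩
  · intro e
    exact hz (smul_left_cancel g e).symm
  · have h6 := mem_Nz_iff.1 h5.1
    calc w • g • o T = g • (g⁻¹ * w * g) • o T := by rw [← mul_smul, ← mul_smul, show g * (g⁻¹ * w * g) = w * g by group]
      _ = g • o T := by rw [h6]
  · calc w • g • z = g • (g⁻¹ * w * g) • z := by
          rw [← mul_smul w g z, ← mul_smul g _ z, show g * (g⁻¹ * w * g) = w * g by group]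
      _ = g • z := by rw [h5.2]

theorem no_three (h : SEmbElem.Hyp T) (hPO : PO G) (hprime : ∀ g : G, g ≠ 1 → orderOf g = 2 ∨ orderOf g = Nat.card T - 1 ∨ orderOf g = 3) :
    False := by
  classical
  have h4 := h.four_le
  obtain ⟨v, hv, hvH⟩ := SEmb.exists_out h.se
  have hvv : v * v = 1 := by rw [← pow_two, ← hv]; exact pow_orderOf_eq_one v
  have hvi : v⁻¹ = v := inv_eq_of_mul_eq_one_left hvv
  have hz : v • o T ≠ o T := fun h1 => hvH (mem_Nz_iff.2 h1)
  -- the order of v * s
  have hord : ∀ s ∈ (T : Subgroup G), s ≠ 1 → orderOf (v * s) = Nat.card T - 1 ∨ (v * s) ^ 3 = 1 := by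
    intro s hs hs1
    have h1 : v * s ≠ 1 := by
      intro e
      apply hvH
      have : v = s⁻¹ := eq_inv_of_mul_eq_one_left e
      rw [this]
      exact le_normalizer (inv_mem hs)
    rcases hprime _ h1 with h2 | h2 | h2
    · exfalso
      have h3 : (v * s) * (v * s) = 1 := by rw [← pow_two, ← h2]; exact pow_orderOf_eq_one _
      have hsi : s⁻¹ = s := inv_eq_of_mul_eq_one_left (h.sq hs)
      have h5 : (v * s)⁻¹ = v * s := inv_eq_of_mul_eq_one_left h3
      rw [mul_inv_rev, hvi, hsi] at h5
      exact hvH (le_normalizer (h.mem_of_commute hs hs1 h5.symm))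
    · left; exact h2
    · right; rw [← h2]; exact pow_orderOf_eq_one _
  -- the two sets
  let A := {s : ↥(T : Subgroup G) // s ≠ 1 ∧ orderOf (v * (s : G)) = Nat.card T - 1}
  have hA1 : Nat.card T ≤ Nat.card A + 2 := by
    have h1 : Nat.card ↥(T : Subgroup G) ≤ Nat.card (A ⊕ Bool) := by
      let f : ↥(T : Subgroup G) → A ⊕ Bool := fun s =>
        if hs : s ≠ 1 ∧ orderOf (v * (s : G)) = Nat.card T - 1 then Sum.inl ⟨s, hs⟩
        else if s = 1 then Sum.inr true else Sum.inr false
      apply Nat.card_le_card_of_injective f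
      have hf1 : ∀ s : ↥(T : Subgroup G), (hs : s ≠ 1 ∧ orderOf (v * (s : G)) = Nat.card T - 1) → f s = Sum.inl ⟨s, hs⟩ :=
        fun s hs => dif_pos hs
      have hf2 : f 1 = Sum.inr true := by
        show (if hs : _ then _ else _) = _
        rw [dif_neg (fun hs => hs.1 rfl), if_pos rfl]
      have hf3 : ∀ s : ↥(T : Subgroup G), s ≠ 1 → ¬ orderOf (v * (s : G)) = Nat.card T - 1 → f s = Sum.inr false := by
        intro s hs hs'
        show (if hs : _ then _ else _) = _
        rw [dif_neg (fun hs => hs' hs.2), if_neg hs]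
      intro a b hab
      by_cases ha1 : a = 1
      · subst ha1
        rw [hf2] at hab
        by_contra hb1
        by_cases hb : orderOf (v * (b : G)) = Nat.card T - 1
        · rw [hf1 b ⟨Ne.symm hb1, hb⟩] at hab
          exact absurd hab (by simp)
        · rw [hf3 b (Ne.symm hb1) hb] at hab
          exact absurd hab (by simp)
      · by_cases ha : orderOf (v * (a : G)) = Nat.card T - 1
        · rw [hf1 a ⟨ha1, ha⟩] at hab
          by_cases hb1 : b = 1
          · subst hb1
            rw [hf2] at hab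
            exact absurd hab (by simp)
          · by_cases hb : orderOf (v * (b : G)) = Nat.card T - 1
            · rw [hf1 b ⟨hb1, hb⟩] at hab
              exact congrArg Subtype.val (Sum.inl.inj hab)
            · rw [hf3 b hb1 hb] at hab
              exact absurd hab (by simp)
        · rw [hf3 a ha1 ha] at hab
          by_cases hb1 : b = 1
          · subst hb1
            rw [hf2] at hab
            exact absurd hab (by simp)
          · by_cases hb : orderOf (v * (b : G)) = Nat.card T - 1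
            · rw [hf1 b ⟨hb1, hb⟩] at hab
              exact absurd hab (by simp)
            · have ha1' : (a : G) ≠ 1 := fun e => ha1 (Subtype.ext e)
              have hb1' : (b : G) ≠ 1 := fun e => hb1 (Subtype.ext e)
              exact Subtype.ext (unique_three h hv hvH a.2 b.2 ha1' hb1'
                ((hord a a.2 ha1').resolve_left ha) ((hord b b.2 hb1').resolve_left hb))
    rw [Nat.card_sum] at h1
    have h2 : Nat.card Bool = 2 := by simp
    rw [h2] at h1
    exact h1
  have hfix : ∀ s : A, ∃ α β : G ⧸ Nz T, α ≠ β ∧ (v * (s.1 : G)) • α = α ∧ (v * (s.1 : G)) • β = β :=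
    fun s => two_fixed h hPO s.2.2
  choose α β hαβ hα hβ using hfix
  -- points fixed by v * s
  have hpt : ∀ (s : ↥(T : Subgroup G)), (s : G) ≠ 1 → ∀ x : G ⧸ Nz T, (v * (s : G)) • x = x → x ≠ o T ∧ x ≠ v • o T := by
    intro s hs1 x hx
    have hso : (s : G) • o T = o T := mem_Nz_iff.1 (le_normalizer s.2)
    constructor
    · rintro rfl
      rw [mul_smul, hso] at hx
      exact hz hx
    · rintro rfl
      have h1 : (s : G) • v • o T = o T := by
        have : v • (v * (s : G)) • v • o T = v • v • o T := by rw [hx]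
        rw [← mul_smul, ← mul_assoc, hvv, one_mul, ← mul_smul v v, hvv, one_smul] at this
        exact this
      have h2 : v • o T = o T := by
        apply smul_left_cancel (s : G)
        rw [h1, hso]
      exact hz h2
  have huniq : ∀ (s s' : ↥(T : Subgroup G)), (s : G) ≠ 1 → ∀ x : G ⧸ Nz T, (v * (s : G)) • x = x →
      (v * (s' : G)) • x = x → s = s' := by
    intro s s' hs1 x hx hx'
    have hxo := (hpt s hs1 x hx).1
    have h1 : (s : G) • x = (s' : G) • x := by
      apply smul_left_cancel v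
      rw [← mul_smul, ← mul_smul, hx, hx']
    have h2 : ((s : G)⁻¹ * s') • x = x := by rw [mul_smul, ← h1, inv_smul_smul]
    have h3 := h.T_free hxo (mul_mem (inv_mem s.2) s'.2) h2
    exact Subtype.ext (inv_mul_eq_one.1 h3)
  have hA2 : Nat.card (A × Bool) ≤ Nat.card {x : {x : G ⧸ Nz T // x ≠ o T} // x ≠ ⟨v • o T, hz⟩} := by
    have hne : ∀ s : A, ((s.1 : ↥(T : Subgroup G)) : G) ≠ 1 := fun s e => s.2.1 (Subtype.ext e)
    apply Nat.card_le_card_of_injective (fun y : A × Bool =>
      if y.2 then (⟨⟨α y.1, (hpt y.1.1 (hne y.1) _ (hα y.1)).1⟩, fun e => (hpt y.1.1 (hne y.1) _ (hα y.1)).2 (congrArg Subtype.val e)⟩ :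
        {x : {x : G ⧸ Nz T // x ≠ o T} // x ≠ ⟨v • o T, hz⟩})
      else ⟨⟨β y.1, (hpt y.1.1 (hne y.1) _ (hβ y.1)).1⟩, fun e => (hpt y.1.1 (hne y.1) _ (hβ y.1)).2 (congrArg Subtype.val e)⟩)
    rintro ⟨a, i⟩ ⟨b, j⟩ hab
    cases i <;> cases j
    · have h1 : β a = β b := congrArg (fun z : {x : {x : G ⧸ Nz T // x ≠ o T} // x ≠ ⟨v • o T, hz⟩} => z.1.1) hab
      have h2 := huniq a.1 b.1 (hne a) _ (hβ a) (by rw [h1]; exact hβ b)
      rw [Subtype.ext h2]
    · have h1 : β a = α b := congrArg (fun z : {x : {x : G ⧸ Nz T // x ≠ o T} // x ≠ ⟨v • o T, hz⟩} => z.1.1) hab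
      have h2 := huniq a.1 b.1 (hne a) _ (hβ a) (by rw [h1]; exact hα b)
      have h3 : a = b := Subtype.ext h2
      rw [h3] at h1
      exact absurd h1.symm (hαβ b)
    · have h1 : α a = β b := congrArg (fun z : {x : {x : G ⧸ Nz T // x ≠ o T} // x ≠ ⟨v • o T, hz⟩} => z.1.1) hab
      have h2 := huniq a.1 b.1 (hne a) _ (hα a) (by rw [h1]; exact hβ b)
      have h3 : a = b := Subtype.ext h2
      rw [h3] at h1
      exact absurd h1 (hαβ b)
    · have h1 : α a = α b := congrArg (fun z : {x : {x : G ⧸ Nz T // x ≠ o T} // x ≠ ⟨v • o T, hz⟩} => z.1.1) hab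
      have h2 := huniq a.1 b.1 (hne a) _ (hα a) (by rw [h1]; exact hα b)
      rw [Subtype.ext h2]
  have hc1 : Nat.card {x : {x : G ⧸ Nz T // x ≠ o T} // x ≠ ⟨v • o T, hz⟩} + 2 = Nat.card T + 1 := by
    rw [← h.card_omega]
    have h1 : Nat.card {w : {w : G ⧸ Nz T // w ≠ o T} // w ≠ ⟨v • o T, hz⟩} + 1 = Nat.card {w : G ⧸ Nz T // w ≠ o T} := by
      rw [← Finite.card_option]
      exact Nat.card_congr (Equiv.optionSubtypeNe _)
    have h2 : Nat.card {z : G ⧸ Nz T // z ≠ o T} + 1 = Nat.card (G ⧸ Nz T) := by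
      rw [← Finite.card_option]
      exact Nat.card_congr (Equiv.optionSubtypeNe _)
    omega
  rw [Nat.card_prod] at hA2
  have h2 : Nat.card Bool = 2 := by simp
  rw [h2] at hA2
  omega

theorem alt_five (h : SEmbElem.Hyp T) (hsimple : ∀ N : Subgroup G, N.Normal → N = ⊥ ∨ N = ⊤)
    (hT : Nat.card T = 4) : Nonempty (G ≃* alternatingGroup (Fin 5)) := by
  classical
  have hcard : Nat.card G = 60 := by rw [card_G h, hT]
  have hΩ : Nat.card (G ⧸ Nz T) = 5 := by rw [h.card_omega, hT]
  haveI : Fintype (G ⧸ Nz T) := Fintype.ofFinite _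
  obtain ⟨v, hv, hvH⟩ := SEmb.exists_out h.se
  have hz : v • o T ≠ o T := fun h1 => hvH (mem_Nz_iff.2 h1)
  let ρ : G →* Equiv.Perm (G ⧸ Nz T) := MulAction.toPermHom G (G ⧸ Nz T)
  have hker : ρ.ker = ⊥ := by
    rcases hsimple ρ.ker (MonoidHom.normal_ker ρ) with h1 | h1
    · exact h1
    · exfalso
      apply hz
      have h2 : v ∈ ρ.ker := by rw [h1]; trivial
      have h3 : ρ v = 1 := h2
      exact congrArg (fun e : Equiv.Perm (G ⧸ Nz T) => e (o T)) h3
  have hinj : Function.Injective ρ := (MonoidHom.ker_eq_bot_iff ρ).1 hker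
  have hrc : Nat.card ρ.range = 60 := by
    rw [← hcard]
    exact (Nat.card_congr (MonoidHom.ofInjective hinj).toEquiv).symm
  have hpc : Nat.card (Equiv.Perm (G ⧸ Nz T)) = 120 := by
    rw [Nat.card_perm, hΩ]; rfl
  have hidx : ρ.range.index = 2 := by
    have h1 := ρ.range.card_mul_index
    rw [hrc, hpc] at h1
    omega
  have hrange : ρ.range = alternatingGroup (G ⧸ Nz T) := Equiv.Perm.eq_alternatingGroup_of_index_eq_two hidx
  have e1 : G ≃* ρ.range := MonoidHom.ofInjective hinj
  have e2 : ρ.range ≃* alternatingGroup (G ⧸ Nz T) := MulEquiv.subgroupCongr hrange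
  have e3 : (G ⧸ Nz T) ≃ Fin 5 := by
    apply Fintype.equivFinOfCardEq
    rw [← Nat.card_eq_fintype_card, hΩ]
  exact ⟨(e1.trans e2).trans (Equiv.altCongrHom e3)⟩

end main

theorem main {G : Type u} [Group G] [Finite G] (hns : ¬ Group.IsSolvable G)
    (h4 : Nat.card (MulAction.orbitRel.Quotient (MulAut G) G) = 4) : Nonempty (G ≃* alternatingGroup (Fin 5)) := by
  obtain ⟨hPO, h3, htr⟩ := orbits hns h4
  have hsimple := simple hns hPO h3 htr
  have h2 : 2 ∣ Nat.card G := by
    by_contra h2
    exact hns (odd_solvable _ G rfl hPO (by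
      rw [← Nat.not_even_iff_odd, even_iff_two_dvd]; exact h2) h3.le)
  obtain ⟨T⟩ : Nonempty (Sylow 2 G) := inferInstance
  have h := hyp hns hPO hsimple h2 T
  have hcard := card_G h
  have hp := card_prime h hPO
  have hq4 := h.four_le
  obtain ⟨a, ha⟩ := T.isPGroup'.exists_card_eq
  set q := Nat.card T with hq
  by_cases hq4' : q = 4
  · exact alt_five h hsimple hq4'
  exfalso
  have ha' : q = 2 ^ a := ha
  have h3q : ¬ 3 ∣ q := by
    rw [ha']
    intro hd
    have := (Nat.prime_dvd_prime_iff_eq Nat.prime_three Nat.prime_two).1 (Nat.prime_three.dvd_of_dvd_pow hd)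
    omega
  have h2q : 2 ∣ q := by
    rw [ha']
    apply dvd_pow_self
    rintro rfl
    rw [pow_zero] at ha'
    omega
  have h3q1 : 3 ∣ q + 1 := by
    have hh : ¬ 3 ∣ q - 1 := by
      intro hd
      have h7 := (Nat.prime_dvd_prime_iff_eq Nat.prime_three hp).1 hd
      apply hq4'
      clear_value q
      omega
    have h9 : q % 3 = 0 ∨ q % 3 = 1 ∨ q % 3 = 2 := by omega
    clear_value q
    rcases h9 with h9 | h9 | h9 <;> omega
  -- the primes
  have hsubset : ({2, q - 1, 3} : Finset ℕ) ⊆ (Nat.card G).primeFactors := by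
    intro r hr
    simp only [Finset.mem_insert, Finset.mem_singleton] at hr
    rw [Nat.mem_primeFactors]
    rcases hr with rfl | rfl | rfl
    · exact ⟨Nat.prime_two, h2, Nat.card_pos.ne'⟩
    · refine ⟨hp, ?_, Nat.card_pos.ne'⟩
      rw [hcard]
      exact Dvd.dvd.mul_right (Dvd.intro_left _ rfl) _
    · refine ⟨Nat.prime_three, ?_, Nat.card_pos.ne'⟩
      rw [hcard]
      exact Dvd.dvd.mul_left h3q1 _
  have heq : ({2, q - 1, 3} : Finset ℕ) = (Nat.card G).primeFactors := by
    apply Finset.eq_of_subset_of_card_le hsubset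
    rw [h3, Finset.card_insert_of_notMem, Finset.card_insert_of_notMem, Finset.card_singleton]
    · rw [Finset.mem_singleton]; omega
    · rw [Finset.mem_insert, Finset.mem_singleton]; omega
  apply no_three h hPO
  intro g hg
  have h5 : orderOf g ∈ (Nat.card G).primeFactors :=
    Nat.mem_primeFactors.2 ⟨hPO g hg, orderOf_dvd_natCard g, Nat.card_pos.ne'⟩
  rw [← heq] at h5
  simp only [Finset.mem_insert, Finset.mem_singleton] at h5
  exact h5

end Cfsg.Agent.H2.FourOrb
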