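import Mathlib
import Cfsg.Prelude
import Cfsg.Agent.H2.CND
import Cfsg.Agent.Lib.SolvCrit

set_option autoImplicit false

/-! Symmetric and alternating groups without Hall subgroups. -/

namespace Cfsg.Agent.H2.HallExist

open Subgroup Cfsg.Agent.Lib Cfsg.Agent.Lib.Cores

/-- a simple group has no subgroup of small index -/
theorem simple_index {G : Type*} [Group G] [Finite G] [IsSimpleGroup G] (H : Subgroup G) (hH : H ≠ ⊤) : Nat.card G ≤ (H.index).factorial := by
  classical
  haveI : Fintype (G ⧸ H) := Fintype.ofFinite _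
  have h1 : (MulAction.toPermHom G (G ⧸ H)).ker = ⊥ := by
    rcases (MulAction.toPermHom G (G ⧸ H)).normal_ker.eq_bot_or_eq_top with h | h
    · exact h
    · exfalso
      apply hH
      rw [← Subgroup.normalCore_eq_ker] at h
      rw [eq_top_iff, ← h]
      exact normalCore_le H
  have h2 : Function.Injective (MulAction.toPermHom G (G ⧸ H)) := (MonoidHom.ker_eq_bot_iff _).mp h1
  have h3 := Nat.card_le_card_of_injective _ h2
  rw [Nat.card_perm] at h3
  exact h3

theorem alt_case {r : ℕ} (hr : r.Prime) (hr5 : 5 ≤ r) (H : Subgroup (alternatingGroup (Fin (r + 1)))) (hH : ¬ r ∣ Nat.card H)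
    (hi : ∀ s : ℕ, s.Prime → s ∣ H.index → s = r) : False := by
  haveI : IsSimpleGroup (alternatingGroup (Fin (r + 1))) := alternatingGroup.isSimpleGroup (by simp; omega)
  haveI : Nontrivial (Fin (r + 1)) := by
    rw [Fin.nontrivial_iff_two_le]; omega
  have hcard : Nat.card (alternatingGroup (Fin (r + 1))) = (r + 1).factorial / 2 := by
    rw [nat_card_alternatingGroup]; simp
  have h2 : 2 * Nat.card (alternatingGroup (Fin (r + 1))) = (r + 1).factorial := by
    rw [two_mul_nat_card_alternatingGroup, Nat.card_perm]; simp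
  have hrf : ¬ r ^ 2 ∣ (r + 1).factorial := by
    intro h
    rw [Nat.factorial_succ] at h
    have hcop : (r ^ 2).Coprime (r + 1) := Nat.Coprime.pow_left 2 (by simp)
    have h3 := hcop.dvd_of_dvd_mul_left h
    obtain ⟨k, rfl⟩ : ∃ k, r = k + 1 := ⟨r - 1, by omega⟩
    rw [Nat.factorial_succ, pow_two] at h3
    have h4 := Nat.dvd_of_mul_dvd_mul_left (by omega) h3
    have h5 := (hr.dvd_factorial).mp h4
    omega
  have hG : r ∣ Nat.card (alternatingGroup (Fin (r + 1))) := by
    have h3 : r ∣ 2 * Nat.card (alternatingGroup (Fin (r + 1))) := by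
      rw [h2]; exact hr.dvd_factorial.mpr (by omega)
    rcases hr.dvd_mul.mp h3 with h | h
    · exact absurd (Nat.le_of_dvd (by norm_num) h) (by omega)
    · exact h
  have hHt : H ≠ ⊤ := by
    rintro rfl
    rw [card_top] at hH
    exact hH hG
  have hidx : H.index = r := by
    have h3 : H.index ≠ 0 := index_ne_zero_of_finite
    have h4 : H.index = r ^ (H.index.primeFactorsList.length) := Nat.eq_prime_pow_of_unique_prime_dvd h3 (fun {d} hd hdd => hi d hd hdd)
    obtain ⟨k, hk⟩ : ∃ k, k = H.index.primeFactorsList.length := ⟨_, rfl⟩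
    rw [← hk] at h4
    have h5 : k ≠ 0 := by
      rintro rfl
      rw [pow_zero] at h4
      exact hHt (index_eq_one.mp h4)
    have h6 : ¬ 2 ≤ k := by
      intro h6
      apply hrf
      rw [← h2]
      exact ((pow_dvd_pow r h6).trans (h4 ▸ H.index_dvd_card)).mul_left _
    have h7 : k = 1 := by omega
    rw [h4, h7, pow_one]
  have h3 := simple_index H hHt
  rw [hidx] at h3
  have h4 : (r + 1) * r.factorial ≤ 2 * r.factorial := by
    rw [← Nat.factorial_succ, ← h2]; omega
  have h5 := Nat.le_of_mul_le_mul_right h4 (Nat.factorial_pos r)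
  omega

/-- elements commuting with a transitive element of prime order -/
theorem sym_case {p q : ℕ} (hp : p.Prime) (hq : q.Prime) (hpq : p + 1 < q) (H : Subgroup (Equiv.Perm (Fin q)))
    (hH : ∀ s : ℕ, s.Prime → s ∣ Nat.card H → s = p ∨ s = q) (hip : ¬ p ∣ H.index) (hiq : ¬ q ∣ H.index) : False := by
  classical
  haveI : Fact p.Prime := ⟨hp⟩
  haveI : Fact q.Prime := ⟨hq⟩
  have hcard : Nat.card (Equiv.Perm (Fin q)) = q.factorial := by rw [Nat.card_perm]; simp
  have hqH : q ∣ Nat.card H := by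
    have h1 : q ∣ Nat.card H * H.index := by rw [H.card_mul_index, hcard]; exact hq.dvd_factorial.mpr le_rfl
    rcases hq.dvd_mul.mp h1 with h | h
    · exact h
    · exact absurd h hiq
  have hqf : ¬ q ^ 2 ∣ q.factorial := by
    intro h3
    obtain ⟨k, hk⟩ : ∃ k, q = k + 1 := ⟨q - 1, by omega⟩
    rw [hk, Nat.factorial_succ, pow_two, ← hk] at h3
    have h4 := Nat.dvd_of_mul_dvd_mul_left (by omega) h3
    have h5 := (hq.dvd_factorial).mp h4
    omega
  have hsol : Group.IsSolvable H := SolvCrit.solvable_of_two_primes hp hq hH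
  haveI := hsol
  -- elements of order `q` are transitive
  have htr : ∀ σ : Equiv.Perm (Fin q), orderOf σ = q → ∀ x y : Fin q, ∃ i : ℤ, (σ ^ i) x = y := by
    intro σ hσ x y
    have h1 : σ.IsCycle := Equiv.Perm.isCycle_of_prime_order'' (by simpa using hq) (by simpa using hσ)
    have h2 : σ.support.card = q := by rw [← h1.orderOf, hσ]
    have h3 : σ.support = Finset.univ := by
      rw [← Finset.card_eq_iff_eq_univ, h2]; simp
    exact h1.exists_zpow_eq (Equiv.Perm.mem_support.mp (h3 ▸ Finset.mem_univ x)) (Equiv.Perm.mem_support.mp (h3 ▸ Finset.mem_univ y))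
  obtain ⟨s, hs, hsO⟩ : ∃ s, s.Prime ∧ Cfsg.pCore s H ≠ ⊥ := by
    by_contra hcon
    push Not at hcon
    have h1 := CND.card_one_of_fitting hsol (fitting_eq_bot_iff.mpr fun p hp => hcon p hp)
    rw [h1] at hqH
    exact hq.one_lt.ne' (Nat.dvd_one.mp hqH)
  haveI : Fact s.Prime := ⟨hs⟩
  haveI hOn := pCore_normal (G := H) s
  have hOp := pCore_isPGroup (G := H) s
  obtain ⟨V, hV⟩ : ∃ V, V = (Cfsg.pCore s H).map H.subtype := ⟨_, rfl⟩
  have hVp : IsPGroup s V := hV ▸ hOp.map _
  have hV1 : V ≠ ⊥ := by rw [hV, Ne, Subgroup.map_eq_bot_iff_of_injective _ H.subtype_injective]; exact hsO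
  have hVH : ∀ h ∈ H, ∀ v ∈ V, h * v * h⁻¹ ∈ V := by
    intro h hh v hv
    rw [hV] at hv ⊢
    obtain ⟨v, hv, rfl⟩ := hv
    exact ⟨⟨h, hh⟩ * v * ⟨h, hh⟩⁻¹, hOn.conj_mem v hv _, rfl⟩
  obtain ⟨σ, hσ⟩ := exists_prime_orderOf_dvd_card' (G := H) q hqH
  have hσ' : orderOf (σ : Equiv.Perm (Fin q)) = q := by rw [Subgroup.orderOf_coe]; exact hσ
  have hsq : s = q := by
    by_contra hsq
    have h1 : ¬ s ∣ Nat.card (Fin q) := by
      rw [Nat.card_fin]
      intro h
      exact hsq ((Nat.prime_dvd_prime_iff_eq hs hq).mp h)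
    obtain ⟨x, hx⟩ := hVp.nonempty_fixed_point_of_prime_not_dvd_card (Fin q) h1
    apply hV1
    rw [eq_bot_iff]
    intro v hv
    rw [mem_bot]
    ext y
    obtain ⟨i, hi⟩ := htr _ hσ' x y
    have h2 : ((σ : Equiv.Perm (Fin q)) ^ i)⁻¹ * v * (((σ : Equiv.Perm (Fin q)) ^ i)⁻¹)⁻¹ ∈ V := hVH _ (inv_mem (zpow_mem σ.2 i)) v hv
    rw [inv_inv] at h2
    have h3 := hx ⟨_, h2⟩
    have h4 : (((σ : Equiv.Perm (Fin q)) ^ i)⁻¹ * v * ((σ : Equiv.Perm (Fin q)) ^ i)) x = x := h3
    rw [Equiv.Perm.mul_apply, Equiv.Perm.mul_apply, hi] at h4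
    have h5 : v y = y := by
      rw [Equiv.Perm.inv_eq_iff_eq, hi] at h4
      exact h4
    rw [h5]; rfl
  subst hsq
  -- `V` has order `s`
  obtain ⟨n, hn⟩ := IsPGroup.iff_card.mp hVp
  have hn1 : n = 1 := by
    have h1 : n ≠ 0 := by rintro rfl; exact hV1 (card_eq_one.mp (by rw [hn, pow_zero]))
    have h2 : ¬ 2 ≤ n := by
      intro h2
      apply hqf
      rw [← hcard]
      exact (pow_dvd_pow s h2).trans (hn ▸ V.card_subgroup_dvd_card)
    omega
  rw [hn1, pow_one] at hn
  obtain ⟨τ, hτ⟩ := exists_prime_orderOf_dvd_card' (G := V) s (by rw [hn])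
  have hτ' : orderOf (τ : Equiv.Perm (Fin s)) = s := by rw [Subgroup.orderOf_coe]; exact hτ
  -- the action of `H` on `V`
  have hOcard : Nat.card (Cfsg.pCore s H) = s := by
    have e1 : Nat.card (Cfsg.pCore s H) = Nat.card V := by
      rw [hV]
      exact Nat.card_congr ((Cfsg.pCore s H).equivMapOfInjective _ H.subtype_injective).toEquiv
    exact e1.trans hn
  obtain ⟨φ, hφ⟩ : ∃ φ : H →* MulAut (Cfsg.pCore s H), φ = MulAut.conjNormal := ⟨_, rfl⟩
  have hker : φ.ker ≤ Cfsg.pCore s H := by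
    intro h hh
    have h1 : ∀ v : Cfsg.pCore s H, (h : Equiv.Perm (Fin s)) * (v : H) = (v : H) * (h : Equiv.Perm (Fin s)) := by
      intro v
      have h2 : φ h = 1 := hh
      have h3 : ((φ h v : Cfsg.pCore s H) : H) = h * v * h⁻¹ := by rw [hφ]; exact MulAut.conjNormal_apply h v
      rw [h2] at h3
      have h4 : (v : H) = h * v * h⁻¹ := h3
      have h5 : (v : H) * h = h * v := by
        rw [eq_mul_inv_iff_mul_eq] at h4; exact h4
      exact (congrArg Subtype.val h5).symm
    have h2 : ∀ v ∈ V, (h : Equiv.Perm (Fin s)) * v = v * (h : Equiv.Perm (Fin s)) := by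
      intro v hv
      rw [hV] at hv
      obtain ⟨v, hv, rfl⟩ := hv
      exact h1 ⟨v, hv⟩
    obtain ⟨x⟩ : Nonempty (Fin s) := ⟨⟨0, hq.pos⟩⟩
    obtain ⟨i, hi⟩ := htr _ hτ' x ((h : Equiv.Perm (Fin s)) x)
    have h3 : (h : Equiv.Perm (Fin s)) = (τ : Equiv.Perm (Fin s)) ^ i := by
      ext y
      obtain ⟨j, hj⟩ := htr _ hτ' x y
      have h4 := h2 ((τ : Equiv.Perm (Fin s)) ^ j) (zpow_mem τ.2 j)
      have h5 : (h : Equiv.Perm (Fin s)) y = ((τ : Equiv.Perm (Fin s)) ^ i) y := by
        rw [← hj, ← Equiv.Perm.mul_apply, h4, Equiv.Perm.mul_apply, ← hi, ← Equiv.Perm.mul_apply, ← Equiv.Perm.mul_apply, ← zpow_add, ← zpow_add, add_comm]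
      rw [h5]
    have h4 : (h : Equiv.Perm (Fin s)) ∈ V := h3 ▸ zpow_mem τ.2 i
    rw [hV] at h4
    obtain ⟨k, hk, hkh⟩ := h4
    rwa [← Subtype.ext hkh]
  have hHcard : Nat.card H ∣ s * (s - 1) := by
    have h1 : Nat.card φ.ker ∣ s := (card_dvd_of_le hker).trans (dvd_of_eq hOcard)
    haveI : IsCyclic (Cfsg.pCore s H) := isCyclic_of_prime_card hOcard
    have h2 : Nat.card φ.range ∣ s - 1 := by
      have h3 := IsCyclic.card_mulAut (G := Cfsg.pCore s H)
      rw [hOcard, Nat.totient_prime hq] at h3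
      rw [← h3]
      exact card_subgroup_dvd_card _
    have h3 : Nat.card H = Nat.card φ.ker * Nat.card φ.range := by
      rw [← φ.ker.card_mul_index, index_ker]
    rw [h3]
    exact mul_dvd_mul h1 h2
  -- the `p`-part
  have hne : p ≠ s := by omega
  have hf1 : (Nat.factorial s).factorization p ≤ (Nat.card H).factorization p := by
    rw [← hcard, ← H.card_mul_index, Nat.factorization_mul Nat.card_pos.ne' index_ne_zero_of_finite, Finsupp.add_apply, Nat.factorization_eq_zero_of_not_dvd hip]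
    simp
  have hf2 : (Nat.card H).factorization p ≤ (s * (s - 1)).factorization p := by
    have h1 : s * (s - 1) ≠ 0 := mul_ne_zero (by omega) (by omega)
    exact (Nat.factorization_le_iff_dvd Nat.card_pos.ne' h1).mpr hHcard p
  have hf3 : (Nat.factorial s).factorization p = (s * (s - 1)).factorization p + (Nat.factorial (s - 2)).factorization p := by
    obtain ⟨k, rfl⟩ : ∃ k, s = k + 2 := ⟨s - 2, by omega⟩
    have h1 : (k + 2).factorial = (k + 2) * (k + 2 - 1) * (k + 2 - 2).factorial := by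
      rw [Nat.factorial_succ, Nat.factorial_succ, ← mul_assoc]; rfl
    rw [h1, Nat.factorization_mul (mul_ne_zero (by omega) (by omega)) (Nat.factorial_ne_zero _), Finsupp.add_apply]
  have hf4 : 0 < (Nat.factorial (s - 2)).factorization p :=
    hp.factorization_pos_of_dvd (Nat.factorial_ne_zero _) (hp.dvd_factorial.mpr (by omega))
  omega

end Cfsg.Agent.H2.HallExist
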