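import Mathlib
import Cfsg.Prelude.Def_Transfer
import Cfsg.Agent.Lib.BlockPP
import Cfsg.Agent.Lib.Wiel
import Cfsg.Agent.Lib.PNilp

/-! Counting conjugacy classes of `π`-elements. -/

namespace Cfsg.Agent.H2.KPi

open Subgroup Cfsg.Agent.Lib.BlockPP

universe u

theorem fiber_bound {α β : Type*} [Finite α] [Finite β] (f : α → β) (hf : Function.Surjective f)
    (F : Set α) (m : ℕ) (h : ∀ a ∉ F, m ≤ Nat.card {a' // f a' = f a}) :
    m * Nat.card β ≤ Nat.card α + (m - 1) * Nat.card F := by
  classical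
  have := Fintype.ofFinite β
  have h1 : Nat.card α = ∑ b : β, Nat.card {a // f a = b} := by
    rw [← Nat.card_sigma]; exact Nat.card_congr (Equiv.sigmaFiberEquiv f).symm
  have h2 : Nat.card F = ∑ b : β, Nat.card {a : F // f a = b} := by
    rw [← Nat.card_sigma]; exact Nat.card_congr (Equiv.sigmaFiberEquiv (fun a : F => f a)).symm
  have h3 : m * Nat.card β = ∑ _b : β, m := by
    rw [Finset.sum_const, Finset.card_univ, smul_eq_mul, mul_comm, Nat.card_eq_fintype_card]
  rw [h1, h2, h3, Finset.mul_sum, ← Finset.sum_add_distrib]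
  apply Finset.sum_le_sum
  intro b _
  by_cases hb : ∃ a, f a = b ∧ a ∉ F
  · obtain ⟨a, rfl, ha⟩ := hb
    exact (h a ha).trans (Nat.le_add_right _ _)
  · push Not at hb
    obtain ⟨a, rfl⟩ := hf b
    have ha := hb a rfl
    have h4 : 1 ≤ Nat.card {a' // f a' = f a} := by
      have : Nonempty {a' // f a' = f a} := ⟨⟨a, rfl⟩⟩
      exact Nat.card_pos
    have h5 : 1 ≤ Nat.card {a' : F // f a' = f a} := by
      have : Nonempty {a' : F // f a' = f a} := ⟨⟨⟨a, ha⟩, rfl⟩⟩
      exact Nat.card_pos
    have h6 : (m - 1) * 1 ≤ (m - 1) * Nat.card {a' : F // f a' = f a} :=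
      Nat.mul_le_mul_left _ h5
    omega

/-- number of classes of `ν`-elements -/
noncomputable def kk (ν : Set ℕ) (G : Type u) [Group G] : ℕ :=
  Nat.card {c : ConjClasses G // ∀ x ∈ c.carrier, ∀ r : ℕ, r.Prime → r ∣ orderOf x → r ∈ ν}

theorem orderOf_of_isConj {G : Type*} [Group G] {x y : G} (h : IsConj x y) : orderOf x = orderOf y := by
  obtain ⟨c, rfl⟩ := isConj_iff.1 h
  have := orderOf_injective (MulAut.conj c).toMonoidHom (MulAut.conj c).injective x
  simpa [MulAut.conj_apply] using this.symm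

theorem pow_iff {q n : ℕ} (hq : q.Prime) (hn : n ≠ 0) :
    (∀ r : ℕ, r.Prime → r ∣ n → r ∈ ({q} : Set ℕ)) ↔ ∃ k : ℕ, n = q ^ k := by
  constructor
  · intro h
    exact ⟨_, Nat.eq_prime_pow_of_unique_prime_dvd hn (fun {d} hd hdn => h d hd hdn)⟩
  · rintro ⟨k, rfl⟩ r hr hrk
    exact (Nat.prime_dvd_prime_iff_eq hr hq).1 (hr.dvd_of_dvd_pow hrk)

theorem kk_single {G : Type u} [Group G] [Finite G] {q : ℕ} (hq : q.Prime) :
    kk {q} G = Nat.card {c : ConjClasses G // ∀ x ∈ c.carrier, ∃ k : ℕ, orderOf x = q ^ k} := by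
  unfold kk
  apply Nat.card_congr
  apply Equiv.subtypeEquivRight
  intro c
  refine forall_congr' fun x => forall_congr' fun _ => pow_iff hq (orderOf_pos x).ne'

theorem kk_insert_le {G : Type u} [Group G] [Finite G] {ν : Set ℕ} {q : ℕ} (hq : q.Prime)
    (M : ℕ) (hM : ∀ x : G, kk ν (centralizer ({x} : Set G)) ≤ M) :
    kk (insert q ν) G ≤ kk {q} G * M := by
  classical
  set A := {c : ConjClasses G // ∀ x ∈ c.carrier, ∀ r : ℕ, r.Prime → r ∣ orderOf x → r ∈ ({q} : Set ℕ)}
    with hA
  have := Fintype.ofFinite A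
  let B : A → Type u := fun c => {d : ConjClasses (centralizer ({c.1.out} : Set G)) //
    ∀ x ∈ d.carrier, ∀ r : ℕ, r.Prime → r ∣ orderOf x → r ∈ ν}
  let Φ : (Σ c : A, B c) → ConjClasses G := fun s => ConjClasses.mk (s.1.1.out * (s.2.1.out : G))
  have h1 : {c : ConjClasses G | ∀ x ∈ c.carrier, ∀ r : ℕ, r.Prime → r ∣ orderOf x → r ∈ insert q ν} ⊆
      Set.range Φ := by
    intro t ht
    obtain ⟨y, rfl⟩ := ConjClasses.exists_rep t
    have hy : ∀ r : ℕ, r.Prime → r ∣ orderOf y → r ∈ insert q ν := ht y ConjClasses.mem_carrier_mk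
    obtain ⟨k, hk⟩ := exists_orderOf_pp hq y
    let c : A := ⟨ConjClasses.mk (pp q y), by
      intro x hx
      rw [ConjClasses.mem_carrier_iff_mk_eq, ConjClasses.mk_eq_mk_iff_isConj] at hx
      rw [pow_iff hq (orderOf_pos x).ne']
      exact ⟨k, by rw [orderOf_of_isConj hx, hk]⟩⟩
    have hc : ConjClasses.mk (c.1.out) = ConjClasses.mk (pp q y) := Quotient.out_eq _
    rw [ConjClasses.mk_eq_mk_iff_isConj] at hc
    obtain ⟨g, hg⟩ := isConj_iff.1 hc.symm
    have hmem : g * pq q y * g⁻¹ ∈ centralizer ({c.1.out} : Set G) := by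
      rw [mem_centralizer_singleton_iff, ← hg]
      have := (pp_commute_pq q y).eq
      calc g * pq q y * g⁻¹ * (g * pp q y * g⁻¹) = g * (pq q y * pp q y) * g⁻¹ := by group
        _ = g * (pp q y * pq q y) * g⁻¹ := by rw [this]
        _ = g * pp q y * g⁻¹ * (g * pq q y * g⁻¹) := by group
    let d : B c := ⟨ConjClasses.mk ⟨g * pq q y * g⁻¹, hmem⟩, by
      intro x hx r hr hrx
      rw [ConjClasses.mem_carrier_iff_mk_eq, ConjClasses.mk_eq_mk_iff_isConj] at hx
      have e1 : orderOf x = orderOf (pq q y) := by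
        rw [orderOf_of_isConj hx, ← Subgroup.orderOf_coe]
        exact (orderOf_of_isConj (isConj_iff.2 ⟨g, rfl⟩)).symm
      rw [e1] at hrx
      have hrq : r ≠ q := by
        rintro rfl
        exact not_dvd_orderOf_pq hr y hrx
      have hpq : orderOf (pq q y) ∣ orderOf y := by
        have hz : pq q y ∈ zpowers y := pq_mem (mem_zpowers y)
        exact orderOf_dvd_of_mem_zpowers hz
      exact (hy r hr (hrx.trans hpq)).resolve_left hrq⟩
    refine ⟨⟨c, d⟩, ?_⟩
    show ConjClasses.mk (c.1.out * (d.1.out : G)) = ConjClasses.mk y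
    have hd : ConjClasses.mk (d.1.out) = ConjClasses.mk (⟨g * pq q y * g⁻¹, hmem⟩ :
      centralizer ({c.1.out} : Set G)) := Quotient.out_eq _
    rw [ConjClasses.mk_eq_mk_iff_isConj] at hd
    obtain ⟨h, hh⟩ := isConj_iff.1 hd.symm
    rw [ConjClasses.mk_eq_mk_iff_isConj]
    apply IsConj.symm
    rw [isConj_iff]
    refine ⟨(h : G) * g, ?_⟩
    have h3 : (d.1.out : G) = (h : G) * (g * pq q y * g⁻¹) * (h : G)⁻¹ := by
      rw [← hh]; rfl
    have h4 : (h : G) * c.1.out = c.1.out * h := mem_centralizer_singleton_iff.1 h.2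
    have h5 : c.1.out = (h : G) * (g * pp q y * g⁻¹) * (h : G)⁻¹ := by
      rw [hg, h4]; group
    rw [h3]
    calc (h : G) * g * y * ((h : G) * g)⁻¹
        = ((h : G) * (g * pp q y * g⁻¹) * (h : G)⁻¹) * ((h : G) * (g * pq q y * g⁻¹) * (h : G)⁻¹) := by
          conv_lhs => rw [← pp_mul_pq q y]
          group
      _ = c.1.out * ((h : G) * (g * pq q y * g⁻¹) * (h : G)⁻¹) :=
          congrArg (· * ((h : G) * (g * pq q y * g⁻¹) * (h : G)⁻¹)) h5.symm
  have h2 : kk (insert q ν) G ≤ Nat.card (Set.range Φ) := Nat.card_mono (Set.toFinite _) h1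
  have h3 : Nat.card (Set.range Φ) ≤ Nat.card (Σ c : A, B c) :=
    Nat.card_le_card_of_surjective _ Set.rangeFactorization_surjective
  have h4 : Nat.card (Σ c : A, B c) ≤ kk {q} G * M := by
    rw [Nat.card_sigma]
    calc ∑ c : A, Nat.card (B c) ≤ ∑ _c : A, M := Finset.sum_le_sum fun c _ => hM _
      _ = kk {q} G * M := by
        rw [Finset.sum_const, Finset.card_univ, smul_eq_mul, kk, Nat.card_eq_fintype_card]
  exact h2.trans (h3.trans h4)

/-- the map from a Sylow subgroup onto the classes of `p`-elements -/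
noncomputable def clsMap {G : Type u} [Group G] {p : ℕ} [Fact p.Prime] (P : Sylow p G) (x : (P : Subgroup G)) :
    {c : ConjClasses G // ∀ x ∈ c.carrier, ∃ k : ℕ, orderOf x = p ^ k} :=
  ⟨ConjClasses.mk (x : G), by
    intro y hy
    rw [ConjClasses.mem_carrier_iff_mk_eq, ConjClasses.mk_eq_mk_iff_isConj] at hy
    obtain ⟨k, hk⟩ := IsPGroup.iff_orderOf.1 P.isPGroup' x
    exact ⟨k, by rw [orderOf_of_isConj hy, Subgroup.orderOf_coe, hk]⟩⟩

theorem clsMap_surjective {G : Type u} [Group G] [Finite G] {p : ℕ} [Fact p.Prime] (P : Sylow p G) :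
    Function.Surjective (clsMap P) := by
  rintro ⟨c, hc⟩
  obtain ⟨y, rfl⟩ := ConjClasses.exists_rep c
  obtain ⟨k, hk⟩ := hc y ConjClasses.mem_carrier_mk
  have hp : IsPGroup p (zpowers y) := IsPGroup.of_card (n := k) (by rw [Nat.card_zpowers, hk])
  obtain ⟨Q, hQ⟩ := hp.exists_le_sylow
  obtain ⟨g, hg⟩ := MulAction.exists_smul_eq G Q P
  have hyP : g * y * g⁻¹ ∈ P := by
    rw [← hg]
    have : y ∈ Q := hQ (mem_zpowers y)
    exact ⟨y, this, rfl⟩
  refine ⟨⟨g * y * g⁻¹, hyP⟩, Subtype.ext ?_⟩
  show ConjClasses.mk (g * y * g⁻¹) = ConjClasses.mk y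
  rw [ConjClasses.mk_eq_mk_iff_isConj]
  exact (isConj_iff.2 ⟨g, rfl⟩).symm

theorem kk_single_le {G : Type u} [Group G] [Finite G] {q : ℕ} [hq : Fact q.Prime] (P : Sylow q G) :
    kk {q} G ≤ Nat.card P := by
  rw [kk_single hq.out]
  exact Nat.card_le_card_of_surjective _ (clsMap_surjective P)

theorem kk_le (ν : Finset ℕ) : (∀ r ∈ ν, r.Prime) → ∀ (G : Type u) [Group G] [Finite G],
    kk (↑ν : Set ℕ) G ≤ ν.prod (fun r => r ^ (Nat.card G).factorization r) := by
  classical
  induction ν using Finset.induction_on with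
  | empty =>
    intro _ G _ _
    rw [Finset.prod_empty]
    unfold kk
    have : Subsingleton {c : ConjClasses G // ∀ x ∈ c.carrier, ∀ r : ℕ, r.Prime → r ∣ orderOf x →
        r ∈ ((∅ : Finset ℕ) : Set ℕ)} := by
      have key : ∀ c : ConjClasses G, (∀ x ∈ c.carrier, ∀ r : ℕ, r.Prime → r ∣ orderOf x →
        r ∈ ((∅ : Finset ℕ) : Set ℕ)) → c = ConjClasses.mk 1 := by
        intro c hc
        obtain ⟨x, rfl⟩ := ConjClasses.exists_rep c
        have h1 : orderOf x = 1 := by
          by_contra hne
          obtain ⟨r, hr, hrx⟩ := Nat.exists_prime_and_dvd hne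
          have := hc x ConjClasses.mem_carrier_mk r hr hrx
          simp at this
        rw [orderOf_eq_one_iff] at h1
        rw [h1]
      exact ⟨fun a b => Subtype.ext ((key a.1 a.2).trans (key b.1 b.2).symm)⟩
    exact Finite.card_le_one_iff_subsingleton.2 this
  | insert q ν hqν ih =>
    intro hpr G _ _
    have hq : q.Prime := hpr q (Finset.mem_insert_self _ _)
    have : Fact q.Prime := ⟨hq⟩
    rw [Finset.coe_insert, Finset.prod_insert hqν]
    have h1 : kk (insert q (↑ν : Set ℕ)) G ≤ kk {q} G * ν.prod (fun r => r ^ (Nat.card G).factorization r) := by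
      apply kk_insert_le hq
      intro x
      refine (ih (fun r hr => hpr r (Finset.mem_insert_of_mem hr)) _).trans ?_
      apply Finset.prod_le_prod' 
      intro r hr
      apply Nat.pow_le_pow_right (hpr r (Finset.mem_insert_of_mem hr)).pos
      exact (Nat.factorization_le_iff_dvd Nat.card_pos.ne' Nat.card_pos.ne').2
        (card_subgroup_dvd_card _) r
    obtain ⟨P⟩ : Nonempty (Sylow q G) := inferInstance
    have h2 := kk_single_le P
    rw [P.card_eq_multiplicity] at h2
    exact h1.trans (Nat.mul_le_mul_right _ h2)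

/-- `p`-singular estimate: many classes of `p`-elements force abelian Sylow and normal complement -/
theorem main {G : Type u} [Group G] [Finite G] {p : ℕ} [hp : Fact p.Prime] (P : Sylow p G)
    (h : (p + 1) * Nat.card ↥(P : Subgroup G) < 2 * p * Nat.card {c : ConjClasses G // ∀ x ∈ c.carrier, ∃ k : ℕ, orderOf x = p ^ k}) :
    normalizer (P : Set G) ≤ centralizer (P : Set G) ∧ IsMulCommutative ↥(P : Subgroup G) := by
  classical
  set K := Nat.card {c : ConjClasses G // ∀ x ∈ c.carrier, ∃ k : ℕ, orderOf x = p ^ k} with hK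
  have hp2 : 2 ≤ p := hp.out.two_le
  -- abelian
  have hab : IsMulCommutative ↥(P : Subgroup G) := by
    by_contra hab
    have h1 := fiber_bound (clsMap P) (clsMap_surjective P) (center (P : Subgroup G) : Set (P : Subgroup G)) p (by
      intro a ha
      have hne : centralizer ({a} : Set (P : Subgroup G)) ≠ ⊤ := by
        intro he
        apply ha
        show a ∈ center _
        rw [mem_center_iff]
        intro g
        have : g ∈ centralizer ({a} : Set (P : Subgroup G)) := by rw [he]; trivial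
        exact mem_centralizer_singleton_iff.1 this
      have hidx : p ≤ (centralizer ({a} : Set (P : Subgroup G))).index := by
        obtain ⟨k, hk⟩ := (IsPGroup.index P.isPGroup' (centralizer ({a} : Set (P : Subgroup G))))
        rw [hk]
        have hk0 : k ≠ 0 := by
          rintro rfl
          rw [pow_zero] at hk
          exact hne (index_eq_one.1 hk)
        exact Nat.le_self_pow hk0 p
      refine hidx.trans ?_
      let g : (↥(P : Subgroup G) ⧸ centralizer ({a} : Set (P : Subgroup G))) → {a' // clsMap P a' = clsMap P a} :=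
        fun q => ⟨q.out * a * (q.out)⁻¹, Subtype.ext (by
          show ConjClasses.mk _ = ConjClasses.mk _
          rw [ConjClasses.mk_eq_mk_iff_isConj]
          exact (isConj_iff.2 ⟨(q.out : G), rfl⟩).symm)⟩
      have hg : Function.Injective g := by
        intro q1 q2 h12
        have h3 : q1.out * a * (q1.out)⁻¹ = q2.out * a * (q2.out)⁻¹ := congrArg Subtype.val h12
        have h4 : q1.out⁻¹ * q2.out ∈ centralizer ({a} : Set (P : Subgroup G)) := by
          rw [mem_centralizer_singleton_iff]
          calc q1.out⁻¹ * q2.out * a = q1.out⁻¹ * (q2.out * a * (q2.out)⁻¹) * q2.out := by group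
            _ = q1.out⁻¹ * (q1.out * a * (q1.out)⁻¹) * q2.out := by rw [h3]
            _ = a * (q1.out⁻¹ * q2.out) := by group
        rw [← Quotient.out_eq q1, ← Quotient.out_eq q2]
        exact QuotientGroup.eq.2 h4
      exact Nat.card_le_card_of_injective g hg)
    rw [← hK] at h1
    -- center index
    have hZ : p ^ 2 * Nat.card (center (P : Subgroup G)) ≤ Nat.card P := by
      have hidx : (center (P : Subgroup G)).index = Nat.card (↥(P : Subgroup G) ⧸ center (P : Subgroup G)) := rfl
      obtain ⟨k, hk⟩ := IsPGroup.index P.isPGroup' (center (P : Subgroup G))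
      have hcyc : ¬ IsCyclic (↥(P : Subgroup G) ⧸ center (P : Subgroup G)) := by
        intro hc
        apply hab
        exact MonoidHom.isMulCommutative_of_isCyclic_of_ker_le_center
          (QuotientGroup.mk' (center (P : Subgroup G))) (by rw [QuotientGroup.ker_mk'])
      have hk2 : 2 ≤ k := by
        by_contra hlt
        push Not at hlt
        apply hcyc
        interval_cases k
        · rw [pow_zero] at hk
          have : Subsingleton (↥(P : Subgroup G) ⧸ center (P : Subgroup G)) :=
            Finite.card_le_one_iff_subsingleton.1 (by rw [← hidx, hk])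
          exact isCyclic_of_subsingleton
        · rw [pow_one] at hk
          exact isCyclic_of_prime_card (by rw [← hidx, hk])
      have h5 : Nat.card (center (P : Subgroup G)) * (center (P : Subgroup G)).index = Nat.card P :=
        card_mul_index _
      rw [← h5, hk, mul_comm]
      exact Nat.mul_le_mul_left _ (Nat.pow_le_pow_right hp.out.pos hk2)
    have h1' : p * K ≤ Nat.card P + (p - 1) * Nat.card (center (P : Subgroup G)) := h1
    have hPpos : 0 < Nat.card P := Nat.card_pos
    obtain ⟨r, rfl⟩ : ∃ r, p = r + 2 := ⟨p - 2, by omega⟩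
    have e1 : r + 2 - 1 = r + 1 := by omega
    rw [e1] at h1'
    set c := Nat.card P
    set z := Nat.card (center (P : Subgroup G))
    have h7 : (r + 1) * c < (r + 1) * (2 * z) := by nlinarith
    have h8 : c < 2 * z := Nat.lt_of_mul_lt_mul_left h7
    have h9 : 4 * z ≤ c := le_trans (Nat.mul_le_mul_right _ (by nlinarith)) hZ
    omega
  refine ⟨?_, hab⟩
  intro n hn
  by_contra hnC
  set F : Set (P : Subgroup G) := {x | n * x * n⁻¹ = x} with hF
  have h1 := fiber_bound (clsMap P) (clsMap_surjective P) F 2 (by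
    intro a ha
    have hna : n * (a : G) * n⁻¹ ∈ (P : Subgroup G) := (mem_normalizer_iff.1 hn _).1 a.2
    have : Nontrivial {a' // clsMap P a' = clsMap P a} := by
      refine ⟨⟨a, rfl⟩, ⟨⟨n * a * n⁻¹, hna⟩, Subtype.ext ?_⟩, ?_⟩
      · show ConjClasses.mk (n * a * n⁻¹) = ConjClasses.mk (a : G)
        rw [ConjClasses.mk_eq_mk_iff_isConj]
        exact (isConj_iff.2 ⟨n, rfl⟩).symm
      · intro he
        apply ha
        have := congrArg (fun t => ((t.1 : (P : Subgroup G)) : G)) he
        exact this.symm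
    exact Finite.one_lt_card)
  rw [← hK] at h1
  have hFle : p * Nat.card F ≤ Nat.card P := by
    let S : Subgroup (P : Subgroup G) :=
      { carrier := F
        mul_mem' := by
          intro a b ha hb
          show n * ((a * b : (P : Subgroup G)) : G) * n⁻¹ = ((a * b : (P : Subgroup G)) : G)
          have ha' : n * (a : G) * n⁻¹ = a := ha
          have hb' : n * (b : G) * n⁻¹ = b := hb
          rw [Subgroup.coe_mul]
          calc n * ((a : G) * b) * n⁻¹ = (n * a * n⁻¹) * (n * b * n⁻¹) := by group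
            _ = a * b := by rw [ha', hb']
        one_mem' := by show n * ((1 : (P : Subgroup G)) : G) * n⁻¹ = ((1 : (P : Subgroup G)) : G); simp
        inv_mem' := by
          intro a ha
          have ha' : n * (a : G) * n⁻¹ = a := ha
          show n * ((a⁻¹ : (P : Subgroup G)) : G) * n⁻¹ = ((a⁻¹ : (P : Subgroup G)) : G)
          rw [Subgroup.coe_inv]
          calc n * (a : G)⁻¹ * n⁻¹ = (n * a * n⁻¹)⁻¹ := by group
            _ = (a : G)⁻¹ := by rw [ha'] }
    have hS : S ≠ ⊤ := by
      intro hS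
      apply hnC
      rw [mem_centralizer_iff]
      intro x hx
      have : (⟨x, hx⟩ : (P : Subgroup G)) ∈ S := by rw [hS]; trivial
      have h3 : n * x * n⁻¹ = x := this
      calc x * n = (n * x * n⁻¹) * n := by rw [h3]
        _ = n * x := by group
    obtain ⟨k, hk⟩ := IsPGroup.index P.isPGroup' S
    have hk0 : k ≠ 0 := by
      rintro rfl
      rw [pow_zero] at hk
      exact hS (index_eq_one.1 hk)
    have h5 : Nat.card S * S.index = Nat.card P := card_mul_index _
    have h6 : Nat.card S = Nat.card F := rfl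
    rw [← h5, hk, h6, mul_comm]
    exact Nat.mul_le_mul_left _ (Nat.le_self_pow hk0 p)
  have e1 : 2 - 1 = 1 := rfl
  rw [e1, one_mul] at h1
  have h1' : 2 * K ≤ Nat.card P + Nat.card F := h1
  nlinarith [h1', hFle, h]

end Cfsg.Agent.H2.KPi
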