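import Mathlib
import Cfsg.Agent.Lib.SylRel
import Cfsg.Agent.Lib.ZPN
import Cfsg.Agent.Lib.PNilp
import Cfsg.Agent.Lib.Nilp
import Cfsg.Agent.Lib.FrobC
import Cfsg.Agent.H2.Hyper
import Cfsg.Agent.H2.PUtil

set_option autoImplicit false

/-! Normal subgroups in which all noncentral elements have maximal centralizers. -/

open Subgroup Cfsg.Agent.Lib Cfsg.Agent.Lib.Basic Cfsg.Agent.Lib.PNilp Cfsg.Agent.Lib.SylRel
open scoped Pointwise commutatorElement

universe u

namespace Cfsg.Agent.H2.MaxCent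

variable {G : Type u} [Group G] [Finite G] {N : Subgroup G}

/-- centralizers of the noncentral elements of `N` are maximal in `G` -/
def Hyp (N : Subgroup G) : Prop :=
  ∀ x ∈ N, x ∉ centralizer (N : Set G) → IsCoatom (centralizer ({x} : Set G))

theorem le_cent {x : G} {H : Subgroup G} : H ≤ centralizer {x} ↔ x ∈ centralizer (H : Set G) := by
  constructor
  · intro h
    rw [mem_centralizer_iff]
    intro y hy
    exact mem_centralizer_singleton_iff.mp (h hy)
  · intro h y hy
    rw [mem_centralizer_singleton_iff]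
    exact mem_centralizer_iff.mp h y hy

theorem cent_eq (h : Hyp N) {x y : G} (hx : x ∈ N) (hxc : x ∉ centralizer (N : Set G)) (hy : y ∈ N)
    (hyc : y ∉ centralizer (N : Set G)) (hle : centralizer {x} ≤ centralizer ({y} : Set G)) :
    centralizer {x} = centralizer ({y} : Set G) := by
  rcases (h x hx hxc).le_iff.mp hle with h1 | h1
  · exact absurd h1 (h y hy hyc).1
  · exact h1.symm

theorem cop (h : Hyp N) {x y : G} (hx : x ∈ N) (hxc : x ∉ centralizer (N : Set G)) (hy : y ∈ N)
    (hyc : y ∉ centralizer (N : Set G)) (hxy : x * y = y * x) (hc : (orderOf x).Coprime (orderOf y)) :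
    centralizer {x} = centralizer ({y} : Set G) := by
  have hcm : Commute x y := hxy
  have key : ∀ a b : G, Commute a b → (orderOf a).Coprime (orderOf b) → centralizer {a * b} ≤ centralizer ({a} : Set G) := by
    intro a b hab hco
    obtain ⟨k, hk1, hk2⟩ := Nat.chineseRemainder hco 1 0
    have h1 : (a * b) ^ k = a := by
      rw [hab.mul_pow, pow_eq_pow_iff_modEq.mpr hk1, pow_eq_pow_iff_modEq.mpr hk2, pow_one, pow_zero, mul_one]
    intro c hc
    rw [mem_centralizer_singleton_iff] at hc ⊢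
    rw [← h1]
    exact ((show Commute c (a * b) from hc).pow_right k)
  have hxyc : x * y ∉ centralizer (N : Set G) := by
    intro hm
    apply hxc
    rw [← le_cent] at hm ⊢
    exact hm.trans (key x y hcm hc)
  have h1 := cent_eq h (N.mul_mem hx hy) hxyc hx hxc (key x y hcm hc)
  have h2 := cent_eq h (N.mul_mem hx hy) hxyc hy hyc (by
    have := key y x hcm.symm hc.symm
    rwa [← hxy] at this)
  rw [← h1, h2]

theorem prime_part (h : Hyp N) [hNn : N.Normal] {x : G} (hx : x ∈ N) (hxc : x ∉ centralizer (N : Set G)) :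
    ∃ (p : ℕ) (y : G), p.Prime ∧ (∃ k, orderOf y = p ^ k) ∧ y ∈ N ∧ y ∉ centralizer (N : Set G) ∧
      centralizer {y} = centralizer ({x} : Set G) := by
  classical
  have hCn : (centralizer (N : Set G)).Normal := inferInstance
  have hm : orderOf (QuotientGroup.mk' (centralizer (N : Set G)) x) ≠ 1 := by
    rw [Ne, orderOf_eq_one_iff]
    intro h1
    exact hxc ((QuotientGroup.eq_one_iff x).mp h1)
  obtain ⟨p, hp, hpm⟩ := Nat.exists_prime_and_dvd hm
  obtain ⟨k, t, ht, he⟩ := Nat.exists_eq_pow_mul_and_not_dvd (orderOf_pos x).ne' p hp.ne_one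
  have hyo : orderOf (x ^ t) = p ^ k := by
    have ht0 : t ≠ 0 := by rintro rfl; exact ht (dvd_zero p)
    rw [orderOf_pow_of_dvd ht0 (by rw [he]; exact dvd_mul_left t _), he, Nat.mul_div_cancel _ (Nat.pos_of_ne_zero ht0)]
  have hyc : x ^ t ∉ centralizer (N : Set G) := by
    intro h1
    have h2 : QuotientGroup.mk' (centralizer (N : Set G)) x ^ t = 1 := by
      rw [← map_pow]; exact (QuotientGroup.eq_one_iff _).mpr h1
    exact ht (hpm.trans (orderOf_dvd_of_pow_eq_one h2))
  refine ⟨p, x ^ t, hp, ⟨k, hyo⟩, pow_mem hx t, hyc, ?_⟩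
  refine (cent_eq h hx hxc (pow_mem hx t) hyc ?_).symm
  intro c hc
  rw [mem_centralizer_singleton_iff] at hc ⊢
  exact ((show Commute c x from hc).pow_right t)

/-- all these centralizers are nilpotent in `N` -/
theorem nilp (h : Hyp N) [hNn : N.Normal] {x : G} (hx : x ∈ N) (hxc : x ∉ centralizer (N : Set G)) :
    Group.IsNilpotent (N ⊓ centralizer ({x} : Set G) : Subgroup G) := by
  obtain ⟨p, y, hp, ⟨k, hk⟩, hy, hyc, hyx⟩ := prime_part h hx hxc
  rw [← hyx]
  have : Fact p.Prime := ⟨hp⟩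
  obtain ⟨C, hC⟩ : ∃ C, C = N ⊓ centralizer ({y} : Set G) := ⟨_, rfl⟩
  rw [← hC]
  have key : ∀ w : C, (orderOf w).Coprime p → w ∈ center C := by
    intro w hw
    rw [← Subgroup.orderOf_coe] at hw
    have hwC : (w : G) ∈ N ⊓ centralizer ({y} : Set G) := hC ▸ w.2
    have hwy : (w : G) * y = y * w := mem_centralizer_singleton_iff.mp hwC.2
    rw [mem_center_iff]
    intro c
    have hcC : (c : G) ∈ N ⊓ centralizer ({y} : Set G) := hC ▸ c.2
    apply Subtype.ext
    by_cases hwc : (w : G) ∈ centralizer (N : Set G)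
    · exact mem_centralizer_iff.mp hwc c hcC.1
    · have h1 := cop h hwC.1 hwc hy hyc hwy (by rw [hk]; exact Nat.Coprime.pow_right _ hw)
      have h2 := hcC.2
      rw [← h1] at h2
      exact mem_centralizer_singleton_iff.mp h2
  have hq : IsPGroup p (C ⧸ center C) := by
    intro g
    obtain ⟨c, rfl⟩ := QuotientGroup.mk_surjective g
    obtain ⟨j, t, ht, he⟩ := Nat.exists_eq_pow_mul_and_not_dvd (orderOf_pos c).ne' p hp.ne_one
    refine ⟨j, ?_⟩
    rw [← QuotientGroup.mk_pow, QuotientGroup.eq_one_iff]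
    apply key
    have hj : orderOf (c ^ p ^ j) = t := by
      rw [orderOf_pow_of_dvd (pow_pos hp.pos j).ne' (by rw [he]; exact dvd_mul_right _ _), he,
        Nat.mul_div_cancel_left _ (pow_pos hp.pos j)]
    rw [hj, Nat.coprime_comm, hp.coprime_iff_not_dvd]
    exact ht
  have : Group.IsNilpotent (C ⧸ center C) := hq.isNilpotent
  exact Group.of_quotient_center_nilpotent inferInstance

/-! ### nilpotent groups -/

/-- the Sylow subgroup of a nilpotent subgroup contains all `r`-subgroups -/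
theorem le_sylIn {C R S : Subgroup G} (hC : Group.IsNilpotent C) {r : ℕ} [Fact r.Prime] (hR : SylIn r R C)
    (hS : S ≤ C) (hSr : IsPGroup r S) : S ≤ R := by
  obtain ⟨P, hP⟩ := (sylIn_iff hR.le).1 hR
  have hPn := PUtil.sylow_normal_of_nilpotent hC P
  have h1 : IsPGroup r (S.subgroupOf C) := hSr.comap_subtype
  obtain ⟨Q, hQ⟩ := h1.exists_le_sylow
  have := Sylow.unique_of_normal P hPn
  rw [Subsingleton.elim Q P, hP] at hQ
  intro x hx
  exact hQ (show (⟨x, hS hx⟩ : C) ∈ S.subgroupOf C from hx)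

theorem central_of {C R : Subgroup G} (hC : Group.IsNilpotent C) {r : ℕ} [hr : Fact r.Prime] (hR : SylIn r R C)
    {z : G} (hz : z ∈ R) (hzR : R ≤ centralizer {z}) : C ≤ centralizer {z} := by
  have hzC : z ∈ C := hR.le hz
  have h1 : (centralizer {z}).subgroupOf C = ⊤ := by
    apply PUtil.eq_top_of_sylow
    intro s hs P x hx
    rw [mem_subgroupOf, mem_centralizer_singleton_iff]
    by_cases hsr : s = r
    · subst hsr
      have h2 : (x : G) ∈ R := by
        have h3 : ((P : Subgroup C).map C.subtype) ≤ R := le_sylIn hC hR (map_subtype_le _) (P.isPGroup'.map _)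
        exact h3 ⟨x, hx, rfl⟩
      exact mem_centralizer_singleton_iff.mp (hzR h2)
    · obtain ⟨a, ha⟩ := IsPGroup.iff_orderOf.mp P.isPGroup' ⟨x, hx⟩
      obtain ⟨b, hb⟩ := IsPGroup.iff_orderOf.mp hR.isPGroup ⟨z, hz⟩
      rw [Subgroup.orderOf_mk] at ha hb
      have := Hyper.commute_of_nilpotent hC hsr (x := x) (y := ⟨z, hzC⟩) ⟨a, ha⟩ ⟨b, by rw [Subgroup.orderOf_mk]; exact hb⟩
      exact congrArg Subtype.val this
  intro c hc
  have h2 : (⟨c, hc⟩ : C) ∈ (centralizer {z}).subgroupOf C := h1 ▸ mem_top _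
  exact h2

theorem norm_le (h : Hyp N) [hNn : N.Normal] {x : G} :
    centralizer ({x} : Set G) ≤ normalizer ((N ⊓ centralizer ({x} : Set G) : Subgroup G) : Set G) := by
  intro c hc
  rw [mem_normalizer_iff]
  intro y
  rw [mem_inf, mem_inf]
  have h1 : c ∈ normalizer (N : Set G) := by rw [normalizer_eq_top]; exact mem_top c
  exact and_congr (mem_normalizer_iff.mp h1 y) (mem_normalizer_iff.mp (le_normalizer hc) y)

/-- conjugation of centralizers -/
theorem conj_cent [hNn : N.Normal] {x n : G} :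
    (N ⊓ centralizer ({x} : Set G)).map (MulAut.conj n).toMonoidHom = N ⊓ centralizer {n * x * n⁻¹} := by
  ext y
  constructor
  · rintro ⟨z, hz, rfl⟩
    refine mem_inf.mpr ⟨hNn.conj_mem z hz.1 n, ?_⟩
    have h1 := mem_centralizer_singleton_iff.mp hz.2
    rw [mem_centralizer_singleton_iff]
    show n * z * n⁻¹ * (n * x * n⁻¹) = n * x * n⁻¹ * (n * z * n⁻¹)
    calc n * z * n⁻¹ * (n * x * n⁻¹) = n * (z * x) * n⁻¹ := by group
      _ = n * (x * z) * n⁻¹ := by rw [h1]
      _ = _ := by group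
  · rintro ⟨hy1, hy2⟩
    have h1 := mem_centralizer_singleton_iff.mp hy2
    refine ⟨n⁻¹ * y * n, mem_inf.mpr ⟨?_, ?_⟩, ?_⟩
    · have := hNn.conj_mem y hy1 n⁻¹
      rwa [inv_inv] at this
    · rw [mem_centralizer_singleton_iff]
      calc n⁻¹ * y * n * x = n⁻¹ * (y * (n * x * n⁻¹)) * n := by group
        _ = n⁻¹ * (n * x * n⁻¹ * y) * n := by rw [h1]
        _ = _ := by group
    · show n * (n⁻¹ * y * n) * n⁻¹ = y
      group

section self

variable (h : Hyp N) [hNn : N.Normal]
  (hself : ∀ x ∈ N, x ∉ centralizer (N : Set G) → normalizer ((N ⊓ centralizer ({x} : Set G) : Subgroup G) : Set G) ≠ ⊤)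

include h hself

theorem norm_cent {x : G} (hx : x ∈ N) (hxc : x ∉ centralizer (N : Set G)) :
    normalizer ((N ⊓ centralizer ({x} : Set G) : Subgroup G) : Set G) = centralizer {x} := by
  rcases (h x hx hxc).le_iff.mp (norm_le h) with h1 | h1
  · exact absurd h1 (hself x hx hxc)
  · exact h1

theorem same_cent {x y : G} (hx : x ∈ N) (hxc : x ∉ centralizer (N : Set G)) (hy : y ∈ N)
    (hyc : y ∉ centralizer (N : Set G)) (hle : N ⊓ centralizer {x} ≤ centralizer ({y} : Set G)) :
    N ⊓ centralizer {x} = N ⊓ centralizer ({y} : Set G) := by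
  have h1 : N ⊓ centralizer {x} ≤ N ⊓ centralizer ({y} : Set G) := le_inf inf_le_left hle
  by_contra hne
  have h2 := lt_inf_normalizer (nilp h hy hyc) (lt_of_le_of_ne h1 hne)
  obtain ⟨m, hm, hm'⟩ := SetLike.exists_of_lt h2
  apply hm'
  have h3 : m ∈ centralizer {x} := by
    rw [← norm_cent h hself hx hxc]
    exact hm.2
  exact mem_inf.mpr ⟨hm.1.1, h3⟩

theorem syl_central {r : ℕ} [hr : Fact r.Prime] {R : Subgroup G} (hR : SylIn r R N)
    (hRZ : ¬ R ≤ centralizer (N : Set G)) : ∃ x ∈ R, x ∉ centralizer (N : Set G) ∧ R ≤ centralizer {x} := by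
  obtain ⟨w, hwR, hwc⟩ := SetLike.not_le_iff_exists.mp hRZ
  have hwN : w ∈ N := hR.le hwR
  have hCn := nilp h hwN hwc
  have hnc := norm_cent h hself hwN hwc
  have hwC : w ∈ N ⊓ centralizer ({w} : Set G) := mem_inf.mpr ⟨hwN, mem_centralizer_singleton_iff.mpr rfl⟩
  have hwp : IsPGroup r (zpowers w) := hR.isPGroup.to_le (zpowers_le.mpr hwR)
  obtain ⟨S, hS, hwS⟩ := exists_sylIn (zpowers_le.mpr hwC) hwp
  rw [zpowers_le] at hwS
  obtain ⟨R', hR', hSR'⟩ := exists_sylIn (hS.le.trans inf_le_left) hS.isPGroup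
  have hSw : S ≤ centralizer {w} := hS.le.trans inf_le_right
  have hSe : S = R' := by
    by_contra hne
    have h2 := lt_inf_normalizer hR'.isPGroup.isNilpotent (lt_of_le_of_ne hSR' hne)
    obtain ⟨n, hn, hn'⟩ := SetLike.exists_of_lt h2
    apply hn'
    have hnN : n ∈ N := hR'.le hn.1
    have hnS : ∀ s ∈ S, n * s * n⁻¹ ∈ S := fun s hs => (mem_normalizer_iff.mp hn.2 s).mp hs
    have h3 : n * w * n⁻¹ ∈ S := hnS w hwS
    have h4 : S ≤ centralizer {n * w * n⁻¹} := by
      intro s hs
      have h5 : n⁻¹ * s * n ∈ S := (mem_normalizer_iff'.mp hn.2 (n⁻¹ * s)).mpr (by rwa [mul_inv_cancel_left])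
      have h6 := mem_centralizer_singleton_iff.mp (hSw h5)
      rw [mem_centralizer_singleton_iff]
      calc s * (n * w * n⁻¹) = n * ((n⁻¹ * s * n) * w) * n⁻¹ := by group
        _ = n * (w * (n⁻¹ * s * n)) * n⁻¹ := by rw [h6]
        _ = _ := by group
    have h5 := central_of hCn hS h3 h4
    have h6 : n * w * n⁻¹ ∈ N := hNn.conj_mem w hwN n
    have h7 : n * w * n⁻¹ ∉ centralizer (N : Set G) := by
      intro h8
      have hcn : (centralizer (N : Set G)).Normal := inferInstance
      have := hcn.conj_mem _ h8 n⁻¹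
      apply hwc
      have e : n⁻¹ * (n * w * n⁻¹) * n⁻¹⁻¹ = w := by group
      rwa [e] at this
    have h8 := same_cent h hself hwN hwc h6 h7 h5
    have h9 : n ∈ normalizer ((N ⊓ centralizer ({w} : Set G) : Subgroup G) : Set G) := by
      apply Cfsg.Agent.Lib.ZJ.mem_normalizer_of_map
      rw [conj_cent, ← h8]
    rw [hnc] at h9
    have h10 : N ⊓ centralizer ({w} : Set G) ⊓ R' ≤ S :=
      le_sylIn hCn hS inf_le_left (hR'.isPGroup.to_le inf_le_right)
    exact h10 (mem_inf.mpr ⟨mem_inf.mpr ⟨hnN, h9⟩, hn.1⟩)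
  rw [hSe] at hwS hSw
  obtain ⟨g, hg, hgR⟩ := hR.conj_le hR'.le hR'.isPGroup
  have hmap : R'.map (MulAut.conj g).toMonoidHom = R := by
    apply Subgroup.eq_of_le_of_card_ge (map_conj_le.2 hgR)
    rw [card_map_conj, hR.card_eq hR']
  refine ⟨g * w * g⁻¹, hgR w hwS, ?_, ?_⟩
  · intro h8
    have hcn : (centralizer (N : Set G)).Normal := inferInstance
    have := hcn.conj_mem _ h8 g⁻¹
    apply hwc
    have e : g⁻¹ * (g * w * g⁻¹) * g⁻¹⁻¹ = w := by group
    rwa [e] at this
  · rw [← hmap]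
    rintro _ ⟨s, hs, rfl⟩
    rw [mem_centralizer_singleton_iff]
    have h6 := mem_centralizer_singleton_iff.mp (hSw hs)
    show g * s * g⁻¹ * (g * w * g⁻¹) = g * w * g⁻¹ * (g * s * g⁻¹)
    calc g * s * g⁻¹ * (g * w * g⁻¹) = g * (s * w) * g⁻¹ := by group
      _ = g * (w * s) * g⁻¹ := by rw [h6]
      _ = _ := by group

theorem norm_syl {r : ℕ} [hr : Fact r.Prime] {R : Subgroup G} (hR : SylIn r R N) {x : G} (hx : x ∈ R)
    (hxc : x ∉ centralizer (N : Set G)) (hxR : R ≤ centralizer {x}) : normalizer (R : Set G) = centralizer {x} := by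
  have hxN : x ∈ N := hR.le hx
  have hCn := nilp h hxN hxc
  have hRC : SylIn r R (N ⊓ centralizer ({x} : Set G)) := hR.mono (le_inf hR.le hxR) inf_le_left
  apply le_antisymm
  · intro n hn
    have h3 : n * x * n⁻¹ ∈ R := (mem_normalizer_iff.mp hn x).mp hx
    have h4 : R ≤ centralizer {n * x * n⁻¹} := by
      intro s hs
      have h5 : n⁻¹ * s * n ∈ R := (mem_normalizer_iff'.mp hn (n⁻¹ * s)).mpr (by rwa [mul_inv_cancel_left])
      have h6 := mem_centralizer_singleton_iff.mp (hxR h5)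
      rw [mem_centralizer_singleton_iff]
      calc s * (n * x * n⁻¹) = n * ((n⁻¹ * s * n) * x) * n⁻¹ := by group
        _ = n * (x * (n⁻¹ * s * n)) * n⁻¹ := by rw [h6]
        _ = _ := by group
    have h5 := central_of hCn hRC h3 h4
    have h6 : n * x * n⁻¹ ∈ N := hNn.conj_mem x hxN n
    have h7 : n * x * n⁻¹ ∉ centralizer (N : Set G) := by
      intro h8
      have hcn : (centralizer (N : Set G)).Normal := inferInstance
      have := hcn.conj_mem _ h8 n⁻¹
      apply hxc
      have e : n⁻¹ * (n * x * n⁻¹) * n⁻¹⁻¹ = x := by group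
      rwa [e] at this
    have h8 := same_cent h hself hxN hxc h6 h7 h5
    rw [← norm_cent h hself hxN hxc]
    apply Cfsg.Agent.Lib.ZJ.mem_normalizer_of_map
    rw [conj_cent, ← h8]
  · intro c hc
    apply Cfsg.Agent.Lib.ZJ.mem_normalizer_of_map
    have h1 : R.map (MulAut.conj c).toMonoidHom ≤ N ⊓ centralizer ({x} : Set G) := by
      have h2 := Cfsg.Agent.Lib.ZJ.map_conj_eq_of_mem (norm_le h (x := x) hc)
      rw [← h2]
      exact map_mono hRC.le
    apply Subgroup.eq_of_le_of_card_ge (le_sylIn hCn hRC h1 (hR.isPGroup.map _))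
    rw [card_map_conj]

/-- no normal complements -/
theorem no_complement {r : ℕ} [hr : Fact r.Prime] {R K : Subgroup G} (hR : SylIn r R N)
    {x : G} (hx : x ∈ R) (hxc : x ∉ centralizer (N : Set G)) (hxR : R ≤ centralizer {x})
    (hKN : K ≤ N) (hNK : N ≤ normalizer (K : Set G)) (hKr : (Nat.card K).Coprime r) (hKR : K ⊔ R = N) : False := by
  have hcop : (Nat.card R).Coprime (Nat.card K) := by
    obtain ⟨k, hk⟩ := IsPGroup.iff_card.mp hR.isPGroup
    rw [hk]
    exact Nat.Coprime.pow_left _ hKr.symm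
  have hRs : Group.IsSolvable R := by
    have := hR.isPGroup.isNilpotent
    infer_instance
  apply hxc
  rw [← le_cent]
  conv_lhs => rw [← hKR]
  refine sup_le ?_ hxR
  have h1 : (centralizer {x}).subgroupOf K = ⊤ := by
    apply Cores.eq_top_of_sylow_le
    intro s hs
    have : Fact s.Prime := ⟨hs⟩
    obtain ⟨P, hP⟩ := Coprime.exists_invariant_sylow (hR.le.trans hNK) hcop (Or.inl hRs) s
    refine ⟨P, ?_⟩
    obtain ⟨S, hSdef⟩ : ∃ S, S = (P : Subgroup K).map K.subtype := ⟨_, rfl⟩
    rw [← hSdef] at hP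
    have hSK : S ≤ K := hSdef ▸ map_subtype_le _
    have hSs : IsPGroup s S := hSdef ▸ P.isPGroup'.map _
    suffices hS : S ≤ centralizer {x} by
      intro y hy
      exact hS (hSdef ▸ ⟨y, hy, rfl⟩)
    by_cases hsr : s = r
    · -- then P is trivial
      subst hsr
      have h2 : Nat.card S = 1 := by
        obtain ⟨k, hk⟩ := IsPGroup.iff_card.mp hSs
        have h3 : (Nat.card S).Coprime s := Nat.Coprime.coprime_dvd_left (card_dvd_of_le hSK) hKr
        rw [hk] at h3 ⊢
        rcases Nat.eq_zero_or_pos k with h4 | h4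
        · rw [h4, pow_zero]
        · exfalso
          have := (Nat.coprime_pow_left_iff h4 s s).mp h3
          rw [Nat.coprime_self] at this
          exact hs.ne_one this
      rw [card_eq_one.mp h2]
      exact bot_le
    by_cases hSZ : S ≤ centralizer (N : Set G)
    · intro y hy
      rw [mem_centralizer_singleton_iff]
      exact (mem_centralizer_iff.mp (hSZ hy) x (hR.le hx)).symm
    -- S is a Sylow subgroup of N
    have hSN : SylIn s S N := by
      refine ⟨hSK.trans hKN, hSs, ?_⟩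
      have h2 : S.relIndex K * K.relIndex N = S.relIndex N := relIndex_mul_relIndex S K N hSK hKN
      rw [← h2]
      intro hd
      rcases hs.dvd_mul.mp hd with h3 | h3
      · have h4 : S.relIndex K = (P : Subgroup K).index := by
          rw [relIndex, hSdef, subgroupOf, comap_map_eq_self_of_injective K.subtype_injective]
        rw [h4] at h3
        exact P.not_dvd_index h3
      · have h4 : K.relIndex N = Nat.card R := by
          have h6 : K ⊓ R = ⊥ := (disjoint_iff.mp (disjoint_of_coprime_natCard hcop.symm))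
          have h5 := card_sup_of_inf_eq_bot (N := K) (H := R) (hR.le.trans hNK) h6
          rw [hKR] at h5
          have h7 := relIndex_mul_card hKN
          rw [h5, mul_comm (Nat.card K)] at h7
          exact Nat.eq_of_mul_eq_mul_right Nat.card_pos h7
        rw [h4] at h3
        obtain ⟨k, hk⟩ := IsPGroup.iff_card.mp hR.isPGroup
        rw [hk] at h3
        exact hsr ((Nat.prime_dvd_prime_iff_eq hs hr.out).mp (hs.dvd_of_dvd_pow h3))
    obtain ⟨v, hvS, hvc, hSv⟩ := syl_central h hself hSN hSZ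
    have h2 := norm_syl h hself hSN hvS hvc hSv
    rw [h2] at hP
    have hvN : v ∈ N := hSN.le hvS
    have hCn := nilp h hvN hvc
    intro y hy
    rw [mem_centralizer_singleton_iff]
    obtain ⟨a, ha⟩ := IsPGroup.iff_orderOf.mp hSs ⟨y, hy⟩
    obtain ⟨b, hb⟩ := IsPGroup.iff_orderOf.mp hR.isPGroup ⟨x, hx⟩
    rw [Subgroup.orderOf_mk] at ha hb
    have hyC : y ∈ N ⊓ centralizer ({v} : Set G) := mem_inf.mpr ⟨hSN.le hy, hSv hy⟩
    have hxC : x ∈ N ⊓ centralizer ({v} : Set G) := mem_inf.mpr ⟨hR.le hx, hP hx⟩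
    have := Hyper.commute_of_nilpotent hCn hsr (x := ⟨y, hyC⟩) (y := ⟨x, hxC⟩) ⟨a, by rw [Subgroup.orderOf_mk]; exact ha⟩
      ⟨b, by rw [Subgroup.orderOf_mk]; exact hb⟩
    exact congrArg Subtype.val this
  intro c hc
  have h2 : (⟨c, hc⟩ : K) ∈ (centralizer {x}).subgroupOf K := h1 ▸ mem_top _
  exact h2

end self

end Cfsg.Agent.H2.MaxCent
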