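import Mathlib
import Cfsg.Agent.H2.MaxCent
import Cfsg.Agent.Lib.PStabZ

set_option autoImplicit false

/-! Normal subgroups in which all noncentral elements have maximal centralizers: structure. -/

open Subgroup Cfsg.Agent.Lib Cfsg.Agent.Lib.Basic Cfsg.Agent.Lib.PNilp Cfsg.Agent.Lib.SylRel
open scoped Pointwise commutatorElement

universe u

namespace Cfsg.Agent.H2.MaxCent

variable {G : Type u} [Group G] [Finite G] {N : Subgroup G}

theorem center_le_Zf {R : Subgroup G} {z : G} (hz : z ∈ R) (hzR : R ≤ centralizer {z}) : z ∈ ZJ.Zf 0 R := by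
  unfold ZJ.Zf
  rw [mem_sInf]
  intro B hB
  have hcomm : ∀ b ∈ B, b * z = z * b := fun b hb => mem_centralizer_singleton_iff.mp (hzR (hB.1 hb))
  have h1 : IsMulCommutative (closure ((B : Set G) ∪ {z})) := by
    apply isMulCommutative_closure
    rintro a (ha | rfl) b (hb | rfl)
    · exact hB.2.1.1 a ha b hb
    · exact hcomm a ha
    · exact (hcomm b hb).symm
    · rfl
  have h2 : closure ((B : Set G) ∪ {z}) ≤ R := by
    rw [closure_le]
    rintro a (ha | rfl)
    · exact hB.1 ha
    · exact hz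
  have h3 := hB.2.2 _ h2 ⟨Nilp.isMulCommutative_iff_forall.mp h1, fun x _ => pow_zero x⟩
  have h4 : B ≤ closure ((B : Set G) ∪ {z}) := fun b hb => Subgroup.subset_closure (Or.inl hb)
  have h5 : B = closure ((B : Set G) ∪ {z}) := Subgroup.eq_of_le_of_card_ge h4 h3
  rw [h5]
  exact Subgroup.subset_closure (Or.inr rfl)

theorem dedekind {A C : Subgroup G} [hA : A.Normal] (hAN : A ≤ N) (h : A ⊔ C = ⊤) : A ⊔ (N ⊓ C) = N := by
  apply le_antisymm (sup_le hAN inf_le_left)
  intro n hn
  have h1 : n ∈ A ⊔ C := h ▸ mem_top n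
  obtain ⟨a, ha, c, hc, rfl⟩ := (mem_sup_iff_left (by rw [normalizer_eq_top]; exact le_top)).mp h1
  refine mul_mem (mem_sup_left ha) (mem_sup_right (mem_inf.mpr ⟨?_, hc⟩))
  have : c = a⁻¹ * (a * c) := by group
  rw [this]
  exact N.mul_mem (N.inv_mem (hAN ha)) hn

theorem sylow_normal_of_sup {r : ℕ} [hr : Fact r.Prime] {R A C : Subgroup G} [hA : A.Normal] (hR : SylIn r R N)
    (hAr : IsPGroup r A) (hC : Group.IsNilpotent C) (hAC : A ⊔ C = N) : N ≤ normalizer (R : Set G) := by
  have hAn : ∀ X : Subgroup G, X ≤ normalizer (A : Set G) := fun X => by rw [normalizer_eq_top]; exact le_top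
  obtain ⟨T, hT, -⟩ := exists_sylIn (p := r) (X := ⊥) (H := C) bot_le (IsPGroup.of_bot)
  have hTn : C ≤ normalizer (T : Set G) := by
    intro c hc
    apply Cfsg.Agent.Lib.ZJ.mem_normalizer_of_map
    have h1 : T.map (MulAut.conj c).toMonoidHom ≤ C := by
      rintro _ ⟨t, ht, rfl⟩
      exact C.mul_mem (C.mul_mem hc (hT.le ht)) (C.inv_mem hc)
    apply Subgroup.eq_of_le_of_card_ge (le_sylIn hC hT h1 (hT.isPGroup.map _))
    rw [card_map_conj]
  obtain ⟨M, hM⟩ : ∃ M, M = A ⊔ T := ⟨_, rfl⟩
  have hMr : IsPGroup r M := by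
    rw [hM, IsPGroup.iff_card]
    obtain ⟨a, ha⟩ := IsPGroup.iff_card.mp hAr
    obtain ⟨b, hb⟩ := IsPGroup.iff_card.mp hT.isPGroup
    have h1 : Nat.card (A ⊔ T : Subgroup G) ∣ r ^ (a + b) := by
      rw [pow_add, ← ha, ← hb]
      exact Cores.card_sup_dvd (hAn T)
    obtain ⟨c, -, hc⟩ := (Nat.dvd_prime_pow hr.out).mp h1
    exact ⟨c, hc⟩
  have hNM : N ≤ normalizer (M : Set G) := by
    rw [← hAC]
    refine sup_le ?_ ?_
    · exact (le_sup_left.trans hM.ge).trans le_normalizer
    · intro c hc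
      apply Cfsg.Agent.Lib.ZJ.mem_normalizer_of_map
      rw [hM, Subgroup.map_sup, Cfsg.Agent.Lib.ZJ.map_conj_eq_of_mem (hAn C hc), Cfsg.Agent.Lib.ZJ.map_conj_eq_of_mem (hTn hc)]
  have hMN : M ≤ N := by
    rw [hM, ← hAC]
    exact sup_le_sup_left hT.le A
  have hMC : M ⊔ C = N := by
    apply le_antisymm (sup_le hMN (hAC ▸ le_sup_right))
    rw [← hAC]
    exact sup_le_sup_right (hM ▸ le_sup_left) C
  have hMs : SylIn r M N := by
    refine ⟨hMN, hMr, ?_⟩
    have hCM : C ≤ normalizer (M : Set G) := (hAC ▸ le_sup_right : C ≤ N).trans hNM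
    have e1 := card_sup_mul_card_inf hCM
    rw [hMC] at e1
    have e2 := relIndex_mul_card hMN
    have e3 := relIndex_mul_card (inf_le_right : M ⊓ C ≤ C)
    have h1 : M.relIndex N = (M ⊓ C).relIndex C := by
      rw [← e2, ← e3] at e1
      have hp : 0 < Nat.card M * Nat.card (M ⊓ C : Subgroup G) := Nat.mul_pos Nat.card_pos Nat.card_pos
      apply Nat.eq_of_mul_eq_mul_right hp
      nlinarith [e1]
    rw [h1]
    intro hd
    apply hT.not_dvd
    have h2 := relIndex_mul_relIndex T (M ⊓ C) C (le_inf (hM ▸ le_sup_right) hT.le) inf_le_right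
    rw [← h2]
    exact hd.trans (dvd_mul_left _ _)
  have hRM : R = M := by
    obtain ⟨g, hg, h1⟩ := hMs.conj_le hR.le hR.isPGroup
    apply Subgroup.eq_of_le_of_card_ge
    · intro x hx
      exact (mem_normalizer_iff.mp (hNM hg) x).mpr (h1 x hx)
    · rw [hMs.card_eq hR]
  rw [hRM]
  exact hNM

/-- if no centralizer is normal, `N` is nilpotent -/
theorem nilpotent_of_self (h : Hyp N) [hNn : N.Normal]
    (hself : ∀ x ∈ N, x ∉ centralizer (N : Set G) → normalizer ((N ⊓ centralizer ({x} : Set G) : Subgroup G) : Set G) ≠ ⊤) :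
    Group.IsNilpotent N := by
  by_contra hnn
  obtain ⟨r, hr, hr2, R, hR, hRZ⟩ : ∃ r : ℕ, ∃ _ : Fact r.Prime, r ≠ 2 ∧ ∃ R, SylIn r R N ∧ ¬ R ≤ centralizer (N : Set G) := by
    by_contra hno
    push Not at hno
    apply hnn
    have h1 : ∀ s : ℕ, s.Prime → s ∣ (center N).index → s = 2 := by
      intro s hs hsd
      by_contra hs2
      have : Fact s.Prime := ⟨hs⟩
      obtain ⟨P⟩ : Nonempty (Sylow s N) := inferInstance
      have h2 : SylIn s ((P : Subgroup N).map N.subtype) N :=
        (sylIn_iff (map_subtype_le _)).2 ⟨P, (comap_map_eq_self_of_injective N.subtype_injective _).symm⟩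
      have h3 := hno s this hs2 _ h2
      have h4 : (P : Subgroup N) ≤ center N := by
        intro x hx
        rw [mem_center_iff]
        intro g
        exact Subtype.ext (mem_centralizer_iff.mp (h3 ⟨x, hx, rfl⟩) g g.2)
      exact P.not_dvd_index (hsd.trans (index_dvd_of_le h4))
    have h2 : IsPGroup 2 (N ⧸ center N) := by
      rw [IsPGroup.iff_card]
      exact ⟨_, Nat.eq_prime_pow_of_unique_prime_dvd (index_ne_zero_of_finite (H := center N)) (fun {d} hd1 hd2 => h1 d hd1 hd2)⟩
    have : Group.IsNilpotent (N ⧸ center N) := h2.isNilpotent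
    exact Group.of_quotient_center_nilpotent inferInstance
  obtain ⟨x, hx, hxc, hxR⟩ := syl_central h hself hR hRZ
  have hxN : x ∈ N := hR.le hx
  have hnR := norm_syl h hself hR hx hxc hxR
  have hcoat := h x hxN hxc
  obtain ⟨P, hP⟩ := (sylIn_iff hR.le).1 hR
  have hRmap : (P : Subgroup N).map N.subtype = R := by rw [hP, map_subgroupOf_eq_of_le hR.le]
  have hPN : PNil r N := by
    apply ZPN.pNil_of_zj hr2 P
    obtain ⟨A, hA⟩ : ∃ A, A = ZJ.Zf 0 R := ⟨_, rfl⟩
    have hAmap : (ZJ.Zf 0 (P : Subgroup N)).map N.subtype = A := by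
      rw [PStabZ.Zf_map_of_inj (fun x _ hx => N.subtype_injective (by rw [hx, map_one])), hRmap, hA]
    have hle : centralizer {x} ≤ normalizer (A : Set G) := by
      rw [← hnR, hA]
      exact ZJ.normalizer_le_Zf 0 R
    have hxA : x ∈ A := hA ▸ center_le_Zf hx hxR
    have hAR : A ≤ R := hA ▸ ZJ.Zf_le 0 R
    rcases hcoat.le_iff.mp hle with h1 | h1
    · exfalso
      have hAn : A.Normal := normalizer_eq_top_iff.mp h1
      have hAr : IsPGroup r A := hR.isPGroup.to_le hAR
      apply hxc
      rw [← le_cent]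
      have h2 : (centralizer {x}).subgroupOf N = ⊤ := by
        apply Cores.eq_top_of_sylow_le
        intro s hs
        have : Fact s.Prime := ⟨hs⟩
        by_cases hsr : s = r
        · subst hsr
          refine ⟨P, ?_⟩
          intro y hy
          exact hxR (hRmap ▸ ⟨y, hy, rfl⟩ : (y : G) ∈ R)
        · obtain ⟨S⟩ : Nonempty (Sylow s N) := inferInstance
          refine ⟨S, ?_⟩
          intro u hu
          rw [mem_subgroupOf, mem_centralizer_singleton_iff]
          by_cases huc : (u : G) ∈ centralizer (N : Set G)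
          · exact (mem_centralizer_iff.mp huc x hxN).symm
          by_cases hAu : A ≤ centralizer {(u : G)}
          · exact (mem_centralizer_singleton_iff.mp (hAu hxA)).symm
          · exfalso
            have h3 : A ⊔ centralizer {(u : G)} = ⊤ := by
              rcases (h u u.2 huc).le_iff.mp (le_sup_right : _ ≤ A ⊔ centralizer {(u : G)}) with h4 | h4
              · exact h4
              · exact absurd (h4 ▸ le_sup_left) hAu
            have h4 := dedekind (hAR.trans hR.le) h3
            have h5 := sylow_normal_of_sup hR hAr (nilp h u.2 huc) h4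
            rw [hnR] at h5
            exact hxc (le_cent.mp h5)
      intro n hn
      have h3 : (⟨n, hn⟩ : N) ∈ (centralizer {x}).subgroupOf N := h2 ▸ mem_top _
      exact h3
    · -- the normalizer is nilpotent
      have h2 : ((normalizer (ZJ.Zf 0 (P : Subgroup N) : Set N)).map N.subtype) ≤ N ⊓ centralizer ({x} : Set G) := by
        rw [← h1]
        refine le_inf (map_subtype_le _) ?_
        refine (le_normalizer_map _).trans ?_
        rw [hAmap]
      have h3 : Group.IsNilpotent ((normalizer (ZJ.Zf 0 (P : Subgroup N) : Set N)).map N.subtype) :=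
        Cores.isNilpotent_of_le h2 (nilp h hxN hxc)
      have h4 := pNil_of_isNilpotent (p := r) h3
      exact h4.of_equiv ((normalizer (ZJ.Zf 0 (P : Subgroup N) : Set N)).equivMapOfInjective N.subtype N.subtype_injective).symm
  obtain ⟨K, hKn, hKr, k, hk⟩ := hPN
  refine no_complement h hself hR hx hxc hxR (K := K.map N.subtype) (map_subtype_le _) ?_ ?_ ?_
  · have := le_normalizer_map (H := K) N.subtype
    rw [normalizer_eq_top, ← MonoidHom.range_eq_map, range_subtype] at this
    exact this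
  · rw [card_map_of_injective N.subtype_injective]; exact hKr
  · have h1 := sup_sylow_eq_top (N := K) (fun g hg => (mem_iff_coprime hKn hKr ⟨k, hk⟩ g).mpr hg) P
    rw [← hRmap, ← Subgroup.map_sup, h1, ← MonoidHom.range_eq_map, range_subtype]

end Cfsg.Agent.H2.MaxCent
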