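import Mathlib
import Cfsg.Agent.H2.MaxCentB

set_option autoImplicit false

/-! Normal subgroups in which all noncentral elements have maximal centralizers: structure. -/

open Subgroup Cfsg.Agent.Lib Cfsg.Agent.Lib.Basic Cfsg.Agent.Lib.PNilp Cfsg.Agent.Lib.SylRel
open scoped Pointwise commutatorElement

universe u

namespace Cfsg.Agent.H2.MaxCent

variable {G : Type u} [Group G] [Finite G] {N : Subgroup G}

theorem chief {A B : Subgroup G} [hA : A.Normal] [hB : B.Normal] (hAB : A ≤ B) (hne : A ≠ B) (hs : Group.IsSolvable B)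
    (hmin : ∀ L : Subgroup G, L.Normal → A ≤ L → L ≤ B → L = A ∨ L = B) :
    (∀ x ∈ B, ∀ y ∈ B, x * y * x⁻¹ * y⁻¹ ∈ A) ∧ ∃ p : ℕ, p.Prime ∧ ∀ x ∈ B, x ^ p ∈ A := by
  have hBn : (B.map (QuotientGroup.mk' A)).Normal := hB.map _ (QuotientGroup.mk'_surjective A)
  have hBs : Group.IsSolvable (B.map (QuotientGroup.mk' A)) :=
    solvable_of_surjective (MonoidHom.subgroupMap_surjective (QuotientGroup.mk' A) B)
  have hB0 : B.map (QuotientGroup.mk' A) ≠ ⊥ := by
    intro h
    rw [Subgroup.map_eq_bot_iff, QuotientGroup.ker_mk'] at h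
    exact hne (le_antisymm hAB h)
  obtain ⟨hc, p, hp, hpow⟩ := Nilp.minimal_normal_solvable_elementary (N := B.map (QuotientGroup.mk' A)) hBs hB0 (by
    intro M hM hMB
    have h1 : (M.comap (QuotientGroup.mk' A)).Normal := hM.comap _
    have h2 : A ≤ M.comap (QuotientGroup.mk' A) := by
      intro a ha
      rw [mem_comap]
      have : QuotientGroup.mk' A a = 1 := (QuotientGroup.eq_one_iff a).mpr ha
      rw [this]; exact one_mem _
    have h3 : M.comap (QuotientGroup.mk' A) ≤ B := by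
      intro x hx
      obtain ⟨b, hb, hbx⟩ := hMB hx
      rw [QuotientGroup.mk'_apply, QuotientGroup.mk'_apply, QuotientGroup.eq] at hbx
      have : x = b * (b⁻¹ * x) := by group
      rw [this]
      exact B.mul_mem hb (hAB hbx)
    have hM' := map_comap_eq_self_of_surjective (QuotientGroup.mk'_surjective A) M
    rcases hmin _ h1 h2 h3 with h4 | h4
    · left
      rw [← hM', h4, eq_bot_iff]
      rintro _ ⟨a, ha, rfl⟩
      exact (QuotientGroup.eq_one_iff a).mpr ha
    · right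
      rw [← hM', h4])
  have hc' := Nilp.isMulCommutative_iff_forall.mp hc
  refine ⟨?_, p, hp, ?_⟩
  · intro x hx y hy
    have h1 := hc' (QuotientGroup.mk' A x) ⟨x, hx, rfl⟩ (QuotientGroup.mk' A y) ⟨y, hy, rfl⟩
    rw [← QuotientGroup.eq_one_iff]
    have h2 : ((x * y * x⁻¹ * y⁻¹ : G) : G ⧸ A) = (QuotientGroup.mk' A x * QuotientGroup.mk' A y) * (QuotientGroup.mk' A x)⁻¹ * (QuotientGroup.mk' A y)⁻¹ := rfl
    rw [h2, h1]; group
  · intro x hx
    have h1 := hpow _ ⟨x, hx, rfl⟩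
    rw [← map_pow] at h1
    exact (QuotientGroup.eq_one_iff _).mp h1

theorem cent_normal [hNn : N.Normal] : (centralizer (N : Set G)).Normal := inferInstance

theorem below_chief (h : Hyp N) [hNn : N.Normal] {x : G} (hx : x ∈ N) (hxc : x ∉ centralizer (N : Set G))
    (L : Subgroup G) (hL : L.Normal) (h1 : N ⊓ centralizer {x} ≤ L) (h2 : L ≤ N) : L = N ⊓ centralizer {x} ∨ L = N := by
  by_cases hLx : L ≤ centralizer {x}
  · exact Or.inl (le_antisymm (le_inf h2 hLx) h1)
  · right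
    have h3 : L ⊔ centralizer {x} = ⊤ := by
      rcases (h x hx hxc).le_iff.mp (le_sup_right : _ ≤ L ⊔ centralizer {x}) with h4 | h4
      · exact h4
      · exact absurd (h4 ▸ le_sup_left) hLx
    have h4 := dedekind h2 h3
    rw [← h4]
    exact (sup_eq_left.mpr h1).symm

/-- the nilpotent case -/
theorem nilp_case (h : Hyp N) [hNn : N.Normal] (hn : Group.IsNilpotent N) (hna : ¬ N ≤ centralizer (N : Set G)) :
    ∃ p : ℕ, p.Prime ∧ (∀ x ∈ N, x ^ p ∈ centralizer (N : Set G)) ∧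
      ∀ x ∈ N, ∀ y ∈ N, x * y * x⁻¹ * y⁻¹ ∈ centralizer (N : Set G) := by
  have hs : Group.IsSolvable N := inferInstance
  have hcomm : ∀ {p q : ℕ} (_ : p.Prime) (_ : q.Prime) (_ : p ≠ q) {x y : G} (_ : x ∈ N) (_ : y ∈ N) (_ : ∃ k, orderOf x = p ^ k)
      (_ : ∃ k, orderOf y = q ^ k), x * y = y * x := by
    intro p q hp hq hpq x y hx hy ⟨k, hk⟩ ⟨j, hj⟩
    have : Fact p.Prime := ⟨hp⟩
    have : Fact q.Prime := ⟨hq⟩
    have := Hyper.commute_of_nilpotent hn hpq (x := ⟨x, hx⟩) (y := ⟨y, hy⟩) ⟨k, by rw [Subgroup.orderOf_mk]; exact hk⟩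
      ⟨j, by rw [Subgroup.orderOf_mk]; exact hj⟩
    exact congrArg Subtype.val this
  -- each centralizer is normal with elementary quotient
  have key : ∀ x ∈ N, x ∉ centralizer (N : Set G) → (∀ a ∈ N, ∀ b ∈ N, a * b * a⁻¹ * b⁻¹ ∈ N ⊓ centralizer {x}) ∧
      ∃ p : ℕ, p.Prime ∧ ∀ a ∈ N, a ^ p ∈ N ⊓ centralizer {x} := by
    intro x hx hxc
    have hlt : N ⊓ centralizer {x} < N := by
      refine lt_of_le_of_ne inf_le_left ?_
      intro h1
      apply hxc
      rw [← le_cent]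
      exact inf_eq_left.mp h1
    have h1 : normalizer ((N ⊓ centralizer ({x} : Set G) : Subgroup G) : Set G) = ⊤ := by
      rcases (h x hx hxc).le_iff.mp (norm_le h) with h1 | h1
      · exact h1
      · exfalso
        obtain ⟨n, hn1, hn2⟩ := SetLike.exists_of_lt (lt_inf_normalizer hn hlt)
        apply hn2
        exact mem_inf.mpr ⟨hn1.1, h1 ▸ hn1.2⟩
    have hFn : (N ⊓ centralizer ({x} : Set G)).Normal := normalizer_eq_top_iff.mp h1
    exact chief inf_le_left hlt.ne hs (fun L => below_chief h hx hxc L)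
  -- the exponent
  have hexp : ∀ (q : ℕ) (y : G), q.Prime → (∃ k, orderOf y = q ^ k) → y ∈ N → y ∉ centralizer (N : Set G) →
      ∀ r : ℕ, r.Prime → (∀ a ∈ N, a ^ r ∈ N ⊓ centralizer {y}) → r = q := by
    intro q y hq hyq hy hyc r hr hpow
    by_contra hrq
    apply hyc
    have : Fact q.Prime := ⟨hq⟩
    rw [← le_cent]
    have h1 : (centralizer {y}).subgroupOf N = ⊤ := by
      apply PUtil.eq_top_of_sylow
      intro s hs S u hu
      rw [mem_subgroupOf, mem_centralizer_singleton_iff]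
      obtain ⟨a, ha⟩ := IsPGroup.iff_orderOf.mp S.isPGroup' ⟨u, hu⟩
      rw [Subgroup.orderOf_mk] at ha
      by_cases hsq : s = q
      · subst hsq
        have h2 := (hpow u u.2).2
        have h2' : (u : G) ^ r * y = y * (u : G) ^ r := mem_centralizer_singleton_iff.mp h2
        have hco : IsCoprime (r : ℤ) ((s ^ a : ℕ) : ℤ) := by
          rw [Nat.isCoprime_iff_coprime]
          exact Nat.Coprime.pow_right _ ((Nat.coprime_primes hr hq).mpr hrq)
        obtain ⟨m, n, hmn⟩ := hco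
        have h3 : (u : G) = ((u : G) ^ r) ^ m := by
          have h4 : (u : G) ^ ((s ^ a : ℕ) : ℤ) = 1 := by
            rw [zpow_natCast, ← ha, Subgroup.orderOf_coe u |>.symm, pow_orderOf_eq_one]
          conv_lhs => rw [← zpow_one (u : G), ← hmn, zpow_add, mul_comm n, zpow_mul (u : G) _ n, h4, one_zpow, mul_one, mul_comm m,
            zpow_mul, zpow_natCast]
        rw [h3]
        exact ((show Commute ((u : G) ^ r) y from h2').zpow_left m)
      · exact hcomm hs.out hq hsq u.2 hy ⟨a, by rw [Subgroup.orderOf_coe]; exact ha⟩ hyq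
    intro n hn
    have h3 : (⟨n, hn⟩ : N) ∈ (centralizer {y}).subgroupOf N := h1 ▸ mem_top _
    exact h3
  obtain ⟨x₀, hx₀, hx₀c⟩ := SetLike.not_le_iff_exists.mp hna
  obtain ⟨p, y₀, hp, hy₀p, hy₀, hy₀c, hy₀x⟩ := prime_part h hx₀ hx₀c
  have hpow : ∀ x ∈ N, x ∉ centralizer (N : Set G) → ∀ a ∈ N, a ^ p ∈ N ⊓ centralizer {x} := by
    intro x hx hxc
    obtain ⟨q, y, hq, hyq, hy, hyc, hyx⟩ := prime_part h hx hxc
    obtain ⟨-, r, hr, hrpow⟩ := key x hx hxc
    have h1 := hexp q y hq hyq hy hyc r hr (by rw [hyx]; exact hrpow)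
    by_cases hpq : q = p
    · rw [← hpq, ← h1]; exact hrpow
    · exfalso
      have h2 : centralizer {y} = centralizer ({y₀} : Set G) := by
        apply cop h hy hyc hy₀ hy₀c (hcomm hq hp hpq hy hy₀ hyq hy₀p)
        obtain ⟨k, hk⟩ := hyq
        obtain ⟨j, hj⟩ := hy₀p
        rw [hk, hj]
        exact Nat.Coprime.pow _ _ ((Nat.coprime_primes hq hp).mpr hpq)
      have h3 := hexp p y₀ hp hy₀p hy₀ hy₀c r hr (by rw [← h2, hyx]; exact hrpow)
      exact hpq (h1.symm.trans h3)
  refine ⟨p, hp, ?_, ?_⟩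
  · intro a ha
    rw [mem_centralizer_iff]
    intro x hx
    by_cases hxc : x ∈ centralizer (N : Set G)
    · exact (mem_centralizer_iff.mp hxc _ (pow_mem ha p)).symm
    · exact (mem_centralizer_singleton_iff.mp (hpow x hx hxc a ha).2).symm
  · intro a ha b hb
    rw [mem_centralizer_iff]
    intro x hx
    by_cases hxc : x ∈ centralizer (N : Set G)
    · exact (mem_centralizer_iff.mp hxc _ (N.mul_mem (N.mul_mem (N.mul_mem ha hb) (N.inv_mem ha)) (N.inv_mem hb))).symm
    · exact (mem_centralizer_singleton_iff.mp ((key x hx hxc).1 a ha b hb).2).symm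

end Cfsg.Agent.H2.MaxCent
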