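import Mathlib
import Cfsg.Agent.H2.MaxCentC

set_option autoImplicit false

/-! Normal subgroups in which all noncentral elements have maximal centralizers: the nonnilpotent case. -/

open Subgroup Cfsg.Agent.Lib Cfsg.Agent.Lib.Basic Cfsg.Agent.Lib.PNilp Cfsg.Agent.Lib.SylRel
open scoped Pointwise commutatorElement

universe u

namespace Cfsg.Agent.H2.MaxCent

variable {G : Type u} [Group G] [Finite G] {N : Subgroup G}

theorem nil_of_primes {q : ℕ} (hq : q.Prime) (h : ∀ s : ℕ, s.Prime → s ≠ q → ∀ u ∈ N, (∃ k, orderOf u = s ^ k) →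
    u ∈ centralizer (N : Set G)) : Group.IsNilpotent N := by
  have : Fact q.Prime := ⟨hq⟩
  have h1 : ∀ s : ℕ, s.Prime → s ∣ (center N).index → s = q := by
    intro s hs hsd
    by_contra hs2
    have : Fact s.Prime := ⟨hs⟩
    obtain ⟨P⟩ : Nonempty (Sylow s N) := inferInstance
    have h4 : (P : Subgroup N) ≤ center N := by
      intro x hx
      obtain ⟨a, ha⟩ := IsPGroup.iff_orderOf.mp P.isPGroup' ⟨x, hx⟩
      rw [Subgroup.orderOf_mk] at ha
      rw [mem_center_iff]
      intro g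
      exact Subtype.ext (mem_centralizer_iff.mp (h s hs hs2 x x.2 ⟨a, by rw [Subgroup.orderOf_coe]; exact ha⟩) g g.2)
    exact P.not_dvd_index (hsd.trans (index_dvd_of_le h4))
  have h2 : IsPGroup q (N ⧸ center N) := by
    rw [IsPGroup.iff_card]
    exact ⟨_, Nat.eq_prime_pow_of_unique_prime_dvd (index_ne_zero_of_finite (H := center N)) (fun {d} hd1 hd2 => h1 d hd1 hd2)⟩
  have : Group.IsNilpotent (N ⧸ center N) := h2.isNilpotent
  exact Group.of_quotient_center_nilpotent inferInstance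

theorem mem_of_pow_mem {H : Subgroup G} {u : G} {s q : ℕ} (hs : s.Prime) (hq : q.Prime) (hsq : s ≠ q)
    (hu : ∃ k, orderOf u = s ^ k) (h : u ^ q ∈ H) : u ∈ H := by
  obtain ⟨a, ha⟩ := hu
  have hco : IsCoprime (q : ℤ) ((s ^ a : ℕ) : ℤ) := by
    rw [Nat.isCoprime_iff_coprime]
    exact Nat.Coprime.pow_right _ ((Nat.coprime_primes hq hs).mpr hsq.symm)
  obtain ⟨m, n, hmn⟩ := hco
  have h3 : u = (u ^ q) ^ m := by
    have h4 : u ^ ((s ^ a : ℕ) : ℤ) = 1 := by
      rw [zpow_natCast, ← ha, pow_orderOf_eq_one]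
    conv_lhs => rw [← zpow_one u, ← hmn, zpow_add, mul_comm n, zpow_mul u _ n, h4, one_zpow, mul_one, mul_comm m,
      zpow_mul, zpow_natCast]
  rw [h3]
  exact zpow_mem h m

theorem main (h : Hyp N) [hNn : N.Normal] (hnn : ¬ Group.IsNilpotent N) :
    ∃ F : Subgroup G, F.Normal ∧ F ≤ N ∧ F ≠ N ∧ ¬ F ≤ centralizer (N : Set G) ∧ N ⊓ centralizer (N : Set G) ≤ F ∧
      (∀ L : Subgroup G, L.Normal → N ⊓ centralizer (N : Set G) ≤ L → L ≤ F → L = N ⊓ centralizer (N : Set G) ∨ L = F) ∧
      ∃ r q : ℕ, r.Prime ∧ q.Prime ∧ r ≠ q ∧ (∀ f ∈ F, f ^ r ∈ centralizer (N : Set G)) ∧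
        (∀ f ∈ F, ∀ g ∈ F, f * g * f⁻¹ * g⁻¹ ∈ centralizer (N : Set G)) ∧ (∀ n ∈ N, n ^ q ∈ F) ∧
        (∀ a ∈ N, ∀ b ∈ N, a * b * a⁻¹ * b⁻¹ ∈ F) ∧
        (∀ y ∈ N, y ∉ F → ∀ f ∈ F, f * y * f⁻¹ * y⁻¹ ∈ centralizer (N : Set G) → f ∈ centralizer (N : Set G)) := by
  have hCn : (centralizer (N : Set G)).Normal := inferInstance
  obtain ⟨x, hx, hxc, hxn⟩ : ∃ x ∈ N, x ∉ centralizer (N : Set G) ∧
      normalizer ((N ⊓ centralizer ({x} : Set G) : Subgroup G) : Set G) = ⊤ := by
    by_contra hno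
    push Not at hno
    exact hnn (nilpotent_of_self h hno)
  have hFnil := nilp h hx hxc
  have hbelow := below_chief h hx hxc
  obtain ⟨F, hF⟩ : ∃ F, F = N ⊓ centralizer ({x} : Set G) := ⟨_, rfl⟩
  rw [← hF] at hxn hFnil hbelow
  have hFn : F.Normal := normalizer_eq_top_iff.mp hxn
  have hFN : F ≤ N := hF ▸ inf_le_left
  have hxF : x ∈ F := hF ▸ mem_inf.mpr ⟨hx, mem_centralizer_singleton_iff.mpr rfl⟩
  have hFx : ∀ f, f ∈ F ↔ f ∈ N ∧ f * x = x * f := by
    intro f
    rw [hF, mem_inf, mem_centralizer_singleton_iff]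
  have hFne : F ≠ N := by
    intro h1
    apply hxc
    rw [← le_cent, ← h1, hF]
    exact inf_le_right
  have hFnc : ¬ F ≤ centralizer (N : Set G) := fun h1 => hxc (h1 hxF)
  have hZF : N ⊓ centralizer (N : Set G) ≤ F := by
    intro z hz
    rw [hFx]
    exact ⟨hz.1, (mem_centralizer_iff.mp hz.2 x hx).symm⟩
  have hsup : ∀ w ∈ N, w ∉ centralizer (N : Set G) → ∀ L : Subgroup G, ¬ L ≤ centralizer {w} → L ⊔ centralizer {w} = ⊤ := by
    intro w hw hwc L hL
    rcases (h w hw hwc).le_iff.mp (le_sup_right : _ ≤ L ⊔ centralizer {w}) with h4 | h4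
    · exact h4
    · exact absurd (h4 ▸ le_sup_left) hL
  have hout : ∀ y ∈ N, y ∉ F → y ∉ centralizer (N : Set G) := by
    intro y hy hyF hyc
    exact hyF (hZF (mem_inf.mpr ⟨hy, hyc⟩))
  have hF1 : ∀ y ∈ N, y ∉ F → F ⊔ centralizer {y} = ⊤ := by
    intro y hy hyF
    apply hsup y hy (hout y hy hyF)
    intro h1
    apply hyF
    rw [hFx]
    exact ⟨hy, (mem_centralizer_singleton_iff.mp (h1 hxF)).symm⟩
  obtain ⟨y₀, hy₀, hy₀F⟩ := SetLike.exists_of_lt (lt_of_le_of_ne hFN hFne)
  have hNs : Group.IsSolvable N := by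
    have h1 := dedekind hFN (hF1 y₀ hy₀ hy₀F)
    have h2 := nilp h hy₀ (hout y₀ hy₀ hy₀F)
    rw [← h1]
    have h3 : Group.IsSolvable F := inferInstance
    have h4 : Group.IsSolvable (N ⊓ centralizer ({y₀} : Set G) : Subgroup G) := inferInstance
    exact FrobB.isSolvable_sup (by rw [normalizer_eq_top]; exact le_top) h3 h4
  obtain ⟨hab, q, hq, hqpow⟩ := chief hFN hFne hNs (fun L => hbelow L)
  have hqf : Fact q.Prime := ⟨hq⟩
  -- no nilpotent subgroup above F
  have nil_sub : ∀ M : Subgroup G, F ≤ M → M ≤ N → Group.IsNilpotent M → ∀ y ∈ M, y ∉ F → False := by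
    intro M hFM hMN hMnil y hyM hyF
    have hMn : (M.subgroupOf N).Normal := by
      constructor
      intro m hm n
      rw [mem_subgroupOf] at hm ⊢
      have h1 := hFM (hab n n.2 m m.2)
      have h2 : ((n * m * n⁻¹ : N) : G) = (n * m * (n : G)⁻¹ * (m : G)⁻¹) * m := by push_cast; group
      rw [h2]
      exact M.mul_mem h1 hm
    have hMnil' : Group.IsNilpotent (M.subgroupOf N) := Group.nilpotent_of_mulEquiv (subgroupOfEquivOfLe hMN).symm
    have h1 := Cores.le_fitting hMn hMnil'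
    have hch := Cores.fitting_characteristic (G := N)
    have h2 : ((Cfsg.fittingSubgroup N).map N.subtype).Normal := inferInstance
    have hMle : M ≤ (Cfsg.fittingSubgroup N).map N.subtype := fun m hm => ⟨⟨m, hMN hm⟩, h1 hm, rfl⟩
    rcases hbelow _ h2 (hFM.trans hMle) (map_subtype_le _) with h3 | h3
    · exact hyF (h3 ▸ hMle hyM)
    · apply hnn
      have h4 : Cfsg.fittingSubgroup N = ⊤ := by
        rw [eq_top_iff]
        rintro ⟨n, hn⟩ -
        rw [← h3] at hn
        obtain ⟨m, hm, hmn⟩ := hn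
        have : m = ⟨n, by rw [← h3]; exact ⟨m, hm, hmn⟩⟩ := Subtype.ext hmn
        exact this ▸ hm
      have h5 := Cores.fitting_nilpotent (G := N)
      rw [h4] at h5
      exact Group.nilpotent_of_mulEquiv topEquiv
  have claim3 : ∀ y ∈ N, y ∉ F → ∀ w ∈ F, w * y = y * w → w ∈ centralizer (N : Set G) := by
    intro y hy hyF w hw hwy
    by_contra hwc
    have hwN : w ∈ N := hFN hw
    by_cases hFw : F ≤ centralizer {w}
    · refine nil_sub (N ⊓ centralizer {w}) (le_inf hFN hFw) inf_le_left (nilp h hwN hwc) y ?_ hyF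
      exact mem_inf.mpr ⟨hy, mem_centralizer_singleton_iff.mpr hwy.symm⟩
    · have hNw := dedekind hFN (hsup w hwN hwc F hFw)
      have hDnil := nilp h hwN hwc
      have subA : ∀ v ∈ F, F ≤ centralizer {v} → ∀ s : ℕ, s.Prime → s ≠ q → (∃ k, orderOf v = s ^ k) →
          v ∈ centralizer (N : Set G) := by
        intro v hv hFv s hs hsq hvs
        rw [← le_cent]
        conv_lhs => rw [← hNw]
        refine sup_le hFv ?_
        have hsf : Fact s.Prime := ⟨hs⟩
        have hvD : v ∈ N ⊓ centralizer ({w} : Set G) := mem_inf.mpr ⟨hFN hv, by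
          rw [mem_centralizer_singleton_iff]
          exact (mem_centralizer_singleton_iff.mp (hFv hw)).symm⟩
        have h1 : (centralizer {v}).subgroupOf (N ⊓ centralizer ({w} : Set G)) = ⊤ := by
          apply PUtil.eq_top_of_sylow
          intro t ht S u hu
          rw [mem_subgroupOf, mem_centralizer_singleton_iff]
          obtain ⟨a, ha⟩ := IsPGroup.iff_orderOf.mp S.isPGroup' ⟨u, hu⟩
          rw [Subgroup.orderOf_mk] at ha
          by_cases htq : t = q
          · subst htq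
            have := Hyper.commute_of_nilpotent hDnil (fun e => hsq e.symm) (x := u) (y := ⟨v, hvD⟩) ⟨a, ha⟩
              (by obtain ⟨k, hk⟩ := hvs; exact ⟨k, by rw [Subgroup.orderOf_mk]; exact hk⟩)
            exact congrArg Subtype.val this
          · have h2 : (u : G) ∈ F := mem_of_pow_mem ht.out hq htq ⟨a, by rw [Subgroup.orderOf_coe]; exact ha⟩ (hqpow u u.2.1)
            exact mem_centralizer_singleton_iff.mp (hFv h2)
        intro c hc
        have h2 : (⟨c, hc⟩ : (N ⊓ centralizer ({w} : Set G) : Subgroup G)) ∈ (centralizer {v}).subgroupOf _ := h1 ▸ mem_top _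
        exact h2
      obtain ⟨p, y', hp, hy'p, hy', hy'c, hy'x⟩ := prime_part h hx hxc
      have hFy' : F = N ⊓ centralizer {y'} := by rw [hF, hy'x]
      have hy'F : y' ∈ F := by
        rw [hFy']
        exact mem_inf.mpr ⟨hy', mem_centralizer_singleton_iff.mpr rfl⟩
      have hFley' : F ≤ centralizer {y'} := by rw [hFy']; exact inf_le_right
      have hpq : p = q := by
        by_contra hpq
        exact hy'c (subA y' hy'F hFley' p hp hpq hy'p)
      subst hpq
      apply hnn
      refine nil_of_primes hp (fun s hs hsq u hu hus => ?_)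
      have huF : u ∈ F := mem_of_pow_mem hs hp hsq hus (hqpow u hu)
      by_contra huc
      have h1 : centralizer {u} = centralizer ({y'} : Set G) := by
        apply cop h hu huc hy' hy'c (mem_centralizer_singleton_iff.mp (hFley' huF))
        obtain ⟨k, hk⟩ := hus
        obtain ⟨j, hj⟩ := hy'p
        rw [hk, hj]
        exact Nat.Coprime.pow _ _ ((Nat.coprime_primes hs hp).mpr hsq)
      exact huc (subA u huF (by rw [h1]; exact hFley') s hs hsq hus)
  -- F / Z is chief
  have claim4 : ∀ L : Subgroup G, L.Normal → N ⊓ centralizer (N : Set G) ≤ L → L ≤ F → L = N ⊓ centralizer (N : Set G) ∨ L = F := by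
    intro L hL hZL hLF
    by_cases hLy : L ≤ centralizer {y₀}
    · left
      refine le_antisymm (fun l hl => mem_inf.mpr ⟨hFN (hLF hl), ?_⟩) hZL
      exact claim3 y₀ hy₀ hy₀F l (hLF hl) (mem_centralizer_singleton_iff.mp (hLy hl))
    · right
      have h1 := hsup y₀ hy₀ (hout y₀ hy₀ hy₀F) L hLy
      have h2 := dedekind (N := F) hLF h1
      rw [← h2]
      refine (sup_eq_left.mpr ?_).symm
      intro f hf
      exact hZL (mem_inf.mpr ⟨hFN hf.1, claim3 y₀ hy₀ hy₀F f hf.1 (mem_centralizer_singleton_iff.mp hf.2)⟩)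
  have hZn : (N ⊓ centralizer (N : Set G)).Normal := inferInstance
  have hFs : Group.IsSolvable F := inferInstance
  obtain ⟨hFab, r, hr, hrpow⟩ := chief hZF (fun h1 => hFnc (h1 ▸ inf_le_right)) hFs claim4
  have hrq : r ≠ q := by
    rintro rfl
    apply hnn
    refine nil_of_primes hr (fun s hs hsq u hu hus => ?_)
    have huF : u ∈ F := mem_of_pow_mem hs hr hsq hus (hqpow u hu)
    have h1 : u ∈ N ⊓ centralizer (N : Set G) := mem_of_pow_mem hs hr hsq hus (hrpow u huF)
    exact h1.2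
  refine ⟨F, hFn, hFN, hFne, hFnc, hZF, claim4, r, q, hr, hq, hrq, fun f hf => (hrpow f hf).2, fun f hf g hg => (hFab f hf g hg).2,
    hqpow, hab, ?_⟩
  intro y hy hyF f hf hfy
  obtain ⟨π, hπ⟩ : ∃ π, π = QuotientGroup.mk' (centralizer (N : Set G)) := ⟨_, rfl⟩
  have hπ1 : ∀ g, π g = 1 ↔ g ∈ centralizer (N : Set G) := fun g => by rw [hπ]; exact QuotientGroup.eq_one_iff g
  have hπc : ∀ a b, a * b * a⁻¹ * b⁻¹ ∈ centralizer (N : Set G) ↔ π a * π b = π b * π a := by
    intro a b
    rw [← hπ1, map_mul, map_mul, map_mul, map_inv, map_inv]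
    constructor
    · intro h1
      have h2 := mul_inv_eq_one.mp h1
      exact mul_inv_eq_iff_eq_mul.mp h2
    · intro h1
      rw [h1]; group
  obtain ⟨L, hL⟩ : ∃ L, L = F ⊓ (centralizer {π y}).comap π := ⟨_, rfl⟩
  have hLmem : ∀ g, g ∈ L ↔ g ∈ F ∧ π g * π y = π y * π g := by
    intro g
    rw [hL, mem_inf, mem_comap, mem_centralizer_singleton_iff]
  have hLn : L.Normal := by
    rw [← normalizer_eq_top_iff, eq_top_iff, ← hF1 y hy hyF]
    refine sup_le ?_ ?_
    · intro c hc
      have key : ∀ c ∈ F, ∀ g ∈ L, c * g * c⁻¹ ∈ L := by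
        intro c hc g hg
        rw [hLmem] at hg ⊢
        refine ⟨F.mul_mem (F.mul_mem hc hg.1) (F.inv_mem hc), ?_⟩
        have h1 : π (c * g * c⁻¹) = π g := by
          have h2 := (hπc c g).mp (hFab c hc g hg.1).2
          rw [map_mul, map_mul, map_inv, h2]; group
        rw [h1]; exact hg.2
      rw [mem_normalizer_iff]
      intro g
      refine ⟨key c hc g, fun h1 => ?_⟩
      have h2 := key c⁻¹ (F.inv_mem hc) _ h1
      have e : c⁻¹ * (c * g * c⁻¹) * c⁻¹⁻¹ = g := by group
      rwa [e] at h2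
    · intro c hc
      have key : ∀ c ∈ centralizer {y}, ∀ g ∈ L, c * g * c⁻¹ ∈ L := by
        intro c hc g hg
        rw [hLmem] at hg ⊢
        refine ⟨hFn.conj_mem g hg.1 c, ?_⟩
        have h1 : π c * π y = π y * π c := by rw [← map_mul, ← map_mul, mem_centralizer_singleton_iff.mp hc]
        have h1' : (π c)⁻¹ * π y = π y * (π c)⁻¹ := ((show Commute (π c) (π y) from h1).inv_left)
        rw [map_mul, map_mul, map_inv]
        calc π c * π g * (π c)⁻¹ * π y = π c * π g * ((π c)⁻¹ * π y) := by group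
          _ = π c * (π g * π y) * (π c)⁻¹ := by rw [h1']; group
          _ = (π c * π y) * π g * (π c)⁻¹ := by rw [hg.2]; group
          _ = π y * (π c * π g * (π c)⁻¹) := by rw [h1]; group
      rw [mem_normalizer_iff]
      intro g
      refine ⟨key c hc g, fun h1 => ?_⟩
      have h2 := key c⁻¹ (inv_mem hc) _ h1
      have e : c⁻¹ * (c * g * c⁻¹) * c⁻¹⁻¹ = g := by group
      rwa [e] at h2
  have hZL : N ⊓ centralizer (N : Set G) ≤ L := by
    intro z hz
    rw [hLmem]
    refine ⟨hZF hz, ?_⟩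
    rw [(hπ1 z).mpr hz.2, one_mul, mul_one]
  have hfL : f ∈ L := (hLmem f).mpr ⟨hf, (hπc f y).mp hfy⟩
  rcases claim4 L hLn hZL (hL ▸ inf_le_left) with h1 | h1
  · rw [h1] at hfL
    exact hfL.2
  · exfalso
    have hyM : y ∈ F ⊔ zpowers y := mem_sup_right (mem_zpowers y)
    have hMN : F ⊔ zpowers y ≤ N := sup_le hFN (zpowers_le.mpr hy)
    refine nil_sub (F ⊔ zpowers y) le_sup_left hMN ?_ y hyM hyF
    have hcomm : ∀ a ∈ F ⊔ zpowers y, ∀ b ∈ F ⊔ zpowers y, π a * π b = π b * π a := by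
      have h2 : IsMulCommutative (closure ((π '' (F : Set G)) ∪ {π y})) := by
        apply isMulCommutative_closure
        rintro a (⟨a, ha, rfl⟩ | rfl) b (⟨b, hb, rfl⟩ | rfl)
        · exact (hπc a b).mp (hFab a ha b hb).2
        · have : a ∈ L := h1 ▸ ha
          exact ((hLmem a).mp this).2
        · have : b ∈ L := h1 ▸ hb
          exact ((hLmem b).mp this).2.symm
        · rfl
      have h3 := Nilp.isMulCommutative_iff_forall.mp h2
      have h4 : F ⊔ zpowers y ≤ (closure ((π '' (F : Set G)) ∪ {π y})).comap π := by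
        refine sup_le ?_ ?_
        · intro a ha
          exact Subgroup.subset_closure (Or.inl ⟨a, ha, rfl⟩)
        · rw [zpowers_le]
          exact Subgroup.subset_closure (Or.inr rfl)
      exact fun a ha b hb => h3 _ (h4 ha) _ (h4 hb)
    obtain ⟨M, hM⟩ : ∃ M, M = F ⊔ zpowers y := ⟨_, rfl⟩
    rw [← hM] at hcomm hMN ⊢
    have hMab : IsMulCommutative (M.map π) := by
      rw [Nilp.isMulCommutative_iff_forall]
      rintro _ ⟨a, ha, rfl⟩ _ ⟨b, hb, rfl⟩
      exact hcomm a ha b hb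
    have hMnil : Group.IsNilpotent (M.map π) := by
      let _ : CommGroup (M.map π) := { mul_comm := hMab.is_comm.comm }
      exact CommGroup.isNilpotent
    refine _root_.isNilpotent_of_ker_le_center (π.subgroupMap M) ?_
    intro m hm
    rw [mem_center_iff]
    intro g
    apply Subtype.ext
    have h2 : π m = 1 := congrArg Subtype.val (MonoidHom.mem_ker.mp hm)
    exact mem_centralizer_iff.mp ((hπ1 _).mp h2) g (hMN g.2)

end Cfsg.Agent.H2.MaxCent
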