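import Mathlib
import Cfsg.Agent.H2.MaxCentD

set_option autoImplicit false

/-! The Frobenius quotient. -/

open Subgroup Cfsg.Agent.Lib Cfsg.Agent.Lib.Basic Cfsg.Agent.Lib.PNilp Cfsg.Agent.Lib.SylRel
open scoped Pointwise commutatorElement

universe u

namespace Cfsg.Agent.H2.MaxCent

theorem cyc {X : Type*} [Group X] [Finite X] {K : Subgroup X} [hKn : K.Normal] {r q : ℕ} (hr : r.Prime) (hq : q.Prime)
    (hrq : r ≠ q) (hK : K ≠ ⊥) (hKt : K ≠ ⊤) (hKr : ∀ k ∈ K, k ^ r = 1) (hqK : ∀ x : X, x ^ q ∈ K)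
    (hab : ∀ a b : X, a * b * a⁻¹ * b⁻¹ ∈ K) (hfix : ∀ y : X, y ∉ K → ∀ k ∈ K, k * y = y * k → k = 1)
    (Q : Subgroup X) (hQ : IsPGroup q Q) (hQi : ¬ q ∣ Q.index) :
    K ⊓ Q = ⊥ ∧ K ⊔ Q = ⊤ ∧ Q ≠ ⊥ ∧ Nat.card Q = q ∧ IsPGroup r K := by
  have hqf : Fact q.Prime := ⟨hq⟩
  have hrf : Fact r.Prime := ⟨hr⟩
  have hKp : IsPGroup r K := Nilp.isPGroup_of_pow_eq_one hKr
  have hcop : (Nat.card K).Coprime (Nat.card Q) := by
    obtain ⟨a, ha⟩ := IsPGroup.iff_card.mp hKp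
    obtain ⟨b, hb⟩ := IsPGroup.iff_card.mp hQ
    rw [ha, hb]
    exact Nat.Coprime.pow _ _ ((Nat.coprime_primes hr hq).mpr hrq)
  have hinf : K ⊓ Q = ⊥ := disjoint_iff.mp (disjoint_of_coprime_natCard hcop)
  have hsup : K ⊔ Q = ⊤ := by
    have := sup_sylow_eq_top (N := K) (p := q) (fun g hg => ?_) (hQ.toSylow hQi)
    · exact this
    · have h1 := hqK g
      have hco : IsCoprime (q : ℤ) ((orderOf g : ℕ) : ℤ) := by
        rw [Nat.isCoprime_iff_coprime]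
        exact hg.symm
      obtain ⟨m, n, hmn⟩ := hco
      have h3 : g = (g ^ q) ^ m := by
        have h4 : g ^ ((orderOf g : ℕ) : ℤ) = 1 := by
          rw [zpow_natCast, pow_orderOf_eq_one]
        conv_lhs => rw [← zpow_one g, ← hmn, zpow_add, mul_comm n, zpow_mul g _ n, h4, one_zpow, mul_one, mul_comm m,
          zpow_mul, zpow_natCast]
      rw [h3]
      exact zpow_mem h1 m
  have hQ0 : Q ≠ ⊥ := by
    rintro rfl
    rw [sup_bot_eq] at hsup
    exact hKt hsup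
  have hmem : ∀ x, x ∈ K → x ∈ Q → x = 1 := by
    intro x h1 h2
    have : x ∈ K ⊓ Q := ⟨h1, h2⟩
    rwa [hinf, mem_bot] at this
  have hQab : IsMulCommutative Q := by
    rw [Nilp.isMulCommutative_iff_forall]
    intro a ha b hb
    have h1 := hmem _ (hab a b) (Q.mul_mem (Q.mul_mem (Q.mul_mem ha hb) (Q.inv_mem ha)) (Q.inv_mem hb))
    have h2 := mul_inv_eq_one.mp h1
    exact mul_inv_eq_iff_eq_mul.mp h2
  have hcyc : IsCyclic Q := by
    refine FrobC.isCyclic_of_comm (K := K) (by rw [normalizer_eq_top]; exact le_top) hK hcop.symm ?_ hQab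
    intro h hh h1
    rw [eq_bot_iff]
    intro k hk
    rw [mem_bot]
    refine hfix h (fun hhK => h1 (hmem h hhK hh)) k hk.1 ?_
    exact mem_centralizer_singleton_iff.mp hk.2
  refine ⟨hinf, hsup, hQ0, ?_, hKp⟩
  obtain ⟨g, hg⟩ := hcyc.exists_generator
  have ho : orderOf g = Nat.card Q := orderOf_eq_card_of_forall_mem_zpowers hg
  have h1 : orderOf g ∣ q := by
    apply orderOf_dvd_of_pow_eq_one
    apply Subtype.ext
    exact hmem _ (hqK g) (Q.pow_mem g.2 q)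
  rw [ho] at h1
  rcases (Nat.dvd_prime hq).mp h1 with h2 | h2
  · exact absurd (card_eq_one.mp h2) hQ0
  · exact h2

end Cfsg.Agent.H2.MaxCent
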