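import Mathlib
import Cfsg.Prelude
import Cfsg.Agent.H2.SClosed
import Cfsg.Agent.H2.CNC
import Cfsg.Agent.Lib.ZPN
import Cfsg.Agent.Lib.NilpB
import Cfsg.Agent.Lib.PStabZ

set_option autoImplicit false

/-! Nilpotent maximal subgroups. -/

namespace Cfsg.Agent.H2.MaxNil

open Subgroup Cfsg.Agent.Lib Cfsg.Agent.Lib.Cores Cfsg.Agent.Lib.PNilp Cfsg.Agent.H2.CN

universe u

/-- the 2-elements of `M` generate a group of class at most 2 -/
def C2 {G : Type u} [Group G] (M : Subgroup G) : Prop :=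
  ∀ x ∈ M, ∀ y ∈ M, ∀ z ∈ M, (∃ k, x ^ 2 ^ k = 1) → (∃ k, y ^ 2 ^ k = 1) → (∃ k, z ^ 2 ^ k = 1) →
    x * y * x⁻¹ * y⁻¹ * z = z * (x * y * x⁻¹ * y⁻¹)

/-- lifting `p`-elements -/
theorem lift_pElt {G : Type u} [Group G] [Finite G] {p : ℕ} (hp : p.Prime) {H : Type u} [Group H] (f : G →* H) (x : G) (hx : ∃ k, (f x) ^ p ^ k = 1) :
    ∃ j : ℕ, f (x ^ j) = f x ∧ ∃ k, (x ^ j) ^ p ^ k = 1 := by
  obtain ⟨k, m, hpm, hkm⟩ := Nat.exists_eq_pow_mul_and_not_dvd (n := orderOf x) (orderOf_pos x).ne' p hp.one_lt.ne'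
  have hcop : m.Coprime (p ^ k) := Nat.Coprime.pow_right k (((Nat.Prime.coprime_iff_not_dvd hp).mpr hpm).symm)
  -- the order of `f x` divides `p ^ k`
  have h1 : orderOf (f x) ∣ p ^ k := by
    obtain ⟨i, hi⟩ := hx
    have h2 : orderOf (f x) ∣ p ^ i := orderOf_dvd_of_pow_eq_one hi
    have h3 : orderOf (f x) ∣ p ^ k * m := hkm ▸ orderOf_map_dvd f x
    have h4 : (orderOf (f x)).Coprime m := Nat.Coprime.coprime_dvd_left h2 (Nat.Coprime.pow_left i ((Nat.Prime.coprime_iff_not_dvd hp).mpr hpm))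
    exact h4.dvd_of_dvd_mul_right h3
  obtain ⟨j, hj⟩ := _root_.exists_pow_eq_self_of_coprime (x := f x) (n := m) (Nat.Coprime.coprime_dvd_right h1 hcop)
  refine ⟨m * j, by rw [map_pow, pow_mul, hj], k, ?_⟩
  rw [← pow_mul, show m * j * p ^ k = (p ^ k * m) * j by ring, ← hkm, pow_mul, pow_orderOf_eq_one, one_pow]

theorem C2_map {G : Type u} [Group G] [Finite G] {H : Type u} [Group H] (f : G →* H) {M : Subgroup G} (h : C2 M) : C2 (M.map f) := by
  rintro _ ⟨x, hx, rfl⟩ _ ⟨y, hy, rfl⟩ _ ⟨z, hz, rfl⟩ hx2 hy2 hz2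
  obtain ⟨i, hi, hi2⟩ := lift_pElt Nat.prime_two f x hx2
  obtain ⟨j, hj, hj2⟩ := lift_pElt Nat.prime_two f y hy2
  obtain ⟨k, hk, hk2⟩ := lift_pElt Nat.prime_two f z hz2
  rw [← hi, ← hj, ← hk]
  simp only [← map_mul, ← map_inv]
  rw [h _ (pow_mem hx i) _ (pow_mem hy j) _ (pow_mem hz k) hi2 hj2 hk2]

theorem sylow_of_max {G : Type u} [Group G] [Finite G] {M : Subgroup G} (hmax : IsCoatom M) (hM : Group.IsNilpotent M)
    (hcf : ∀ N : Subgroup G, N.Normal → N ≤ M → N = ⊥) {p : ℕ} [hp : Fact p.Prime] (hd : p ∣ Nat.card M) :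
    ∃ P : Sylow p G, (P : Subgroup G) ≤ M ∧ M ≤ normalizer ((P : Subgroup G) : Set G) ∧ (P : Subgroup G) ≠ ⊥ := by
  obtain ⟨P₀⟩ := (inferInstance : Nonempty (Sylow p M))
  haveI hPn := PUtil.sylow_normal_of_nilpotent hM P₀
  obtain ⟨P, hP⟩ : ∃ P, P = (P₀ : Subgroup M).map M.subtype := ⟨_, rfl⟩
  have hPM : P ≤ M := hP ▸ map_subtype_le _
  have hPp : IsPGroup p P := hP ▸ P₀.isPGroup'.map _
  have hMN : M ≤ normalizer (P : Set G) := by
    intro m hm
    apply SixElt.mem_norm_fin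
    rw [hP]
    rintro _ ⟨w, hw, rfl⟩
    exact ⟨⟨m, hm⟩ * w * ⟨m, hm⟩⁻¹, hPn.conj_mem w hw _, rfl⟩
  have hP1 : P ≠ ⊥ := by
    intro h
    rw [hP, Subgroup.map_eq_bot_iff_of_injective _ M.subtype_injective] at h
    have := P₀.card_eq_multiplicity
    rw [h, card_bot] at this
    have h2 : p ∣ p ^ (Nat.card M).factorization p := dvd_pow_self p (hp.out.factorization_pos_of_dvd Nat.card_pos.ne' hd).ne'
    rw [← this] at h2
    exact hp.out.one_lt.ne' (Nat.dvd_one.mp h2)
  have hN : normalizer (P : Set G) = M := by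
    rcases hmax.le_iff.mp hMN with h | h
    · exact absurd (hcf P (normalizer_eq_top_iff.mp h) hPM) hP1
    · exact h
  obtain ⟨P', hP'⟩ := hPp.exists_le_sylow
  have heq : (P' : Subgroup G) = P := by
    by_contra hne
    have hlt : P < (P' : Subgroup G) := lt_of_le_of_ne hP' (fun h => hne h.symm)
    have h1 := lt_inf_normalizer P'.isPGroup'.isNilpotent hlt
    rw [hN] at h1
    obtain ⟨x, hx, hxP⟩ := SetLike.exists_of_lt h1
    obtain ⟨hx1, hx2⟩ := mem_inf.mp hx
    apply hxP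
    obtain ⟨k, hk⟩ := P'.isPGroup' ⟨x, hx1⟩
    rw [hP]
    exact ⟨⟨x, hx2⟩, CNC.mem_sylow_nil hM P₀ _ ⟨k, congrArg Subtype.val hk⟩, rfl⟩
  exact ⟨P', heq ▸ hPM, heq ▸ hMN, heq ▸ hP1⟩

theorem norm_eq {G : Type u} [Group G] {M : Subgroup G} (hmax : IsCoatom M) 
    (hcf : ∀ N : Subgroup G, N.Normal → N ≤ M → N = ⊥) {T : Subgroup G} (hT : T ≤ M) (hT1 : T ≠ ⊥) (hMT : M ≤ normalizer (T : Set G)) :
    normalizer (T : Set G) = M := by
  rcases hmax.le_iff.mp hMT with h | h
  · exact absurd (hcf T (normalizer_eq_top_iff.mp h) hT) hT1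
  · exact h

theorem pNil_odd {G : Type u} [Group G] [Finite G] {M : Subgroup G} (hmax : IsCoatom M) (hM : Group.IsNilpotent M)
    (hcf : ∀ N : Subgroup G, N.Normal → N ≤ M → N = ⊥) {p : ℕ} [hp : Fact p.Prime] (hp2 : p ≠ 2) (hd : p ∣ Nat.card M) : PNil p G := by
  obtain ⟨P, hPM, hMP, hP1⟩ := sylow_of_max hmax hM hcf hd
  apply ZPN.pNil_of_zj hp2 P
  have h1 := norm_eq hmax hcf ((ZJ.Zf_le 0 (P : Subgroup G)).trans hPM) (PStabZ.Zf_ne_bot P.isPGroup' hP1) (hMP.trans (ZJ.normalizer_le_Zf 0 _))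
  rw [h1]
  exact pNil_of_isNilpotent hM

theorem pNil_two {G : Type u} [Group G] [Finite G] {M : Subgroup G} (hmax : IsCoatom M) (hM : Group.IsNilpotent M)
    (hcf : ∀ N : Subgroup G, N.Normal → N ≤ M → N = ⊥) (hC : C2 M) (hd : 2 ∣ Nat.card M) : PNil 2 G := by
  haveI : Fact (Nat.Prime 2) := ⟨Nat.prime_two⟩
  obtain ⟨P, hPM, hMP, hP1⟩ := sylow_of_max hmax hM hcf hd
  apply SClosed.criterion P P ⟨le_rfl, fun x _ g h => h⟩
  intro U hUP hCU
  have hPe : ∀ x ∈ (P : Subgroup G), ∃ k, x ^ 2 ^ k = 1 := by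
    intro x hx
    obtain ⟨k, hk⟩ := P.isPGroup' ⟨x, hx⟩
    exact ⟨k, congrArg Subtype.val hk⟩
  have hU1 : U ≠ ⊥ := by
    rintro rfl
    apply hP1
    rw [eq_bot_iff]
    refine le_trans (le_inf le_rfl ?_) hCU
    intro x _
    rw [mem_centralizer_iff]
    intro y hy
    rw [mem_bot.mp hy, one_mul, mul_one]
  have hMU : M ≤ normalizer (U : Set G) := by
    rw [← subgroupOf_eq_top]
    apply eq_top_of_sylow_le
    intro q hq
    haveI : Fact q.Prime := ⟨hq⟩
    obtain ⟨Q⟩ := (inferInstance : Nonempty (Sylow q M))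
    refine ⟨Q, fun s hs => ?_⟩
    rw [mem_subgroupOf]
    obtain ⟨k, hk⟩ := Q.isPGroup' ⟨s, hs⟩
    have hk' : (s : G) ^ q ^ k = 1 := congrArg (fun t => ((t : M) : G)) (congrArg Subtype.val hk)
    apply SixElt.mem_norm_fin
    intro u hu
    by_cases hq2 : q = 2
    · subst hq2
      have h1 : (s : G) * u * (s : G)⁻¹ * u⁻¹ ∈ U := by
        apply hCU
        refine mem_inf.mpr ⟨?_, ?_⟩
        · exact mul_mem ((mem_normalizer_iff.mp (hMP s.2) u).mp (hUP hu)) (inv_mem (hUP hu))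
        · rw [mem_centralizer_iff]
          intro v hv
          exact (hC _ s.2 _ (hPM (hUP hu)) _ (hPM (hUP hv)) ⟨k, hk'⟩ (hPe u (hUP hu)) (hPe v (hUP hv))).symm
      have h2 : (s : G) * u * (s : G)⁻¹ = (s : G) * u * (s : G)⁻¹ * u⁻¹ * u := by group
      rw [h2]
      exact mul_mem h1 hu
    · obtain ⟨l, hl⟩ := hPe u (hUP hu)
      have h1 : (s : G) * u = u * s := comm_of_mem hM s.2 (hPM (hUP hu)) hk' hl
        (Nat.Coprime.pow _ _ ((Nat.coprime_primes hq Nat.prime_two).mpr hq2))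
      rw [h1, mul_inv_cancel_right]; exact hu
  rw [norm_eq hmax hcf (hUP.trans hPM) hU1 hMU]
  exact pNil_of_isNilpotent hM

theorem main (n : ℕ) : ∀ (G : Type u) [Group G] [Finite G], Nat.card G ≤ n → ∀ M : Subgroup G, IsCoatom M → Group.IsNilpotent M → C2 M →
    Group.IsSolvable G := by
  induction n with
  | zero =>
    intro G _ _ hc
    exact absurd hc (by have : 0 < Nat.card G := Nat.card_pos; omega)
  | succ n ih =>
    intro G _ _ hc M hmax hM hC
    haveI := hM
    have hMs : Group.IsSolvable M := inferInstance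
    by_cases hcf : ∀ N : Subgroup G, N.Normal → N ≤ M → N = ⊥
    · -- core-free case
      have hpn : ∀ p : ℕ, p.Prime → p ∣ Nat.card M → PNil p G := by
        intro p hp hd
        haveI : Fact p.Prime := ⟨hp⟩
        by_cases hp2 : p = 2
        · subst hp2; exact pNil_two hmax hM hcf hC hd
        · exact pNil_odd hmax hM hcf hp2 hd
      obtain ⟨K, hK⟩ : ∃ K : Subgroup G, K = sInf {N | ∃ p : ℕ, p.Prime ∧ p ∣ Nat.card M ∧ N = Cfsg.pPrimeCore p G} := ⟨_, rfl⟩
      haveI hKn : K.Normal := by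
        refine ⟨fun x hx g => ?_⟩
        rw [hK, mem_sInf] at hx ⊢
        rintro N ⟨p, hp, hd, rfl⟩
        exact (pPrimeCore_normal (G := G) p).conj_mem x (hx _ ⟨p, hp, hd, rfl⟩) g
      have hKc : (Nat.card M).Coprime (Nat.card K) := by
        rw [Nat.coprime_iff_gcd_eq_one]
        by_contra hne
        obtain ⟨p, hp, hd⟩ := Nat.exists_prime_and_dvd hne
        haveI : Fact p.Prime := ⟨hp⟩
        obtain ⟨hd1, hd2⟩ := Nat.dvd_gcd_iff.mp hd
        have h1 : K ≤ Cfsg.pPrimeCore p G := hK ▸ sInf_le ⟨p, hp, hd1, rfl⟩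
        exact pPrimeCore_not_dvd (G := G) p (hd2.trans (card_dvd_of_le h1))
      have hKM : ¬ K ≤ M := by
        intro hKM
        have hK1 := hcf K hKn hKM
        apply hmax.1
        apply eq_top_of_sylow_le
        intro q hq
        haveI : Fact q.Prime := ⟨hq⟩
        by_cases hqd : q ∣ Nat.card M
        · obtain ⟨P, hP, -, -⟩ := sylow_of_max hmax hM hcf hqd
          exact ⟨P, hP⟩
        · obtain ⟨Q⟩ := (inferInstance : Nonempty (Sylow q G))
          refine ⟨Q, ?_⟩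
          have h1 : (Q : Subgroup G) ≤ K := by
            rw [hK]
            apply le_sInf
            rintro N ⟨p, hp, hd, rfl⟩
            haveI : Fact p.Prime := ⟨hp⟩
            intro x hx
            obtain ⟨k, hk⟩ := Q.isPGroup' ⟨x, hx⟩
            have hk' : x ^ q ^ k = 1 := congrArg Subtype.val hk
            have hqp : q ≠ p := by rintro rfl; exact hqd hd
            rw [mem_iff_coprime (pPrimeCore_normal (G := G) p) (pPrimeCore_coprime p) (pNil_iff_core.mp (hpn p hp hd))]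
            exact Nat.Coprime.coprime_dvd_left (_root_.orderOf_dvd_of_pow_eq_one hk') (Nat.Coprime.pow_left k ((Nat.coprime_primes hq hp).mpr hqp))
          rw [hK1] at h1
          exact h1.trans bot_le
      have hKM' : K ⊔ M = ⊤ := by
        apply hmax.2
        exact lt_of_le_of_ne le_sup_right (fun h => hKM (by rw [h]; exact le_sup_left))
      -- a Sylow subgroup of `K` normalised by `M`
      have hK1 : K ≠ ⊥ := fun h => hKM (h ▸ bot_le)
      obtain ⟨q, hq, hqd⟩ := Nat.exists_prime_and_dvd (fun h => hK1 (card_eq_one.mp h) : Nat.card K ≠ 1)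
      haveI : Fact q.Prime := ⟨hq⟩
      obtain ⟨Q, hQ⟩ := Coprime.exists_invariant_sylow (A := M) (K := K) (by rw [normalizer_eq_top]; exact le_top) hKc (Or.inl hMs) q
      obtain ⟨R, hR⟩ : ∃ R, R = (Q : Subgroup K).map K.subtype := ⟨_, rfl⟩
      rw [← hR] at hQ
      have hRK : R ≤ K := hR ▸ map_subtype_le _
      have hRp : IsPGroup q R := hR ▸ Q.isPGroup'.map _
      have hRM : ¬ R ≤ M := by
        intro h
        have h1 : R ≤ M ⊓ K := le_inf h hRK
        rw [disjoint_iff.mp (disjoint_of_coprime_natCard hKc), le_bot_iff, hR, Subgroup.map_eq_bot_iff_of_injective _ K.subtype_injective] at h1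
        have h2 := Q.card_eq_multiplicity
        rw [h1, card_bot] at h2
        have h3 : q ∣ q ^ (Nat.card K).factorization q := dvd_pow_self q (hq.factorization_pos_of_dvd Nat.card_pos.ne' hqd).ne'
        rw [← h2] at h3
        exact hq.one_lt.ne' (Nat.dvd_one.mp h3)
      have hRt : R ⊔ M = ⊤ := by
        apply hmax.2
        exact lt_of_le_of_ne le_sup_right (fun h => hRM (by rw [h]; exact le_sup_left))
      have hRn : R.Normal := by
        rw [← normalizer_eq_top_iff, eq_top_iff, ← hRt]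
        exact sup_le le_normalizer hQ
      have hs1 : Group.IsSolvable R := by
        haveI := hRp.isNilpotent
        infer_instance
      have hs2 : Group.IsSolvable (G ⧸ R) := by
        have hsurj : Function.Surjective ((QuotientGroup.mk' R).comp M.subtype) := by
          intro x
          obtain ⟨g, rfl⟩ := QuotientGroup.mk'_surjective R x
          have h1 : g ∈ R ⊔ M := by rw [hRt]; exact mem_top g
          haveI := hRn
          obtain ⟨r, hr, m, hm, rfl⟩ := mem_sup_of_normal_left.mp h1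
          refine ⟨⟨m, hm⟩, ?_⟩
          change QuotientGroup.mk' R m = QuotientGroup.mk' R (r * m)
          have h2 : QuotientGroup.mk' R r = 1 := (QuotientGroup.eq_one_iff r).mpr hr
          rw [map_mul, h2, one_mul]
        exact Group.isSolvable_of_surjective hsurj
      exact Group.isSolvable_of_ker_le_range R.subtype (QuotientGroup.mk' R) (by rw [QuotientGroup.ker_mk', range_subtype])
    · push Not at hcf
      obtain ⟨N, hNn, hNM, hN1⟩ := hcf
      haveI := hNn
      have h1 : Nat.card (G ⧸ N) ≤ n := by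
        have h2 := card_eq_card_quotient_mul_card_subgroup N
        have h3 : 1 < Nat.card N := by
          by_contra h; push Not at h
          exact hN1 (card_eq_one.mp (le_antisymm h Nat.card_pos))
        have h4 : 0 < Nat.card (G ⧸ N) := Nat.card_pos
        have h5 : Nat.card (G ⧸ N) < Nat.card G := by rw [h2]; nlinarith
        omega
      have hs2 := ih (G ⧸ N) h1 (M.map (QuotientGroup.mk' N)) (NilpB.isCoatom_map_mk hmax hNM) (isNilpotent_map _ hM) (C2_map _ hC)
      have hs1 : Group.IsSolvable N := SchurZas.isSolvable_of_le hNM hMs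
      exact Group.isSolvable_of_ker_le_range N.subtype (QuotientGroup.mk' N) (by rw [QuotientGroup.ker_mk', range_subtype])

end Cfsg.Agent.H2.MaxNil
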