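import Mathlib
import Cfsg.Agent.H2.MetacB
set_option autoImplicit false

open scoped commutatorElement
open Cfsg.Agent.H2.MetacNT Cfsg.Agent.H2.Metac Cfsg.Agent.H2.MetacB

namespace Cfsg.Agent.H2.MetacC

set_option linter.unusedSectionVars false
variable {G : Type*} [Group G] {p : ℕ} [hp : Fact p.Prime] (D : MCData p G)
include D

theorem cc_le_m : cc D ≤ D.m := Nat.sub_le _ _

theorem cc_le_n (hp2 : p ≠ 2) : cc D ≤ D.n := by
  have h1 : D.b ^ (p ^ D.n) ∈ Subgroup.zpowers D.a := (D.hb _).mpr dvd_rfl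
  have h2 : D.b ^ (p ^ D.n) * D.a ^ 1 = D.a ^ 1 * D.b ^ (p ^ D.n) := by
    obtain ⟨k, hk⟩ := h1
    have hk' : D.a ^ k = D.b ^ (p ^ D.n) := hk
    rw [← hk', pow_one]
    exact ((Commute.refl D.a).zpow_left k).eq
  rw [commute_iff D hp2, one_mul] at h2
  exact (Nat.pow_dvd_pow_iff_le_right hp.out.one_lt).mp h2

theorem a_mem_center (hp2 : p ≠ 2) (j : ℕ) : D.a ^ j ∈ Subgroup.center G ↔ p ^ cc D ∣ j := by
  have h0 := commute_iff D hp2 j 1
  rw [pow_one, mul_one] at h0
  rw [← h0, Subgroup.mem_center_iff]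
  constructor
  · intro h; exact h D.b
  · intro h g
    obtain ⟨i, k, rfl⟩ := D.hgen g
    have c1 : Commute (D.b ^ k) (D.a ^ j) := (show Commute D.b (D.a ^ j) from h).pow_left k
    have c2 : Commute (D.a ^ i) (D.a ^ j) := Commute.pow_pow_self _ _ _
    exact (c2.mul_left c1).eq

theorem b_mem_center (hp2 : p ≠ 2) (j : ℕ) : D.b ^ j ∈ Subgroup.center G ↔ p ^ cc D ∣ j := by
  have h0 := commute_iff D hp2 1 j
  rw [pow_one, one_mul] at h0
  rw [← h0, Subgroup.mem_center_iff]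
  constructor
  · intro h; exact (h D.a).symm
  · intro h g
    obtain ⟨i, k, rfl⟩ := D.hgen g
    have c1 : Commute (D.b ^ k) (D.b ^ j) := Commute.pow_pow_self _ _ _
    have c2 : Commute (D.a ^ i) (D.b ^ j) :=
      ((show Commute (D.b ^ j) D.a from h).symm).pow_left i
    exact (c2.mul_left c1).eq

theorem b_mem_center_sup [Finite G] (hp2 : p ≠ 2) (j : ℕ) :
    D.b ^ j ∈ Subgroup.center G ⊔ Subgroup.zpowers D.a ↔ p ^ cc D ∣ j := by
  have hN := D.hnorm
  constructor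
  · intro h
    obtain ⟨x, hx, y, hy, hxy⟩ := Subgroup.mem_sup_of_normal_right.mp h
    have h0 := commute_iff D hp2 1 j
    rw [pow_one, one_mul] at h0
    rw [← h0, ← hxy]
    obtain ⟨k, hk⟩ := hy
    have hk' : D.a ^ k = y := hk
    rw [← hk']
    have c1 : Commute x D.a := (Subgroup.mem_center_iff.mp hx D.a).symm
    have c2 : Commute (D.a ^ k) D.a := (Commute.refl D.a).zpow_left k
    exact (c1.mul_left c2).eq
  · intro h
    exact Subgroup.mem_sup_left ((b_mem_center D hp2 j).mpr h)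

theorem card_center [Finite G] (hp2 : p ≠ 2) :
    Nat.card (Subgroup.center G) = p ^ (D.m - cc D) * p ^ (D.n - cc D) :=
  card_of_exps D _ _ _ (a_mem_center D hp2) (b_mem_center_sup D hp2) (cc_le_m D) (cc_le_n D hp2)

theorem card_center_mul [Finite G] (hp2 : p ≠ 2) :
    Nat.card (Subgroup.center G) * (p ^ cc D) ^ 2 = Nat.card G := by
  rw [card_center D hp2, card_eq D, ← pow_mul, ← pow_add, ← pow_add, ← pow_add]
  congr 1
  have h1 := cc_le_m D
  have h2 := cc_le_n D hp2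
  omega

theorem index_center [Finite G] (hp2 : p ≠ 2) : (Subgroup.center G).index = (p ^ cc D) ^ 2 := by
  have h1 := (Subgroup.center G).card_mul_index
  rw [← card_center_mul D hp2] at h1
  exact Nat.eq_of_mul_eq_mul_left Nat.card_pos h1

theorem index_commutator [Finite G] :
    (commutator G).index = p ^ (D.m + D.n - cc D) := by
  have h1 := (commutator G).card_mul_index
  rw [card_commutator D, card_eq D, ← pow_add] at h1
  have h2 : p ^ (D.m + D.n) = p ^ cc D * p ^ (D.m + D.n - cc D) := by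
    rw [← pow_add]; congr 1
    have := cc_le_m D
    omega
  rw [h2] at h1
  exact Nat.eq_of_mul_eq_mul_left (pow_pos hp.out.pos _) h1

theorem abelian_iff_card [Finite G] (hp2 : p ≠ 2) (L : Subgroup G) :
    IsMulCommutative L ↔ Nat.card L ≤ (commutator G).index := by
  obtain ⟨α, β, hα', hβ', hα, hβ⟩ := exists_exps D L
  rw [abelian_iff D hp2 L α β hα hβ, card_of_exps D L α β hα hβ hα' hβ', index_commutator D,
    ← pow_add, Nat.pow_le_pow_iff_right hp.out.one_lt]
  have := cc_le_m D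
  omega

theorem maximal_abelian_iff_card [Finite G] (hp2 : p ≠ 2) (L : Subgroup G) :
    Maximal (fun K : Subgroup G => IsMulCommutative ↥K) L ↔
      Nat.card L = (commutator G).index := by
  constructor
  · intro h
    have h1 := (abelian_iff_card D hp2 L).mp h.prop
    by_contra hne
    have hlt : Nat.card L < (commutator G).index := lt_of_le_of_ne h1 hne
    -- enlarge `L`
    obtain ⟨α, β, hα', hβ', hα, hβ⟩ := exists_exps D L
    have hcard := card_of_exps D L α β hα hβ hα' hβ'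
    rw [hcard, index_commutator D, ← pow_add, Nat.pow_lt_pow_iff_right hp.out.one_lt] at hlt
    have hdvd : p ^ (D.m - α + (D.n - β) + 1) ∣ Nat.card G := by
      rw [card_eq D, ← pow_add]
      apply pow_dvd_pow
      omega
    obtain ⟨K, hK1, hK2⟩ := Sylow.exists_subgroup_card_pow_succ (p := p)
      (n := D.m - α + (D.n - β)) hdvd (by rw [hcard, ← pow_add])
    have hKab : IsMulCommutative K := by
      rw [abelian_iff_card D hp2, hK1, index_commutator D]
      exact Nat.pow_le_pow_right hp.out.pos (by omega)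
    have h2 := h.le_of_ge hKab hK2
    have h3 : K = L := le_antisymm h2 hK2
    rw [h3, hcard, ← pow_add] at hK1
    have := Nat.pow_right_injective hp.out.two_le hK1
    omega
  · intro h
    refine ⟨(abelian_iff_card D hp2 L).mpr h.le, ?_⟩
    intro K hK hle
    have h1 := (abelian_iff_card D hp2 K).mp hK
    rw [← h] at h1
    exact (Subgroup.eq_of_le_of_card_ge hle h1).ge

theorem zpowers_a_pow_normal (e : ℕ) : (Subgroup.zpowers (D.a ^ e)).Normal := by
  constructor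
  rintro _ ⟨k, rfl⟩ g
  obtain ⟨i, j, rfl⟩ := D.hgen g
  have h1 : D.a ^ i * D.b ^ j * D.a ^ e * (D.a ^ i * D.b ^ j)⁻¹ = (D.a ^ e) ^ (RR D ^ j) := by
    have h2 : D.a ^ i * D.b ^ j * D.a ^ e * (D.a ^ i * D.b ^ j)⁻¹ =
        D.a ^ i * (D.b ^ j * D.a ^ e * (D.b ^ j)⁻¹) * (D.a ^ i)⁻¹ := by group
    rw [h2, conj_pow_a, pow_mul]
    have c : Commute (D.a ^ i) ((D.a ^ e) ^ RR D ^ j) := by
      rw [← pow_mul]; exact Commute.pow_pow_self _ _ _
    rw [c.eq, mul_inv_cancel_right]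
  change D.a ^ i * D.b ^ j * (D.a ^ e) ^ k * (D.a ^ i * D.b ^ j)⁻¹ ∈ _
  rw [← conj_zpow, h1]
  exact zpow_mem (pow_mem (Subgroup.mem_zpowers _) _) _

theorem commutator_mem_T [Finite G] (hp2 : p ≠ 2) (s i j : ℕ) (hi : p ^ s ∣ i) (hj : p ^ s ∣ j) (x : G) :
    ⁅x, D.a ^ i * D.b ^ j⁆ ∈ Subgroup.zpowers (D.a ^ (p ^ (D.d + s))) := by
  have hn := zpowers_a_pow_normal D (p ^ (D.d + s))
  let T := Subgroup.zpowers (D.a ^ (p ^ (D.d + s)))
  let q := QuotientGroup.mk' T
  let K : Subgroup G := (Subgroup.centralizer {q (D.a ^ i * D.b ^ j)}).comap q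
  have hK : ∀ x, x ∈ K ↔ ⁅x, D.a ^ i * D.b ^ j⁆ ∈ T := by
    intro x
    change q x ∈ Subgroup.centralizer {q (D.a ^ i * D.b ^ j)} ↔ _
    rw [Subgroup.mem_centralizer_singleton_iff, ← QuotientGroup.eq_one_iff]
    change _ ↔ q ⁅x, D.a ^ i * D.b ^ j⁆ = 1
    rw [map_commutatorElement, commutatorElement_eq_one_iff_mul_comm]
  have haT : ∀ e : ℕ, p ^ (D.d + s) ∣ e → D.a ^ e ∈ T := by
    rintro e ⟨f, rfl⟩
    rw [pow_mul]
    exact pow_mem (Subgroup.mem_zpowers _) _
  have hbK : D.b ∈ K := by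
    rw [hK]
    have h1 : ⁅D.b, D.a ^ i * D.b ^ j⁆ = ⁅D.b ^ 1, D.a ^ i⁆ := by
      simp only [commutatorElement_def]; group
    rw [h1, comm_b_a]
    apply haT
    rw [dvd_mul_pow_sub_one_iff hp2 D.hd D.hu, mul_one, pow_add, mul_comm i]
    exact Nat.mul_dvd_mul_left _ hi
  have haK : D.a ∈ K := by
    rw [hK]
    have h1 : ⁅D.a, D.a ^ i * D.b ^ j⁆ = D.a ^ i * ⁅D.b ^ j, D.a ^ 1⁆⁻¹ * (D.a ^ i)⁻¹ := by
      simp only [commutatorElement_def]; group
    rw [h1]
    apply hn.conj_mem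
    apply inv_mem
    rw [comm_b_a]
    apply haT
    rw [dvd_mul_pow_sub_one_iff hp2 D.hd D.hu, one_mul, pow_add]
    exact Nat.mul_dvd_mul_left _ hj
  rw [← hK]
  obtain ⟨i', j', rfl⟩ := D.hgen x
  exact mul_mem (pow_mem haK _) (pow_mem hbK _)

theorem index_centralizer_le_iff [Finite G] (hp2 : p ≠ 2) (hG : IsPGroup p G) (s : ℕ)
    (hs : s ≤ cc D) (i j : ℕ) :
    (Subgroup.centralizer {D.a ^ i * D.b ^ j}).index ≤ p ^ (cc D - s) ↔
      p ^ s ∣ i ∧ p ^ s ∣ j := by
  have hcs : p ^ cc D = p ^ (cc D - s) * p ^ s := by rw [← pow_add, Nat.sub_add_cancel hs]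
  constructor
  · intro h
    have ha := pow_mem_of_index_le hG _ _ h D.a
    have hb := pow_mem_of_index_le hG _ _ h D.b
    rw [Subgroup.mem_centralizer_singleton_iff] at ha hb
    constructor
    · have h1 : D.b ^ (p ^ (cc D - s)) * D.a ^ i = D.a ^ i * D.b ^ (p ^ (cc D - s)) := by
        have h2 : D.b ^ (p ^ (cc D - s)) * (D.a ^ i * D.b ^ j) * (D.b ^ j)⁻¹ =
          (D.a ^ i * D.b ^ j) * D.b ^ (p ^ (cc D - s)) * (D.b ^ j)⁻¹ := by rw [hb]
        rw [← mul_assoc, mul_inv_cancel_right] at h2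
        rw [h2, mul_assoc (D.a ^ i), (Commute.pow_pow_self D.b j (p ^ (cc D - s))).eq, ← mul_assoc,
          mul_inv_cancel_right]
      rw [commute_iff D hp2, hcs, mul_comm i] at h1
      exact Nat.dvd_of_mul_dvd_mul_left (pow_pos hp.out.pos _) h1
    · have h1 : D.b ^ j * D.a ^ (p ^ (cc D - s)) = D.a ^ (p ^ (cc D - s)) * D.b ^ j := by
        have h2 : (D.a ^ i)⁻¹ * (D.a ^ (p ^ (cc D - s)) * (D.a ^ i * D.b ^ j)) =
          (D.a ^ i)⁻¹ * ((D.a ^ i * D.b ^ j) * D.a ^ (p ^ (cc D - s))) := by rw [ha]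
        rw [← mul_assoc (D.a ^ (p ^ (cc D - s))), (Commute.pow_pow_self D.a (p ^ (cc D - s)) i).eq,
          mul_assoc, inv_mul_cancel_left, mul_assoc, inv_mul_cancel_left] at h2
        exact h2.symm
      rw [commute_iff D hp2, hcs] at h1
      exact Nat.dvd_of_mul_dvd_mul_left (pow_pos hp.out.pos _) h1
  · rintro ⟨hi, hj⟩
    let T := Subgroup.zpowers (D.a ^ (p ^ (D.d + s)))
    have hcT : Nat.card T ≤ p ^ (cc D - s) := by
      rw [Nat.card_zpowers]
      rcases le_total (D.d + s) D.m with h | h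
      · rw [orderOf_a_pow D _ h]
        apply Nat.pow_le_pow_right hp.out.pos
        unfold cc; omega
      · have h1 : D.a ^ (p ^ (D.d + s)) = 1 := (a_pow_eq_one_iff D _).mpr (pow_dvd_pow p h)
        rw [h1, orderOf_one]
        exact Nat.one_le_pow _ _ hp.out.pos
    refine le_trans ?_ hcT
    let C := Subgroup.centralizer {D.a ^ i * D.b ^ j}
    refine Nat.card_le_card_of_injective
      (fun q : G ⧸ C => (⟨⁅q.out, D.a ^ i * D.b ^ j⁆, commutator_mem_T D hp2 s i j hi hj _⟩ : T)) ?_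
    intro q r hqr
    have h1 : ⁅q.out, D.a ^ i * D.b ^ j⁆ = ⁅r.out, D.a ^ i * D.b ^ j⁆ := congrArg Subtype.val hqr
    rw [← QuotientGroup.out_eq' q, ← QuotientGroup.out_eq' r, QuotientGroup.eq]
    rw [commutatorElement_def, commutatorElement_def, mul_left_inj] at h1
    rw [Subgroup.mem_centralizer_singleton_iff]
    have h2 : (q.out)⁻¹ * (q.out * (D.a ^ i * D.b ^ j) * (q.out)⁻¹) * r.out =
      (q.out)⁻¹ * (r.out * (D.a ^ i * D.b ^ j) * (r.out)⁻¹) * r.out := by rw [h1]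
    have h3 : (q.out)⁻¹ * (q.out * (D.a ^ i * D.b ^ j) * (q.out)⁻¹) * r.out =
      (D.a ^ i * D.b ^ j) * ((q.out)⁻¹ * r.out) := by group
    have h4 : (q.out)⁻¹ * (r.out * (D.a ^ i * D.b ^ j) * (r.out)⁻¹) * r.out =
      (q.out)⁻¹ * r.out * (D.a ^ i * D.b ^ j) := by group
    rw [h3, h4] at h2
    exact h2.symm

end Cfsg.Agent.H2.MetacC
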