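import Mathlib
import Cfsg.Agent.H2.MetacC
import Cfsg.Prelude.Def_BaumannBlocks
set_option autoImplicit false

open scoped commutatorElement
open Cfsg.Agent.H2.MetacNT Cfsg.Agent.H2.Metac Cfsg.Agent.H2.MetacB Cfsg.Agent.H2.MetacC

namespace Cfsg.Agent.H2.MetacD

set_option linter.unusedSectionVars false
variable {G : Type*} [Group G] {p : ℕ} [hp : Fact p.Prime] (D : MCData p G)
include D

theorem centralizer_inv_index (g : G) :
    (Subgroup.centralizer {g⁻¹}).index = (Subgroup.centralizer {g}).index := by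
  congr 1
  ext x
  rw [Subgroup.mem_centralizer_singleton_iff, Subgroup.mem_centralizer_singleton_iff]
  constructor
  · intro h
    have : Commute x g⁻¹ := h
    exact (Commute.inv_right_iff.mp this).eq
  · intro h
    have : Commute x g := h
    exact (Commute.inv_right this).eq

/-- the subgroup `⟨a^(p^s), b^(p^s)⟩` for `s ≤ c` -/
def Gs [Finite G] (hp2 : p ≠ 2) (hG : IsPGroup p G) (s : ℕ) (hs : s ≤ cc D) : Subgroup G where
  carrier := {g | ∃ i j : ℕ, p ^ s ∣ i ∧ p ^ s ∣ j ∧ g = D.a ^ i * D.b ^ j}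
  one_mem' := ⟨0, 0, dvd_zero _, dvd_zero _, by simp⟩
  mul_mem' := by
    rintro _ _ ⟨i, j, hi, hj, rfl⟩ ⟨i', j', hi', hj', rfl⟩
    refine ⟨i + i' * RR D ^ j, j + j', dvd_add hi (Dvd.dvd.mul_right hi' _), dvd_add hj hj', ?_⟩
    have h1 : D.a ^ i * D.b ^ j * (D.a ^ i' * D.b ^ j') =
        D.a ^ i * (D.b ^ j * D.a ^ i' * (D.b ^ j)⁻¹) * (D.b ^ j * D.b ^ j') := by group
    rw [h1, conj_pow_a, ← pow_add, ← pow_add]
  inv_mem' := by
    rintro _ ⟨i, j, hi, hj, rfl⟩
    obtain ⟨i', j', h'⟩ := D.hgen (D.a ^ i * D.b ^ j)⁻¹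
    have h1 := (index_centralizer_le_iff D hp2 hG s hs i j).mpr ⟨hi, hj⟩
    rw [← centralizer_inv_index D, h', index_centralizer_le_iff D hp2 hG s hs] at h1
    exact ⟨i', j', h1.1, h1.2, h'⟩

theorem mem_Gs [Finite G] (hp2 : p ≠ 2) (hG : IsPGroup p G) (s : ℕ) (hs : s ≤ cc D) (g : G) :
    g ∈ Gs D hp2 hG s hs ↔ (Subgroup.centralizer {g}).index ≤ p ^ (cc D - s) := by
  constructor
  · rintro ⟨i, j, hi, hj, rfl⟩
    exact (index_centralizer_le_iff D hp2 hG s hs i j).mpr ⟨hi, hj⟩
  · intro h
    obtain ⟨i, j, rfl⟩ := D.hgen g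
    obtain ⟨h1, h2⟩ := (index_centralizer_le_iff D hp2 hG s hs i j).mp h
    exact ⟨i, j, h1, h2, rfl⟩

theorem card_Gs [Finite G] (hp2 : p ≠ 2) (hG : IsPGroup p G) (s : ℕ) (hs : s ≤ cc D) :
    Nat.card (Gs D hp2 hG s hs) = p ^ (D.m - s) * p ^ (D.n - s) := by
  have hN := D.hnorm
  have hsm : s ≤ D.m := hs.trans (cc_le_m D)
  have hsn : s ≤ D.n := hs.trans (cc_le_n D hp2)
  refine card_of_exps D _ s s ?_ ?_ hsm hsn
  · intro j
    rw [mem_Gs]
    have := index_centralizer_le_iff D hp2 hG s hs j 0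
    rw [pow_zero, mul_one] at this
    rw [this]
    simp
  · intro j
    constructor
    · intro h
      obtain ⟨x, ⟨i', j', hi', hj', rfl⟩, y, hy, hxy⟩ := Subgroup.mem_sup_of_normal_right.mp h
      -- mod A: b^j = b^j'
      have h1 : (D.b ^ j')⁻¹ * D.b ^ j ∈ Subgroup.zpowers D.a := by
        rw [← QuotientGroup.eq, ← hxy]
        rw [QuotientGroup.mk_mul, QuotientGroup.mk_mul, (QuotientGroup.eq_one_iff y).mpr hy,
          (QuotientGroup.eq_one_iff (D.a ^ i')).mpr (pow_mem (Subgroup.mem_zpowers _) _),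
          one_mul, mul_one]
      rcases le_total j' j with hle | hle
      · have h2 : (D.b ^ j')⁻¹ * D.b ^ j = D.b ^ (j - j') := by
          rw [inv_mul_eq_iff_eq_mul, ← pow_add, Nat.add_sub_cancel' hle]
        rw [h2, D.hb] at h1
        have h3 : p ^ s ∣ j - j' := (pow_dvd_pow p hsn).trans h1
        exact (Nat.dvd_sub_iff_left hle hj').mp h3
      · have h2 : ((D.b ^ j')⁻¹ * D.b ^ j)⁻¹ = D.b ^ (j' - j) := by
          rw [mul_inv_rev, inv_inv, inv_mul_eq_iff_eq_mul, ← pow_add, Nat.add_sub_cancel' hle]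
        have h1' := inv_mem h1
        rw [h2, D.hb] at h1'
        have h3 : p ^ s ∣ j' - j := (pow_dvd_pow p hsn).trans h1'
        exact (Nat.dvd_sub_iff_right hle hj').mp h3
    · intro h
      exact Subgroup.mem_sup_left ⟨0, j, dvd_zero _, h, by simp⟩

/-- power formula -/
theorem pow_form (i j k : ℕ) : (D.a ^ i * D.b ^ j) ^ k =
    D.a ^ (i * ∑ l ∈ Finset.range k, (RR D ^ j) ^ l) * D.b ^ (j * k) := by
  induction k with
  | zero => simp
  | succ k ih =>
    rw [pow_succ, ih]
    have h1 : D.a ^ (i * ∑ l ∈ Finset.range k, (RR D ^ j) ^ l) * D.b ^ (j * k) *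
        (D.a ^ i * D.b ^ j) = D.a ^ (i * ∑ l ∈ Finset.range k, (RR D ^ j) ^ l) *
        (D.b ^ (j * k) * D.a ^ i * (D.b ^ (j * k))⁻¹) * (D.b ^ (j * k) * D.b ^ j) := by group
    rw [h1, conj_pow_a, ← pow_add, ← pow_add, Finset.sum_range_succ, mul_add, ← pow_mul]
    rfl

theorem closure_pows [Finite G] (hp2 : p ≠ 2) (hG : IsPGroup p G) (s : ℕ) (hs : s ≤ cc D) :
    Subgroup.closure {x : G | ∃ y : G, y ^ p ^ s = x} = Gs D hp2 hG s hs := by
  apply le_antisymm
  · rw [Subgroup.closure_le]
    rintro _ ⟨y, rfl⟩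
    obtain ⟨i, j, rfl⟩ := D.hgen y
    rw [pow_form]
    refine ⟨_, _, ?_, Dvd.intro_left _ rfl, rfl⟩
    unfold RR
    rw [dvd_mul_geom_iff hp2 D.hd D.hu]
    exact Dvd.intro_left _ rfl
  · rintro _ ⟨_, _, ⟨i, rfl⟩, ⟨j, rfl⟩, rfl⟩
    refine mul_mem (Subgroup.subset_closure ⟨D.a ^ i, ?_⟩) (Subgroup.subset_closure ⟨D.b ^ j, ?_⟩)
    · rw [← pow_mul, mul_comm]
    · rw [← pow_mul, mul_comm]

theorem Gs_cc [Finite G] (hp2 : p ≠ 2) (hG : IsPGroup p G) :
    Gs D hp2 hG (cc D) le_rfl = Subgroup.center G := by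
  ext g
  rw [mem_Gs, Nat.sub_self, pow_zero]
  constructor
  · intro h
    have h1 : (Subgroup.centralizer {g}).index = 1 := by
      have : (Subgroup.centralizer {g}).index ≠ 0 := Subgroup.FiniteIndex.index_ne_zero
      omega
    rw [Subgroup.index_eq_one] at h1
    rw [Subgroup.mem_center_iff]
    intro x
    have : x ∈ Subgroup.centralizer {g} := by rw [h1]; trivial
    exact Subgroup.mem_centralizer_singleton_iff.mp this
  · intro h
    have : Subgroup.centralizer {g} = ⊤ := by
      rw [eq_top_iff]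
      intro x _
      rw [Subgroup.mem_centralizer_singleton_iff]
      exact Subgroup.mem_center_iff.mp h x
    rw [this, Subgroup.index_top]

theorem index_centralizer_pow [Finite G] (hG : IsPGroup p G) (g : G) :
    ∃ k, (Subgroup.centralizer {g}).index = p ^ k :=
  hG.index _

theorem count_class [Finite G] (hp2 : p ≠ 2) (hG : IsPGroup p G) (i : ℕ) (hi : 1 ≤ i)
    (hic : i ≤ cc D) :
    Nat.card {g : G // (Subgroup.centralizer ({g} : Set G)).index = p ^ i} =
      Nat.card ↥(Subgroup.center G) * (p ^ (2 * i) - p ^ (2 * i - 2)) := by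
  classical
  let A := Gs D hp2 hG (cc D - i) (Nat.sub_le _ _)
  let B := Gs D hp2 hG (cc D - (i - 1)) (Nat.sub_le _ _)
  have hA : ∀ g, g ∈ A ↔ (Subgroup.centralizer {g}).index ≤ p ^ i := by
    intro g
    rw [mem_Gs, Nat.sub_sub_self hic]
  have hB : ∀ g, g ∈ B ↔ (Subgroup.centralizer {g}).index ≤ p ^ (i - 1) := by
    intro g
    rw [mem_Gs, Nat.sub_sub_self (by omega)]
  have hset : {g : G | (Subgroup.centralizer ({g} : Set G)).index = p ^ i} =
      (A : Set G) \ (B : Set G) := by
    ext g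
    obtain ⟨k, hk⟩ := index_centralizer_pow D hG g
    rw [Set.mem_sdiff, SetLike.mem_coe, SetLike.mem_coe, hA, hB, Set.mem_ofPred_eq, hk]
    rw [Nat.pow_le_pow_iff_right hp.out.one_lt, Nat.pow_le_pow_iff_right hp.out.one_lt,
      (Nat.pow_right_injective hp.out.two_le).eq_iff]
    omega
  have hBA : (B : Set G) ⊆ A := by
    intro g hg
    rw [SetLike.mem_coe, hB] at hg
    rw [SetLike.mem_coe, hA]
    exact hg.trans (Nat.pow_le_pow_right hp.out.pos (by omega))
  have h1 : Nat.card {g : G // (Subgroup.centralizer ({g} : Set G)).index = p ^ i} =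
      Set.ncard {g : G | (Subgroup.centralizer ({g} : Set G)).index = p ^ i} := rfl
  rw [h1, hset, Set.ncard_sdiff hBA (Set.toFinite _)]
  have hAc : Set.ncard (A : Set G) = Nat.card A := rfl
  have hBc : Set.ncard (B : Set G) = Nat.card B := rfl
  have e1 := cc_le_m D
  have e2 := cc_le_n D hp2
  have q1 : D.m - (cc D - i) + (D.n - (cc D - i)) = D.m - cc D + (D.n - cc D) + 2 * i := by omega
  have q2 : D.m - (cc D - (i - 1)) + (D.n - (cc D - (i - 1))) =
      D.m - cc D + (D.n - cc D) + (2 * i - 2) := by omega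
  rw [hAc, hBc, card_Gs, card_Gs, card_center D hp2, ← pow_add, ← pow_add, ← pow_add,
    Nat.mul_sub, ← pow_add, ← pow_add, q1, q2]

theorem frattini_eq [Finite G] (hp2 : p ≠ 2) (hG : IsPGroup p G) (hc : 1 ≤ cc D) :
    frattini G = Gs D hp2 hG 1 hc := by
  have hna : ¬ IsMulCommutative G := by
    intro h
    have h1 : (Subgroup.center G).index = 1 := by
      rw [Subgroup.index_eq_one, eq_top_iff]
      intro x _
      rw [Subgroup.mem_center_iff]
      intro y
      exact h.is_comm.comm y x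
    rw [index_center D hp2, ← pow_mul] at h1
    have h2 := Nat.eq_zero_or_pos (cc D * 2)
    rcases (Nat.pow_eq_one.mp h1) with h3 | h3
    · exact hp.out.one_lt.ne' h3
    · omega
  have hcyc : ∀ x : G, Subgroup.zpowers x ≠ ⊤ := by
    intro x hx
    apply hna
    refine ⟨⟨fun y z => ?_⟩⟩
    have hy : y ∈ Subgroup.zpowers x := by rw [hx]; trivial
    have hz : z ∈ Subgroup.zpowers x := by rw [hx]; trivial
    obtain ⟨k, rfl⟩ := hy
    obtain ⟨l, rfl⟩ := hz
    exact (Commute.zpow_zpow_self x k l).eq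
  apply le_antisymm
  · intro g hg
    obtain ⟨i, j, rfl⟩ := D.hgen g
    have hcoprime : ∀ (x : G) (k : ℕ), ¬ p ∣ k → x ∈ Subgroup.zpowers (x ^ k) := by
      intro x k hk
      obtain ⟨e, he⟩ := (IsPGroup.iff_orderOf.mp hG) x
      have hco : Nat.Coprime k (orderOf x) := by
        rw [he]
        exact (Nat.Coprime.pow_right _ ((hp.out.coprime_iff_not_dvd.mpr hk).symm))
      obtain ⟨t, ht⟩ := exists_pow_eq_self_of_coprime hco
      have := pow_mem (Subgroup.mem_zpowers (x ^ k)) t
      rwa [ht] at this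
    have hi : p ∣ i := by
      by_contra hne
      apply hcyc D.b
      apply frattini_nongenerating
      rw [eq_top_iff, ← closure_ab D, Subgroup.closure_le]
      have hb : D.b ∈ Subgroup.zpowers D.b ⊔ frattini G :=
        Subgroup.mem_sup_left (Subgroup.mem_zpowers _)
      have ha : D.a ∈ Subgroup.zpowers D.b ⊔ frattini G := by
        have h1 : D.a ^ i ∈ Subgroup.zpowers D.b ⊔ frattini G := by
          have := mul_mem (Subgroup.mem_sup_right (S := Subgroup.zpowers D.b) hg)
            (inv_mem (pow_mem hb j))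
          rwa [mul_inv_cancel_right] at this
        obtain ⟨k, hk⟩ := hcoprime D.a i hne
        have hk' : (D.a ^ i) ^ k = D.a := hk
        have := zpow_mem h1 k
        rwa [hk'] at this
      rintro x (rfl | rfl)
      · exact ha
      · exact hb
    have hj : p ∣ j := by
      by_contra hne
      apply hcyc D.a
      apply frattini_nongenerating
      rw [eq_top_iff, ← closure_ab D, Subgroup.closure_le]
      have ha : D.a ∈ Subgroup.zpowers D.a ⊔ frattini G :=
        Subgroup.mem_sup_left (Subgroup.mem_zpowers _)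
      have hb : D.b ∈ Subgroup.zpowers D.a ⊔ frattini G := by
        have h1 : D.b ^ j ∈ Subgroup.zpowers D.a ⊔ frattini G := by
          have := mul_mem (inv_mem (pow_mem ha i))
            (Subgroup.mem_sup_right (S := Subgroup.zpowers D.a) hg)
          rwa [inv_mul_cancel_left] at this
        obtain ⟨k, hk⟩ := hcoprime D.b j hne
        have hk' : (D.b ^ j) ^ k = D.b := hk
        have := zpow_mem h1 k
        rwa [hk'] at this
      rintro x (rfl | rfl)
      · exact ha
      · exact hb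
    exact ⟨i, j, by rwa [pow_one], by rwa [pow_one], rfl⟩
  · rw [← closure_pows, Subgroup.closure_le]
    rintro _ ⟨y, rfl⟩
    rw [SetLike.mem_coe, pow_one]
    have : ∀ M : Subgroup G, IsCoatom M → y ^ p ∈ M := by
      intro M hM
      have hidx : M.index ≤ p := by
        obtain ⟨k, hk⟩ := (IsPGroup.iff_card.mp (hG.to_subgroup M))
        obtain ⟨N, hN⟩ := (IsPGroup.iff_card.mp hG)
        have hkN : k < N := by
          have h1 : Nat.card M < Nat.card G := by
            by_contra hge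
            exact hM.1 (Subgroup.eq_top_of_le_card M (not_lt.mp hge))
          rw [hk, hN] at h1
          exact (Nat.pow_lt_pow_iff_right hp.out.one_lt).mp h1
        obtain ⟨K, hK1, hK2⟩ := Sylow.exists_subgroup_card_pow_succ (p := p) (n := k)
          (by rw [hN]; exact pow_dvd_pow p hkN) hk
        have hlt : M < K := by
          refine lt_of_le_of_ne hK2 ?_
          rintro rfl
          rw [hk] at hK1
          have := Nat.pow_right_injective hp.out.two_le hK1
          omega
        have hKtop := hM.2 K hlt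
        rw [hKtop, Subgroup.card_top] at hK1
        have h2 := M.card_mul_index
        rw [hk, hK1, pow_succ] at h2
        exact (Nat.eq_of_mul_eq_mul_left (pow_pos hp.out.pos _) h2).le
      have := pow_mem_of_index_le hG M 1 (by rwa [pow_one]) y
      rwa [pow_one] at this
    unfold frattini Order.radical
    rw [Subgroup.mem_iInf]
    intro M
    rw [Subgroup.mem_iInf]
    intro hM
    exact this M hM

end Cfsg.Agent.H2.MetacD
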