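import Mathlib
import Cfsg.Agent.H2.MetacD
import Cfsg.Prelude.Def_BaumannBlocks
set_option autoImplicit false

open scoped commutatorElement
open Cfsg.Agent.H2.MetacNT Cfsg.Agent.H2.Metac Cfsg.Agent.H2.MetacB Cfsg.Agent.H2.MetacC
open Cfsg.Agent.H2.MetacD

namespace Cfsg.Agent.H2.MetacE

theorem card_center_subgroup {G : Type*} [Group G] (R : Subgroup G) :
    Nat.card (Subgroup.center ↥R) = Nat.card ↥(R ⊓ Subgroup.centralizer (R : Set G)) := by
  have h1 : (Subgroup.center ↥R).map R.subtype = R ⊓ Subgroup.centralizer (R : Set G) := by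
    ext x
    constructor
    · rintro ⟨y, hy, rfl⟩
      refine Subgroup.mem_inf.mpr ⟨y.2, ?_⟩
      rw [Subgroup.mem_centralizer_iff]
      intro h hh
      exact congrArg Subtype.val (Subgroup.mem_center_iff.mp hy ⟨h, hh⟩)
    · intro hx
      obtain ⟨h2, h3⟩ := Subgroup.mem_inf.mp hx
      refine ⟨⟨x, h2⟩, ?_, rfl⟩
      rw [SetLike.mem_coe, Subgroup.mem_center_iff]
      intro g
      exact Subtype.ext (Subgroup.mem_centralizer_iff.mp h3 g g.2)
  rw [← h1, Subgroup.card_subtype]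

set_option linter.unusedSectionVars false
variable {G : Type*} [Group G] {p : ℕ} [hp : Fact p.Prime] (D : MCData p G)
include D

theorem commute_ay (hp2 : p ≠ 2) (k v j : ℕ) :
    (D.a ^ k * D.b ^ v) * D.a ^ j = D.a ^ j * (D.a ^ k * D.b ^ v) ↔ p ^ cc D ∣ j * v := by
  rw [← commute_iff D hp2, mul_assoc, ← mul_assoc (D.a ^ j), (Commute.pow_pow_self D.a j k).eq,
    mul_assoc (D.a ^ k)]
  exact mul_right_inj _

/-- solving the congruence -/
theorem exists_solution [Finite G] (hp2 : p ≠ 2) (k v w : ℕ) (s t : ℕ) (hv : v = p ^ s) (hw : w = p ^ t)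
    (h : p ^ s ∣ k * p ^ t) :
    ∃ i : ℕ, (D.a ^ i * D.b ^ w) * (D.a ^ k * D.b ^ v) = (D.a ^ k * D.b ^ v) * (D.a ^ i * D.b ^ w) := by
  have hgcd : Nat.gcd (RR D ^ v - 1) (p ^ D.m) ∣ k * (RR D ^ w - 1) := by
    obtain ⟨e, he, hge⟩ := (Nat.dvd_prime_pow hp.out).mp (Nat.gcd_dvd_right (RR D ^ v - 1) (p ^ D.m))
    have h1 : Nat.gcd (RR D ^ v - 1) (p ^ D.m) ∣ 1 * (RR D ^ v - 1) := by
      rw [one_mul]; exact Nat.gcd_dvd_left _ _
    rw [hge] at h1 ⊢
    unfold RR at h1 ⊢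
    rw [dvd_mul_pow_sub_one_iff hp2 D.hd D.hu] at h1 ⊢
    rw [one_mul, hv] at h1
    refine h1.trans ?_
    have h2 : k * (p ^ D.d * w) = p ^ D.d * (k * p ^ t) := by rw [hw]; ring
    rw [h2]
    exact Nat.mul_dvd_mul_left _ h
  have hz : ∃ x y : ℤ, ((k * (RR D ^ w - 1) : ℕ) : ℤ) = ((RR D ^ v - 1 : ℕ) : ℤ) * x +
      ((p ^ D.m : ℕ) : ℤ) * y := by
    rw [← Int.gcd_dvd_iff]
    rw [Int.gcd_natCast_natCast]
    exact hgcd
  obtain ⟨x, y, hxy⟩ := hz
  have hm : D.a ^ (p ^ D.m) = 1 := (a_pow_eq_one_iff D _).mpr dvd_rfl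
  obtain ⟨i, hi⟩ := (isOfFinOrder_of_finite D.a).mem_powers_iff_mem_zpowers.mpr
    (zpow_mem (Subgroup.mem_zpowers D.a) x)
  have hi' : D.a ^ i = D.a ^ x := hi
  have hv1 : 1 ≤ RR D ^ v := Nat.one_le_pow _ _ (by unfold RR; omega)
  have hw1 : 1 ≤ RR D ^ w := Nat.one_le_pow _ _ (by unfold RR; omega)
  have h3 : D.a ^ (i * (RR D ^ v - 1)) = D.a ^ (k * (RR D ^ w - 1)) := by
    have h4 : D.a ^ (k * (RR D ^ w - 1)) = D.a ^ (((k * (RR D ^ w - 1) : ℕ) : ℤ)) :=
      (zpow_natCast _ _).symm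
    rw [h4, hxy, zpow_add, zpow_mul D.a ((p ^ D.m : ℕ) : ℤ), zpow_natCast D.a (p ^ D.m), hm,
      one_zpow, mul_one, pow_mul, hi', mul_comm, zpow_mul, zpow_natCast]
  refine ⟨i, ?_⟩
  have e1 : (D.a ^ i * D.b ^ w) * (D.a ^ k * D.b ^ v) = D.a ^ (i + k * RR D ^ w) * D.b ^ (w + v) := by
    have : (D.a ^ i * D.b ^ w) * (D.a ^ k * D.b ^ v) =
      D.a ^ i * (D.b ^ w * D.a ^ k * (D.b ^ w)⁻¹) * (D.b ^ w * D.b ^ v) := by group
    rw [this, conj_pow_a, ← pow_add, ← pow_add]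
  have e2 : (D.a ^ k * D.b ^ v) * (D.a ^ i * D.b ^ w) = D.a ^ (k + i * RR D ^ v) * D.b ^ (v + w) := by
    have : (D.a ^ k * D.b ^ v) * (D.a ^ i * D.b ^ w) =
      D.a ^ k * (D.b ^ v * D.a ^ i * (D.b ^ v)⁻¹) * (D.b ^ v * D.b ^ w) := by group
    rw [this, conj_pow_a, ← pow_add, ← pow_add]
  have hv2 : i * RR D ^ v = i * (RR D ^ v - 1) + i := by
    rw [Nat.mul_sub_one, Nat.sub_add_cancel (Nat.le_mul_of_pos_right _ hv1)]
  have hw2 : k * RR D ^ w = k * (RR D ^ w - 1) + k := by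
    rw [Nat.mul_sub_one, Nat.sub_add_cancel (Nat.le_mul_of_pos_right _ hw1)]
  have h5 : D.a ^ (i + k * RR D ^ w) = D.a ^ (k + i * RR D ^ v) := by
    rw [hv2, hw2, pow_add, pow_add, pow_add D.a k, pow_add D.a (i * _), h3]
    rw [← pow_add, ← pow_add, ← pow_add, ← pow_add]
    congr 1
    ring
  rw [e1, e2, add_comm v w, h5]

theorem a_mem_centralizer [Finite G] (hp2 : p ≠ 2) (L : Subgroup G) (α β : ℕ)
    (hα : ∀ j : ℕ, D.a ^ j ∈ L ↔ p ^ α ∣ j)
    (hβ : ∀ j : ℕ, D.b ^ j ∈ L ⊔ Subgroup.zpowers D.a ↔ p ^ β ∣ j) (j : ℕ) :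
    D.a ^ j ∈ Subgroup.centralizer (L : Set G) ↔ p ^ cc D ∣ j * p ^ β := by
  obtain ⟨k, hk⟩ := exists_y D L β hβ
  constructor
  · intro h
    have h1 := Subgroup.mem_centralizer_iff.mp h _ hk
    exact (commute_ay D hp2 _ _ _).mp h1
  · intro h
    rw [Subgroup.mem_centralizer_iff]
    intro g hg
    obtain ⟨i, l, rfl⟩ := mem_form D L α β k hα hβ hk g hg
    have c1 : Commute (D.a ^ k * D.b ^ (p ^ β)) (D.a ^ j) := (commute_ay D hp2 _ _ _).mpr h
    have c2 : Commute (D.a ^ (p ^ α)) (D.a ^ j) := Commute.pow_pow_self _ _ _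
    exact ((c2.pow_left i).mul_left (c1.pow_left l)).eq

theorem b_mem_centralizer_sup_imp [Finite G] (hp2 : p ≠ 2) (L : Subgroup G) (α : ℕ)
    (hα : ∀ j : ℕ, D.a ^ j ∈ L ↔ p ^ α ∣ j) (j : ℕ)
    (h : D.b ^ j ∈ Subgroup.centralizer (L : Set G) ⊔ Subgroup.zpowers D.a) :
    p ^ cc D ∣ p ^ α * j := by
  have hN := D.hnorm
  obtain ⟨x, hx, y, hy, hxy⟩ := Subgroup.mem_sup_of_normal_right.mp h
  have h1 : Commute (D.b ^ j) (D.a ^ (p ^ α)) := by
    rw [← hxy]
    apply Commute.mul_left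
    · exact (Subgroup.mem_centralizer_iff.mp hx _ ((hα _).mpr dvd_rfl)).symm
    · obtain ⟨l, rfl⟩ := hy
      have c : Commute D.a D.a := Commute.refl _
      exact (c.zpow_left l).pow_right _
  exact (commute_iff D hp2 _ _).mp h1.eq

theorem b_mem_centralizer_sup_of [Finite G] (hp2 : p ≠ 2) (L : Subgroup G) (α β k w i : ℕ)
    (hα : ∀ j : ℕ, D.a ^ j ∈ L ↔ p ^ α ∣ j)
    (hβ : ∀ j : ℕ, D.b ^ j ∈ L ⊔ Subgroup.zpowers D.a ↔ p ^ β ∣ j)
    (hk : D.a ^ k * D.b ^ (p ^ β) ∈ L)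
    (hw : p ^ cc D ∣ p ^ α * w)
    (hi : (D.a ^ i * D.b ^ w) * (D.a ^ k * D.b ^ (p ^ β)) =
      (D.a ^ k * D.b ^ (p ^ β)) * (D.a ^ i * D.b ^ w)) :
    D.a ^ i * D.b ^ w ∈ Subgroup.centralizer (L : Set G) := by
  rw [Subgroup.mem_centralizer_iff]
  intro g hg
  obtain ⟨i', l, rfl⟩ := mem_form D L α β k hα hβ hk g hg
  have c1 : Commute (D.a ^ i * D.b ^ w) (D.a ^ k * D.b ^ (p ^ β)) := hi
  have c2 : Commute (D.a ^ i * D.b ^ w) (D.a ^ (p ^ α)) := (commute_ay D hp2 _ _ _).mpr hw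
  exact ((c2.pow_right i').mul_right (c1.pow_right l)).eq.symm

theorem exps_le_cc [Finite G] (hp2 : p ≠ 2) (L : Subgroup G) (hZ : Subgroup.center G ≤ L) (α β : ℕ)
    (hα : ∀ j : ℕ, D.a ^ j ∈ L ↔ p ^ α ∣ j)
    (hβ : ∀ j : ℕ, D.b ^ j ∈ L ⊔ Subgroup.zpowers D.a ↔ p ^ β ∣ j) :
    α ≤ cc D ∧ β ≤ cc D := by
  constructor
  · rw [← Nat.pow_dvd_pow_iff_le_right hp.out.one_lt, ← hα]
    exact hZ ((a_mem_center D hp2 _).mpr dvd_rfl)
  · rw [← Nat.pow_dvd_pow_iff_le_right hp.out.one_lt, ← hβ]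
    exact Subgroup.mem_sup_left (hZ ((b_mem_center D hp2 _).mpr dvd_rfl))

theorem card_centralizer [Finite G] (hp2 : p ≠ 2) (L : Subgroup G) (hZ : Subgroup.center G ≤ L)
    (α β : ℕ) (hα : ∀ j : ℕ, D.a ^ j ∈ L ↔ p ^ α ∣ j)
    (hβ : ∀ j : ℕ, D.b ^ j ∈ L ⊔ Subgroup.zpowers D.a ↔ p ^ β ∣ j) :
    Nat.card (Subgroup.centralizer (L : Set G)) =
      p ^ (D.m - (cc D - β)) * p ^ (D.n - (cc D - α)) := by
  obtain ⟨hαc, hβc⟩ := exps_le_cc D hp2 L hZ α β hα hβ
  have h1 := cc_le_m D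
  have h2 := cc_le_n D hp2
  have hsplitβ : p ^ cc D = p ^ (cc D - β) * p ^ β := by rw [← pow_add, Nat.sub_add_cancel hβc]
  have hsplitα : p ^ cc D = p ^ α * p ^ (cc D - α) := by rw [← pow_add, Nat.add_sub_cancel' hαc]
  refine card_of_exps D _ _ _ ?_ ?_ (by omega) (by omega)
  · intro j
    rw [a_mem_centralizer D hp2 L α β hα hβ, hsplitβ]
    exact Nat.mul_dvd_mul_iff_right (pow_pos hp.out.pos _)
  · intro j
    constructor
    · intro h
      have h3 := b_mem_centralizer_sup_imp D hp2 L α hα j h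
      rw [hsplitα] at h3
      exact Nat.dvd_of_mul_dvd_mul_left (pow_pos hp.out.pos _) h3
    · rintro ⟨q, rfl⟩
      rw [pow_mul]
      apply pow_mem
      obtain ⟨k, hk⟩ := exists_y D L β hβ
      -- `p^α ∣ k p^(c-β)`
      have h3 : p ^ α ∣ k * p ^ (cc D - β) := by
        have h4 := pow_mem hk (p ^ (cc D - β))
        rw [pow_form, ← pow_add, Nat.add_sub_cancel' hβc] at h4
        have h5 : D.b ^ (p ^ cc D) ∈ L := hZ ((b_mem_center D hp2 _).mpr dvd_rfl)
        have h6 := mul_mem h4 (inv_mem h5)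
        rw [mul_inv_cancel_right, hα] at h6
        unfold RR at h6
        rw [dvd_mul_geom_iff hp2 D.hd D.hu] at h6
        exact h6
      have h7 : p ^ β ∣ k * p ^ (cc D - α) := by
        have h8 : p ^ α * p ^ β ∣ p ^ α * (k * p ^ (cc D - α)) := by
          have h9 : p ^ α * (k * p ^ (cc D - α)) = (k * p ^ (cc D - β)) * p ^ β := by
            calc p ^ α * (k * p ^ (cc D - α)) = k * (p ^ α * p ^ (cc D - α)) := by ring
              _ = k * (p ^ (cc D - β) * p ^ β) := by rw [← hsplitα, hsplitβ]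
              _ = _ := by ring
          rw [h9]
          exact Nat.mul_dvd_mul_right h3 _
        exact Nat.dvd_of_mul_dvd_mul_left (pow_pos hp.out.pos _) h8
      obtain ⟨i, hi⟩ := exists_solution D hp2 k (p ^ β) (p ^ (cc D - α)) β (cc D - α) rfl rfl h7
      have h10 := b_mem_centralizer_sup_of D hp2 L α β k (p ^ (cc D - α)) i hα hβ hk
        (by rw [← hsplitα]) hi
      have h11 : D.b ^ (p ^ (cc D - α)) = (D.a ^ i)⁻¹ * (D.a ^ i * D.b ^ (p ^ (cc D - α))) := by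
        group
      rw [h11]
      exact mul_mem (Subgroup.mem_sup_right (inv_mem (pow_mem (Subgroup.mem_zpowers _) _)))
        (Subgroup.mem_sup_left h10)

theorem card_mul_card_centralizer [Finite G] (hp2 : p ≠ 2) (L : Subgroup G)
    (hZ : Subgroup.center G ≤ L) :
    Nat.card L * Nat.card (Subgroup.centralizer (L : Set G)) =
      Nat.card G * Nat.card (Subgroup.center G) := by
  obtain ⟨α, β, hα', hβ', hα, hβ⟩ := exists_exps D L
  obtain ⟨hαc, hβc⟩ := exps_le_cc D hp2 L hZ α β hα hβ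
  have h1 := cc_le_m D
  have h2 := cc_le_n D hp2
  rw [card_centralizer D hp2 L hZ α β hα hβ, card_of_exps D L α β hα hβ hα' hβ', card_eq D,
    card_center D hp2, ← pow_add, ← pow_add, ← pow_add, ← pow_add, ← pow_add, ← pow_add]
  congr 1
  omega

theorem centralizer_centralizer [Finite G] (hp2 : p ≠ 2) (L : Subgroup G)
    (hZ : Subgroup.center G ≤ L) :
    Subgroup.centralizer (Subgroup.centralizer (L : Set G) : Set G) = L := by
  have h1 := card_mul_card_centralizer D hp2 L hZ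
  have h2 := card_mul_card_centralizer D hp2 (Subgroup.centralizer (L : Set G))
    (Subgroup.center_le_centralizer _)
  have hle : L ≤ Subgroup.centralizer (Subgroup.centralizer (L : Set G) : Set G) := by
    intro x hx
    rw [Subgroup.mem_centralizer_iff]
    intro h hh
    exact (Subgroup.mem_centralizer_iff.mp hh x hx).symm
  symm
  apply Subgroup.eq_of_le_of_card_ge hle
  rw [← h1, mul_comm] at h2
  exact (Nat.eq_of_mul_eq_mul_right Nat.card_pos h2).le

theorem card_mul_card_center [Finite G] (hp2 : p ≠ 2) (L : Subgroup G)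
    (hL : ¬ IsMulCommutative L) :
    Nat.card L * Nat.card ↥(L ⊓ Subgroup.centralizer (L : Set G)) = (commutator G).index ^ 2 := by
  obtain ⟨α, β, hα', hβ', hα, hβ⟩ := exists_exps D L
  rw [abelian_iff D hp2 L α β hα hβ, not_le] at hL
  have h1 := cc_le_m D
  have h2 := cc_le_n D hp2
  have hαc : α ≤ cc D := by omega
  have hβc : β ≤ cc D := by omega
  have hsplitβ : p ^ cc D = p ^ (cc D - β) * p ^ β := by rw [← pow_add, Nat.sub_add_cancel hβc]
  have hsplitα : p ^ cc D = p ^ α * p ^ (cc D - α) := by rw [← pow_add, Nat.add_sub_cancel' hαc]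
  have hcard : Nat.card ↥(L ⊓ Subgroup.centralizer (L : Set G)) =
      p ^ (D.m - (cc D - β)) * p ^ (D.n - (cc D - α)) := by
    refine card_of_exps D _ _ _ ?_ ?_ (by omega) (by omega)
    · intro j
      rw [Subgroup.mem_inf, a_mem_centralizer D hp2 L α β hα hβ, hα, hsplitβ,
        Nat.mul_dvd_mul_iff_right (pow_pos hp.out.pos _)]
      constructor
      · exact fun h => h.2
      · exact fun h => ⟨(pow_dvd_pow p (by omega)).trans h, h⟩
    · intro j
      constructor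
      · intro h
        have h0 : D.b ^ j ∈ Subgroup.centralizer (L : Set G) ⊔ Subgroup.zpowers D.a :=
          sup_le_sup_right (inf_le_right : L ⊓ Subgroup.centralizer (L : Set G) ≤
            Subgroup.centralizer (L : Set G)) (Subgroup.zpowers D.a) h
        have h3 := b_mem_centralizer_sup_imp D hp2 L α hα j h0
        rw [hsplitα] at h3
        exact Nat.dvd_of_mul_dvd_mul_left (pow_pos hp.out.pos _) h3
      · rintro ⟨q, rfl⟩
        rw [pow_mul]
        apply pow_mem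
        obtain ⟨k, hk⟩ := exists_y D L β hβ
        have h4 := pow_mem hk (p ^ (cc D - α - β))
        have h5 := pow_form D k (p ^ β) (p ^ (cc D - α - β))
        have h6 : p ^ β * p ^ (cc D - α - β) = p ^ (cc D - α) := by
          rw [← pow_add]; congr 1; omega
        rw [h6] at h5
        rw [h5] at h4
        have h7 := b_mem_centralizer_sup_of D hp2 L α β k (p ^ (cc D - α)) _ hα hβ hk
          (by rw [← hsplitα]) (by
            rw [← h5]
            exact (Commute.pow_self (D.a ^ k * D.b ^ (p ^ β)) (p ^ (cc D - α - β))).eq)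
        have h8 := Subgroup.mem_inf.mpr ⟨h4, h7⟩
        have h9 := mul_mem (Subgroup.mem_sup_right (S := L ⊓ Subgroup.centralizer (L : Set G))
          (inv_mem (pow_mem (Subgroup.mem_zpowers D.a)
          (k * ∑ l ∈ Finset.range (p ^ (cc D - α - β)), (RR D ^ (p ^ β)) ^ l))))
          (Subgroup.mem_sup_left (T := Subgroup.zpowers D.a) h8)
        rwa [inv_mul_cancel_left] at h9
  rw [hcard, card_of_exps D L α β hα hβ hα' hβ', index_commutator D, ← pow_add, ← pow_add,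
    ← pow_add, ← pow_mul]
  congr 1
  omega

theorem card_mul_center_top [Finite G] (hp2 : p ≠ 2) :
    Nat.card G * Nat.card (Subgroup.center G) = (commutator G).index ^ 2 := by
  have h1 := cc_le_m D
  have h2 := cc_le_n D hp2
  rw [card_eq D, card_center D hp2, index_commutator D, ← pow_add, ← pow_add, ← pow_add, ← pow_mul]
  congr 1
  omega

end Cfsg.Agent.H2.MetacE
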