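import Mathlib
import Cfsg.Agent.H2.MetacE
set_option autoImplicit false

open scoped commutatorElement
open Cfsg.Agent.H2.MetacNT Cfsg.Agent.H2.Metac Cfsg.Agent.H2.MetacB Cfsg.Agent.H2.MetacC
open Cfsg.Agent.H2.MetacD

namespace Cfsg.Agent.H2.MetacF

theorem sq_dvd_pow_sub (r : ℤ) (i : ℕ) : (r - 1) ^ 2 ∣ r ^ i - 1 - i * (r - 1) := by
  induction i with
  | zero => simp
  | succ i ih =>
    have h1 : r ^ (i + 1) - 1 - ((i + 1 : ℕ) : ℤ) * (r - 1) =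
        r * (r ^ i - 1 - i * (r - 1)) + (r - 1) ^ 2 * i := by push_cast; ring
    rw [h1]
    exact dvd_add (Dvd.dvd.mul_left ih _) (dvd_mul_right _ _)

theorem geom_p {p : ℕ} (hp2 : Odd p) (D : ℕ) (hD : 1 ≤ D) (r : ℤ) (hr : (p : ℤ) ^ D ∣ r - 1) :
    (p : ℤ) ^ (D + 1) ∣ (∑ l ∈ Finset.range p, r ^ l) - p := by
  have h1 : (∑ l ∈ Finset.range p, r ^ l) - p =
      (∑ l ∈ Finset.range p, (r ^ l - 1 - l * (r - 1))) + (∑ l ∈ Finset.range p, (l : ℤ)) * (r - 1) := by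
    rw [Finset.sum_sub_distrib, Finset.sum_sub_distrib, ← Finset.sum_mul]
    simp
  rw [h1]
  apply dvd_add
  · apply Finset.dvd_sum
    intro i _
    refine dvd_trans ?_ (sq_dvd_pow_sub r i)
    have h2 : (p : ℤ) ^ (D + 1) ∣ ((p : ℤ) ^ D) ^ 2 := by
      rw [← pow_mul]; exact pow_dvd_pow _ (by omega)
    exact h2.trans (pow_dvd_pow_of_dvd hr 2)
  · rw [pow_succ, mul_comm]
    apply mul_dvd_mul _ hr
    have h3 : (∑ l ∈ Finset.range p, (l : ℤ)) = ((∑ l ∈ Finset.range p, l : ℕ) : ℤ) := by push_cast; rfl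
    rw [h3, Finset.sum_range_id]
    obtain ⟨k, hk⟩ := hp2
    have h4 : p * (p - 1) / 2 = p * k := by
      rw [hk, Nat.add_sub_cancel]
      rw [show (2 * k + 1) * (2 * k) = (2 * k + 1) * k * 2 by ring, Nat.mul_div_cancel _ (by norm_num)]
    rw [h4]
    push_cast
    exact dvd_mul_right _ _

theorem sum_range_mul_pow (r : ℤ) (p M : ℕ) : ∑ l ∈ Finset.range (p * M), r ^ l =
    (∑ l ∈ Finset.range p, r ^ l) * ∑ l ∈ Finset.range M, (r ^ p) ^ l := by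
  induction M with
  | zero => simp
  | succ M ih =>
    rw [Nat.mul_succ, Finset.sum_range_add, ih, Finset.sum_range_succ, mul_add]
    congr 1
    rw [Finset.sum_mul]
    apply Finset.sum_congr rfl
    intro i _
    rw [pow_add, pow_mul, mul_comm]

theorem geom_pow {p : ℕ} (hp2 : Odd p) (s D : ℕ) (hD : 1 ≤ D) (r : ℤ) (hr : (p : ℤ) ^ D ∣ r - 1) :
    (p : ℤ) ^ (s + D) ∣ (∑ l ∈ Finset.range (p ^ s), r ^ l) - (p : ℤ) ^ s := by
  induction s generalizing r D with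
  | zero => simp
  | succ s ih =>
    have h1 := geom_p hp2 D hD r hr
    have h2 : (p : ℤ) ^ (D + 1) ∣ r ^ p - 1 := by
      have h3 : r ^ p - 1 = (∑ l ∈ Finset.range p, r ^ l) * (r - 1) := (geom_sum_mul r p).symm
      rw [h3, pow_succ, mul_comm]
      apply mul_dvd_mul _ hr
      have h4 : (p : ℤ) ∣ (p : ℤ) ^ (D + 1) := dvd_pow_self _ (by omega)
      have h5 := h4.trans h1
      exact (dvd_sub_self_right).mp h5
    have h3 := ih (D + 1) (by omega) (r ^ p) h2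
    rw [pow_succ' p s, sum_range_mul_pow]
    obtain ⟨x, hx⟩ := h1
    obtain ⟨y, hy⟩ := h3
    have hx' : (∑ l ∈ Finset.range p, r ^ l) = p + (p : ℤ) ^ (D + 1) * x := by linarith
    have hy' : (∑ l ∈ Finset.range (p ^ s), (r ^ p) ^ l) = (p : ℤ) ^ s + (p : ℤ) ^ (s + (D + 1)) * y := by
      linarith
    rw [hx', hy']
    refine ⟨x + (p : ℤ) * y + (p : ℤ) ^ (D + 1) * x * y, ?_⟩
    ring

set_option linter.unusedSectionVars false
variable {G : Type*} [Group G] {p : ℕ} [hp : Fact p.Prime] (D : MCData p G)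
include D

theorem modEq_iff (i j : ℕ) : D.a ^ i = D.a ^ j ↔ ((p ^ D.m : ℕ) : ℤ) ∣ (i : ℤ) - j := by
  rw [← zpow_natCast, ← zpow_natCast, ← D.ha, orderOf_dvd_iff_zpow_eq_one, zpow_sub,
    mul_inv_eq_one]

/-- factorization in case `b^(p^n) = a^(p^n t)` -/
theorem case1 [Finite G] (hp2 : p ≠ 2) (t : ℕ) (ht : D.b ^ (p ^ D.n) = D.a ^ (p ^ D.n * t)) :
    ∃ A B : Subgroup G, IsCyclic ↥A ∧ IsCyclic ↥B ∧ A ⊓ B = ⊥ ∧
      Nat.card ↥A * Nat.card ↥B = Nat.card G := by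
  have hN := D.hnorm
  have hgcd : Nat.gcd (∑ l ∈ Finset.range (p ^ D.n), (RR D ^ 1) ^ l) (p ^ D.m) ∣ p ^ D.n * t := by
    obtain ⟨e, he, hge⟩ := (Nat.dvd_prime_pow hp.out).mp
      (Nat.gcd_dvd_right (∑ l ∈ Finset.range (p ^ D.n), (RR D ^ 1) ^ l) (p ^ D.m))
    have h1 : Nat.gcd (∑ l ∈ Finset.range (p ^ D.n), (RR D ^ 1) ^ l) (p ^ D.m) ∣
        1 * ∑ l ∈ Finset.range (p ^ D.n), (RR D ^ 1) ^ l := by
      rw [one_mul]; exact Nat.gcd_dvd_left _ _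
    rw [hge] at h1 ⊢
    unfold RR at h1
    rw [dvd_mul_geom_iff hp2 D.hd D.hu, one_mul] at h1
    exact Dvd.dvd.mul_right h1 _
  have hz : ∃ x y : ℤ, ((p ^ D.n * t : ℕ) : ℤ) =
      ((∑ l ∈ Finset.range (p ^ D.n), (RR D ^ 1) ^ l : ℕ) : ℤ) * x + ((p ^ D.m : ℕ) : ℤ) * y := by
    rw [← Int.gcd_dvd_iff, Int.gcd_natCast_natCast]
    exact hgcd
  obtain ⟨x, y, hxy⟩ := hz
  have hm : D.a ^ (p ^ D.m) = 1 := (a_pow_eq_one_iff D _).mpr dvd_rfl
  obtain ⟨i, hi⟩ := (isOfFinOrder_of_finite D.a).mem_powers_iff_mem_zpowers.mpr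
    (zpow_mem (Subgroup.mem_zpowers D.a) (-x))
  have hi' : D.a ^ i = D.a ^ (-x) := hi
  have h3 : D.a ^ (i * ∑ l ∈ Finset.range (p ^ D.n), (RR D ^ 1) ^ l) * D.a ^ (p ^ D.n * t) = 1 := by
    have h4 : D.a ^ (p ^ D.n * t) = D.a ^ (((p ^ D.n * t : ℕ) : ℤ)) :=
      (zpow_natCast _ _).symm
    rw [pow_mul, hi', h4, hxy, zpow_add, zpow_mul D.a ((p ^ D.m : ℕ) : ℤ), zpow_natCast D.a (p ^ D.m),
      hm, one_zpow, mul_one, ← zpow_natCast, ← zpow_mul, ← zpow_add]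
    have : -x * ((∑ l ∈ Finset.range (p ^ D.n), (RR D ^ 1) ^ l : ℕ) : ℤ) +
      ((∑ l ∈ Finset.range (p ^ D.n), (RR D ^ 1) ^ l : ℕ) : ℤ) * x = 0 := by ring
    rw [this, zpow_zero]
  have h5 : (D.a ^ i * D.b) ^ (p ^ D.n) = 1 := by
    have := pow_form D i 1 (p ^ D.n)
    rw [pow_one, one_mul, ht] at this
    rw [this, h3]
  have h6 : ∀ j : ℕ, (D.a ^ i * D.b) ^ j ∈ Subgroup.zpowers D.a ↔ p ^ D.n ∣ j := by
    intro j
    rw [← D.hb, ← QuotientGroup.eq_one_iff, ← QuotientGroup.eq_one_iff]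
    have h7 : (QuotientGroup.mk D.a : G ⧸ Subgroup.zpowers D.a) = 1 :=
      (QuotientGroup.eq_one_iff _).mpr (Subgroup.mem_zpowers _)
    simp only [QuotientGroup.mk_mul, QuotientGroup.mk_pow, h7, one_pow, one_mul]
  have h7 : orderOf (D.a ^ i * D.b) = p ^ D.n := by
    apply Nat.dvd_antisymm
    · exact orderOf_dvd_of_pow_eq_one h5
    · rw [← h6, pow_orderOf_eq_one]; exact one_mem _
  refine ⟨Subgroup.zpowers D.a, Subgroup.zpowers (D.a ^ i * D.b), inferInstance, inferInstance, ?_, ?_⟩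
  · rw [eq_bot_iff]
    intro g hg
    obtain ⟨g1, g2⟩ := Subgroup.mem_inf.mp hg
    obtain ⟨j, hj⟩ := (isOfFinOrder_of_finite (D.a ^ i * D.b)).mem_powers_iff_mem_zpowers.mpr g2
    have hj' : (D.a ^ i * D.b) ^ j = g := hj
    rw [← hj', h6] at g1
    obtain ⟨k, rfl⟩ := g1
    rw [Subgroup.mem_bot, ← hj', pow_mul, h5, one_pow]
  · rw [Nat.card_zpowers, Nat.card_zpowers, D.ha, h7, card_eq D]

theorem factor [Finite G] (hp2 : p ≠ 2) :
    ∃ A B : Subgroup G, IsCyclic ↥A ∧ IsCyclic ↥B ∧ A ⊓ B = ⊥ ∧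
      Nat.card ↥A * Nat.card ↥B = Nat.card G := by
  have hN := D.hnorm
  have hodd : Odd p := hp.out.odd_of_ne_two hp2
  obtain ⟨t, ht⟩ := (isOfFinOrder_of_finite D.a).mem_powers_iff_mem_zpowers.mpr
    ((D.hb _).mpr (dvd_refl (p ^ D.n)))
  have ht' : D.a ^ t = D.b ^ (p ^ D.n) := ht
  by_cases h1 : D.b ^ (p ^ D.n) = 1
  · apply case1 D hp2 0
    rw [h1, mul_zero, pow_zero]
  rw [← ht', a_pow_eq_one_iff] at h1
  by_cases h2 : p ^ D.n ∣ t
  · obtain ⟨t1, rfl⟩ := h2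
    exact case1 D hp2 t1 ht'.symm
  have ht0 : t ≠ 0 := by rintro rfl; exact h1 (dvd_zero _)
  obtain ⟨s, t', hpt', rfl⟩ := Nat.exists_eq_pow_mul_and_not_dvd ht0 p hp.out.one_lt.ne'
  have hsn : s < D.n := by
    by_contra hge
    exact h2 (Dvd.dvd.mul_right (pow_dvd_pow p (not_lt.mp hge)) _)
  have hsm : s < D.m := by
    by_contra hge
    exact h1 (Dvd.dvd.mul_right (pow_dvd_pow p (not_lt.mp hge)) _)
  have hcn := cc_le_n D hp2
  set i := (p ^ D.m - 1) * t' with hi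
  set j := p ^ (D.n - s) with hj
  have hm : D.a ^ (p ^ D.m) = 1 := (a_pow_eq_one_iff D _).mpr dvd_rfl
  have hpm : 1 ≤ p ^ D.m := Nat.one_le_pow _ _ hp.out.pos
  have hit : D.a ^ i * D.a ^ t' = 1 := by
    rw [← pow_add, hi]
    have : (p ^ D.m - 1) * t' + t' = p ^ D.m * t' := by
      rw [Nat.sub_mul, one_mul, Nat.sub_add_cancel (Nat.le_mul_of_pos_left _ hpm)]
    rw [this, pow_mul, hm, one_pow]
  have hpi : ¬ p ∣ i := by
    rw [hi, hp.out.dvd_mul]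
    rintro (h | h)
    · have h3 : p ∣ p ^ D.m := dvd_pow_self p (by omega)
      have h4 := (Nat.dvd_sub_iff_right hpm h3).mp h
      exact hp.out.one_lt.ne' (Nat.dvd_one.mp h4)
    · exact hpt' h
  -- the order of `a' = a^i b^j` divides `p^s`
  have hj1 : j * p ^ s = p ^ D.n := by rw [hj, ← pow_add]; congr 1; omega
  have hgeom : ((p ^ D.m : ℕ) : ℤ) ∣ ((∑ l ∈ Finset.range (p ^ s), (RR D ^ j) ^ l : ℕ) : ℤ) -
      ((p ^ s : ℕ) : ℤ) := by
    have hr : (p : ℤ) ^ (D.d + (D.n - s)) ∣ ((RR D ^ j : ℕ) : ℤ) - 1 := by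
      have h3 := (dvd_mul_pow_sub_one_iff (p := p) hp2 D.hd D.hu (D.d + (D.n - s)) 1 j).mpr (by
        rw [one_mul, hj, ← pow_add])
      rw [one_mul] at h3
      have h4 : 1 ≤ RR D ^ j := Nat.one_le_pow _ _ (by unfold RR; omega)
      have h5 : ((RR D ^ j : ℕ) : ℤ) - 1 = (((1 + p ^ D.d * D.u) ^ j - 1 : ℕ) : ℤ) := by
        rw [Nat.cast_sub h4]; simp
      rw [h5]
      exact_mod_cast h3
    have h6 := geom_pow hodd s (D.d + (D.n - s)) (by have := D.hd; omega) _ hr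
    have h7 : D.m ≤ s + (D.d + (D.n - s)) := by
      unfold cc at hcn; omega
    have h8 := (pow_dvd_pow (p : ℤ) h7).trans h6
    push_cast at h8 ⊢
    exact h8
  have hord1 : (D.a ^ i * D.b ^ j) ^ (p ^ s) = 1 := by
    rw [pow_form, hj1, ← ht']
    have h3 : D.a ^ (i * ∑ l ∈ Finset.range (p ^ s), (RR D ^ j) ^ l) = D.a ^ (i * p ^ s) := by
      rw [modEq_iff]
      push_cast
      rw [← mul_sub]
      push_cast at hgeom
      exact Dvd.dvd.mul_left hgeom _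
    rw [h3, pow_mul, mul_comm (p ^ s) t', pow_mul D.a t', ← (Commute.pow_pow_self D.a i t').mul_pow,
      hit, one_pow]
  -- powers of `a` in `⟨b⟩`
  have hab : ∀ z : ℕ, D.a ^ z ∈ Subgroup.zpowers D.b → p ^ s ∣ z := by
    intro z hz
    obtain ⟨f, hf⟩ := (isOfFinOrder_of_finite D.b).mem_powers_iff_mem_zpowers.mpr hz
    have hf' : D.b ^ f = D.a ^ z := hf
    have h3 : D.b ^ f ∈ Subgroup.zpowers D.a := by rw [hf']; exact pow_mem (Subgroup.mem_zpowers _) _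
    obtain ⟨f', rfl⟩ := (D.hb f).mp h3
    rw [pow_mul, ← ht', ← pow_mul, modEq_iff] at hf'
    have h4 : ((p ^ s : ℕ) : ℤ) ∣ ((p ^ D.m : ℕ) : ℤ) := by
      exact_mod_cast pow_dvd_pow p hsm.le
    have h5 := h4.trans hf'
    have h6 : ((p ^ s : ℕ) : ℤ) ∣ ((p ^ s * t' * f' : ℕ) : ℤ) := by
      exact_mod_cast Dvd.dvd.mul_right (dvd_mul_right _ _) _
    have h7 := (dvd_sub_right h6).mp h5
    exact_mod_cast h7
  have hpow : ∀ e : ℕ, (D.a ^ i * D.b ^ j) ^ e ∈ Subgroup.zpowers D.b → p ^ s ∣ e := by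
    intro e he
    rw [pow_form] at he
    have h3 : D.a ^ (i * ∑ l ∈ Finset.range e, (RR D ^ j) ^ l) ∈ Subgroup.zpowers D.b := by
      have := mul_mem he (inv_mem (pow_mem (Subgroup.mem_zpowers D.b) (j * e)))
      rwa [mul_inv_cancel_right] at this
    have h4 := hab _ h3
    unfold RR at h4
    rw [dvd_mul_geom_iff hp2 D.hd D.hu] at h4
    exact (Nat.Coprime.pow_left s ((hp.out.coprime_iff_not_dvd).mpr hpi)).dvd_of_dvd_mul_left h4
  have hordA : orderOf (D.a ^ i * D.b ^ j) = p ^ s := by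
    apply Nat.dvd_antisymm
    · exact orderOf_dvd_of_pow_eq_one hord1
    · apply hpow
      rw [pow_orderOf_eq_one]; exact one_mem _
  have hordB : orderOf D.b = p ^ (D.n + (D.m - s)) := by
    apply Nat.dvd_antisymm
    · apply orderOf_dvd_of_pow_eq_one
      rw [pow_add, pow_mul, ← ht', ← pow_mul, a_pow_eq_one_iff]
      have : p ^ s * t' * p ^ (D.m - s) = p ^ D.m * t' := by
        calc p ^ s * t' * p ^ (D.m - s) = (p ^ s * p ^ (D.m - s)) * t' := by ring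
          _ = _ := by rw [← pow_add, Nat.add_sub_cancel' hsm.le]
      rw [this]
      exact dvd_mul_right _ _
    · have h3 : D.b ^ orderOf D.b = 1 := pow_orderOf_eq_one _
      obtain ⟨f, hf⟩ := (D.hb _).mp (by rw [h3]; exact one_mem _)
      rw [hf, pow_mul, ← ht', ← pow_mul, a_pow_eq_one_iff] at h3
      rw [hf, pow_add]
      apply Nat.mul_dvd_mul_left
      have h4 : p ^ D.m = p ^ s * p ^ (D.m - s) := by rw [← pow_add, Nat.add_sub_cancel' hsm.le]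
      rw [h4, mul_assoc] at h3
      have h5 := Nat.dvd_of_mul_dvd_mul_left (pow_pos hp.out.pos _) h3
      exact (Nat.Coprime.pow_left _ ((hp.out.coprime_iff_not_dvd).mpr hpt')).dvd_of_dvd_mul_left h5
  refine ⟨Subgroup.zpowers (D.a ^ i * D.b ^ j), Subgroup.zpowers D.b, inferInstance, inferInstance,
    ?_, ?_⟩
  · rw [eq_bot_iff]
    intro g hg
    obtain ⟨g1, g2⟩ := Subgroup.mem_inf.mp hg
    obtain ⟨e, he⟩ := (isOfFinOrder_of_finite (D.a ^ i * D.b ^ j)).mem_powers_iff_mem_zpowers.mpr g1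
    have he' : (D.a ^ i * D.b ^ j) ^ e = g := he
    rw [← he'] at g2
    obtain ⟨k, rfl⟩ := hpow e g2
    rw [Subgroup.mem_bot, ← he', pow_mul, hord1, one_pow]
  · rw [Nat.card_zpowers, Nat.card_zpowers, hordA, hordB, card_eq D, ← pow_add, ← pow_add]
    congr 1
    omega

end Cfsg.Agent.H2.MetacF
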