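import Mathlib
import Cfsg.Agent.H2.PUtil
/-! A noncyclic `p`-group, `p` odd, has a normal elementary abelian subgroup of order `p²`. -/
open Subgroup
open scoped commutatorElement
universe u
namespace Cfsg.Agent.H2.NormElem

theorem aux {p : ℕ} (hp : p.Prime) (hp2 : p ≠ 2) (n : ℕ) : ∀ (G : Type u) [Group G] [Finite G],
    Nat.card G ≤ n → IsPGroup p G → ¬ IsCyclic G →
    ∃ N : Subgroup G, N.Normal ∧ IsMulCommutative N ∧ Nat.card N = p ^ 2 ∧ ∀ x ∈ N, x ^ p = 1 := by
  have hp' : Fact p.Prime := ⟨hp⟩
  induction n with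
  | zero =>
    intro G _ _ h
    exact absurd h (by have := Nat.card_pos (α := G); omega)
  | succ n ih =>
    intro G _ _ hcard hG hnc
    have hnt : Nontrivial G := by
      by_contra h
      rw [not_nontrivial_iff_subsingleton] at h
      exact hnc inferInstance
    have hZ1 : center G ≠ ⊥ := by
      have := hG.center_nontrivial
      exact (nontrivial_iff_ne_bot _).1 this
    obtain ⟨z, hz, hzo⟩ := PUtil.exists_orderOf_prime hp hZ1 (hG.to_subgroup _)
    set Z := zpowers z with hZ
    have hZc : Z ≤ center G := zpowers_le.2 hz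
    have hZn : Z.Normal := ⟨by
      intro n hn g
      have : g * n * g⁻¹ = n := by rw [mem_center_iff.1 (hZc hn) g]; group
      rw [this]; exact hn⟩
    have hZcard : Nat.card Z = p := by rw [Nat.card_zpowers, hzo]
    have hZp : ∀ x ∈ Z, x ^ p = 1 := by
      intro x hx
      have h1 : (⟨x, hx⟩ : Z) ^ Nat.card Z = 1 := pow_card_eq_one'
      rw [hZcard] at h1
      exact congrArg Subtype.val h1
    have hfin : ∀ K : Subgroup G, K.Normal → (∀ x ∈ K, x ^ p = 1) → Z < K →
        ∃ N : Subgroup G, N.Normal ∧ IsMulCommutative N ∧ Nat.card N = p ^ 2 ∧ ∀ x ∈ N, x ^ p = 1 := by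
      intro K hK hKp hlt
      obtain ⟨M, hM, _, hMK, hMc⟩ := PUtil.exists_normal_step hG hlt
      rw [hZcard, ← pow_two] at hMc
      exact ⟨M, hM, IsPGroup.isMulCommutative_of_card_eq_prime_sq hMc, hMc, fun x hx => hKp x (hMK hx)⟩
    by_cases hcyc : IsCyclic (G ⧸ Z)
    · have hcm : ∀ a b : G, a * b = b * a := by
        have hker : (QuotientGroup.mk' Z).ker ≤ center G := by rw [QuotientGroup.ker_mk']; exact hZc
        exact fun a b => commutative_of_cyclic_center_quotient (QuotientGroup.mk' Z) hker a b
      obtain ⟨q, hq, E, hE, he⟩ := Lib.Partition.exists_elementary_of_not_isCyclic (A := G) ⟨⟨hcm⟩⟩ hnc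
      have hqp : q = p := by
        obtain ⟨k, hk⟩ := IsPGroup.iff_card.1 hG
        have h1 : q ^ 2 ∣ p ^ k := by rw [← hE, ← hk]; exact card_subgroup_dvd_card E
        exact (Nat.prime_dvd_prime_iff_eq hq hp).1 (hq.dvd_of_dvd_pow ((dvd_pow_self q two_ne_zero).trans h1))
      subst hqp
      refine ⟨E, ⟨fun x hx g => ?_⟩, IsPGroup.isMulCommutative_of_card_eq_prime_sq hE, hE, he⟩
      have : g * x * g⁻¹ = x := by rw [hcm g x]; group
      rw [this]; exact hx
    · have hlt : Nat.card (G ⧸ Z) ≤ n := by
        have := Lib.Basic.card_quotient_lt (N := Z) (by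
          intro h
          rw [h, Subgroup.card_bot] at hZcard
          exact hp.one_lt.ne hZcard)
        omega
      obtain ⟨N', hN'n, hN'c, hN', hN'p⟩ := ih (G ⧸ Z) hlt (hG.to_quotient Z) hcyc
      set N := N'.comap (QuotientGroup.mk' Z) with hN
      have hNn : N.Normal := inferInstance
      have hNcard : Nat.card N = p ^ 3 := by
        have h5 := Lib.Cores.card_comap_eq (QuotientGroup.mk' Z) (QuotientGroup.mk'_surjective Z) N'
        rw [QuotientGroup.ker_mk', hZcard, hN'] at h5
        rw [h5]; ring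
      have hNZ : ∀ x ∈ N, x ^ p ∈ Z := by
        intro x hx
        have := hN'p _ hx
        rw [← map_pow] at this
        exact (QuotientGroup.eq_one_iff _).1 this
      have hNc : ∀ x ∈ N, ∀ y ∈ N, ⁅y, x⁆ ∈ Z := by
        intro x hx y hy
        rw [← QuotientGroup.eq_one_iff]
        show ⁅(y : G ⧸ Z), (x : G ⧸ Z)⁆ = 1
        rw [commutatorElement_eq_one_iff_mul_comm]
        exact PUtil.isMulCommutative_iff.1 hN'c _ hy _ hx
      have hmulp : ∀ x ∈ N, ∀ y ∈ N, (x * y) ^ p = x ^ p * y ^ p := by
        intro x hx y hy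
        have h1 := UniqSub.mul_pow_of_central (c := ⁅y, x⁆)
          (fun w => (mem_center_iff.1 (hZc (hNc x hx y hy)) w).symm)
          (show y * x = ⁅y, x⁆ * (x * y) by rw [commutatorElement_def]; group) p
        have h2 := UniqSub.dvd_choose_two hp le_rfl (Or.inl hp2)
        rw [pow_one] at h2
        obtain ⟨m, hm⟩ := h2
        rw [hm, pow_mul, hZp _ (hNc x hx y hy), one_pow, mul_one] at h1
        exact h1
      -- kernel of the p-power map
      let f : N →* Z :=
        { toFun := fun x => ⟨(x : G) ^ p, hNZ x x.2⟩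
          map_one' := by ext; simp
          map_mul' := fun x y => Subtype.ext (hmulp x x.2 y y.2) }
      set K := f.ker.map N.subtype with hK
      have hKp : ∀ x ∈ K, x ^ p = 1 := by
        rintro _ ⟨x, hx, rfl⟩
        exact congrArg Subtype.val hx
      have hmemK : ∀ x, x ∈ K ↔ x ∈ N ∧ x ^ p = 1 := by
        intro x
        constructor
        · intro hx
          exact ⟨map_subtype_le _ hx, hKp x hx⟩
        · rintro ⟨h1, h2⟩
          exact ⟨⟨x, h1⟩, Subtype.ext h2, rfl⟩
      have hKn : K.Normal := ⟨by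
        intro x hx g
        rw [hmemK] at hx ⊢
        refine ⟨hNn.conj_mem x hx.1 g, ?_⟩
        rw [conj_pow, hx.2]; group⟩
      have hZN : Z ≤ N := by
        intro w hw
        show (QuotientGroup.mk' Z) w ∈ N'
        have : (QuotientGroup.mk' Z) w = 1 := (QuotientGroup.eq_one_iff w).2 hw
        rw [this]; exact one_mem _
      have hZK : Z ≤ K := fun w hw => (hmemK w).2 ⟨hZN hw, hZp w hw⟩
      have hKcard : p ^ 2 ≤ Nat.card K := by
        have h1 := f.ker.card_mul_index
        rw [Subgroup.index_ker, hNcard] at h1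
        have h2 : Nat.card f.range ≤ p := by
          rw [← hZcard]
          exact Nat.card_le_card_of_injective f.range.subtype f.range.subtype_injective
        have h3 : Nat.card K = Nat.card f.ker :=
          (Nat.card_congr (f.ker.equivMapOfInjective _ N.subtype_injective).toEquiv).symm
        rw [h3]
        by_contra hlt
        push Not at hlt
        have h4 : Nat.card f.ker * Nat.card f.range < p ^ 2 * p := by
          calc Nat.card f.ker * Nat.card f.range ≤ Nat.card f.ker * p := Nat.mul_le_mul_left _ h2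
            _ < p ^ 2 * p := Nat.mul_lt_mul_of_pos_right hlt hp.pos
        rw [h1] at h4
        have : p ^ 3 = p ^ 2 * p := by ring
        omega
      apply hfin K hKn hKp
      refine lt_of_le_of_ne hZK ?_
      intro h
      rw [← h, hZcard] at hKcard
      nlinarith [hp.one_lt]

/-- normal elementary abelian subgroup of order `p²` -/
theorem exists_normal_elementary {G : Type u} [Group G] [Finite G] {p : ℕ} (hp : p.Prime)
    (hp2 : p ≠ 2) (hG : IsPGroup p G) (hnc : ¬ IsCyclic G) :
    ∃ N : Subgroup G, N.Normal ∧ IsMulCommutative N ∧ Nat.card N = p ^ 2 ∧ ∀ x ∈ N, x ^ p = 1 :=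
  aux hp hp2 (Nat.card G) G le_rfl hG hnc

end Cfsg.Agent.H2.NormElem
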