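import Mathlib
import Cfsg.Agent.Lib.Cores
import Cfsg.Agent.Lib.PSol
import Cfsg.Agent.Lib.Nilp
import Cfsg.Agent.H2.UniqSub

/-! Groups in which `p`-subgroups of equal order are conjugate. -/

set_option autoImplicit false
set_option linter.unusedSectionVars false
set_option linter.style.haveILetI false
set_option linter.unusedVariables false

namespace Cfsg.Agent.H2.PConjQ

open Subgroup Cfsg Cfsg.Agent.Lib
open scoped commutatorElement

universe u
variable {G : Type u} [Group G] [Finite G] {p : ℕ} [hp : Fact p.Prime]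

/-- `p`-subgroups of equal order are conjugate -/
def CC (p : ℕ) (G : Type u) [Group G] : Prop := ∀ H K : Subgroup G, IsPGroup p H → IsPGroup p K → Nat.card H = Nat.card K →
      ∃ g : G, K = H.map (MulAut.conj g).toMonoidHom

theorem inj_of_coprime {M R : Subgroup G} [M.Normal] (hM : (Nat.card M).Coprime p) (hR : IsPGroup p R) :
    Function.Injective ((QuotientGroup.mk' M).comp R.subtype) := by
  rw [← MonoidHom.ker_eq_bot_iff, eq_bot_iff]
  intro z hz
  have h7 : (z : G) ∈ M := (QuotientGroup.eq_one_iff _).1 (MonoidHom.mem_ker.1 hz)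
  obtain ⟨k, hk⟩ := hR z
  have h1 : (z : G) ^ p ^ k = 1 := congrArg Subtype.val hk
  have h2 : (z : G) ^ Nat.card M = 1 := congrArg Subtype.val (pow_card_eq_one' (x := (⟨z, h7⟩ : M)))
  have h3 : orderOf (z : G) = 1 := Nat.eq_one_of_dvd_coprimes (hM.pow_right k) (orderOf_dvd_of_pow_eq_one h2) (orderOf_dvd_of_pow_eq_one h1)
  rw [mem_bot]
  exact Subtype.ext (orderOf_eq_one_iff.1 h3)

theorem card_map_of {M R : Subgroup G} [M.Normal] (hM : (Nat.card M).Coprime p) (hR : IsPGroup p R) :
    Nat.card (R.map (QuotientGroup.mk' M)) = Nat.card R := by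
  have h7 : R.map (QuotientGroup.mk' M) = ((QuotientGroup.mk' M).comp R.subtype).range := by
    rw [MonoidHom.range_comp, Subgroup.range_subtype]
  rw [h7]
  exact (Nat.card_congr (MonoidHom.ofInjective (inj_of_coprime hM hR)).toEquiv).symm

theorem lift_p {M : Subgroup G} [M.Normal] (hM : (Nat.card M).Coprime p) {B : Subgroup (G ⧸ M)} (hB : IsPGroup p B) :
    ∃ B0 : Subgroup G, IsPGroup p B0 ∧ B0.map (QuotientGroup.mk' M) = B := by
  set σ := QuotientGroup.mk' M with hσ
  have hσs : Function.Surjective σ := QuotientGroup.mk'_surjective M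
  set L := B.comap σ with hL
  obtain ⟨S⟩ : Nonempty (Sylow p L) := inferInstance
  set R := (S : Subgroup L).map L.subtype with hR
  have hRp : IsPGroup p R := S.2.map _
  refine ⟨R, hRp, ?_⟩
  have h1 : R.map σ ≤ B := by rw [Subgroup.map_le_iff_le_comap]; exact map_subtype_le _
  apply Subgroup.eq_of_le_of_card_ge h1
  rw [card_map_of hM hRp]
  have h2 : Nat.card L = Nat.card M * Nat.card B := by
    rw [hL, Cores.card_comap_eq σ hσs, QuotientGroup.ker_mk']
  have h3 : Nat.card R = Nat.card S := Subgroup.card_map_of_injective L.subtype_injective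
  obtain ⟨c, hc⟩ := IsPGroup.iff_card.1 hB
  have h4 : Nat.card B ∣ Nat.card R := by
    rw [h3, hc]
    apply S.pow_dvd_card_of_pow_dvd_card
    rw [h2, hc]
    exact Dvd.intro_left _ rfl
  exact Nat.le_of_dvd Nat.card_pos h4

theorem CC.quot (h : CC p G) {M : Subgroup G} [M.Normal] (hM : (Nat.card M).Coprime p) : CC p (G ⧸ M) := by
  intro A B hA hB hAB
  obtain ⟨A0, hA0, rfl⟩ := lift_p hM hA
  obtain ⟨B0, hB0, rfl⟩ := lift_p hM hB
  rw [card_map_of hM hA0, card_map_of hM hB0] at hAB
  obtain ⟨g, hg⟩ := h A0 B0 hA0 hB0 hAB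
  refine ⟨QuotientGroup.mk' M g, ?_⟩
  rw [hg, Subgroup.map_map, Subgroup.map_map]
  congr 1

/-- a proper nontrivial normal subgroup in a Sylow subgroup forces the Sylow subgroup to be cyclic -/
theorem cyclic_of_normal (hp2 : p ≠ 2) (h : CC p G) {Q N : Subgroup G} (hQ : IsPGroup p Q) (hN : N.Normal) (hNQ : N ≤ Q) (hN1 : N ≠ ⊥) (hNQ' : N ≠ Q) :
    IsCyclic Q := by
  have hNp := hQ.to_le hNQ
  obtain ⟨s, hs⟩ := IsPGroup.iff_card.1 hNp
  obtain ⟨k, hk⟩ := IsPGroup.iff_card.1 hQ
  have hs1 : 1 ≤ s := by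
    rcases s with _ | s
    · rw [pow_zero] at hs
      exact absurd (Subgroup.card_eq_one.1 hs) hN1
    · omega
  have hsk : s < k := by
    by_contra hcon
    apply hNQ'
    apply Subgroup.eq_of_le_of_card_ge hNQ
    rw [hs, hk]
    exact Nat.pow_le_pow_right hp.out.pos (by omega)
  refine UniqSub.cyclic_of_unique_aux hp.out s hs1 (Or.inl hp2) k Q hk hsk ?_
  have key : ∀ A : Subgroup Q, Nat.card A = p ^ s → A = N.subgroupOf Q := by
    intro A hA
    have h1 : Nat.card (A.map Q.subtype) = p ^ s := by rw [Subgroup.card_map_of_injective Q.subtype_injective]; exact hA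
    obtain ⟨g, hg⟩ := h N (A.map Q.subtype) hNp ((hQ.to_subgroup A).map _) (by rw [h1, hs])
    have h2 : N.map (MulAut.conj g).toMonoidHom = N := by
      apply Subgroup.eq_of_le_of_card_ge
      · rintro _ ⟨x, hx, rfl⟩
        exact hN.conj_mem x hx g
      · rw [Subgroup.card_map_of_injective (MulAut.conj g).injective]
    rw [h2] at hg
    rw [← hg]
    exact (Subgroup.comap_map_eq_self_of_injective Q.subtype_injective A).symm
  intro A B hA hB
  rw [key A hA, key B hB]

theorem main (hp2 : p ≠ 2) (h : CC p G) (P : Sylow p G) (H : Subgroup G) [hHn : H.Normal] (hsolv : Cfsg.IsPSolvable p H) (hdiv : p ∣ Nat.card H) :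
    (∀ x ∈ (P : Subgroup G), ∀ y ∈ (P : Subgroup G), x * y = y * x) ∧ ((P : Subgroup G) ≤ H ∨ IsCyclic P) := by
  haveI := Cores.pPrimeCore_characteristic (G := H) p
  set M : Subgroup G := (Cfsg.pPrimeCore p H).map H.subtype with hM
  haveI hMn : M.Normal := inferInstance
  have hMH : M ≤ H := map_subtype_le _
  have hMc : (Nat.card M).Coprime p := by
    rw [hM, Subgroup.card_map_of_injective H.subtype_injective]
    exact Cores.pPrimeCore_coprime p
  set σ := QuotientGroup.mk' M with hσ
  have hσs : Function.Surjective σ := QuotientGroup.mk'_surjective M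
  have hC1 : CC p (G ⧸ M) := h.quot hMc
  set H1 := H.map σ with hH1
  haveI hH1n : H1.Normal := hHn.map σ hσs
  let f : H →* H1 := σ.subgroupMap H
  have hfs : Function.Surjective f := σ.subgroupMap_surjective H
  have hker : f.ker = Cfsg.pPrimeCore p H := by
    ext x
    rw [MonoidHom.mem_ker]
    constructor
    · intro hx
      have h1 : σ (x : G) = 1 := congrArg Subtype.val hx
      have h2 : (x : G) ∈ M := (QuotientGroup.eq_one_iff _).1 h1
      obtain ⟨y, hy, hyx⟩ := h2
      have : y = x := Subtype.ext hyx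
      rw [← this]; exact hy
    · intro hx
      apply Subtype.ext
      exact (QuotientGroup.eq_one_iff _).2 (⟨x, hx, rfl⟩ : (x : G) ∈ M)
  have hO1 : Cfsg.pPrimeCore p H1 = ⊥ := by
    have h1 := Cores.comap_pPrimeCore_le_of_ker (p := p) f hfs (by rw [hker]; exact Cores.pPrimeCore_coprime p)
    rw [← hker] at h1
    rw [← Subgroup.map_comap_eq_self_of_surjective hfs (Cfsg.pPrimeCore p H1), Subgroup.map_eq_bot_iff]
    exact h1
  have hs1 : Cfsg.IsPSolvable p H1 := PSol.of_surjective hsolv f hfs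
  have hH1c : p ∣ Nat.card H1 := by
    have h1 := f.ker.card_mul_index
    rw [Subgroup.index_ker, MonoidHom.range_eq_top.2 hfs, Subgroup.card_top, hker] at h1
    rw [← h1] at hdiv
    exact ((Nat.Prime.dvd_mul hp.out).1 hdiv).resolve_left (Cores.pPrimeCore_not_dvd p)
  haveI : Nontrivial H1 := by
    rw [← Finite.one_lt_card_iff_nontrivial]
    exact lt_of_lt_of_le hp.out.one_lt (Nat.le_of_dvd Nat.card_pos hH1c)
  have hN1 : Cfsg.pCore p H1 ≠ ⊥ := by
    rcases PSol.core_ne_bot hs1 with h1 | h1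
    · exact h1
    · exact absurd hO1 h1
  haveI := Cores.pCore_characteristic (G := H1) p
  set N : Subgroup (G ⧸ M) := (Cfsg.pCore p H1).map H1.subtype with hN
  haveI hNn : N.Normal := inferInstance
  have hNH1 : N ≤ H1 := map_subtype_le _
  have hNp : IsPGroup p N := (Cores.pCore_isPGroup p).map _
  have hNb : N ≠ ⊥ := by
    intro h1
    rw [hN, Subgroup.map_eq_bot_iff_of_injective _ H1.subtype_injective] at h1
    exact hN1 h1
  set P1 : Sylow p (G ⧸ M) := P.mapSurjective hσs with hP1
  have hP1c : (P1 : Subgroup (G ⧸ M)) = (P : Subgroup G).map σ := rfl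
  have hNP : N ≤ P1 := by
    have h1 : N ≤ Cfsg.pCore p (G ⧸ M) := Cores.le_pCore hNn hNp
    exact h1.trans (Cores.pCore_le_sylow P1)
  let e : P →* P1 := σ.subgroupMap (P : Subgroup G)
  have heinj : Function.Injective e := by
    intro a b hab
    exact inj_of_coprime hMc P.2 (congrArg Subtype.val hab)
  have hesurj : Function.Surjective e := σ.subgroupMap_surjective _
  have hcyc : IsCyclic P1 → IsCyclic P := fun hc => isCyclic_of_injective e heinj
  have hcab : IsCyclic P → ∀ x ∈ (P : Subgroup G), ∀ y ∈ (P : Subgroup G), x * y = y * x := by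
    intro hc x hx y hy
    obtain ⟨g, hg⟩ := hc.exists_generator
    obtain ⟨k, hk⟩ := mem_zpowers_iff.1 (hg ⟨x, hx⟩)
    obtain ⟨l, hl⟩ := mem_zpowers_iff.1 (hg ⟨y, hy⟩)
    have h2 : (⟨x, hx⟩ : P) * ⟨y, hy⟩ = ⟨y, hy⟩ * ⟨x, hx⟩ := by
      rw [← hk, ← hl, ← zpow_add, ← zpow_add, add_comm]
    exact congrArg Subtype.val h2
  by_cases hNP1 : N = P1
  · -- the Sylow subgroup is normal
    have hPH : (P : Subgroup G) ≤ H := by
      intro x hx
      have h1 : σ x ∈ H1 := by
        apply hNH1
        rw [hNP1]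
        exact ⟨x, hx, rfl⟩
      obtain ⟨y, hy, hyx⟩ := h1
      have h2 : y⁻¹ * x ∈ M := QuotientGroup.eq.1 hyx
      have h3 : x = y * (y⁻¹ * x) := by group
      rw [h3]; exact H.mul_mem hy (hMH h2)
    haveI hP1n : (P1 : Subgroup (G ⧸ M)).Normal := by rw [← hNP1]; exact hNn
    set Φ : Subgroup (G ⧸ M) := (frattini P1).map (P1 : Subgroup (G ⧸ M)).subtype with hΦ
    haveI hΦn : Φ.Normal := inferInstance
    have hΦP : Φ ≤ P1 := map_subtype_le _
    by_cases hΦb : Φ = ⊥
    · refine ⟨?_, Or.inl hPH⟩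
      have hfr : frattini P1 = ⊥ := by
        rw [hΦ, Subgroup.map_eq_bot_iff_of_injective _ (Subgroup.subtype_injective _)] at hΦb
        exact hΦb
      intro x hx y hy
      have h1 : ⁅e ⟨x, hx⟩, e ⟨y, hy⟩⁆ ∈ frattini P1 :=
        Nilp.commutator_le_frattini P1.2 (Subgroup.commutator_mem_commutator (mem_top _) (mem_top _))
      rw [hfr, mem_bot, ← map_commutatorElement] at h1
      have h2 : ⁅(⟨x, hx⟩ : P), (⟨y, hy⟩ : P)⁆ = 1 := heinj (by rw [h1, map_one])
      rw [commutatorElement_eq_one_iff_mul_comm] at h2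
      exact congrArg Subtype.val h2
    · have hΦne : Φ ≠ P1 := by
        intro h1
        have h2 : frattini P1 = ⊤ := by
          apply Subgroup.eq_top_of_card_eq
          rw [← Subgroup.card_map_of_injective (Subgroup.subtype_injective (P1 : Subgroup (G ⧸ M))), ← hΦ, h1]
        haveI : Nontrivial P1 := by
          rw [Subgroup.nontrivial_iff_ne_bot]
          intro h3
          apply hNb
          rw [hNP1, h3]
        have h3 : (⊥ : Subgroup P1) ⊔ frattini P1 = ⊤ := by rw [h2, bot_sup_eq]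
        have h4 := frattini_nongenerating h3
        exact bot_ne_top h4
      have hc := hcyc (cyclic_of_normal hp2 hC1 P1.2 hΦn hΦP hΦb hΦne)
      exact ⟨hcab hc, Or.inr hc⟩
  · have hc := hcyc (cyclic_of_normal hp2 hC1 P1.2 hNn hNP hNb hNP1)
    exact ⟨hcab hc, Or.inr hc⟩

end Cfsg.Agent.H2.PConjQ
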