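import Mathlib
import Cfsg.Prelude
import Cfsg.Agent.H2.CND
import Cfsg.Agent.Lib.FpfNilp
import Cfsg.Agent.Lib.FrobGrp

set_option autoImplicit false

/-! Solvable groups with disconnected prime graph. -/

namespace Cfsg.Agent.H2.PGraph

open Subgroup Cfsg.Agent.Lib Cfsg.Agent.Lib.Cores Cfsg.Agent.H2.CND Cfsg.Agent.H2.CNC
open scoped Pointwise

universe u
variable {G : Type u} [Group G]

/-- all prime divisors of `n` lie in `A` -/
def Pi (A : Set ℕ) (n : ℕ) : Prop := ∀ q : ℕ, q.Prime → q ∣ n → q ∈ A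

theorem Pi.dvd {A : Set ℕ} {m n : ℕ} (h : Pi A n) (hd : m ∣ n) : Pi A m := fun q hq hqd => h q hq (hqd.trans hd)

theorem Pi.mul {A : Set ℕ} {m n : ℕ} (h : Pi A n) (h' : Pi A m) : Pi A (n * m) := fun q hq hqd =>
  (hq.dvd_mul.mp hqd).elim (h q hq) (h' q hq)

theorem Pi.coprime {A : Set ℕ} {m n : ℕ} (h : Pi A n) (h' : Pi Aᶜ m) : n.Coprime m := by
  rw [Nat.coprime_iff_gcd_eq_one]
  by_contra hne
  obtain ⟨p, hp, hd⟩ := Nat.exists_prime_and_dvd hne
  exact h' p hp (hd.trans (Nat.gcd_dvd_right _ _)) (h p hp (hd.trans (Nat.gcd_dvd_left _ _)))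

/-- the largest normal `A`-subgroup -/
theorem exists_max [Finite G] (A : Set ℕ) : ∃ N : Subgroup G, N.Normal ∧ Pi A (Nat.card N) ∧
    ∀ M : Subgroup G, M.Normal → Pi A (Nat.card M) → M ≤ N := by
  have h := sSup_mem_of_finite {N : Subgroup G | N.Normal ∧ Pi A (Nat.card N)} ⟨inferInstance, by
    rw [card_bot]; intro q hq hd; exact absurd (Nat.dvd_one.mp hd) hq.one_lt.ne'⟩ (by
    rintro B ⟨hB1, hB2⟩ C ⟨hC1, hC2⟩
    haveI := hB1
    haveI := hC1
    refine ⟨inferInstance, (hB2.mul hC2).dvd (card_sup_dvd (N := B) (H := C) le_normalizer_of_normal)⟩)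
  exact ⟨_, h.1, h.2, fun M hM hMA => le_sSup ⟨hM, hMA⟩⟩

/-- powers of prime order -/
theorem exists_prime_power' [Finite G] {x : G} {r : ℕ} (hr : r.Prime) (hd : r ∣ orderOf x) : ∃ k : ℕ, orderOf (x ^ k) = r := by
  obtain ⟨k, hk⟩ := hd
  have hk0 : 0 < orderOf x := orderOf_pos x
  refine ⟨k, ?_⟩
  rw [orderOf_pow' x (by rintro rfl; rw [mul_zero] at hk; omega), hk, Nat.gcd_eq_right (Dvd.intro_left r rfl),
      Nat.mul_div_cancel _ (Nat.pos_of_ne_zero (by rintro rfl; rw [mul_zero] at hk; omega))]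

/-- the graph condition -/
def NE (G : Type*) [Group G] (A : Set ℕ) : Prop :=
  ∀ a ∈ A, ∀ b ∉ A, a.Prime → b.Prime → ¬ ∃ g : G, orderOf g = a * b

theorem NE.compl {A : Set ℕ} (h : NE G A) : NE G Aᶜ := by
  rintro a ha b hb hap hbp ⟨g, hg⟩
  exact h b (by simpa using hb) a ha hbp hap ⟨g, by rw [hg, mul_comm]⟩

theorem NE.quotient [Finite G] {A : Set ℕ} (h : NE G A) (N : Subgroup G) [N.Normal] : NE (G ⧸ N) A := by
  rintro a ha b hb hap hbp ⟨g, hg⟩
  obtain ⟨g, rfl⟩ := QuotientGroup.mk'_surjective N g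
  have h1 : a * b ∣ orderOf g := hg ▸ orderOf_map_dvd (QuotientGroup.mk' N) g
  obtain ⟨k, hk⟩ := h1
  have hk0 : 0 < orderOf g := orderOf_pos g
  have hkp : 0 < k := Nat.pos_of_ne_zero (by rintro rfl; rw [mul_zero] at hk; omega)
  apply h a ha b hb hap hbp
  refine ⟨g ^ k, ?_⟩
  rw [orderOf_pow' g hkp.ne', hk, Nat.gcd_eq_right (Dvd.intro_left _ rfl), Nat.mul_div_cancel _ hkp]

/-- elements of coprime type do not commute -/
theorem NE.not_comm [Finite G] {A : Set ℕ} (h : NE G A) {x y : G} (hx : Pi A (orderOf x)) (hx1 : x ≠ 1) (hy : Pi Aᶜ (orderOf y)) (hy1 : y ≠ 1)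
    (hxy : x * y = y * x) : False := by
  obtain ⟨a, hap, had⟩ := Nat.exists_prime_and_dvd (fun h => hx1 (orderOf_eq_one_iff.mp h))
  obtain ⟨b, hbp, hbd⟩ := Nat.exists_prime_and_dvd (fun h => hy1 (orderOf_eq_one_iff.mp h))
  obtain ⟨i, hi⟩ := exists_prime_power' hap had
  obtain ⟨j, hj⟩ := exists_prime_power' hbp hbd
  apply h a (hx a hap had) b (hy b hbp hbd) hap hbp
  refine ⟨x ^ i * y ^ j, ?_⟩
  have hc : Commute (x ^ i) (y ^ j) := (show Commute x y from hxy).pow_pow i j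
  rw [hc.orderOf_mul_eq_mul_orderOf_of_coprime, hi, hj]
  rw [hi, hj]
  exact (Nat.coprime_primes hap hbp).mpr (fun hab => hy b hbp hbd (hab ▸ hx a hap had))

theorem pi_orderOf {A : Set ℕ} {N : Subgroup G} [Finite G] (h : Pi A (Nat.card N)) {x : G} (hx : x ∈ N) : Pi A (orderOf x) :=
  h.dvd (Subgroup.orderOf_dvd_natCard N hx)

/-- Frobenius complement inside a normal extension -/
theorem frob_of_coprime [Finite G] {A : Set ℕ} (h : NE G A) {N : Subgroup G} [N.Normal] (hN : Pi A (Nat.card N)) (hN1 : N ≠ ⊥)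
    (hi : Pi Aᶜ N.index) (hNt : N ≠ ⊤) : ∃ C : Subgroup G, IsComplement' N C ∧ Cfsg.IsFrobeniusComplement C ∧ Cfsg.frobeniusKernel C = (N : Set G) ∧
      (∀ e ∈ C, e ≠ 1 → N ⊓ centralizer ({e} : Set G) = ⊥) ∧ Pi Aᶜ (Nat.card C) := by
  obtain ⟨C, hC⟩ := Subgroup.exists_right_complement'_of_coprime (hN.coprime hi)
  have hCc : Pi Aᶜ (Nat.card C) := by rw [← hC.symm.index_eq_card]; exact hi
  have hC1 : C ≠ ⊥ := by
    rintro rfl
    exact hNt (isComplement'_bot_right.mp hC)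
  have hfree : ∀ e ∈ C, e ≠ 1 → ∀ n ∈ N, n * e = e * n → n = 1 := by
    intro e he he1 n hn hne
    by_contra hn1
    exact h.not_comm (pi_orderOf hN hn) hn1 (pi_orderOf hCc he) he1 hne
  have hf := FrobGrp.frobenius_of_complement hC.disjoint.eq_bot hC.sup_eq_top hN1 hC1 hfree
  refine ⟨C, hC, hf.1, hf.2, ?_, hCc⟩
  intro e he he1
  rw [eq_bot_iff]
  intro n hn
  obtain ⟨h1, h2⟩ := mem_inf.mp hn
  exact mem_bot.mpr (hfree e he he1 n h1 (mem_centralizer_singleton_iff.mp h2))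

theorem NE.subgroup {A : Set ℕ} (h : NE G A) (H : Subgroup G) : NE H A := by
  rintro a ha b hb hap hbp ⟨g, hg⟩
  exact h a ha b hb hap hbp ⟨g, by rw [Subgroup.orderOf_coe]; exact hg⟩

theorem Pi.one {A : Set ℕ} {n : ℕ} (hn : n ≠ 0) (h : Pi A n) (h' : Pi Aᶜ n) : n = 1 := by
  by_contra hne
  obtain ⟨p, hp, hd⟩ := Nat.exists_prime_and_dvd hne
  exact h' p hp hd (h p hp hd)

/-- existence of a nontrivial largest normal `A`-subgroup or `Aᶜ`-subgroup -/
theorem max_ne_bot [Finite G] (hs : Group.IsSolvable G) (hG : Nat.card G ≠ 1) {A : Set ℕ} {N : Subgroup G}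
    (hmax : ∀ M : Subgroup G, M.Normal → Pi A (Nat.card M) → M ≤ N)
    (hno : ∀ M : Subgroup G, M.Normal → Pi Aᶜ (Nat.card M) → M = ⊥) : N ≠ ⊥ := by
  intro hN
  apply hG
  apply card_one_of_fitting hs
  rw [fitting_eq_bot_iff]
  intro p hp
  haveI : Fact p.Prime := ⟨hp⟩
  obtain ⟨n, hn⟩ := IsPGroup.iff_card.mp (pCore_isPGroup (G := G) p)
  by_cases hpA : p ∈ A
  · rw [eq_bot_iff, ← hN]
    apply hmax _ (pCore_normal (G := G) p)
    intro q hq hd
    rw [hn] at hd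
    rw [(Nat.prime_dvd_prime_iff_eq hq hp).mp (hq.dvd_of_dvd_pow hd)]; exact hpA
  · apply hno _ (pCore_normal (G := G) p)
    intro q hq hd
    rw [hn] at hd
    rw [(Nat.prime_dvd_prime_iff_eq hq hp).mp (hq.dvd_of_dvd_pow hd)]; exact hpA

/-- the second step: `B` the largest normal `Aᶜ`-subgroup, `G` has no normal `A`-subgroups, `B` is a Frobenius complement -/
theorem second [Finite G] (hs : Group.IsSolvable G) {A : Set ℕ} (h : NE G A) {B : Subgroup G} [hBn : B.Normal] (hB : Pi Aᶜ (Nat.card B)) (hB1 : B ≠ ⊥)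
    (hBmax : ∀ M : Subgroup G, M.Normal → Pi Aᶜ (Nat.card M) → M ≤ B) (hBt : B ≠ ⊤)
    (hS : ∀ (p : ℕ) (_ : Fact p.Prime) (P : Sylow p B), IsCyclic P ∨ ∃ n : ℕ, Nonempty (P ≃* QuaternionGroup (2 ^ n)))
    (hu : 2 ∣ Nat.card B → ∃ s ∈ B, s ≠ 1 ∧ ∀ g : G, g * s * g⁻¹ = s) : Pi A B.index := by
  classical
  -- an element of prime order in `A`
  obtain ⟨s, hsp, hsA, hsd⟩ : ∃ s : ℕ, s.Prime ∧ s ∈ A ∧ s ∣ Nat.card G := by
    by_contra hcon
    push Not at hcon
    apply hBt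
    rw [eq_top_iff]
    apply hBmax ⊤ inferInstance
    rw [card_top]
    intro q hq hqd hqA
    exact hcon q hq hqA hqd
  haveI : Fact s.Prime := ⟨hsp⟩
  obtain ⟨y, hy⟩ := exists_prime_orderOf_dvd_card' (G := G) s hsd
  have hy1 : y ≠ 1 := by rintro rfl; rw [orderOf_one] at hy; exact hsp.one_lt.ne hy
  have hyA : Pi A (orderOf y) := by
    intro q hq hd
    rw [hy] at hd
    rw [(Nat.prime_dvd_prime_iff_eq hq hsp).mp hd]; exact hsA
  have hfp : ∀ x ∈ B, x ≠ 1 → ∀ z : G, Pi A (orderOf z) → z ≠ 1 → z * x ≠ x * z := fun x hx hx1 z hz hz1 hzx =>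
    h.not_comm hz hz1 (pi_orderOf hB hx) hx1 hzx
  -- `B` is nilpotent
  have hBnil : Group.IsNilpotent B := by
    let φ : MulAut B := MulAut.conjNormal y
    have hφ : ∀ b : B, ((φ b : B) : G) = y * b * y⁻¹ := fun b => MulAut.conjNormal_apply y b
    have hφ1 : φ ≠ 1 := by
      intro h1
      obtain ⟨b, hb1⟩ := ne_bot_iff_exists_ne_one.mp hB1
      have h2 := hφ b
      rw [h1] at h2
      exact hfp b b.2 (fun hb => hb1 (Subtype.ext hb)) y hyA hy1 (mul_inv_eq_iff_eq_mul.mp h2.symm)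
    have hord : orderOf φ = s := by
      have h2 : φ ^ s = 1 := by
        rw [show φ = MulAut.conjNormal y from rfl, ← map_pow, ← hy, pow_orderOf_eq_one, map_one]
      exact orderOf_eq_prime h2 hφ1
    apply FpfNilp.isNilpotent_of_fpf φ hord
    intro b hb
    by_contra hb1
    have h2 := hφ b
    rw [hb] at h2
    exact hfp b b.2 (fun hb => hb1 (Subtype.ext hb)) y hyA hy1 (mul_inv_eq_iff_eq_mul.mp h2.symm)
  have hodd : ¬ 2 ∣ Nat.card B := by
    intro h2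
    obtain ⟨t, ht, ht1, htc⟩ := hu h2
    exact hfp t ht ht1 y hyA hy1 (mul_inv_eq_iff_eq_mul.mp (htc y))
  have hcyc : IsCyclic B := by
    rcases struct hBnil hS with hc | ⟨C, Q, -, -, -, -, n, ⟨e⟩⟩
    · exact hc
    · exfalso
      apply hodd
      haveI : NeZero (2 ^ n) := ⟨by positivity⟩
      have h1 : Nat.card Q = 4 * 2 ^ n := by rw [Nat.card_congr e.toEquiv, Nat.card_eq_fintype_card, QuaternionGroup.card]
      have h2 : 2 ∣ Nat.card Q := by rw [h1]; exact ⟨2 * 2 ^ n, by ring⟩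
      exact h2.trans (card_subgroup_dvd_card Q)
  -- the centraliser
  have hD : centralizer (B : Set G) ≤ B := by
    apply hBmax _ inferInstance
    intro q hq hd hqA
    haveI : Fact q.Prime := ⟨hq⟩
    obtain ⟨b, hb⟩ := exists_prime_orderOf_dvd_card' q hd
    obtain ⟨a, ha1⟩ := ne_bot_iff_exists_ne_one.mp hB1
    have hb1 : (b : G) ≠ 1 := by
      intro h1
      have : b = 1 := Subtype.ext h1
      rw [this, orderOf_one] at hb; exact hq.one_lt.ne hb
    refine hfp a a.2 (fun h => ha1 (Subtype.ext h)) b ?_ hb1 (mem_centralizer_iff.mp b.2 a a.2).symm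
    rw [Subgroup.orderOf_coe, hb]
    intro r hr hrd
    rw [(Nat.prime_dvd_prime_iff_eq hr hq).mp hrd]; exact hqA
  have hf := QuotientGroup.mk'_surjective B
  have hcomm : ∀ g h : G, QuotientGroup.mk' B g * QuotientGroup.mk' B h = QuotientGroup.mk' B h * QuotientGroup.mk' B g := by
    intro g h
    have h1 := hD (comm_mem_centralizer hcyc g h)
    have h2 : QuotientGroup.mk' B (g * h * g⁻¹ * h⁻¹) = 1 := (QuotientGroup.eq_one_iff _).mpr h1
    rw [map_mul, map_mul, map_mul, map_inv, map_inv] at h2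
    exact mul_inv_eq_iff_eq_mul.mp (mul_inv_eq_one.mp h2)
  intro r hr hrd
  by_contra hrA
  haveI : Fact r.Prime := ⟨hr⟩
  obtain ⟨x, hx⟩ := exists_prime_orderOf_dvd_card' (G := G ⧸ B) r hrd
  have hn : (zpowers x).Normal := by
    refine ⟨fun n hn g => ?_⟩
    obtain ⟨n', rfl⟩ := hf n
    obtain ⟨g', rfl⟩ := hf g
    rw [hcomm g' n', mul_inv_cancel_right]; exact hn
  have h1 : (zpowers x).comap (QuotientGroup.mk' B) ≤ B := by
    apply hBmax _ (hn.comap _)
    rw [card_comap_eq _ hf, QuotientGroup.ker_mk', Nat.card_zpowers, hx]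
    apply hB.mul
    intro q hq hqd
    rw [(Nat.prime_dvd_prime_iff_eq hq hr).mp hqd]; exact hrA
  obtain ⟨x', rfl⟩ := hf x
  have h2 : x' ∈ B := h1 (mem_comap.mpr (mem_zpowers _))
  have h3 : QuotientGroup.mk' B x' = 1 := (QuotientGroup.eq_one_iff x').mpr h2
  rw [h3, orderOf_one] at hx
  exact hr.one_lt.ne hx

end Cfsg.Agent.H2.PGraph
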