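import Mathlib

/-! Derived length of linear `p`-groups. -/

set_option autoImplicit false
set_option linter.unusedSectionVars false
set_option linter.style.haveILetI false
set_option linter.unusedVariables false

namespace Cfsg.Agent.H2.PLinDl

open Module
open scoped commutatorElement

universe u v w

variable {K : Type w} [Field K]

section restr
variable {V : Type v} [AddCommGroup V] [Module K V] {P : Type u} [Group P]

/-- restriction to an invariant subspace -/
def sub (ρ : P →* End K V) (W : Submodule K V) (h : ∀ g : P, ∀ x ∈ W, ρ g x ∈ W) : P →* End K W where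
  toFun g := (ρ g).restrict (h g)
  map_one' := by ext x; simp
  map_mul' a b := by ext x; simp

theorem sub_apply (ρ : P →* End K V) (W : Submodule K V) (h : ∀ g : P, ∀ x ∈ W, ρ g x ∈ W) (g : P) (x : W) :
    ((sub ρ W h g x : W) : V) = ρ g x := rfl

/-- action on a quotient -/
def quo (ρ : P →* End K V) (W : Submodule K V) (h : ∀ g : P, ∀ x ∈ W, ρ g x ∈ W) : P →* End K (V ⧸ W) where
  toFun g := W.mapQ W (ρ g) (h g)
  map_one' := by ext x; simp
  map_mul' a b := by ext x; simp

theorem quo_apply (ρ : P →* End K V) (W : Submodule K V) (h : ∀ g : P, ∀ x ∈ W, ρ g x ∈ W) (g : P) (x : V) :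
    quo ρ W h g (W.mkQ x) = W.mkQ (ρ g x) := rfl

theorem inv_apply (ρ : P →* End K V) (g : P) (x : V) : ρ g⁻¹ (ρ g x) = x := by
  rw [← Module.End.mul_apply, ← map_mul, inv_mul_cancel, map_one]; rfl

theorem apply_inv (ρ : P →* End K V) (g : P) (x : V) : ρ g (ρ g⁻¹ x) = x := by
  rw [← Module.End.mul_apply, ← map_mul, mul_inv_cancel, map_one]; rfl

/-- if `g` acts trivially on `W` and `V/W` then `(ρ g - 1)` maps `V` to `W` -/
theorem diff_mem (ρ : P →* End K V) (W : Submodule K V) (h : ∀ g : P, ∀ x ∈ W, ρ g x ∈ W) {g : P} (hq : quo ρ W h g = 1) (x : V) :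
    ρ g x - x ∈ W := by
  have h1 := quo_apply ρ W h g x
  rw [hq] at h1
  have h2 : W.mkQ (ρ g x - x) = 0 := by
    rw [map_sub, ← h1]; simp
  rwa [Submodule.mkQ_apply, Submodule.Quotient.mk_eq_zero] at h2

theorem fix_of_sub (ρ : P →* End K V) (W : Submodule K V) (h : ∀ g : P, ∀ x ∈ W, ρ g x ∈ W) {g : P} (hs : sub ρ W h g = 1) {x : V}
    (hx : x ∈ W) : ρ g x = x := by
  have h1 := sub_apply ρ W h g ⟨x, hx⟩
  rw [hs] at h1
  exact h1.symm

theorem comm_ker (ρ : P →* End K V) {a b : P} (h : ρ a * ρ b = ρ b * ρ a) : ρ ⁅a, b⁆ = 1 := by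
  have e : ⁅a, b⁆ = (a * b) * (b * a)⁻¹ := by rw [commutatorElement_def]; group
  rw [e, map_mul, map_mul ρ a b, h, ← map_mul ρ b a, ← map_mul, mul_inv_cancel, map_one]

end restr

theorem derived_le {P : Type u} [Group P] {P0 : Subgroup P} (h : derivedSeries P 1 ≤ P0) (j : ℕ) :
    derivedSeries P (j + 1) ≤ (derivedSeries P0 j).map P0.subtype := by
  induction j with
  | zero => rw [derivedSeries_zero, ← MonoidHom.range_eq_map, Subgroup.range_subtype]; exact h
  | succ j ih =>
    rw [derivedSeries_succ (G := P) (j + 1), derivedSeries_succ (G := P0) j, Subgroup.map_commutator]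
    exact Subgroup.commutator_mono ih ih

section charp
variable {p : ℕ} [hp : Fact p.Prime] [CharP K p]

theorem fixed {V : Type v} [AddCommGroup V] [Module K V] [Nontrivial V] {P : Type u} [Group P] [Finite P] (hP : IsPGroup p P)
    (ρ : P →* End K V) : ∃ v : V, v ≠ 0 ∧ ∀ g, ρ g v = v := by
  classical
  letI : Algebra (ZMod p) K := ZMod.algebra K p
  letI : Module (ZMod p) V := Module.compHom V (algebraMap (ZMod p) K)
  obtain ⟨v0, hv0⟩ := exists_ne (0 : V)
  let A : Submodule (ZMod p) V := Submodule.span (ZMod p) (Set.range fun g : P => ρ g v0)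
  haveI : Module.Finite (ZMod p) A := Module.Finite.span_of_finite (ZMod p) (Set.finite_range _)
  haveI : Finite A := Module.finite_of_finite (ZMod p)
  have hsm : ∀ (c : ZMod p) (x : V), c • x = (algebraMap (ZMod p) K c) • x := fun c x => rfl
  have hA : ∀ g : P, ∀ x ∈ A, ρ g x ∈ A := by
    intro g x hx
    induction hx using Submodule.span_induction with
    | mem x hx =>
      obtain ⟨h, rfl⟩ := hx
      apply Submodule.subset_span
      exact ⟨g * h, by simp [map_mul]⟩
    | zero => rw [map_zero]; exact A.zero_mem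
    | add x y _ _ hx hy => rw [map_add]; exact A.add_mem hx hy
    | smul c x _ hx =>
      rw [hsm, map_smul, ← hsm]
      exact A.smul_mem c hx
  letI : MulAction P A :=
    { smul := fun g x => ⟨ρ g x, hA g x x.2⟩
      one_smul := fun x => Subtype.ext (by show ρ 1 (x : V) = x; rw [map_one]; rfl)
      mul_smul := fun g h x => Subtype.ext (by show ρ (g * h) (x : V) = ρ g (ρ h x); rw [map_mul]; rfl) }
  have hact : ∀ (g : P) (x : A), ((g • x : A) : V) = ρ g x := fun _ _ => rfl
  have hv0A : v0 ∈ A := by
    apply Submodule.subset_span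
    exact ⟨1, by simp⟩
  have hd : p ∣ Nat.card A := by
    have h1 : addOrderOf (⟨v0, hv0A⟩ : A) = p := by
      apply addOrderOf_eq_prime
      · apply Subtype.ext
        show p • v0 = 0
        rw [← Nat.cast_smul_eq_nsmul K, CharP.cast_eq_zero, zero_smul]
      · intro h
        exact hv0 (congrArg Subtype.val h)
    exact h1.symm.dvd.trans (addOrderOf_dvd_natCard _)
  obtain ⟨b, hb, hb1⟩ := hP.exists_fixed_point_of_prime_dvd_card_of_fixed_point A hd (a := 0) (by
    intro g
    apply Subtype.ext
    rw [hact]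
    simp)
  refine ⟨b, fun h => hb1 (Subtype.ext h.symm), fun g => ?_⟩
  have := congrArg Subtype.val (hb g)
  rwa [hact] at this

theorem flag {V : Type v} [AddCommGroup V] [Module K V] [FiniteDimensional K V] {P : Type u} [Group P] [Finite P] (hP : IsPGroup p P)
    (ρ : P →* End K V) (m : ℕ) (hm : m ≤ finrank K V) : ∃ W : Submodule K V, (∀ g : P, ∀ x ∈ W, ρ g x ∈ W) ∧ finrank K W = m := by
  induction m with
  | zero => exact ⟨⊥, fun g x hx => by
      rw [Submodule.mem_bot] at hx ⊢
      rw [hx, map_zero], by simp⟩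
  | succ m ih =>
    obtain ⟨W, hW, hWm⟩ := ih (by omega)
    have hfr : finrank K (V ⧸ W) = finrank K V - m := by
      rw [Submodule.finrank_quotient, hWm]
    haveI : Nontrivial (V ⧸ W) := by
      apply Module.nontrivial_of_finrank_pos (R := K)
      rw [hfr]; omega
    obtain ⟨v, hv, hfix⟩ := fixed hP (quo ρ W hW)
    obtain ⟨x, rfl⟩ := W.mkQ_surjective v
    have hxW : x ∉ W := fun h => hv (by rwa [Submodule.mkQ_apply, Submodule.Quotient.mk_eq_zero])
    refine ⟨W ⊔ Submodule.span K {x}, ?_, ?_⟩
    · intro g y hy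
      obtain ⟨w, hw, z, hz, rfl⟩ := Submodule.mem_sup.1 hy
      obtain ⟨c, rfl⟩ := Submodule.mem_span_singleton.1 hz
      have h1 : ρ g x - x ∈ W := by
        have h2 := hfix g
        rw [quo_apply] at h2
        have h3 : W.mkQ (ρ g x - x) = 0 := by rw [map_sub, h2, sub_self]
        rwa [Submodule.mkQ_apply, Submodule.Quotient.mk_eq_zero] at h3
      have h2 : ρ g (w + c • x) = (ρ g w + c • (ρ g x - x)) + c • x := by
        rw [map_add, map_smul, smul_sub]; abel
      rw [h2]
      exact Submodule.add_mem_sup (W.add_mem (hW g w hw) (W.smul_mem c h1)) (Submodule.smul_mem _ c (Submodule.mem_span_singleton_self x))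
    · have h1 := Submodule.finrank_sup_add_finrank_inf_eq W (Submodule.span K {x})
      have h2 : W ⊓ Submodule.span K {x} = ⊥ := by
        rw [eq_bot_iff]
        rintro y ⟨hy1, hy2⟩
        obtain ⟨c, rfl⟩ := Submodule.mem_span_singleton.1 hy2
        by_cases hc : c = 0
        · rw [hc, zero_smul]; exact Submodule.zero_mem _
        · exfalso
          apply hxW
          have := W.smul_mem c⁻¹ hy1
          rwa [smul_smul, inv_mul_cancel₀ hc, one_smul] at this
      have hx0 : x ≠ 0 := by rintro rfl; exact hxW W.zero_mem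
      rw [h2, finrank_bot, add_zero, hWm, finrank_span_singleton hx0] at h1
      exact h1

theorem mainB (k : ℕ) : ∀ {V : Type v} [AddCommGroup V] [Module K V] [FiniteDimensional K V] {P : Type u} [Group P] [Finite P],
    IsPGroup p P → ∀ (ρ : P →* End K V), finrank K V ≤ 2 ^ k → ∀ g ∈ derivedSeries P k, ρ g = 1 := by
  induction k with
  | zero =>
    intro V _ _ _ P _ _ hP ρ hfr g _
    rcases Nat.lt_or_ge (finrank K V) 1 with h | h
    · haveI : Subsingleton V := Module.finrank_zero_iff.1 (by omega : finrank K V = 0)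
      ext x
      exact Subsingleton.elim _ _
    · have h1 : finrank K V = 1 := by rw [pow_zero] at hfr; omega
      haveI : Nontrivial V := Module.nontrivial_of_finrank_pos (R := K) (by omega)
      obtain ⟨v, hv, hfix⟩ := fixed hP ρ
      ext x
      obtain ⟨c, rfl⟩ := (finrank_eq_one_iff_of_nonzero' v hv).1 h1 x
      rw [map_smul, hfix]; rfl
  | succ k ih =>
    intro V _ _ _ P _ _ hP ρ hfr g hg
    obtain ⟨W, hW, hWm⟩ := flag hP ρ (finrank K V / 2) (Nat.div_le_self _ _)
    have hfq : finrank K (V ⧸ W) = finrank K V - finrank K V / 2 := by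
      rw [Submodule.finrank_quotient, hWm]
    have h1 := ih hP (sub ρ W hW) (by rw [hWm]; rw [pow_succ] at hfr; omega)
    have h2 := ih hP (quo ρ W hW) (by rw [hfq]; rw [pow_succ] at hfr; omega)
    have hcomm : ∀ a ∈ derivedSeries P k, ∀ b ∈ derivedSeries P k, ρ a * ρ b = ρ b * ρ a := by
      intro a ha b hb
      have key : ∀ a ∈ derivedSeries P k, ∀ b ∈ derivedSeries P k, ∀ x, ρ a (ρ b x) = ρ a x + ρ b x - x := by
        intro a ha b hb x
        have h3 := diff_mem ρ W hW (h2 b hb) x
        have h4 := fix_of_sub ρ W hW (h1 a ha) h3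
        rw [map_sub] at h4
        have h5 : ρ a (ρ b x) = (ρ a (ρ b x) - ρ a x) + ρ a x := by abel
        rw [h5, h4]; abel
      ext x
      rw [Module.End.mul_apply, Module.End.mul_apply, key a ha b hb, key b hb a ha]
      abel
    have h3 : derivedSeries P (k + 1) ≤ ρ.ker := by
      rw [derivedSeries_succ, Subgroup.commutator_le]
      intro a ha b hb
      exact comm_ker ρ (hcomm a ha b hb)
    exact h3 hg

end charp

section clp
variable {p : ℕ} [hp : Fact p.Prime] [IsAlgClosed K]

/-- a unipotent element of order prime to the characteristic is trivial -/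
theorem unip {V : Type v} [AddCommGroup V] [Module K V] {P : Type u} [Group P] (hpK : (p : K) ≠ 0)
    (ρ : P →* End K V) {g : P} {k : ℕ} (hg : g ^ p ^ k = 1) (W : Submodule K V) (hW : ∀ g : P, ∀ x ∈ W, ρ g x ∈ W)
    (h1 : ∀ x ∈ W, ρ g x = x) (h2 : ∀ x, ρ g x - x ∈ W) : ρ g = 1 := by
  have h3 : ∀ (n : ℕ) (x : V), ρ (g ^ n) x = x + n • (ρ g x - x) := by
    intro n x
    induction n with
    | zero => simp
    | succ n ih =>
      rw [pow_succ', map_mul, Module.End.mul_apply, ih, map_add, map_nsmul, h1 _ (h2 x), succ_nsmul]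
      abel
  ext x
  have h4 := h3 (p ^ k) x
  rw [hg, map_one, Module.End.one_apply] at h4
  have h5 : (p ^ k) • (ρ g x - x) = 0 := by
    have h6 : x + p ^ k • (ρ g x - x) = x + 0 := by rw [← h4, add_zero]
    exact add_left_cancel h6
  rw [← Nat.cast_smul_eq_nsmul K, smul_eq_zero] at h5
  rcases h5 with h5 | h5
  · exfalso
    rw [Nat.cast_pow] at h5
    exact pow_ne_zero k hpK h5
  · exact sub_eq_zero.1 h5

theorem mainA (hpK : (p : K) ≠ 0) (n : ℕ) : ∀ {V : Type v} [AddCommGroup V] [Module K V] [FiniteDimensional K V] {P : Type u} [Group P] [Finite P],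
    IsPGroup p P → ∀ (ρ : P →* End K V) (k : ℕ), finrank K V = n → n < 2 ^ k → ∀ g ∈ derivedSeries P k, ρ g = 1 := by
  induction n using Nat.strong_induction_on with
  | _ n ih =>
  intro V _ _ _ P _ _ hP ρ k hfr hnk g hg
  by_cases hn0 : n = 0
  · haveI : Subsingleton V := Module.finrank_zero_iff.1 (by omega : finrank K V = 0)
    ext x
    exact Subsingleton.elim _ _
  haveI : Nontrivial V := Module.nontrivial_of_finrank_pos (R := K) (by omega)
  obtain ⟨k, rfl⟩ : ∃ k', k = k' + 1 := by
    rcases k with _ | k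
    · rw [pow_zero] at hnk; omega
    · exact ⟨k, rfl⟩
  by_cases hred : ∃ W : Submodule K V, (∀ g : P, ∀ x ∈ W, ρ g x ∈ W) ∧ W ≠ ⊥ ∧ W ≠ ⊤
  · obtain ⟨W, hW, hWb, hWt⟩ := hred
    have h1 : finrank K W < n := by rw [← hfr]; exact Submodule.finrank_lt hWt
    haveI : Nontrivial W := (Submodule.nontrivial_iff_ne_bot).2 hWb
    have h2 : 0 < finrank K W := Module.finrank_pos
    have h3 : finrank K (V ⧸ W) < n := by rw [Submodule.finrank_quotient]; omega
    have h4 := ih _ h1 hP (sub ρ W hW) (k + 1) rfl (by omega) g hg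
    have h5 := ih _ h3 hP (quo ρ W hW) (k + 1) rfl (by omega) g hg
    obtain ⟨l, hl⟩ := hP g
    exact unip hpK ρ hl W hW (fun x hx => fix_of_sub ρ W hW h4 hx) (diff_mem ρ W hW h5)
  · push Not at hred
    -- the scalars
    let Zs : Subgroup P :=
      { carrier := {g | ∃ c : K, ∀ x, ρ g x = c • x}
        one_mem' := ⟨1, fun x => by rw [map_one, one_smul]; rfl⟩
        mul_mem' := by
          rintro a b ⟨c, hc⟩ ⟨d, hd⟩
          exact ⟨c * d, fun x => by rw [map_mul, Module.End.mul_apply, hd, map_smul, hc, smul_smul, mul_comm]⟩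
        inv_mem' := by
          rintro a ⟨c, hc⟩
          refine ⟨c⁻¹, fun x => ?_⟩
          have hc0 : c ≠ 0 := by
            rintro rfl
            obtain ⟨y, hy⟩ := exists_ne (0 : V)
            apply hy
            have h1 := apply_inv ρ a y
            rw [hc, zero_smul] at h1
            exact h1.symm
          have h1 := apply_inv ρ a x
          rw [hc] at h1
          rw [← h1, smul_smul, inv_mul_cancel₀ hc0, one_smul]
          have h2 := hc (ρ a⁻¹ x)
          rw [← h2, apply_inv] }
    have hZs : ∀ g, g ∈ Zs ↔ ∃ c : K, ∀ x, ρ g x = c • x := fun g => Iff.rfl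
    haveI hZn : Zs.Normal := ⟨by
      rintro z ⟨c, hc⟩ g
      refine ⟨c, fun x => ?_⟩
      rw [map_mul, map_mul, Module.End.mul_apply, Module.End.mul_apply, hc, map_smul, apply_inv]⟩
    by_cases hZt : Zs = ⊤
    · have hker : derivedSeries P 1 ≤ ρ.ker := by
        rw [derivedSeries_succ, derivedSeries_zero, Subgroup.commutator_le]
        intro a _ b _
        apply comm_ker
        obtain ⟨c, hc⟩ := (hZs a).1 (hZt ▸ Subgroup.mem_top a)
        ext x
        rw [Module.End.mul_apply, Module.End.mul_apply, hc, hc, map_smul]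
      exact hker (derivedSeries_antitone P (by omega : 1 ≤ k + 1) hg)
    · obtain ⟨a, haZ, hac⟩ : ∃ a, a ∉ Zs ∧ ∀ g, ⁅a, g⁆ ∈ Zs := by
        haveI : Nontrivial (P ⧸ Zs) := QuotientGroup.nontrivial_iff.2 hZt
        haveI := (hP.to_quotient Zs).center_nontrivial
        obtain ⟨c, hc⟩ := exists_ne (1 : Subgroup.center (P ⧸ Zs))
        obtain ⟨a, ha⟩ := QuotientGroup.mk'_surjective Zs (c : P ⧸ Zs)
        refine ⟨a, fun h => hc (Subtype.ext ?_), fun g => ?_⟩
        · rw [← ha]; exact (QuotientGroup.eq_one_iff a).2 h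
        · apply (QuotientGroup.eq_one_iff _).1
          show QuotientGroup.mk' Zs ⁅a, g⁆ = 1
          rw [map_commutatorElement, commutatorElement_eq_one_iff_mul_comm, ha]
          exact (Subgroup.mem_center_iff.1 c.2 _).symm
      have hζ : ∀ g : P, ∃ c : K, ∀ x, ρ a (ρ g x) = c • ρ g (ρ a x) := by
        intro g
        obtain ⟨c, hc⟩ := (hZs _).1 (hac g)
        refine ⟨c, fun x => ?_⟩
        rw [← hc, ← Module.End.mul_apply, ← Module.End.mul_apply, ← Module.End.mul_apply, ← map_mul, ← map_mul, ← map_mul]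
        congr 2
        rw [commutatorElement_def]; group
      let P0 : Subgroup P :=
        { carrier := {g | ∀ x, ρ a (ρ g x) = ρ g (ρ a x)}
          one_mem' := fun x => by rw [map_one]; rfl
          mul_mem' := by
            intro g h hg hh x
            show ρ a (ρ (g * h) x) = ρ (g * h) (ρ a x)
            rw [map_mul, Module.End.mul_apply, Module.End.mul_apply, hg, hh]
          inv_mem' := by
            intro g hg x
            show ρ a (ρ g⁻¹ x) = ρ g⁻¹ (ρ a x)
            have h1 := hg (ρ g⁻¹ x)
            rw [apply_inv] at h1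
            rw [h1, inv_apply] }
      have hP0 : ∀ g, g ∈ P0 ↔ ∀ x, ρ a (ρ g x) = ρ g (ρ a x) := fun g => Iff.rfl
      have hD : derivedSeries P 1 ≤ P0 := by
        rw [derivedSeries_succ, derivedSeries_zero, Subgroup.commutator_le]
        intro g _ h _
        obtain ⟨c, hc⟩ := hζ g
        obtain ⟨d, hd⟩ := hζ h
        have e : ⁅g, h⁆ = (g * h) * (h * g)⁻¹ := by rw [commutatorElement_def]; group
        rw [e, hP0]
        intro x
        have hu : ∀ x, ρ a (ρ (g * h) x) = (c * d) • ρ (g * h) (ρ a x) := by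
          intro x
          rw [map_mul, Module.End.mul_apply, Module.End.mul_apply, hc, hd, map_smul, smul_smul]
        have hw : ∀ x, ρ a (ρ (h * g) x) = (c * d) • ρ (h * g) (ρ a x) := by
          intro x
          rw [map_mul, Module.End.mul_apply, Module.End.mul_apply, hd, hc, map_smul, smul_smul, mul_comm]
        have hw' : ρ (h * g)⁻¹ (ρ a x) = (c * d) • ρ a (ρ (h * g)⁻¹ x) := by
          have h1 := hw (ρ (h * g)⁻¹ x)
          rw [apply_inv] at h1
          rw [h1, map_smul, inv_apply]
        rw [map_mul, Module.End.mul_apply, Module.End.mul_apply, hu, hw', map_smul]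
      obtain ⟨μ, hμ⟩ := Module.End.exists_eigenvalue (ρ a)
      set E := Module.End.eigenspace (ρ a) μ with hE
      have hEb : E ≠ ⊥ := hμ
      have hEm : ∀ x, x ∈ E ↔ ρ a x = μ • x := fun x => Module.End.mem_eigenspace_iff
      have hμ0 : μ ≠ 0 := by
        rintro rfl
        obtain ⟨x, hx, hx0⟩ := Submodule.exists_mem_ne_zero_of_ne_bot hEb
        apply hx0
        have h1 := inv_apply ρ a x
        rw [(hEm x).1 hx, zero_smul, map_zero] at h1
        exact h1.symm
      have hEP0 : ∀ g ∈ P0, ∀ x ∈ E, ρ g x ∈ E := by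
        intro g hg x hx
        rw [hEm] at hx ⊢
        rw [(hP0 g).1 hg x, hx, map_smul]
      obtain ⟨h, x0, hx0, hx0E⟩ : ∃ h : P, ∃ x ∈ E, ρ h x ∉ E := by
        by_contra hcon
        push Not at hcon
        have h1 := hred E hcon hEb
        apply haZ
        refine ⟨μ, fun x => ?_⟩
        rw [← hEm, h1]
        exact Submodule.mem_top
      obtain ⟨c, hc⟩ := hζ h
      have hc1 : c ≠ 1 := by
        rintro rfl
        apply hx0E
        rw [hEm, hc, (hEm x0).1 hx0, one_smul, map_smul]
      have hinj : Function.Injective (ρ h) := by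
        intro x y hxy
        rw [← inv_apply ρ h x, hxy, inv_apply]
      have hfW : finrank K (E.map (ρ h)) = finrank K E := (Submodule.equivMapOfInjective (ρ h) hinj E).finrank_eq.symm
      have hdisj : Disjoint E (E.map (ρ h)) := by
        rw [Submodule.disjoint_def]
        rintro v hv ⟨w, hw, rfl⟩
        have h1 := (hEm _).1 hv
        rw [hc, (hEm w).1 hw, map_smul, smul_smul] at h1
        have h2 : (c * μ - μ) • ρ h w = 0 := by rw [sub_smul, h1, sub_self]
        rcases smul_eq_zero.1 h2 with h3 | h3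
        · exfalso
          have h4 : (c - 1) * μ = 0 := by rw [sub_mul, one_mul]; exact h3
          rcases mul_eq_zero.1 h4 with h5 | h5
          · exact hc1 (sub_eq_zero.1 h5)
          · exact hμ0 h5
        · exact h3
      have hdim := Submodule.finrank_add_finrank_le_of_disjoint hdisj
      rw [hfW, hfr] at hdim
      haveI : Nontrivial E := (Submodule.nontrivial_iff_ne_bot).2 hEb
      have hEpos : 0 < finrank K E := Module.finrank_pos
      have hrep := ih (finrank K E) (by omega) (hP.to_subgroup P0) (sub (ρ.comp P0.subtype) E (fun g x hx => hEP0 g g.2 x hx)) k rfl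
        (by rw [pow_succ] at hnk; omega)
      have hfixE : ∀ x ∈ derivedSeries P (k + 1), ∀ v ∈ E, ρ x v = v := by
        intro x hx v hv
        obtain ⟨y, hy, rfl⟩ := derived_le hD k hx
        exact fix_of_sub (ρ.comp P0.subtype) E (fun g x hx => hEP0 g g.2 x hx) (hrep y hy) hv
      let Fix : Submodule K V :=
        { carrier := {v | ∀ x ∈ derivedSeries P (k + 1), ρ x v = v}
          zero_mem' := fun x _ => map_zero _
          add_mem' := by
            intro u v hu hv x hx
            show ρ x (u + v) = u + v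
            rw [map_add, hu x hx, hv x hx]
          smul_mem' := by
            intro c v hv x hx
            show ρ x (c • v) = c • v
            rw [map_smul, hv x hx] }
      have hFix : Fix = ⊤ := by
        apply hred Fix
        · intro g v hv x hx
          have h1 : g⁻¹ * x * g ∈ derivedSeries P (k + 1) := by
            have h2 := (derivedSeries_normal P (k + 1)).conj_mem x hx g⁻¹
            rwa [inv_inv] at h2
          have h2 := hv _ h1
          rw [map_mul, map_mul, Module.End.mul_apply, Module.End.mul_apply] at h2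
          have h3 := congrArg (ρ g) h2
          rwa [apply_inv] at h3
        · intro h1
          apply hEb
          rw [eq_bot_iff, ← h1]
          exact fun v hv x hx => hfixE x hx v hv
      ext v
      have h1 : v ∈ Fix := by rw [hFix]; exact Submodule.mem_top
      exact h1 g hg

end clp

end Cfsg.Agent.H2.PLinDl
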