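import Mathlib
import Cfsg.Agent.Lib.PNilp
import Cfsg.Agent.Lib.MinNil
import Cfsg.Agent.Lib.ThompsonP

set_option autoImplicit false

/-! Normal `p`-complements: abelian Sylow subgroups, Frattini quotients. -/

open Subgroup Cfsg.Agent.Lib.Basic Cfsg.Agent.Lib.Cores Cfsg.Agent.Lib.Coprime Cfsg.Agent.Lib.PNilp
open scoped Pointwise commutatorElement

namespace Cfsg.Agent.H2.PNilX

universe u
variable {G : Type u} [Group G]

/-- Burnside: abelian Sylow subgroup with `p`-nilpotent normalizer -/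
theorem pNil_of_abelian [Finite G] {p : ℕ} [Fact p.Prime] (P : Sylow p G) (hab : IsMulCommutative (P : Subgroup G))
    (hN : PNil p (normalizer ((P : Subgroup G) : Set G))) : PNil p G := by
  have h1 : normalizer ((P : Subgroup G) : Set G) ≤ centralizer ((P : Subgroup G) : Set G) := by
    intro g hg
    by_contra hgC
    obtain ⟨q, hq, x, hxg, hxC, k, hk⟩ := Cfsg.Agent.Lib.MinNil.exists_primary_notMem hgC
    have hxN : x ∈ normalizer ((P : Subgroup G) : Set G) := (zpowers_le.2 hg) hxg
    apply hxC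
    by_cases hqp : q = p
    · subst hqp
      have hxP : x ∈ (P : Subgroup G) := by
        have h2 : IsPGroup q ↥(zpowers x ⊔ (P : Subgroup G)) :=
          (IsPGroup.of_card (n := k) (by rw [Nat.card_zpowers, hk])).to_sup_of_normal_right' P.isPGroup'
            (zpowers_le.2 hxN)
        have h3 := P.3 h2 le_sup_right
        have h4 : zpowers x ≤ (P : Subgroup G) := by
          rw [← h3]; exact le_sup_left
        exact h4 (mem_zpowers x)
      rw [mem_centralizer_iff]
      intro y hy
      exact congrArg Subtype.val (hab.is_comm.comm ⟨y, hy⟩ ⟨x, hxP⟩)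
    · apply centralizes_of_pNil P.isPGroup' le_normalizer le_rfl hN hxN
      rw [hk]
      exact Nat.Coprime.pow_left k ((Nat.coprime_primes hq Fact.out).2 hqp)
  exact pNil_of_isComplement' inferInstance (MonoidHom.ker_transferSylow_isComplement' P h1)

/-- `Q` consists of non-generators of `P` -/
def NonGen (Q P : Subgroup G) : Prop := Q ≤ P ∧ ∀ K : Subgroup G, K ≤ P → P ≤ Q ⊔ K → K = P

theorem nonGen_of_frattini [Finite G] {Q P : Subgroup G} (hQ : Q ≤ (frattini P).map P.subtype) : NonGen Q P := by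
  refine ⟨hQ.trans (map_subtype_le _), fun K hK hP => ?_⟩
  have h1 : K.subgroupOf P ⊔ frattini P = ⊤ := by
    have h2 : P ≤ ((K.subgroupOf P) ⊔ frattini P).map P.subtype := by
      rw [Subgroup.map_sup, map_subgroupOf_eq_of_le hK]
      exact hP.trans (sup_le (hQ.trans le_sup_right) le_sup_left)
    rw [eq_top_iff]
    rintro ⟨x, hx⟩ _
    obtain ⟨y, hy, hyx⟩ := h2 hx
    have : (⟨x, hx⟩ : P) = y := Subtype.ext hyx.symm
    rw [this]
    exact hy
  have h2 := frattini_nongenerating h1
  rw [subgroupOf_eq_top] at h2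
  exact le_antisymm hK h2

theorem NonGen.subgroupOf {Q P H : Subgroup G} (h : NonGen Q P) (hPH : P ≤ H) :
    NonGen (Q.subgroupOf H) (P.subgroupOf H) := by
  refine ⟨fun x hx => h.1 hx, fun K hK hP => ?_⟩
  have h1 : K.map H.subtype = P := by
    apply h.2
    · rintro _ ⟨x, hx, rfl⟩
      exact hK hx
    · intro x hx
      have h2 := hP (show (⟨x, hPH hx⟩ : H) ∈ P.subgroupOf H from hx)
      have h3 : x ∈ ((Q.subgroupOf H) ⊔ K).map H.subtype := ⟨_, h2, rfl⟩
      rw [Subgroup.map_sup, map_subgroupOf_eq_of_le (h.1.trans hPH)] at h3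
      exact h3
  rw [← h1]
  exact (comap_map_eq_self_of_injective H.subtype_injective K).symm

theorem pNil_of_frattini [Finite G] {p : ℕ} [Fact p.Prime] (P : Sylow p G) (Q : Subgroup G) [hQn : Q.Normal]
    (hQ : NonGen Q (P : Subgroup G)) (h : PNil p (G ⧸ Q)) : PNil p G := by
  have hQP : Q ≤ P := hQ.1
  have hQp : IsPGroup p Q := P.isPGroup'.to_le hQP
  obtain ⟨K', hK'n, hK'c, k, hk⟩ := h
  set K : Subgroup G := K'.comap (QuotientGroup.mk' Q) with hK
  haveI hKn : K.Normal := inferInstance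
  have hQK : Q ≤ K := by
    intro x hx
    show (QuotientGroup.mk' Q) x ∈ K'
    have : (QuotientGroup.mk' Q) x = 1 := (QuotientGroup.eq_one_iff x).2 hx
    rw [this]; exact one_mem _
  have hKc : Nat.card K = Nat.card Q * Nat.card K' := by
    rw [hK, card_comap_eq _ (QuotientGroup.mk'_surjective Q), QuotientGroup.ker_mk']
  have hKi : K.index = p ^ k := by
    rw [hK, index_comap_of_surjective _ (QuotientGroup.mk'_surjective Q), hk]
  -- complement of `Q` in `K`
  obtain ⟨a, ha⟩ := hQp.exists_card_eq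
  haveI hn1 : (Q.subgroupOf K).Normal := inferInstance
  have hcQ : Nat.card (Q.subgroupOf K) = Nat.card Q := Nat.card_congr (subgroupOfEquivOfLe hQK).toEquiv
  have hiQ : (Q.subgroupOf K).index = Nat.card K' := by
    have h1 := (Q.subgroupOf K).card_mul_index
    rw [hcQ, hKc] at h1
    exact Nat.eq_of_mul_eq_mul_left Nat.card_pos h1
  obtain ⟨H, hH⟩ := exists_right_complement'_of_coprime (N := Q.subgroupOf K) (by
    rw [hcQ, hiQ, ha]; exact (hK'c.pow_right a).symm)
  set C : Subgroup G := H.map K.subtype with hC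
  have hCK : C ≤ K := map_subtype_le _
  have hCc : Nat.card C = Nat.card K' := by
    rw [hC, Nat.card_congr (H.equivMapOfInjective _ K.subtype_injective).toEquiv.symm, ← hiQ]
    exact hH.symm.index_eq_card.symm
  have hCc' : (Nat.card C).Coprime (Nat.card Q) := by rw [hCc, ha]; exact hK'c.pow_right a
  have hsup : Q ⊔ C = K := by
    have h1 := congrArg (Subgroup.map K.subtype) hH.sup_eq_top
    rw [Subgroup.map_sup, map_subgroupOf_eq_of_le hQK, ← MonoidHom.range_eq_map, K.range_subtype] at h1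
    exact h1
  have hQN : ∀ X : Subgroup G, X ≤ normalizer (Q : Set G) := fun X => by rw [normalizer_eq_top]; exact le_top
  have htop : Q ⊔ normalizer (C : Set G) = ⊤ := by
    rw [eq_top_iff]
    intro g _
    have h1 : Q ⊔ C = Q ⊔ MulAut.conj g • C := by
      rw [hsup]
      have h2 : MulAut.conj g • K = K := conj_smul_eq_of_mem_normalizer (by rw [normalizer_eq_top]; exact mem_top g)
      have h3 : MulAut.conj g • Q = Q := conj_smul_eq_of_mem_normalizer (by rw [normalizer_eq_top]; exact mem_top g)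
      rw [← h2, ← hsup, Subgroup.smul_sup, h3]
    obtain ⟨q, hq, hqc⟩ := Cfsg.Agent.Lib.SchurZas.conj_of_coprime' (N := Q) (A := C) (B := MulAut.conj g • C) (hQN C)
      hCc' (by rw [Cfsg.Agent.Lib.SchurZas.card_conj_smul]; exact hCc') h1
      (Or.inr (Cfsg.Agent.Lib.CoprimeB.isSolvable_of_isPGroup hQp))
    have h2 : q⁻¹ * g ∈ normalizer (C : Set G) := by
      apply mem_normalizer_of_conj_smul_eq
      rw [map_mul, mul_smul, ← hqc, smul_smul, ← map_mul, inv_mul_cancel, map_one, one_smul]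
    have h3 : g = q * (q⁻¹ * g) := by group
    rw [h3]
    exact mul_mem (mem_sup_left hq) (mem_sup_right h2)
  -- the Frattini argument
  have hPN : (P : Subgroup G) ≤ normalizer (C : Set G) := by
    have h1 := hQ.2 ((P : Subgroup G) ⊓ normalizer (C : Set G)) inf_le_left (by
      intro x hx
      have h2 : x ∈ Q ⊔ normalizer (C : Set G) := by rw [htop]; exact mem_top x
      obtain ⟨q, hq, n, hn, hqn⟩ := (mem_sup_iff_left (hQN _)).1 h2
      have hnP : n ∈ (P : Subgroup G) := by
        have : n = q⁻¹ * x := by rw [← hqn]; group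
        rw [this]
        exact (P : Subgroup G).mul_mem ((P : Subgroup G).inv_mem (hQP hq)) hx
      rw [← hqn]
      exact mul_mem (mem_sup_left hq) (mem_sup_right ⟨hnP, hn⟩))
    rw [← h1]
    exact inf_le_right
  have hCn : normalizer (C : Set G) = ⊤ := by
    rw [eq_top_iff, ← htop]
    exact sup_le (hQP.trans hPN) le_rfl
  refine ⟨C, normalizer_eq_top_iff.1 hCn, by rw [hCc]; exact hK'c, a + k, ?_⟩
  have h1 := C.card_mul_index
  have h2 := K.card_mul_index
  rw [hKc, hKi, ha] at h2
  rw [hCc, ← h2] at h1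
  apply Nat.eq_of_mul_eq_mul_left (Nat.card_pos (α := K'))
  rw [h1]
  ring

/-- `P' ≤ Q ≤ Φ(P)`, `Q` normal, `N(P)` `p`-nilpotent -/
theorem pNil_of_between [Finite G] {p : ℕ} [Fact p.Prime] (P : Sylow p G) (Q : Subgroup G) [hQn : Q.Normal]
    (hN : PNil p (normalizer ((P : Subgroup G) : Set G)))
    (h1 : ∀ x ∈ (P : Subgroup G), ∀ y ∈ (P : Subgroup G), x⁻¹ * y⁻¹ * x * y ∈ Q)
    (h2 : NonGen Q (P : Subgroup G)) : PNil p G := by
  have hQP : Q ≤ P := h2.1
  apply pNil_of_frattini P Q h2
  have hsurj := QuotientGroup.mk'_surjective Q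
  let Pb : Sylow p (G ⧸ Q) := P.mapSurjective hsurj
  have hPb : (Pb : Subgroup (G ⧸ Q)) = (P : Subgroup G).map (QuotientGroup.mk' Q) := rfl
  apply pNil_of_abelian Pb
  · rw [hPb]
    constructor
    constructor
    rintro ⟨_, x, hx, rfl⟩ ⟨_, y, hy, rfl⟩
    apply Subtype.ext
    show (QuotientGroup.mk' Q) x * (QuotientGroup.mk' Q) y = (QuotientGroup.mk' Q) y * (QuotientGroup.mk' Q) x
    rw [← map_mul, ← map_mul]
    apply QuotientGroup.eq.2
    have h5 : (x * y)⁻¹ * (y * x) = y⁻¹ * x⁻¹ * y * x := by group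
    rw [h5]
    exact h1 y hy x hx
  · have h3 := Cfsg.Agent.Lib.ThompsonP.normalizer_le_map_comap (QuotientGroup.mk' Q) hsurj (Pb : Subgroup (G ⧸ Q))
    have h4 : (Pb : Subgroup (G ⧸ Q)).comap (QuotientGroup.mk' Q) = P := by
      rw [hPb, comap_map_eq, QuotientGroup.ker_mk', sup_eq_left.2 hQP]
    rw [h4] at h3
    exact ((hN.of_surjective _ ((QuotientGroup.mk' Q).subgroupMap_surjective _))).of_le h3

end Cfsg.Agent.H2.PNilX
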