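import Mathlib
import Cfsg.Agent.Lib.Cores
import Cfsg.Agent.Lib.Coprime
import Cfsg.Agent.Lib.PSol
import Cfsg.Agent.Lib.HallHigman

/-! `π`-separable groups which are `π'`-homogeneous are `π`-closed. -/

set_option autoImplicit false
set_option linter.unusedSectionVars false
set_option linter.style.haveILetI false
set_option linter.unusedVariables false

namespace Cfsg.Agent.H2.PiHom

open Subgroup Cfsg Cfsg.Agent.Lib Cfsg.Agent.Lib.Basic Cfsg.Agent.Lib.Cores
open scoped commutatorElement Pointwise

universe u
variable {G : Type u} [Group G] {π : Set ℕ}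

/-- all prime divisors of `n` are in `π` -/
def Nm (π : Set ℕ) (n : ℕ) : Prop := ∀ q : ℕ, q.Prime → q ∣ n → q ∈ π

theorem Nm.of_dvd {a b : ℕ} (h : Nm π b) (hab : a ∣ b) : Nm π a := fun q hq hqa => h q hq (hqa.trans hab)

theorem Nm.mul {a b : ℕ} (ha : Nm π a) (hb : Nm π b) : Nm π (a * b) := fun q hq h =>
  (hq.dvd_mul.1 h).elim (ha q hq) (hb q hq)

theorem Nm.one : Nm π 1 := fun q hq h => absurd (Nat.dvd_one.1 h) hq.ne_one

theorem Nm.coprime {a b : ℕ} (ha : Nm π a) (hb : Nm πᶜ b) : Nat.Coprime a b :=
  Nat.coprime_of_dvd fun k hk h1 h2 => hb k hk h2 (ha k hk h1)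

theorem Nm.pow {p : ℕ} (hp : p.Prime) (h : p ∈ π) (k : ℕ) : Nm π (p ^ k) := fun q hq h1 => by
  rw [(Nat.prime_dvd_prime_iff_eq hq hp).1 (hq.dvd_of_dvd_pow h1)]; exact h

/-- `π`-separability -/
def Sep (π : Set ℕ) (G : Type u) [Group G] : Prop :=
  ∃ (n : ℕ) (H : ℕ → Subgroup G), H 0 = ⊥ ∧ H n = ⊤ ∧ (∀ i < n, H i ≤ H (i + 1)) ∧ (∀ i, (H i).Normal) ∧
    ∀ i < n, Nm π ((H i).relIndex (H (i + 1))) ∨ Nm πᶜ ((H i).relIndex (H (i + 1)))

theorem exists_core [Finite G] (π : Set ℕ) : ∃ N : Subgroup G, N.Normal ∧ Nm π (Nat.card N) ∧
    ∀ K : Subgroup G, K.Normal → Nm π (Nat.card K) → K ≤ N := by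
  classical
  obtain ⟨N, ⟨hNn, hN⟩, hmax⟩ := Set.exists_max_image {N : Subgroup G | N.Normal ∧ Nm π (Nat.card N)}
    (fun N => Nat.card N) (Set.toFinite _) ⟨⊥, inferInstance, by rw [Subgroup.card_bot]; exact Nm.one⟩
  refine ⟨N, hNn, hN, fun K hKn hK => ?_⟩
  haveI := hNn
  haveI := hKn
  have h1 : Nm π (Nat.card (N ⊔ K : Subgroup G)) :=
    (hN.mul hK).of_dvd (Cores.card_sup_dvd (by rw [normalizer_eq_top_iff.2 hNn]; exact le_top))
  have h2 := hmax (N ⊔ K) ⟨inferInstance, h1⟩
  have h3 : N = N ⊔ K := Subgroup.eq_of_le_of_card_ge le_sup_left h2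
  rw [h3]; exact le_sup_right

theorem Sep.map {H : Type u} [Group H] (hs : Sep π G) (f : G →* H) (hf : Function.Surjective f) : Sep π H := by
  obtain ⟨n, C, h0, h1, hm, hn, hc⟩ := hs
  refine ⟨n, fun i => (C i).map f, ?_, ?_, fun i hi => Subgroup.map_mono (hm i hi), fun i => (hn i).map f hf, fun i hi => ?_⟩
  · show (C 0).map f = ⊥
    rw [h0, Subgroup.map_bot]
  · show (C n).map f = ⊤
    rw [h1, Subgroup.map_top_of_surjective f hf]
  · have h2 := PSol.relIndex_map_dvd f (hm i hi)
    exact (hc i hi).imp (fun h => h.of_dvd h2) (fun h => h.of_dvd h2)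

theorem card_rel {A B : Subgroup G} (h : A ≤ B) : Nat.card A * A.relIndex B = Nat.card B := by
  have h1 := Subgroup.relIndex_mul_relIndex ⊥ A B bot_le h
  rwa [Subgroup.relIndex_bot_left, Subgroup.relIndex_bot_left] at h1

theorem cent_le [Finite G] (hs : Sep π G) (hO : ∀ K : Subgroup G, K.Normal → Nm π (Nat.card K) → K = ⊥)
    {M : Subgroup G} [hMn : M.Normal] (hM : Nm πᶜ (Nat.card M)) (hmax : ∀ K : Subgroup G, K.Normal → Nm πᶜ (Nat.card K) → K ≤ M) :
    centralizer (M : Set G) ≤ M := by
  obtain ⟨n, H, h0, h1, hm, hn, hc⟩ := hs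
  set C := centralizer (M : Set G) with hC
  haveI hCn : C.Normal := inferInstance
  have key : ∀ i ≤ n, H i ⊓ C ≤ M := by
    intro i
    induction i with
    | zero => intro _; rw [h0, bot_inf_eq]; exact bot_le
    | succ i ih =>
      intro hi
      have hE := ih (by omega)
      haveI := hn i
      haveI := hn (i + 1)
      set D := H (i + 1) ⊓ C with hD
      set E := H i ⊓ C with hEdef
      haveI hDn : D.Normal := inferInstance
      haveI hEn : E.Normal := inferInstance
      have hED : E ≤ D := inf_le_inf_right _ (hm i (by omega))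
      have hEc : Nm πᶜ (Nat.card E) := hM.of_dvd (Subgroup.card_dvd_of_le hE)
      have hrel : E.relIndex D ∣ (H i).relIndex (H (i + 1)) := by
        have e1 : E = H i ⊓ D := by
          rw [hEdef, hD, ← inf_assoc, inf_eq_left.2 (hm i (by omega))]
        rw [e1, Subgroup.inf_relIndex_right]
        exact HallHigman.relIndex_dvd_of_normal inf_le_left
      have hcard := card_rel hED
      rcases hc i (by omega) with h2 | h2
      · -- `π`-section
        have hr : Nm π (E.relIndex D) := h2.of_dvd hrel
        have hcop : Nat.Coprime (Nat.card (E.subgroupOf D)) (E.subgroupOf D).index := by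
          have e1 : Nat.card (E.subgroupOf D) = Nat.card E := Nat.card_congr (Subgroup.subgroupOfEquivOfLe hED).toEquiv
          rw [e1]
          exact (hr.coprime hEc).symm
        obtain ⟨F', hF'⟩ := Subgroup.exists_right_complement'_of_coprime hcop
        set F := F'.map D.subtype with hF
        have hFc : Nat.card F = E.relIndex D := by
          rw [hF, Subgroup.card_map_of_injective D.subtype_injective]
          exact hF'.symm.index_eq_card.symm
        have hFD : F ≤ D := map_subtype_le F'
        set k := Nat.card F with hk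
        have hcopE : Nat.Coprime (Nat.card E) k := by rw [hFc]; exact (hr.coprime hEc).symm
        have hdec : ∀ x ∈ D, ∃ e ∈ E, ∃ f ∈ F, x = e * f := by
          intro x hx
          have h3 : (⟨x, hx⟩ : D) ∈ (E.subgroupOf D : Set D) * (F' : Set D) := by
            rw [hF'.mul_eq]; exact Set.mem_univ _
          obtain ⟨e, he, f, hf, hef⟩ := h3
          exact ⟨e, he, f, ⟨f, hf, rfl⟩, congrArg Subtype.val hef.symm⟩
        have hFn : F.Normal := by
          refine ⟨fun f hf g => ?_⟩
          obtain ⟨e, he, f', hf', hef⟩ := hdec (g * f * g⁻¹) (hDn.conj_mem f (hFD hf) g)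
          have h3 : (g * f * g⁻¹) ^ k = 1 := by
            rw [conj_pow]
            have h4 : f ^ k = 1 := congrArg Subtype.val (pow_card_eq_one' (x := (⟨f, hf⟩ : F)))
            rw [h4, mul_one, mul_inv_cancel]
          have hcm : Commute e f' := by
            have h4 : f' ∈ C := (mem_inf.1 (hFD hf')).2
            exact mem_centralizer_iff.1 h4 e (hE he)
          have h4 : f' ^ k = 1 := congrArg Subtype.val (pow_card_eq_one' (x := (⟨f', hf'⟩ : F)))
          rw [hef, hcm.mul_pow, h4, mul_one] at h3
          have h5 : e ^ Nat.card E = 1 := congrArg Subtype.val (pow_card_eq_one' (x := (⟨e, he⟩ : E)))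
          have h6 : orderOf e = 1 := Nat.eq_one_of_dvd_coprimes hcopE (_root_.orderOf_dvd_of_pow_eq_one h5) (_root_.orderOf_dvd_of_pow_eq_one h3)
          rw [hef, orderOf_eq_one_iff.1 h6, one_mul]
          exact hf'
        have hFb := hO F hFn (by rw [← hk, hFc]; exact hr)
        intro x hx
        obtain ⟨e, he, f, hf, rfl⟩ := hdec x hx
        rw [hFb, mem_bot] at hf
        rw [hf, mul_one]
        exact hE he
      · apply hmax D hDn
        rw [← hcard]
        exact hEc.mul (h2.of_dvd hrel)
  have := key n le_rfl
  rwa [h1, top_inf_eq] at this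

theorem closed [Finite G] (hs : Sep π G) (hhom : ∀ H : Subgroup G, H ≠ ⊥ → Nm πᶜ (Nat.card H) →
    Nm πᶜ ((centralizer (H : Set G)).relIndex (normalizer (H : Set G)))) :
    ∃ K : Subgroup G, ∀ x : G, x ∈ K ↔ Nm π (orderOf x) := by
  classical
  obtain ⟨N, hNn, hN, hNmax⟩ := exists_core (G := G) π
  haveI := hNn
  have hdv : ∀ (A : Subgroup G) (x : G), x ∈ A → orderOf x ∣ Nat.card A := by
    intro A x hx
    have := orderOf_dvd_natCard (⟨x, hx⟩ : A)
    rwa [← Subgroup.orderOf_coe] at this
  refine ⟨N, fun x => ⟨fun hx => hN.of_dvd (hdv N x hx), fun hx => ?_⟩⟩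
  set σ := QuotientGroup.mk' N with hσ
  have hσs : Function.Surjective σ := QuotientGroup.mk'_surjective N
  obtain ⟨M, hMn, hM, hMmax⟩ := exists_core (G := G ⧸ N) πᶜ
  haveI := hMn
  have hsep := hs.map σ hσs
  have hO : ∀ K : Subgroup (G ⧸ N), K.Normal → Nm π (Nat.card K) → K = ⊥ := by
    intro K hKn hK
    have h1 : K.comap σ ≤ N := by
      apply hNmax _ (hKn.comap σ)
      rw [Cores.card_comap_eq σ hσs, QuotientGroup.ker_mk']
      exact hN.mul hK
    have h2 : K = (K.comap σ).map σ := (map_comap_eq_self_of_surjective hσs K).symm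
    rw [h2, Subgroup.map_eq_bot_iff, QuotientGroup.ker_mk']
    exact h1
  have hcent := cent_le hsep hO hM hMmax
  -- no element of prime order in `π`
  have hno : ∀ (p : ℕ), p.Prime → p ∈ π → ∀ y : G ⧸ N, orderOf y = p → False := by
    intro p hp hpπ y hy
    haveI : Fact p.Prime := ⟨hp⟩
    set A := zpowers y with hA
    have hAc : Nat.card A = p := by rw [hA, Nat.card_zpowers, hy]
    have hcopA : (Nat.card A).Coprime (Nat.card M) := by
      rw [hAc, ← pow_one p]
      exact (Nm.pow hp hpπ 1).coprime hM
    have hcomm : centralizer ({y} : Set (G ⧸ N)) ⊓ M = M := by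
      have h0 : (centralizer ({y} : Set (G ⧸ N))).subgroupOf M = ⊤ := by
        apply Cores.eq_top_of_sylow_le
        intro q hq
        haveI : Fact q.Prime := ⟨hq⟩
        obtain ⟨Q, hQ⟩ := Coprime.exists_invariant_sylow (A := A) (K := M) (by rw [normalizer_eq_top_iff.2 hMn]; exact le_top) hcopA
          (Or.inl (by
            haveI : IsPGroup p A := IsPGroup.of_card (n := 1) (by rw [hAc, pow_one])
            haveI := this.isNilpotent
            infer_instance)) q
        refine ⟨Q, ?_⟩
        set QM := (Q : Subgroup M).map M.subtype with hQM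
        have hQMq : IsPGroup q QM := Q.2.map _
        have hgoal : ∀ z ∈ QM, y * z = z * y := by
          by_cases hqM : q ∣ Nat.card M
          swap
          · have h1 : (Q : Subgroup M) = ⊥ := by
              rw [← Subgroup.card_eq_one]
              obtain ⟨c, hc⟩ := IsPGroup.iff_card.1 Q.2
              rcases c with _ | c
              · rw [hc, pow_zero]
              · exfalso
                apply hqM
                have h2 : Nat.card Q ∣ Nat.card M := Subgroup.card_subgroup_dvd_card _
                refine (dvd_pow_self q (Nat.succ_ne_zero c)).trans ?_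
                rw [← hc]; exact h2
            intro z hz
            rw [hQM, h1, Subgroup.map_bot, mem_bot] at hz
            rw [hz, one_mul, mul_one]
          have hqπ : q ∈ πᶜ := hM q hq hqM
          set L := QM.comap σ with hL
          have hNL : N ≤ L := fun x hx => by
            show σ x ∈ QM
            rw [show σ x = 1 from (QuotientGroup.eq_one_iff _).2 hx]
            exact one_mem _
          obtain ⟨S⟩ : Nonempty (Sylow q L) := inferInstance
          set R := (S : Subgroup L).map L.subtype with hR
          have hRq : IsPGroup q R := S.2.map _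
          have hRL : R ≤ L := map_subtype_le _
          have hRmap : R.map σ = QM := by
            have h1 : R.map σ ≤ QM := by rw [Subgroup.map_le_iff_le_comap]; exact hRL
            apply Subgroup.eq_of_le_of_card_ge h1
            have h2 : Nat.card L = Nat.card N * Nat.card QM := by
              rw [hL, Cores.card_comap_eq σ hσs, QuotientGroup.ker_mk']
            have h3 : Nat.card R = Nat.card S := Subgroup.card_map_of_injective L.subtype_injective
            obtain ⟨c, hc⟩ := IsPGroup.iff_card.1 hQMq
            have h4 : Nat.card QM ∣ Nat.card R := by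
              rw [h3, hc]
              apply S.pow_dvd_card_of_pow_dvd_card
              rw [h2, hc]
              exact Dvd.intro_left _ rfl
            have h5 : R ⊓ N = ⊥ := by
              rw [← Subgroup.card_eq_one]
              have h6 : Nat.card (R ⊓ N : Subgroup G) ∣ Nat.card N := Subgroup.card_dvd_of_le inf_le_right
              obtain ⟨d, hd⟩ := IsPGroup.iff_card.1 hRq
              have h7 : Nat.card (R ⊓ N : Subgroup G) ∣ Nat.card R := Subgroup.card_dvd_of_le inf_le_left
              exact Nat.eq_one_of_dvd_coprimes ((hN.coprime (Nm.pow hq hqπ d))) h6 (by rw [← hd]; exact h7)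
            have h6 : Nat.card (R.map σ) = Nat.card R := by
              have hinj : Function.Injective (σ.comp R.subtype) := by
                rw [← MonoidHom.ker_eq_bot_iff, eq_bot_iff]
                intro z hz
                have h7 : (z : G) ∈ N := (QuotientGroup.eq_one_iff _).1 (MonoidHom.mem_ker.1 hz)
                have h8 : (z : G) ∈ R ⊓ N := ⟨z.2, h7⟩
                rw [h5, mem_bot] at h8
                rw [mem_bot]
                exact Subtype.ext h8
              have h7 : R.map σ = (σ.comp R.subtype).range := by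
                rw [MonoidHom.range_comp, Subgroup.range_subtype]
              rw [h7]
              exact (Nat.card_congr (MonoidHom.ofInjective hinj).toEquiv).symm
            rw [h6]
            exact Nat.le_of_dvd Nat.card_pos h4
          by_cases hRb : R = ⊥
          · intro z hz
            rw [← hRmap, hRb, Subgroup.map_bot, mem_bot] at hz
            rw [hz, one_mul, mul_one]
          have hRc : Nm πᶜ (Nat.card R) := by
            obtain ⟨d, hd⟩ := IsPGroup.iff_card.1 hRq
            rw [hd]; exact Nm.pow hq hqπ d
          have hh := hhom R hRb hRc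
          -- a lift of `y` normalizing `R`
          obtain ⟨y0, hy0⟩ := hσs y
          have hy0L : ∀ l ∈ L, y0 * l * y0⁻¹ ∈ L := by
            intro l hl
            show σ (y0 * l * y0⁻¹) ∈ QM
            rw [map_mul, map_mul, map_inv, hy0]
            exact (mem_normalizer_iff.1 (hQ (mem_zpowers y)) (σ l)).1 hl
          have hy0L' : R.map (MulAut.conj y0).toMonoidHom ≤ L := by
            rintro _ ⟨l, hl, rfl⟩
            exact hy0L l (hRL hl)
          have hcard' : Nat.card (R.map (MulAut.conj y0).toMonoidHom) = Nat.card R :=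
            Subgroup.card_map_of_injective (MulAut.conj y0).injective
          let R' : Subgroup L := (R.map (MulAut.conj y0).toMonoidHom).subgroupOf L
          have hR'c : Nat.card R' = Nat.card S := by
            have e1 : Nat.card R' = Nat.card (R.map (MulAut.conj y0).toMonoidHom) := Nat.card_congr (Subgroup.subgroupOfEquivOfLe hy0L').toEquiv
            rw [e1, hcard']
            exact Subgroup.card_map_of_injective L.subtype_injective
          have hR'p : IsPGroup q R' := by
            obtain ⟨d, hd⟩ := IsPGroup.iff_card.1 S.2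
            exact IsPGroup.of_card (n := d) (by rw [hR'c]; exact hd)
          obtain ⟨S', hS'⟩ := hR'p.exists_le_sylow
          have hS'eq : R' = (S' : Subgroup L) := by
            apply Subgroup.eq_of_le_of_card_ge hS'
            rw [hR'c]
            exact (Nat.card_congr (S'.equiv S).toEquiv).le
          obtain ⟨l, hl⟩ := MulAction.exists_smul_eq L S S'
          have hconj : ∀ z : G, z ∈ R ↔ (l : G)⁻¹ * (y0 * z * y0⁻¹) * l ∈ R := by
            intro z
            have e2 : (y0 * z * y0⁻¹) ∈ (R.map (MulAut.conj y0).toMonoidHom) ↔ z ∈ R := by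
              constructor
              · rintro ⟨w, hw, hwz⟩
                have : w = z := by
                  have h8 : y0 * w * y0⁻¹ = y0 * z * y0⁻¹ := hwz
                  exact mul_left_cancel (mul_right_cancel h8)
                rw [← this]; exact hw
              · intro hz; exact ⟨z, hz, rfl⟩
            rw [← e2]
            have e3 : ∀ w ∈ L, (w ∈ (R.map (MulAut.conj y0).toMonoidHom) ↔ (l : G)⁻¹ * w * l ∈ R) := by
              intro w hw
              have e4 : w ∈ (R.map (MulAut.conj y0).toMonoidHom) ↔ (⟨w, hw⟩ : L) ∈ (S' : Subgroup L) := by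
                rw [← hS'eq]; rfl
              rw [e4, ← hl]
              have e5 : (⟨w, hw⟩ : L) ∈ ((l • S : Sylow q L) : Subgroup L) ↔ l⁻¹ * ⟨w, hw⟩ * l ∈ (S : Subgroup L) := by
                rw [Sylow.coe_subgroup_smul, Subgroup.mem_pointwise_smul_iff_inv_smul_mem]
                have : l⁻¹ * ⟨w, hw⟩ * l = (MulAut.conj l)⁻¹ • (⟨w, hw⟩ : L) := by
                  rw [← map_inv]
                  show _ = l⁻¹ * ⟨w, hw⟩ * (l⁻¹)⁻¹
                  rw [inv_inv]
                rw [this]
              rw [e5]
              constructor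
              · intro h8; exact ⟨_, h8, rfl⟩
              · rintro ⟨v, hv, hvw⟩
                have : v = l⁻¹ * ⟨w, hw⟩ * l := Subtype.ext hvw
                rw [← this]; exact hv
            constructor
            · intro h8
              exact (e3 _ (hy0L' h8)).1 h8
            · intro h8
              have h9 : y0 * z * y0⁻¹ ∈ L := by
                have h10 := mul_mem (mul_mem l.2 (hRL h8)) (inv_mem l.2)
                have : (l : G) * ((l : G)⁻¹ * (y0 * z * y0⁻¹) * l) * (l : G)⁻¹ = y0 * z * y0⁻¹ := by group
                rwa [this] at h10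
              exact (e3 _ h9).2 h8
          have hnorm0 : (l : G)⁻¹ * y0 ∈ normalizer (R : Set G) := by
            rw [mem_normalizer_iff]
            intro z
            rw [hconj z]
            have : (l : G)⁻¹ * y0 * z * ((l : G)⁻¹ * y0)⁻¹ = (l : G)⁻¹ * (y0 * z * y0⁻¹) * l := by group
            rw [this]
          -- decompose `l`
          obtain ⟨r, hr, hrl⟩ : ∃ r ∈ R, σ r = σ l := by
            have h8 : σ (l : G) ∈ QM := l.2
            rw [← hRmap] at h8
            exact h8
          set y1 := r * ((l : G)⁻¹ * y0) with hy1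
          have hy1n : y1 ∈ normalizer (R : Set G) := mul_mem (le_normalizer hr) hnorm0
          have hy1σ : σ y1 = y := by
            rw [hy1, map_mul, map_mul, map_inv, hrl, mul_inv_cancel_left, hy0]
          -- the `p`-part
          obtain ⟨a, m, hm, hord⟩ := Nat.exists_eq_pow_mul_and_not_dvd (orderOf_pos y1).ne' p hp.ne_one
          set y2 := y1 ^ m with hy2
          have hy2n : y2 ∈ normalizer (R : Set G) := pow_mem hy1n m
          have hy2p : y2 ^ p ^ a = 1 := by rw [hy2, ← pow_mul, mul_comm, ← hord, pow_orderOf_eq_one]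
          have hy2c : y2 ∈ centralizer (R : Set G) := by
            haveI : ((centralizer (R : Set G)).subgroupOf (normalizer (R : Set G))).Normal := by
              refine ⟨fun c hc g => ?_⟩
              rw [mem_subgroupOf, mem_centralizer_iff] at hc ⊢
              intro z hz
              have h8 : (g : G)⁻¹ * z * g ∈ R := by
                have := (mem_normalizer_iff.1 (inv_mem g.2) z).1 hz
                rwa [inv_inv] at this
              have h9 := hc _ h8
              show z * (g * c * (g : G)⁻¹) = g * c * (g : G)⁻¹ * z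
              calc z * (g * c * (g : G)⁻¹) = g * (((g : G)⁻¹ * z * g) * c) * (g : G)⁻¹ := by group
                _ = g * (c * ((g : G)⁻¹ * z * g)) * (g : G)⁻¹ := by rw [h9]
                _ = _ := by group
            have h8 : (⟨y2, hy2n⟩ : normalizer (R : Set G)) ^ ((centralizer (R : Set G)).subgroupOf (normalizer (R : Set G))).index ∈
                (centralizer (R : Set G)).subgroupOf (normalizer (R : Set G)) := Subgroup.pow_index_mem _ _
            set k := ((centralizer (R : Set G)).subgroupOf (normalizer (R : Set G))).index with hk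
            have h9 : y2 ^ k ∈ centralizer (R : Set G) := h8
            have hcop : Nat.Coprime (p ^ a) k := (Nm.pow hp hpπ a).coprime hh
            have h10 := Nat.gcd_eq_gcd_ab (p ^ a) k
            rw [hcop.gcd_eq_one] at h10
            have h11 : y2 = (y2 ^ k) ^ (Nat.gcdB (p ^ a) k) := by
              have h12 : y2 = (y2 ^ p ^ a) ^ (Nat.gcdA (p ^ a) k) * (y2 ^ k) ^ (Nat.gcdB (p ^ a) k) := by
                rw [← zpow_natCast, ← zpow_natCast y2 k, ← zpow_mul, ← zpow_mul, ← zpow_add, ← h10]
                norm_num
              rw [hy2p, one_zpow, one_mul] at h12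
              exact h12
            rw [h11]
            exact zpow_mem h9 _
          intro z hz
          rw [← hRmap] at hz
          obtain ⟨z0, hz0, rfl⟩ := hz
          have h8 : y ^ m * σ z0 = σ z0 * y ^ m := by
            have h9 := mem_centralizer_iff.1 hy2c z0 hz0
            have h10 := congrArg σ h9
            rw [map_mul, map_mul, hy2, map_pow, hy1σ] at h10
            exact h10.symm
          have hcop : Nat.Coprime m p := ((Nat.Prime.coprime_iff_not_dvd hp).2 hm).symm
          obtain ⟨j, hj⟩ := exists_pow_eq_self_of_coprime (n := m) (x := y) (by rw [hy]; exact hcop)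
          have h9 : Commute (y ^ m) (σ z0) := h8
          have h10 := h9.pow_left j
          rw [hj] at h10
          exact h10.eq
        intro z hz
        rw [mem_subgroupOf, mem_centralizer_singleton_iff]
        have := hgoal z ⟨z, hz, rfl⟩
        first
        | exact this
        | exact this.symm
      rw [subgroupOf_eq_top] at h0
      exact inf_eq_right.2 h0
    have h1 : y ∈ centralizer (M : Set (G ⧸ N)) := by
      rw [mem_centralizer_iff]
      intro k hk
      have h2 : k ∈ centralizer ({y} : Set (G ⧸ N)) := inf_eq_right.1 hcomm hk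
      rw [mem_centralizer_singleton_iff] at h2
      first
      | exact h2
      | exact h2.symm
    have h2 : y ∈ M := hcent h1
    have h3 : orderOf y ∣ Nat.card M := by
      have := orderOf_dvd_natCard (⟨y, h2⟩ : M)
      rwa [← Subgroup.orderOf_coe] at this
    rw [hy] at h3
    exact hM p hp h3 hpπ
  -- conclude
  by_contra hxN
  have h1 : σ x ≠ 1 := fun h => hxN ((QuotientGroup.eq_one_iff _).1 h)
  have h2 : orderOf (σ x) ≠ 1 := fun h => h1 (orderOf_eq_one_iff.1 h)
  obtain ⟨p, hp, hpd⟩ := Nat.exists_prime_and_dvd h2
  have hpπ : p ∈ π := hx p hp (hpd.trans (orderOf_map_dvd σ x))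
  apply hno p hp hpπ ((σ x) ^ (orderOf (σ x) / p))
  rw [orderOf_pow_of_dvd (Nat.div_pos (Nat.le_of_dvd (orderOf_pos _) hpd) hp.pos).ne' (Nat.div_dvd_of_dvd hpd),
    Nat.div_div_self hpd (orderOf_pos _).ne']

theorem of_closed {X : Type u} [Group X] [Finite X] {L : Subgroup X} (h : ∀ x, x ∈ L ↔ Nm π (orderOf x)) :
    L.Normal ∧ Nm π (Nat.card L) ∧ Nm πᶜ L.index := by
  refine ⟨⟨fun n hn g => ?_⟩, ?_, ?_⟩
  · rw [h] at hn ⊢
    have : orderOf (g * n * g⁻¹) = orderOf n := by
      have := orderOf_injective (MulAut.conj g).toMonoidHom (MulAut.conj g).injective n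
      exact this
    rw [this]; exact hn
  · intro q hq hd
    haveI : Fact q.Prime := ⟨hq⟩
    obtain ⟨x, hx⟩ := exists_prime_orderOf_dvd_card' q hd
    have h1 := (h x).1 x.2
    rw [Subgroup.orderOf_coe, hx] at h1
    exact h1 q hq dvd_rfl
  · intro q hq hd hqπ
    haveI : Fact q.Prime := ⟨hq⟩
    obtain ⟨S⟩ : Nonempty (Sylow q X) := inferInstance
    have h1 : (S : Subgroup X) ≤ L := by
      intro s hs
      rw [h]
      obtain ⟨k, hk⟩ := S.2 ⟨s, hs⟩
      have h3 : s ^ q ^ k = 1 := congrArg Subtype.val hk
      exact (Nm.pow hq hqπ k).of_dvd (_root_.orderOf_dvd_of_pow_eq_one h3)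
    exact S.not_dvd_index (hd.trans (Subgroup.index_dvd_of_le h1))

end Cfsg.Agent.H2.PiHom
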