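import Mathlib
import Cfsg.Agent.Lib.PNilp
import Cfsg.Agent.Lib.Subnorm

set_option autoImplicit false

/-! Quick tools. -/

open Subgroup Cfsg.Agent.Lib.Basic Cfsg.Agent.Lib.Cores Cfsg.Agent.Lib.Coprime Cfsg.Agent.Lib.CoprimeB
open scoped Pointwise commutatorElement

namespace Cfsg.Agent.H2.Qk

variable {G : Type*} [Group G]

/-- fixed points of a `p`-group on a `p`-group -/
theorem exists_fixed [Finite G] {p : ℕ} [Fact p.Prime] {Q D : Subgroup G} (hQ : IsPGroup p Q) (hD : IsPGroup p D)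
    (hQD : Q ≤ normalizer (D : Set G)) (hD1 : D ≠ ⊥) : ∃ d ∈ D, d ≠ 1 ∧ ∀ q ∈ Q, q * d * q⁻¹ = d := by
  have hDn : (D.subgroupOf (D ⊔ Q)).Normal := normal_subgroupOf_sup hQD
  have hL : IsPGroup p ↥(D ⊔ Q) := by
    rw [sup_comm]
    exact hQ.to_sup_of_normal_right' hD hQD
  haveI hnil : Group.IsNilpotent ↥(D ⊔ Q) := hL.isNilpotent
  have h1 : D.subgroupOf (D ⊔ Q) ≠ ⊥ := by
    intro h
    rw [subgroupOf_eq_bot] at h
    apply hD1
    exact h.eq_bot_of_le le_sup_left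
  haveI := hDn
  have h2 := Cfsg.Agent.Lib.Nilp.normal_inf_center_ne_bot (D.subgroupOf (D ⊔ Q)) h1
  obtain ⟨⟨x, hx⟩, hx1⟩ := (Subgroup.ne_bot_iff_exists_ne_one (H := D.subgroupOf (D ⊔ Q) ⊓ center ↥(D ⊔ Q))).1 h2
  refine ⟨x, hx.1, ?_, ?_⟩
  · intro h
    apply hx1
    ext
    exact h
  · intro q hq
    have := (mem_center_iff.1 hx.2) ⟨q, (le_sup_right : Q ≤ D ⊔ Q) hq⟩
    have h3 : q * (x : G) = x * q := congrArg Subtype.val this
    rw [h3, mul_inv_cancel_right]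

/-- a `p'`-subgroup is contained in a normal subgroup of `p`-power index -/
theorem le_of_index_pow [Finite G] {p : ℕ} {M U : Subgroup G} [M.Normal] (hU : (Nat.card U).Coprime p)
    (hM : ∃ k, M.index = p ^ k) : U ≤ M := by
  intro x hx
  obtain ⟨k, hk⟩ := hM
  rw [← QuotientGroup.eq_one_iff, ← orderOf_eq_one_iff]
  have h1 : orderOf (x : G ⧸ M) ∣ p ^ k := by
    rw [← hk]
    exact orderOf_dvd_natCard _
  have h2 : orderOf (x : G ⧸ M) ∣ Nat.card U := by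
    have h3 : orderOf (x : G ⧸ M) ∣ orderOf x := orderOf_map_dvd (QuotientGroup.mk' M) x
    have h4 : orderOf (⟨x, hx⟩ : U) ∣ Nat.card U := orderOf_dvd_natCard _
    rw [Subgroup.orderOf_mk] at h4
    exact h3.trans h4
  exact Nat.eq_one_of_dvd_coprimes (hU.pow_right k) h2 h1

end Cfsg.Agent.H2.Qk
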